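import Cfsg.Agent.H11.SimDSpec

/-! S3694 (tower SIM), chapter D, slot MG: conjugation by `g`. -/

set_option autoImplicit false

namespace H68.SimDMG

open Subgroup Cfsg H98 Matrix H0.Sim H11.SimD

variable {n : ℕ} {F : Type} [Field F]

theorem mat_cj (g : GL (Fin n) F) {E : Subgroup (GL (Fin n) F)} {m : Mt n F} (hm : m ∈ mat E) :
    (g : Mt n F) * m * ((g⁻¹ : GL (Fin n) F) : Mt n F) ∈ mat (cj g E) := by
  obtain ⟨e, he, rfl⟩ := hm
  exact ⟨g * e * g⁻¹, mem_cj.2 (by simpa [mul_assoc] using he), by simp⟩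

theorem is_le (g : GL (Fin n) F) (E : Subgroup (GL (Fin n) F)) :
    mg g (IS (mat E)) ≤ IS (mat (cj g E)) := by
  rw [mg, IS, Submodule.map_span, Submodule.span_le]
  rintro _ ⟨_, ⟨m, hm, hn, x, rfl⟩, rfl⟩
  have := mem_IS (mat_cj g hm) (nil_conj g hn) ((g : Mt n F) *ᵥ x)
  rw [conj_sub_one, ← mulVec_mulVec, ← mulVec_mulVec, inv_mulVec] at this
  rw [Matrix.toLin'_apply]
  exact this

theorem ks_le (g : GL (Fin n) F) (E : Subgroup (GL (Fin n) F)) {x : Fin n → F}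
    (hx : x ∈ KS (mat (cj g E))) : ((g⁻¹ : GL (Fin n) F) : Mt n F) *ᵥ x ∈ KS (mat E) := by
  intro m hm hn
  have h1 := hx _ (mat_cj g hm) (nil_conj g hn)
  rw [conj_sub_one, ← mulVec_mulVec, ← mulVec_mulVec] at h1
  have h2 := congrArg (fun v => ((g⁻¹ : GL (Fin n) F) : Mt n F) *ᵥ v) h1
  simpa only [inv_mulVec, mulVec_zero] using h2

theorem inv_back (g : GL (Fin n) F) (E : Subgroup (GL (Fin n) F)) {X : Submodule F (Fin n → F)}
    (h : H11.SimD.Inv (mat (cj g E)) X) : H11.SimD.Inv (mat E) (mg g⁻¹ X) := by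
  intro m hm hn x hx
  rw [mem_mg', inv_inv] at hx ⊢
  have := h _ (mat_cj g hm) (nil_conj g hn) _ hx
  rwa [← mulVec_mulVec, ← mulVec_mulVec, inv_mulVec] at this

theorem mg_mg_inv (g : GL (Fin n) F) (X : Submodule F (Fin n → F)) : mg g (mg g⁻¹ X) = X := by
  rw [mg_mg, mul_inv_cancel, mg_one]

theorem jobD_MG : H11.SimD.JobMG := by
  intro n F _ E g
  refine ⟨le_antisymm ?_ (is_le g E), ?_, fun W₁ W₂ st X hX => ?_⟩
  · have h := mg_mono g (is_le g⁻¹ (cj g E))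
    rwa [mg_mg_inv, cj_inv_cj] at h
  · ext x
    rw [mem_mg']
    refine ⟨ks_le g E, fun hx => ?_⟩
    have h := ks_le g⁻¹ (cj g E) (x := ((g⁻¹ : GL (Fin n) F) : Mt n F) *ᵥ x) (by rwa [cj_inv_cj])
    rwa [inv_inv, mulVec_inv] at h
  · rcases st _ (inv_back g E hX) with h | h
    · left
      have := mg_mono g h
      rwa [mg_mg_inv] at this
    · right
      have := mg_mono g h
      rwa [mg_mg_inv] at this

end H68.SimDMG
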