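/- Covering number of `PSL(n,q)` (row S2483): definitions and the job statements. -/
import Cfsg.Agent.H60.OreKit
import Cfsg.Agent.H56.RegU2

set_option autoImplicit false

namespace H68.CN
open Polynomial Module

universe u

section Defs
variable {K : Type u} [Field K] {V : Type u} [AddCommGroup V] [Module K V]

/-- `b` is conjugate to `a` by an automorphism of determinant one. -/
def SC (a b : End K V) : Prop :=
  ∃ h : V ≃ₗ[K] V, LinearMap.det (h : V →ₗ[K] V) = 1 ∧ ∀ v, h (a v) = b (h v)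

/-- `y` is a product of `k` special conjugates of `x`. -/
def Pw (x : End K V) (k : ℕ) (y : End K V) : Prop :=
  ∃ L : List (End K V), L.length = k ∧ (∀ z ∈ L, SC x z) ∧ L.prod = y

/-- `v` is a cyclic vector of `a`. -/
def Cy (a : End K V) (v : V) : Prop :=
  ∀ W : Submodule K V, v ∈ W → (∀ w ∈ W, a w ∈ W) → W = ⊤

/-- `g` is not a scalar. -/
def NS (g : End K V) : Prop := ∀ c : K, g ≠ c • (1 : End K V)

/-- `c` is invertible and cyclic with the simple eigenvalue `β`; its characteristic polynomial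
is `(X - β) q`. -/
def Nice (c : End K V) (β : K) (q : K[X]) : Prop :=
  q.Monic ∧ q.natDegree + 1 = finrank K V ∧ q.eval β ≠ 0 ∧ q.eval 0 ≠ 0 ∧ β ≠ 0 ∧
    ∃ w, Cy c w ∧ aeval c ((X - C β) * q) w = 0

/-- The line through `e` is a direct summand for `x`, with complement `ker ε`. -/
def SS (x : End K V) (e : V) (ε : Dual K V) (l : K) : Prop :=
  x e = l • e ∧ (∀ v, ε (x v) = l * ε v) ∧ ε e = 1

/-- `V` is the direct sum of the cyclic blocks generated by the `a i`, of type `f i`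
(trivial blocks `f i = 1` are allowed). -/
def Dec {ι : Type} [Fintype ι] (x : End K V) (a : ι → V) (f : ι → K[X]) : Prop :=
  (∀ i, (f i).Monic) ∧ (∀ i, aeval x (f i) (a i) = 0) ∧
    ∑ i, (f i).natDegree = finrank K V ∧
    ∀ W : Submodule K V, (∀ i, a i ∈ W) → (∀ w ∈ W, x w ∈ W) → W = ⊤

/-- The reflection length of a block type. -/
noncomputable def rho {ι : Type} [Fintype ι] (f : ι → K[X]) : ℕ := ∑ i, ((f i).natDegree - 1)

/-- The eigenvalue of a block of size one is a root of every non-trivial block. -/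
def M1 {ι : Type} (f : ι → K[X]) : Prop :=
  ∀ i j (l : K), f i = X - C l → 1 ≤ (f j).natDegree → (f j).eval l = 0

/-- Block `j` can give up one point (parity correction). -/
def FixAt {ι : Type} (f : ι → K[X]) (j : ι) : Prop :=
  3 ≤ (f j).natDegree ∨ ((f j).natDegree = 2 ∧ ∃ γ : K, (f j).eval γ = 0)

/-- Every non-scalar element of determinant one is a product of `dim V` conjugates of `x`. -/
def Nn (x : End K V) : Prop :=
  ∀ g : End K V, LinearMap.det g = 1 → NS g → Pw x (finrank K V) g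

/-- Some scalar is a product of `dim V` conjugates of `x`. -/
def In (x : End K V) : Prop := ∃ z : K, Pw x (finrank K V) (z • (1 : End K V))

/-- The flag spanned by the first `j` vectors of a family. -/
def Fl (m : ℕ → V) (j : ℕ) : Submodule K V := Submodule.span K (m '' Set.Iio j)

/-- `x` lies in the cell of the permutation `α` with respect to the basis `E`. -/
def Cl {n : ℕ} (x : End K V) (α : Equiv.Perm (Fin n)) (E : Basis (Fin n) K V) : Prop :=
  ∀ w : Fin n, x (E w) ∈ Submodule.span K ((fun v => E (α v)) '' Set.Iic w)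

/-- The model of an endomorphism all of whose blocks have type `X² - τ X + d`. -/
def qm (U : Type u) [AddCommGroup U] [Module K U] (τ d : K) : End K (U × U) :=
  ((-d) • LinearMap.snd K U U).prod (LinearMap.fst K U U + τ • LinearMap.snd K U U)

@[simp] theorem qm_apply {U : Type u} [AddCommGroup U] [Module K U] (τ d : K) (p : U × U) :
    qm U τ d p = ((-d) • p.2, p.1 + τ • p.2) := rfl

end Defs

/-- Labelled cycle type: `σ` is a cycle on the points labelled `i`, there are `d i` of them, all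
labelled points lie in `S`, and unlabelled points are fixed. -/
def Lb {Ω ι : Type} (σ : Equiv.Perm Ω) (S : Set Ω) (d : ι → ℕ) (lab : Ω → Option ι) : Prop :=
  (∀ w, lab w = none → σ w = w) ∧ (∀ w, w ∉ S → lab w = none) ∧
    (∀ i, σ.IsCycleOn {w | lab w = some i}) ∧ ∀ i, {w | lab w = some i}.ncard = d i

/-- Full type `d`. -/
def Ty0 {n : ℕ} {ι : Type} (α : Equiv.Perm (Fin n)) (d : ι → ℕ) : Prop :=
  ∃ lab, Lb α Set.univ d lab

/-- Type `d` with cycle `j` shortened by the fixed point `p`, which is well placed. -/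
def Ty1 {n : ℕ} {ι : Type} [DecidableEq ι] (α : Equiv.Perm (Fin n)) (d : ι → ℕ) (j : ι) : Prop :=
  ∃ (lab : Fin n → Option ι) (p r : Fin n), Lb α Set.univ (Function.update d j (d j - 1)) lab ∧
    lab p = none ∧ lab r = some j ∧ r < p ∧ (3 ≤ d j → ∃ t, lab t = some j ∧ p < t)

/-- Edmonds–Kulkarni–Stong: two cycle types with a product that is a full cycle. -/
def JobEKS : Prop :=
  ∀ (Ω ι κ : Type) [Fintype Ω] [Fintype ι] [Fintype κ] (S : Set Ω) (d : ι → ℕ) (e : κ → ℕ) (r : ℕ),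
    ∑ i, d i ≤ S.ncard → ∑ j, e j ≤ S.ncard →
    ∑ i, (d i - 1) + ∑ j, (e j - 1) + 1 = S.ncard + 2 * r →
    ∃ (α β : Equiv.Perm Ω) (la : Ω → Option ι) (lb : Ω → Option κ),
      Lb α S d la ∧ Lb β S e lb ∧ (α * β).IsCycleOn S

def PermSt : Prop :=
  ∀ (n : ℕ) (ι : Type) [Fintype ι] [DecidableEq ι] (d : ι → ℕ) (j : ι),
    ∑ i, d i = n → 2 ≤ d j → 2 ≤ ∑ i, (d i - 1) →
    ∃ L : List (Equiv.Perm (Fin n)),
      L.length * (∑ i, (d i - 1)) + 2 ≤ n + ∑ i, (d i - 1) ∧
      (∀ w : Fin n, w.val + 1 < n → (L.prod w).val = w.val + 1) ∧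
      ∀ α ∈ L, Ty0 α d ∨ Ty1 α d j

def JobPERM : Prop := JobEKS → PermSt

def JobCELL0 : Prop :=
  ∀ (K : Type u) [Field K] (V : Type u) [AddCommGroup V] [Module K V] [FiniteDimensional K V]
    (ι : Type) [Fintype ι] (x : End K V) (a : ι → V) (f : ι → K[X]) (n : ℕ)
    (α : Equiv.Perm (Fin n)), finrank K V = n → Dec x a f → Ty0 α (fun i => (f i).natDegree) →
    ∃ E : Basis (Fin n) K V, Cl x α E

def JobCELL1 : Prop :=
  ∀ (K : Type u) [Field K] (V : Type u) [AddCommGroup V] [Module K V] [FiniteDimensional K V]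
    (ι : Type) [Fintype ι] [DecidableEq ι] (x : End K V) (a : ι → V) (f : ι → K[X]) (n : ℕ)
    (α : Equiv.Perm (Fin n)) (j : ι), finrank K V = n → LinearMap.det x ≠ 0 → Dec x a f →
    FixAt f j → Ty1 α (fun i => (f i).natDegree) j → ∃ E : Basis (Fin n) K V, Cl x α E

def GrowSt : Prop :=
  ∀ (K : Type u) [Field K] (V : Type u) [AddCommGroup V] [Module K V] [FiniteDimensional K V]
    (ι : Type) [Fintype ι] (x : End K V) (a : ι → V) (f : ι → K[X]) (j : ι),
    LinearMap.det x ≠ 0 → Dec x a f → FixAt f j → 2 ≤ rho f →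
    ∃ (k : ℕ) (y : End K V) (v : V), k * rho f + 2 ≤ finrank K V + rho f ∧ Pw x k y ∧ Cy y v

def JobGROW : Prop := PermSt → JobCELL0.{u} → JobCELL1.{u} → GrowSt.{u}

def JobDEC : Prop :=
  ∀ (K : Type u) [Field K] (V : Type u) [AddCommGroup V] [Module K V] [FiniteDimensional K V]
    (x : End K V), ∃ (m : ℕ) (a : Fin m → V) (f : Fin m → K[X]), Dec x a f ∧ M1 f ∧
      ((∃ j, 3 ≤ (f j).natDegree) ∨ ((∀ i, (f i).natDegree ≤ 2) ∧
        ∀ i j, (f i).natDegree = 2 → (f j).natDegree = 2 → f i = f j))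

def JobR1 : Prop :=
  ∀ (K : Type u) [Field K] (V : Type u) [AddCommGroup V] [Module K V] [FiniteDimensional K V]
    (x : End K V) (l : K) (w : V), 4 ≤ Cardinal.mk K → 3 ≤ finrank K V → LinearMap.det x = 1 →
    NS x → (∀ v, x v - l • v ∈ K ∙ w) → Nn x

def JobQM : Prop :=
  ∀ (K : Type u) [Field K] (V : Type u) [AddCommGroup V] [Module K V] [FiniteDimensional K V]
    (ι : Type) [Fintype ι] (x : End K V) (a : ι → V) (f : ι → K[X]) (τ d : K), Dec x a f →
    (∀ i, f i = X ^ 2 - C τ * X + C d ∨ f i = 1) →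
    ∃ m : ℕ, H53.Sim x (qm (Fin m → K) τ d)

def JobQ6 : Prop :=
  ∀ (K : Type u) [Field K] (m : ℕ) (τ d : K), 4 ≤ Cardinal.mk K → d ≠ 0 →
    ∃ y v, Pw (qm (Fin m → K) τ d) 2 y ∧ Cy y v

def JobQ4 : Prop :=
  ∀ (K : Type u) [Field K] (τ d : K), 4 ≤ Cardinal.mk K → d ≠ 0 →
    (∃ y β q, Pw (qm (Fin 2 → K) τ d) 2 y ∧ Nice y β q) ∧
      Pw (qm (Fin 2 → K) τ d) 2 (d • (1 : End K _))

def JobID2 : Prop :=
  ∀ (K : Type u) [Field K] (V : Type u) [AddCommGroup V] [Module K V] [FiniteDimensional K V]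
    (x : End K V) (e : V) (ε : Dual K V) (l μ : K), 4 ≤ Cardinal.mk K → 2 ≤ finrank K V →
    LinearMap.det x ≠ 0 → SS x e ε l → (x - l • 1) * (x - μ • 1) = 0 → In x

def JobID3 : Prop :=
  ∀ (K : Type u) [Field K] (V : Type u) [AddCommGroup V] [Module K V] [FiniteDimensional K V]
    (ι : Type) [Fintype ι] (x : End K V) (a : ι → V) (f : ι → K[X]) (j : ι),
    4 ≤ finrank K V → LinearMap.det x ≠ 0 → Dec x a f → M1 f → (f j).natDegree = 3 →
    (∀ i, i ≠ j → (f i).natDegree ≤ 1) → In x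

def JobCP : Prop :=
  ∀ (K : Type u) [Field K], 4 ≤ Cardinal.mk K → ∀ (d : ℕ), 2 ≤ d →
    ∀ (V : Type u) [AddCommGroup V] [Module K V] [FiniteDimensional K V] (m k : ℕ → V)
    (η : Dual K V), finrank K V = d → Fl (K := K) m d = ⊤ → Fl (K := K) k d = ⊤ →
    m 0 ∉ Fl (K := K) k (d - 1) → η ≠ 0 →
    ∃ D bad : K, D ≠ 0 ∧ ∀ ρ : K, ρ ≠ 0 → ρ ≠ bad → ∃ (b : End K V) (γ : ℕ → K),
      (∀ j, j < d → γ j ≠ 0 ∧ b (m j) - γ j • k j ∈ Fl (K := K) k j) ∧ Cy b (m 0) ∧
      (∃ v, b v = v ∧ η v ≠ 0) ∧ ∏ j ∈ Finset.range d, γ j ^ j = D * ρ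

def T2St : Prop :=
  ∀ (K : Type u) [Field K] (V : Type u) [AddCommGroup V] [Module K V] [FiniteDimensional K V]
    (g c₀ A : End K V) (β : K) (q : K[X]) (v : V), 4 ≤ Cardinal.mk K → 3 ≤ finrank K V →
    LinearMap.det g ≠ 0 → NS g → Nice c₀ β q → Cy A v →
    LinearMap.det A = LinearMap.det c₀ * LinearMap.det g →
    ∃ c a, SC c₀ c ∧ SC A a ∧ a = c * g

def JobT2 : Prop := JobCP.{u} → T2St.{u}

def PtSt : Prop :=
  ∀ (K : Type u) [Field K] (V : Type u) [AddCommGroup V] [Module K V] [FiniteDimensional K V]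
    (x : End K V), 4 ≤ Cardinal.mk K → (finrank K V = 3 ∨ finrank K V = 5) →
    LinearMap.det x = 1 → NS x → In x

def JobPT : Prop := T2St.{u} → PtSt.{u}

def EvSt : Prop :=
  ∀ (K : Type u) [Field K] (V : Type u) [AddCommGroup V] [Module K V] [FiniteDimensional K V]
    (ι : Type) [Fintype ι] (x : End K V) (a : ι → V) (f : ι → K[X]) (i j : ι) (l : K) (k : ℕ),
    4 ≤ Cardinal.mk K → finrank K V = 2 * k → 2 ≤ k → LinearMap.det x ≠ 0 → Dec x a f →
    f i = X - C l → FixAt f j → rho f = 2 → ∃ y β q, Pw x k y ∧ Nice y β q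

def JobEV : Prop := GrowSt.{u} → T2St.{u} → EvSt.{u}

def Upper : Prop :=
  ∀ (K : Type u) [Field K] (V : Type u) [AddCommGroup V] [Module K V] [FiniteDimensional K V]
    (x : End K V), 4 ≤ Cardinal.mk K → 3 ≤ finrank K V → LinearMap.det x = 1 → NS x → Nn x ∧ In x

def JobTR : Prop := Upper.{u} →
  ∀ (F : Type u) [Field F] [Fintype F], 4 ≤ Fintype.card F → ∀ n : ℕ, 3 ≤ n →
    ∀ x : Matrix.ProjectiveSpecialLinearGroup (Fin n) F, x ≠ 1 →
      ∀ g : Matrix.ProjectiveSpecialLinearGroup (Fin n) F,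
        ∃ f : Fin n → Matrix.ProjectiveSpecialLinearGroup (Fin n) F,
          g = (List.ofFn fun i => f i * x * (f i)⁻¹).prod

def JobLOW : Prop :=
  ∀ (F : Type u) [Field F] (n : ℕ), 3 ≤ n →
    ∃ x : Matrix.ProjectiveSpecialLinearGroup (Fin n) F, x ≠ 1 ∧
      ∃ g : Matrix.ProjectiveSpecialLinearGroup (Fin n) F,
        ∀ f : Fin (n - 1) → Matrix.ProjectiveSpecialLinearGroup (Fin n) F,
          g ≠ (List.ofFn fun i => f i * x * (f i)⁻¹).prod

end H68.CN
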