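/- Covering number of `PSL(n,q)` (row S2483): basic lemmas. -/
import Cfsg.Agent.H68.CNSpec

set_option autoImplicit false

namespace H68.CN
open Polynomial Module H53

universe u
variable {K : Type u} [Field K] {V W : Type u} [AddCommGroup V] [Module K V]
  [AddCommGroup W] [Module K W]

theorem SC.refl (a : End K V) : SC a a := ⟨LinearEquiv.refl K V, by simp, fun _ => rfl⟩

theorem det_symm_eq_one {h : V ≃ₗ[K] V} (hd : LinearMap.det (h : V →ₗ[K] V) = 1) :
    LinearMap.det (h.symm : V →ₗ[K] V) = 1 := by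
  have := LinearEquiv.det_symm_mul_det h
  rwa [hd, mul_one] at this

theorem SC.symm {a b : End K V} (h : SC a b) : SC b a := by
  obtain ⟨h, hd, hh⟩ := h
  refine ⟨h.symm, det_symm_eq_one hd, fun v => h.injective ?_⟩
  rw [hh, h.apply_symm_apply, h.apply_symm_apply]

theorem SC.trans {a b c : End K V} (h : SC a b) (h' : SC b c) : SC a c := by
  obtain ⟨h, hd, hh⟩ := h
  obtain ⟨h', hd', hh'⟩ := h'
  refine ⟨h.trans h', ?_, fun v => by simp [hh, hh']⟩
  rw [LinearEquiv.coe_trans, LinearMap.det_comp, hd, hd', mul_one]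

theorem SC.sim {a b : End K V} (h : SC a b) : Sim a b := by
  obtain ⟨h, -, hh⟩ := h
  exact ⟨h, hh⟩

theorem SC.det_eq {a b : End K V} (h : SC a b) : LinearMap.det a = LinearMap.det b :=
  h.sim.det_eq

theorem SC.smul {a b : End K V} (h : SC a b) (c : K) : SC (c • a) (c • b) := by
  obtain ⟨h, hd, hh⟩ := h
  exact ⟨h, hd, fun v => by simp [hh]⟩

/-- Conjugation by a pair of mutually inverse endomorphisms of determinant one. -/
theorem sc_conj [FiniteDimensional K V] (a : End K V) {h h' : End K V} (hh : h' * h = 1)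
    (hd : LinearMap.det h = 1) : SC a (h * a * h') := by
  have hh' : h * h' = 1 := mul_eq_one_comm.1 hh
  refine ⟨LinearEquiv.ofLinearMap h h' hh' hh, hd, fun v => ?_⟩
  have : h' (h v) = v := by rw [← End.mul_apply, hh]; rfl
  simp [this]

/-- Conjugation by a pair of mutually inverse endomorphisms. -/
theorem sim_conj [FiniteDimensional K V] (a : End K V) {h h' : End K V} (hh : h' * h = 1) :
    Sim a (h * a * h') := by
  have hh' : h * h' = 1 := mul_eq_one_comm.1 hh
  refine ⟨LinearEquiv.ofLinearMap h h' hh' hh, fun v => ?_⟩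
  have : h' (h v) = v := by rw [← End.mul_apply, hh]; rfl
  simp [this]

theorem exists_inv [FiniteDimensional K V] {a : End K V} (h : LinearMap.det a ≠ 0) :
    ∃ a' : End K V, a' * a = 1 ∧ a * a' = 1 := by
  obtain ⟨u, rfl⟩ := (LinearMap.isUnit_iff_isUnit_det a).2 (isUnit_iff_ne_zero.2 h)
  exact ⟨↑u⁻¹, by simp, by simp⟩

theorem det_inv_mul {a a' : End K V} (h : a' * a = 1) :
    LinearMap.det a' * LinearMap.det a = 1 := by
  rw [← map_mul, h, map_one]

/-- Inverses of special conjugates are special conjugates. -/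
theorem SC.inv {a b a' b' : End K V} (h : SC a b) (ha : a * a' = 1) (hb : b' * b = 1) :
    SC a' b' := by
  obtain ⟨h, hd, hh⟩ := h
  refine ⟨h, hd, fun v => ?_⟩
  have h1 : a (a' v) = v := by rw [← End.mul_apply, ha]; rfl
  have h2 : ∀ w, b' (b w) = w := fun w => by rw [← End.mul_apply, hb]; rfl
  rw [← h2 (h (a' v)), ← hh, h1]

theorem Pw.zero (x : End K V) : Pw x 0 1 := ⟨[], rfl, by simp, rfl⟩

theorem Pw.one {x y : End K V} (h : SC x y) : Pw x 1 y := ⟨[y], rfl, by simpa using h, by simp⟩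

theorem Pw.mul {x y z : End K V} {k l : ℕ} (h : Pw x k y) (h' : Pw x l z) :
    Pw x (k + l) (y * z) := by
  obtain ⟨L, rfl, hL, rfl⟩ := h
  obtain ⟨L', rfl, hL', rfl⟩ := h'
  refine ⟨L ++ L', by simp, fun w hw => ?_, by simp⟩
  rcases List.mem_append.1 hw with hw | hw
  exacts [hL w hw, hL' w hw]

theorem Pw.succ {x y z : End K V} {k : ℕ} (h : Pw x k y) (h' : SC x z) :
    Pw x (k + 1) (y * z) := h.mul (Pw.one h')

/-- Induction principle for `Pw`. -/
theorem Pw.ind {x : End K V} {P : ℕ → End K V → Prop} (h0 : P 0 1)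
    (hs : ∀ k z y, SC x z → Pw x k y → P k y → P (k + 1) (z * y)) {k : ℕ} {y : End K V}
    (h : Pw x k y) : P k y := by
  obtain ⟨L, rfl, hL, rfl⟩ := h
  induction L with
  | nil => exact h0
  | cons z L ih =>
    have hL' : ∀ w ∈ L, SC x w := fun w hw => hL w (List.mem_cons_of_mem _ hw)
    rw [List.length_cons, List.prod_cons]
    exact hs _ _ _ (hL z List.mem_cons_self) ⟨L, rfl, hL', rfl⟩ (ih hL')

theorem Pw.cons {x y z : End K V} {k : ℕ} (h' : SC x z) (h : Pw x k y) :
    Pw x (k + 1) (z * y) := by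
  rw [add_comm]; exact (Pw.one h').mul h

theorem Pw.det {x y : End K V} {k : ℕ} (h : Pw x k y) :
    LinearMap.det y = LinearMap.det x ^ k := by
  refine h.ind (P := fun k y => LinearMap.det y = LinearMap.det x ^ k) (by simp) ?_
  intro k z y hz _ ih
  rw [map_mul, ih, ← hz.det_eq, pow_succ']

theorem Pw.of_sc {x x' y : End K V} {k : ℕ} (hx : SC x x') (h : Pw x' k y) : Pw x k y := by
  obtain ⟨L, hl, hL, rfl⟩ := h
  exact ⟨L, hl, fun z hz => hx.trans (hL z hz), rfl⟩

theorem Pw.smul {x y : End K V} {k : ℕ} (h : Pw x k y) (c : K) : Pw (c • x) k (c ^ k • y) := by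
  refine h.ind (P := fun k y => Pw (c • x) k (c ^ k • y)) (by simpa using Pw.zero _) ?_
  intro k z y hz _ ih
  have := ih.cons (hz.smul c)
  rwa [smul_mul_smul_comm, ← pow_succ'] at this

theorem SC.map (e : V ≃ₗ[K] W) {a b : End K V} (h : SC a b) : SC (e.conj a) (e.conj b) := by
  obtain ⟨h, hd, hh⟩ := h
  refine ⟨(e.symm.trans h).trans e, ?_, fun v => by simp [LinearEquiv.conj_apply, hh]⟩
  rw [← hd, ← LinearMap.det_conj (h : V →ₗ[K] V) e]
  rfl

theorem Pw.map (e : V ≃ₗ[K] W) {x y : End K V} {k : ℕ} (h : Pw x k y) :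
    Pw (e.conj x) k (e.conj y) := by
  refine h.ind (P := fun k y => Pw (e.conj x) k (e.conj y)) ?_ ?_
  · have : e.conj (1 : End K V) = 1 := by ext v; simp [LinearEquiv.conj_apply]
    rw [this]; exact Pw.zero _
  · intro k z y hz _ ih
    have : e.conj (z * y) = e.conj z * e.conj y := by ext v; simp [LinearEquiv.conj_apply]
    rw [this]; exact ih.cons (hz.map e)

theorem conj_eq_of {e : V ≃ₗ[K] W} {a : End K V} {b : End K W} (h : ∀ v, e (a v) = b (e v)) :
    e.conj a = b := by
  ext w; simp [LinearEquiv.conj_apply, h]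

theorem sim_conj_equiv (e : V ≃ₗ[K] W) (a : End K V) : Sim a (e.conj a) :=
  ⟨e, fun v => by simp [LinearEquiv.conj_apply]⟩

theorem Pw.conj {x y y' : End K V} {k : ℕ} (h : Pw x k y) (hy : SC y y') : Pw x k y' := by
  obtain ⟨e, hd, he⟩ := hy
  have h1 := h.map e
  rw [conj_eq_of he] at h1
  exact h1.of_sc ⟨e, hd, fun v => by simp [LinearEquiv.conj_apply]⟩

/-- Transport of `Pw` along a similarity. -/
theorem Pw.sim {x : End K V} {x' y' : End K W} {k : ℕ} (hx : Sim x x') (h : Pw x' k y') :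
    ∃ y, Pw x k y ∧ Sim y' y := by
  obtain ⟨e, he⟩ := hx.symm
  have h1 := h.map e
  rw [conj_eq_of he] at h1
  exact ⟨_, h1, sim_conj_equiv e y'⟩

theorem Pw.sim_smul {x : End K V} {x' : End K W} {k : ℕ} {z : K} (hx : Sim x x')
    (h : Pw x' k (z • 1)) : Pw x k (z • 1) := by
  obtain ⟨y, hy, hs⟩ := h.sim hx
  rwa [(hs.eq_smul_one_iff z).1 rfl] at hy

theorem Pw.prodMap [FiniteDimensional K V] [FiniteDimensional K W] {x y : End K V} {k : ℕ}
    (h : Pw x k y) (l : K) :
    Pw (x.prodMap (l • (1 : End K W))) k (y.prodMap (l ^ k • (1 : End K W))) := by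
  refine h.ind (P := fun k y => Pw (x.prodMap (l • (1 : End K W))) k
    (y.prodMap (l ^ k • (1 : End K W)))) ?_ ?_
  · rw [pow_zero, one_smul, LinearMap.prodMap_one]; exact Pw.zero _
  · intro k z y hz _ ih
    have h1 : SC (x.prodMap (l • (1 : End K W))) (z.prodMap (l • (1 : End K W))) := by
      obtain ⟨h, hd, hh⟩ := hz
      refine ⟨h.prodCongr (LinearEquiv.refl K W), ?_, fun v => by simp [hh]⟩
      rw [LinearEquiv.coe_prodCongr, LinearMap.det_prodMap, hd]; simp
    have := ih.cons h1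
    rwa [LinearMap.prodMap_mul, smul_mul_smul_comm, mul_one, ← pow_succ'] at this

theorem aeval_mem {a : End K V} {U : Submodule K V} (hU : ∀ w ∈ U, a w ∈ U) (P : K[X]) {v : V}
    (hv : v ∈ U) : aeval a P v ∈ U := by
  induction P using Polynomial.induction_on generalizing v with
  | C c => simpa using U.smul_mem c hv
  | add p q hp hq => rw [map_add]; exact U.add_mem (hp hv) (hq hv)
  | monomial n c ih =>
    rw [pow_succ, ← mul_assoc, map_mul, aeval_X]; exact ih (hU v hv)

theorem pow_mem {a : End K V} {U : Submodule K V} (hU : ∀ w ∈ U, a w ∈ U) (n : ℕ) {v : V}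
    (hv : v ∈ U) : (a ^ n) v ∈ U := by
  simpa using aeval_mem hU (X ^ n) hv

/-- An invariant subspace of an invertible endomorphism is invariant under the inverse. -/
theorem mem_of_apply_mem [FiniteDimensional K V] {a : End K V} (ha : LinearMap.det a ≠ 0)
    {U : Submodule K V} (hU : ∀ w ∈ U, a w ∈ U) {v : V} (hv : a v ∈ U) : v ∈ U := by
  obtain ⟨a', h1, -⟩ := exists_inv ha
  have hi : Function.Injective a := fun p q h => by
    have := congrArg a' h
    rwa [← End.mul_apply, ← End.mul_apply, h1] at this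
  have hi' : Function.Injective (a.restrict hU) := fun p q h =>
    Subtype.ext (hi (congrArg Subtype.val h))
  obtain ⟨w, hw⟩ := (LinearMap.injective_iff_surjective.1 hi') ⟨a v, hv⟩
  have : (w : V) = v := hi (congrArg Subtype.val hw)
  exact this ▸ w.2

theorem Cy.exists_aeval {a : End K V} {v : V} (h : Cy a v) (w : V) : ∃ P : K[X], aeval a P v = w := by
  let ev : K[X] →ₗ[K] V := (LinearMap.applyₗ v).comp (aeval a).toLinearMap
  have : LinearMap.range ev = ⊤ := by
    refine h _ ⟨1, by simp [ev]⟩ ?_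
    rintro _ ⟨P, rfl⟩
    exact ⟨X * P, by simp [ev]⟩
  exact LinearMap.range_eq_top.1 this w

theorem cy_of_aeval {a : End K V} {v : V} (h : ∀ w, ∃ P : K[X], aeval a P v = w) : Cy a v := by
  intro U hv hU
  refine eq_top_iff.2 fun w _ => ?_
  obtain ⟨P, rfl⟩ := h w
  exact aeval_mem hU P hv

theorem Cy.aeval_eq_zero {a : End K V} {v : V} (h : Cy a v) {P : K[X]} (hP : aeval a P v = 0) :
    aeval a P = 0 := by
  ext w
  obtain ⟨Q, rfl⟩ := h.exists_aeval w
  rw [← End.mul_apply, ← map_mul, mul_comm, map_mul, End.mul_apply, hP]; simp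

theorem Cy.map {a : End K V} {b : End K W} {v : V} (h : Cy a v) (e : V →ₗ[K] W)
    (hs : Function.Surjective e) (he : ∀ v, e (a v) = b (e v)) : Cy b (e v) := by
  intro U hv hU
  have := h (U.comap e) hv fun w hw => by
    rw [Submodule.mem_comap, he]; exact hU _ hw
  refine eq_top_iff.2 fun w _ => ?_
  obtain ⟨w, rfl⟩ := hs w
  exact (this ▸ Submodule.mem_top : w ∈ U.comap e)

theorem Cy.sim {a : End K V} {b : End K W} {v : V} (h : Cy a v) (hs : Sim a b) : ∃ w, Cy b w := by
  obtain ⟨e, he⟩ := hs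
  exact ⟨_, h.map (e : V →ₗ[K] W) e.surjective he⟩

theorem Cy.inv [FiniteDimensional K V] {a a' : End K V} {v : V} (h : Cy a v) (ha : a' * a = 1) :
    Cy a' v := by
  intro U hv hU
  refine h U hv fun w hw => ?_
  have hd : LinearMap.det a' ≠ 0 := left_ne_zero_of_mul_eq_one (det_inv_mul ha)
  refine mem_of_apply_mem hd hU ?_
  rwa [← End.mul_apply, ha]

theorem Cy.smul {a : End K V} {v : V} (h : Cy a v) {c : K} (hc : c ≠ 0) : Cy (c • a) v :=
  fun U hv hU => h U hv fun w hw => (U.smul_mem_iff hc).1 (hU w hw)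

theorem Nice.sim {c : End K V} {c' : End K W} {β : K} {q : K[X]} (h : Nice c β q) (hs : Sim c c') :
    Nice c' β q := by
  obtain ⟨h1, h2, h3, h4, h5, w, hw, h6⟩ := h
  refine ⟨h1, hs.finrank_eq ▸ h2, h3, h4, h5, ?_⟩
  obtain ⟨e, he⟩ := hs
  refine ⟨e w, hw.map (e : V →ₗ[K] W) e.surjective he, ?_⟩
  have := intertwine_aeval (e : V →ₗ[K] W) he ((X - C β) * q) w
  rw [h6, map_zero] at this
  exact this.symm

theorem NS.sim {x : End K V} {x' : End K W} (h : NS x) (hs : Sim x x') : NS x' :=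
  fun c hc => h c ((hs.eq_smul_one_iff c).2 hc)

/-- A simple summand makes every conjugate a special conjugate. -/
theorem SS.sc [FiniteDimensional K V] {x x' : End K V} {e : V} {ε : Dual K V} {l : K}
    (h : SS x e ε l) (hs : Sim x x') : SC x x' := by
  obtain ⟨h1, h2, h3⟩ := h
  obtain ⟨g, hg⟩ := hs
  have hd : LinearMap.det (g : V →ₗ[K] V) ≠ 0 := (LinearEquiv.isUnit_det' g).ne_zero
  set t := (LinearMap.det (g : V →ₗ[K] V))⁻¹ - 1 with ht
  have hT : LinearMap.det (LinearMap.transvection ε (t • e)) = (LinearMap.det (g : V →ₗ[K] V))⁻¹ := by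
    rw [LinearMap.transvection.det, map_smul, h3, ht]; simp
  have hT0 : IsUnit (LinearMap.det (LinearMap.transvection ε (t • e))) := by
    rw [hT]; exact isUnit_iff_ne_zero.2 (inv_ne_zero hd)
  refine ⟨(LinearMap.equivOfIsUnitDet hT0).trans g, ?_, fun v => ?_⟩
  · rw [LinearEquiv.coe_trans, LinearMap.det_comp, LinearMap.coe_equivOfIsUnitDet, hT,
      mul_inv_cancel₀ hd]
  · have e1 : ∀ w, LinearMap.equivOfIsUnitDet hT0 w = w + ε w • t • e := fun w => by
      rw [LinearMap.equivOfIsUnitDet_apply, LinearMap.transvection.apply]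
    rw [LinearEquiv.trans_apply, LinearEquiv.trans_apply, ← hg, e1, e1, h2, map_add x, map_smul x,
      map_smul x, h1]
    congr 2
    module

/-- `(c x)^k` is a product of `k` conjugates of `x` times `c^k`. -/
theorem pw_pow {x c c' : End K V} (hc : c' * c = 1)
    (h : ∀ i : ℕ, SC x (c ^ i * x * c' ^ i)) (k : ℕ) : Pw x k ((c * x) ^ k * c' ^ k) := by
  have hi : ∀ i : ℕ, c' ^ i * c ^ i = 1 := fun i => by
    induction i with
    | zero => simp
    | succ i ih => rw [pow_succ, pow_succ', mul_assoc, ← mul_assoc c', hc, one_mul, ih]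
  induction k with
  | zero => simpa using Pw.zero x
  | succ k ih =>
    have := ih.succ (h (k + 1))
    have e : (c * x) ^ k * c' ^ k * (c ^ (k + 1) * x * c' ^ (k + 1)) =
        (c * x) ^ (k + 1) * c' ^ (k + 1) := by
      rw [pow_succ c k, pow_succ (c * x) k]
      calc _ = (c * x) ^ k * (c' ^ k * c ^ k) * (c * x) * c' ^ (k + 1) := by
            simp only [mul_assoc]
        _ = _ := by rw [hi, mul_one]
    rwa [e] at this

/-- The power trick: `(c x)^n` and `c^n` scalar give a scalar product of `n` conjugates. -/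
theorem in_of_pow [FiniteDimensional K V] {x c : End K V} {z z' : K}
    (hc : LinearMap.det c ≠ 0) (h : LinearMap.det c = 1 ∨ ∀ x', Sim x x' → SC x x')
    (h1 : (c * x) ^ finrank K V = z • 1) (h2 : c ^ finrank K V = z' • 1) : In x := by
  obtain ⟨c', hc1, hc2⟩ := exists_inv hc
  have hi : ∀ i : ℕ, c' ^ i * c ^ i = 1 := fun i => by
    induction i with
    | zero => simp
    | succ i ih => rw [pow_succ, pow_succ', mul_assoc, ← mul_assoc c', hc1, one_mul, ih]
  have key := pw_pow (x := x) hc1 (fun i => by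
    rcases h with h | h
    · exact sc_conj x (hi i) (by rw [map_pow, h, one_pow])
    · exact h _ (sim_conj x (hi i))) (finrank K V)
  have h3 := hi (finrank K V)
  rw [h2, mul_smul_comm, mul_one] at h3
  by_cases hz : z' = 0
  · refine ⟨0, ?_⟩
    rw [hz, zero_smul] at h3
    have : Subsingleton (End K V) := subsingleton_of_zero_eq_one h3
    exact Subsingleton.elim ((c * x) ^ finrank K V * c' ^ finrank K V) ((0 : K) • 1) ▸ key
  · refine ⟨z * z'⁻¹, ?_⟩
    have h4 : c' ^ finrank K V = z'⁻¹ • 1 := by rw [← h3, smul_smul, inv_mul_cancel₀ hz, one_smul]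
    rwa [h1, h4, smul_mul_smul_comm, mul_one] at key

theorem In.smul {x : End K V} (h : In x) (c : K) : In (c • x) := by
  obtain ⟨z, hz⟩ := h
  exact ⟨_, by simpa [smul_smul] using hz.smul c⟩

theorem exists_ne3 (h4 : 4 ≤ Cardinal.mk K) (a b c : K) : ∃ t : K, t ≠ a ∧ t ≠ b ∧ t ≠ c := by
  classical
  have : Cardinal.mk ({a, b, c} : Finset K) < Cardinal.mk K := by
    refine lt_of_lt_of_le ?_ h4
    rw [Cardinal.mk_coe_finset]
    exact_mod_cast Nat.lt_succ_of_le Finset.card_le_three
  obtain ⟨t, ht⟩ : ∃ t, t ∉ ({a, b, c} : Finset K) := by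
    by_contra hh
    push Not at hh
    exact this.not_ge (Cardinal.mk_le_of_surjective
      (f := fun t : ({a, b, c} : Finset K) => (t : K)) fun t => ⟨⟨t, hh t⟩, rfl⟩)
  exact ⟨t, by simpa using ht⟩

end H68.CN
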