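/- Covering number of `PSL(n,q)` (row S2483): blocks, cyclic models, flags. -/
import Cfsg.Agent.H68.CNKit

set_option autoImplicit false

namespace H68.CN
open Polynomial Module H53 H60.Ore

universe u
variable {K : Type u} [Field K] {V W : Type u} [AddCommGroup V] [Module K V]
  [AddCommGroup W] [Module K W]

/-- The span of `v, x v, …, x^(d-1) v`. -/
def blk (x : End K V) (v : V) (d : ℕ) : Submodule K V :=
  Submodule.span K (Set.range fun s : Fin d => (x ^ (s : ℕ)) v)

theorem pow_mem_blk (x : End K V) (v : V) {d s : ℕ} (h : s < d) : (x ^ s) v ∈ blk x v d :=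
  Submodule.subset_span ⟨⟨s, h⟩, rfl⟩

theorem aeval_mem_blk_of_lt (x : End K V) (v : V) {d : ℕ} {P : K[X]} (h : P.degree < d) :
    aeval x P v ∈ blk x v d := by
  by_cases h0 : P = 0
  · simp [h0]
  have h1 : P.natDegree < d := (natDegree_lt_iff_degree_lt h0).2 h
  rw [aeval_eq_sum_range' h1, LinearMap.sum_apply]
  exact Submodule.sum_mem _ fun s hs => by
    rw [LinearMap.smul_apply]
    exact Submodule.smul_mem _ _ (pow_mem_blk x v (Finset.mem_range.1 hs))

theorem aeval_mem_blk {x : End K V} {v : V} {f : K[X]} (hm : f.Monic) (hf : aeval x f v = 0)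
    (P : K[X]) : aeval x P v ∈ blk x v f.natDegree := by
  have : aeval x P v = aeval x (P %ₘ f) v := by
    conv_lhs => rw [← modByMonic_add_div P f, mul_comm]
    simp [hf]
  rw [this]
  refine aeval_mem_blk_of_lt x v ?_
  rw [← degree_eq_natDegree hm.ne_zero]
  exact degree_modByMonic_lt P hm

theorem mem_blk {x : End K V} {v : V} {f : K[X]} (hm : f.Monic) (hf : aeval x f v = 0) :
    v ∈ blk x v f.natDegree := by
  simpa using aeval_mem_blk hm hf 1

theorem blk_inv {x : End K V} {v : V} {f : K[X]} (hm : f.Monic) (hf : aeval x f v = 0) :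
    ∀ w ∈ blk x v f.natDegree, x w ∈ blk x v f.natDegree := by
  intro w hw
  refine Submodule.span_induction (p := fun w _ => x w ∈ blk x v f.natDegree) ?_ (by simp)
    (fun p q _ _ hp hq => by rw [map_add]; exact Submodule.add_mem _ hp hq)
    (fun c p _ hp => by rw [map_smul]; exact Submodule.smul_mem _ c hp) hw
  rintro _ ⟨s, rfl⟩
  have := aeval_mem_blk hm hf (X * X ^ (s : ℕ))
  rwa [map_mul, map_pow, aeval_X] at this

theorem finrank_blk_le (x : End K V) (v : V) (d : ℕ) : finrank K (blk x v d) ≤ d := by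
  have := finrank_range_le_card (R := K) fun s : Fin d => (x ^ (s : ℕ)) v
  rwa [Fintype.card_fin] at this

theorem span_inv {x : End K V} {s : Set V} (h : ∀ w ∈ s, x w ∈ Submodule.span K s) :
    ∀ w ∈ Submodule.span K s, x w ∈ Submodule.span K s := fun w hw =>
  (Submodule.span_le.2 h : Submodule.span K s ≤ (Submodule.span K s).comap x) hw

section Dec
variable {ι : Type} [Fintype ι] {x : End K V} {a : ι → V} {f : ι → K[X]}

theorem Dec.span (h : Dec x a f) :
    Submodule.span K (Set.range fun p : Σ i, Fin (f i).natDegree => (x ^ (p.2 : ℕ)) (a p.1)) = ⊤ := by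
  have hle : ∀ i, blk x (a i) (f i).natDegree ≤ Submodule.span K
      (Set.range fun p : Σ i, Fin (f i).natDegree => (x ^ (p.2 : ℕ)) (a p.1)) := fun i =>
    Submodule.span_mono (by rintro _ ⟨s, rfl⟩; exact ⟨⟨i, s⟩, rfl⟩)
  refine h.2.2.2 _ (fun i => hle i (mem_blk (h.1 i) (h.2.1 i))) (span_inv ?_)
  rintro _ ⟨⟨i, s⟩, rfl⟩
  exact hle i (blk_inv (h.1 i) (h.2.1 i) _ (pow_mem_blk x _ s.2))

theorem Dec.basis (h : Dec x a f) : ∃ b : Basis (Σ i, Fin (f i).natDegree) K V,
    ∀ p, b p = (x ^ (p.2 : ℕ)) (a p.1) :=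
  ⟨basisOfTopLeSpanOfCardEqFinrank _ h.span.ge (by simpa using h.2.2.1), fun p => by simp⟩

theorem Dec.eq_zero (h : Dec x a f) {i : ι} (hi : (f i).natDegree = 0) : a i = 0 := by
  have := h.2.1 i
  rwa [(h.1 i).natDegree_eq_zero.1 hi, map_one] at this

theorem Dec.ss (h : Dec x a f) {i : ι} {l : K} (hi : f i = X - C l) :
    ∃ ε : Dual K V, SS x (a i) ε l ∧ ∀ j, j ≠ i → ε (a j) = 0 := by
  classical
  obtain ⟨b, hb⟩ := h.basis
  have hd : (f i).natDegree = 1 := by rw [hi, natDegree_X_sub_C]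
  let p₀ : Σ i, Fin (f i).natDegree := ⟨i, ⟨0, by omega⟩⟩
  have h0 : b p₀ = a i := by simp [hb, p₀]
  have hx : x (a i) = l • a i := by
    have := h.2.1 i
    rw [hi] at this
    simpa [sub_eq_zero] using this
  have hk : ∀ j, j ≠ i → blk x (a j) (f j).natDegree ≤ LinearMap.ker (b.coord p₀) := by
    intro j hj
    refine Submodule.span_le.2 ?_
    rintro _ ⟨s, rfl⟩
    have : (⟨j, s⟩ : Σ i, Fin (f i).natDegree) ≠ p₀ := fun e => hj (congrArg Sigma.fst e)
    have e := hb ⟨j, s⟩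
    simp only at e
    simp [← e, this]
  have h1 : b.coord p₀ (a i) = 1 := by simp [← h0]
  refine ⟨b.coord p₀, ⟨hx, fun v => ?_, h1⟩, fun j hj => hk j hj (mem_blk (h.1 j) (h.2.1 j))⟩
  have : (b.coord p₀).comp x = l • b.coord p₀ := by
    refine b.ext fun ⟨j, s⟩ => ?_
    by_cases hj : j = i
    · subst hj
      have hs : (s : ℕ) = 0 := by omega
      simp only [hb, hs, pow_zero, End.one_apply, LinearMap.comp_apply, hx, map_smul,
        LinearMap.smul_apply]
    · have e1 := hk j hj (pow_mem_blk x _ s.2)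
      have e2 := hk j hj (blk_inv (h.1 j) (h.2.1 j) _ (pow_mem_blk x _ s.2))
      rw [LinearMap.mem_ker] at e1 e2
      simp only [hb, LinearMap.comp_apply, LinearMap.smul_apply, e1, e2, smul_zero]
  exact LinearMap.congr_fun this v

theorem Dec.ns (h : Dec x a f) {j : ι} (hj : 2 ≤ (f j).natDegree) : NS x := by
  classical
  obtain ⟨b, hb⟩ := h.basis
  intro c hc
  have e0 := hb ⟨j, ⟨0, by omega⟩⟩
  have e1 := hb ⟨j, ⟨1, by omega⟩⟩
  simp only [pow_zero, pow_one, End.one_apply] at e0 e1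
  rw [← e0, hc] at e1
  have := congrArg (b.coord ⟨j, ⟨1, by omega⟩⟩) e1
  simp at this

end Dec

section Cyc
set_option linter.unusedSectionVars false
variable [FiniteDimensional K V]

theorem Cy.sim_cyc {a : End K V} {v : V} (h : Cy a v) {p : K[X]} (hm : p.Monic)
    (hd : p.natDegree = finrank K V) (hp : aeval a p v = 0) : Sim a (cyc p) :=
  sim_cyc_of_vec h.exists_aeval hm.ne_zero hp hd

theorem sim_of_cy [FiniteDimensional K W] {a : End K V} {b : End K W} {v : V} {w : W} (h : Cy a v)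
    (h' : Cy b w) {p : K[X]} (hm : p.Monic) (hd : p.natDegree = finrank K V)
    (hd' : p.natDegree = finrank K W) (hp : aeval a p v = 0) (hp' : aeval b p w = 0) : Sim a b :=
  (h.sim_cyc hm hd hp).trans (h'.sim_cyc hm hd' hp').symm

theorem charpoly_of_cy {a : End K V} {v : V} (h : Cy a v) {p : K[X]} (hm : p.Monic)
    (hd : p.natDegree = finrank K V) (hp : aeval a p v = 0) : a.charpoly = p := by
  have := finite_adjoinRoot hm.ne_zero
  rw [(h.sim_cyc hm hd hp).charpoly_eq, charpoly_cyc hm]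

theorem det_of_cy {a : End K V} {v : V} (h : Cy a v) {p : K[X]} (hm : p.Monic)
    (hd : p.natDegree = finrank K V) (hp : aeval a p v = 0) : LinearMap.det a = dt p := by
  rw [det_eq_dt, charpoly_of_cy h hm hd hp]

theorem exists_model {p : K[X]} (hm : p.Monic) (hd : p.natDegree = finrank K V) :
    ∃ (c : End K V) (v : V), Cy c v ∧ aeval c p v = 0 := by
  have := finite_adjoinRoot hm.ne_zero
  let e : AdjoinRoot p ≃ₗ[K] V :=
    LinearEquiv.ofFinrankEq _ _ (by rw [finrank_adjoinRoot hm.ne_zero, hd])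
  have he : ∀ v, e (cyc p v) = e.conj (cyc p) (e v) := fun v => by simp [LinearEquiv.conj_apply]
  have hc : Cy (cyc p) 1 := cy_of_aeval fun w => by
    obtain ⟨Q, rfl⟩ := AdjoinRoot.mk_surjective w
    exact ⟨Q, by rw [aeval_cyc_apply, mul_one]⟩
  refine ⟨e.conj (cyc p), e 1, hc.map (e : _ →ₗ[K] V) e.surjective he, ?_⟩
  have := intertwine_aeval (e : AdjoinRoot p →ₗ[K] V) he p 1
  rw [aeval_cyc_apply, AdjoinRoot.mk_self, zero_mul, map_zero] at this
  exact this.symm

theorem Cy.aeval_ne_zero {a : End K V} {v : V} (h : Cy a v) {q : K[X]} (hm : q.Monic)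
    (hd : q.natDegree < finrank K V) : aeval a q v ≠ 0 := by
  intro hq
  have h1 := h _ (mem_blk hm hq) (blk_inv hm hq)
  have h2 := finrank_blk_le a v q.natDegree
  rw [h1, finrank_top] at h2
  omega

theorem Nice.cy {c : End K V} {β : K} {q : K[X]} (h : Nice c β q) : ∃ w, Cy c w := by
  obtain ⟨-, -, -, -, -, w, hw, -⟩ := h
  exact ⟨w, hw⟩

theorem Nice.monic {c : End K V} {β : K} {q : K[X]} (h : Nice c β q) : ((X - C β) * q).Monic :=
  (monic_X_sub_C β).mul h.1

theorem Nice.natDegree {c : End K V} {β : K} {q : K[X]} (h : Nice c β q) :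
    ((X - C β) * q).natDegree = finrank K V := by
  rw [(monic_X_sub_C β).natDegree_mul h.1, natDegree_X_sub_C, add_comm, h.2.1]

theorem Nice.det {c : End K V} {β : K} {q : K[X]} (h : Nice c β q) :
    LinearMap.det c = β * dt q := by
  obtain ⟨w, hw, h6⟩ := h.2.2.2.2.2
  rw [det_of_cy hw h.monic h.natDegree h6, dt_mul (monic_X_sub_C β) h.1, dt_lin]

theorem dt_ne_zero {q : K[X]} (h : q.eval 0 ≠ 0) : dt q ≠ 0 := by
  rw [dt, coeff_zero_eq_eval_zero]
  exact mul_ne_zero (pow_ne_zero _ (neg_ne_zero.2 one_ne_zero)) h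

theorem Nice.det_ne_zero {c : End K V} {β : K} {q : K[X]} (h : Nice c β q) :
    LinearMap.det c ≠ 0 := by
  rw [h.det]; exact mul_ne_zero h.2.2.2.2.1 (dt_ne_zero h.2.2.2.1)

theorem aeval_eigen {c : End K V} {e : V} {β : K} (h : c e = β • e) (P : K[X]) :
    aeval c P e = P.eval β • e := by
  induction P using Polynomial.induction_on' with
  | add p q hp hq => simp [hp, hq, add_smul]
  | monomial n a =>
    have : ∀ n : ℕ, (c ^ n) e = β ^ n • e := fun n => by
      induction n with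
      | zero => simp
      | succ n ih => rw [pow_succ, End.mul_apply, h, map_smul, ih, smul_smul, pow_succ']
    simp [aeval_monomial, this, smul_smul, mul_comm]

theorem Nice.ss {c : End K V} {β : K} {q : K[X]} (h : Nice c β q) : ∃ e ε, SS c e ε β := by
  obtain ⟨h1, h2, h3, -, -, w, hw, h6⟩ := h
  have h0 := hw.aeval_eq_zero h6
  have he : c (aeval c q w) = β • aeval c q w := by
    simpa [sub_eq_zero] using h6
  have hne := hw.aeval_ne_zero h1 (by omega)
  have hn : aeval c q w ∉ LinearMap.range (c - β • 1) := by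
    rintro ⟨v, hv⟩
    have h7 : aeval c q ((c - β • 1) v) = 0 := by
      have := LinearMap.congr_fun h0 v
      rw [mul_comm, map_mul] at this
      simpa [Algebra.algebraMap_eq_smul_one] using this
    rw [hv, aeval_eigen he] at h7
    exact hne ((smul_eq_zero.1 h7).resolve_left h3)
  obtain ⟨ε, hε, hε1⟩ := Submodule.exists_dual_map_eq_bot_of_notMem hn inferInstance
  refine ⟨aeval c q w, (ε (aeval c q w))⁻¹ • ε, he, fun v => ?_, by simp [hε]⟩
  have : ε ((c - β • 1) v) = 0 := by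
    rw [← Submodule.mem_bot K, ← hε1]; exact ⟨_, ⟨v, rfl⟩, rfl⟩
  simp only [LinearMap.sub_apply, LinearMap.smul_apply, End.one_apply, map_sub, map_smul,
    smul_eq_mul, sub_eq_zero] at this
  simp only [LinearMap.smul_apply, this, smul_eq_mul]; ring

theorem Nice.sc {c c' : End K V} {β : K} {q : K[X]} (h : Nice c β q) (h' : Nice c' β q) :
    SC c c' := by
  obtain ⟨e, ε, hs⟩ := h.ss
  obtain ⟨w, hw, h6⟩ := h.2.2.2.2.2
  obtain ⟨w', hw', h6'⟩ := h'.2.2.2.2.2
  exact hs.sc (sim_of_cy hw hw' h.monic h.natDegree h.natDegree h6 h6')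

theorem exists_nice (h4 : 4 ≤ Cardinal.mk K) (h3 : 3 ≤ finrank K V) {δ β t : K} (hδ : δ ≠ 0)
    (hβ : β ≠ 0) (ht : t ≠ 0) :
    ∃ (B : End K V) (q : K[X]), Nice B β q ∧ LinearMap.det B = δ ∧ q.eval t ≠ 0 := by
  obtain ⟨m, hm⟩ : ∃ m, finrank K V = m + 3 := ⟨finrank K V - 3, by omega⟩
  set c₀ : K := (-1) ^ (m + 2) * δ / β with hc₀
  obtain ⟨s, -, hs1, hs2⟩ := exists_ne3 h4 0 (-(β ^ (m + 2) + c₀) / β) (-(t ^ (m + 2) + c₀) / t)
  let q : K[X] := X ^ (m + 2) + (C s * X + C c₀)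
  have hlt : (C s * X + C c₀).degree < ((m + 2 : ℕ) : WithBot ℕ) :=
    lt_of_le_of_lt degree_linear_le (by exact_mod_cast (by omega : 1 < m + 2))
  have hq : q.Monic := monic_X_pow_add hlt
  have hqd : q.natDegree = m + 2 := by
    refine natDegree_eq_of_degree_eq_some ?_
    rw [degree_add_eq_left_of_degree_lt (by rwa [degree_X_pow]), degree_X_pow]
  have hev : ∀ r : K, r ≠ 0 → s ≠ -(r ^ (m + 2) + c₀) / r → q.eval r ≠ 0 := fun r hr hs e => by
    apply hs
    simp only [q, eval_add, eval_pow, eval_X, eval_mul, eval_C] at e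
    field_simp
    linear_combination e
  have h0 : q.eval 0 = c₀ := by simp [q]
  have hc0 : c₀ ≠ 0 := div_ne_zero (mul_ne_zero (pow_ne_zero _ (neg_ne_zero.2 one_ne_zero)) hδ) hβ
  obtain ⟨B, w, hw, hB⟩ := exists_model (V := V) ((monic_X_sub_C β).mul hq)
    (by rw [(monic_X_sub_C β).natDegree_mul hq, natDegree_X_sub_C, hqd, hm]; omega)
  have hN : Nice B β q := ⟨hq, by omega, hev β hβ hs1, h0 ▸ hc0, hβ, w, hw, hB⟩
  refine ⟨B, q, hN, ?_, hev t ht hs2⟩
  rw [hN.det, dt, hqd, coeff_zero_eq_eval_zero, h0, hc₀]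
  have : ((-1 : K) ^ (m + 2)) * (-1) ^ (m + 2) = 1 := by rw [← mul_pow]; simp
  field_simp
  linear_combination this

theorem NS.inv {g g' : End K V} (h : NS g) (hg : g' * g = 1) : NS g' := by
  intro c hc
  rw [hc, smul_mul_assoc, one_mul] at hg
  by_cases h0 : c = 0
  · rw [h0, zero_smul] at hg
    have : Subsingleton (End K V) := subsingleton_of_zero_eq_one hg
    exact h 0 (Subsingleton.elim _ _)
  · exact h c⁻¹ (by rw [← hg, smul_smul, inv_mul_cancel₀ h0, one_smul])

/-- A cyclic product of `k` conjugates gives every nice element with `k + 1` conjugates. -/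
theorem nic_of_cyc (hT : T2St.{u}) (h4 : 4 ≤ Cardinal.mk K) (h3 : 3 ≤ finrank K V)
    {x A B : End K V} {k : ℕ} {v : V} {β : K} {q : K[X]} (hx : LinearMap.det x ≠ 0) (hn : NS x)
    (hA : Pw x k A) (hv : Cy A v) (hB : Nice B β q)
    (hd : LinearMap.det B = LinearMap.det x ^ (k + 1)) : Pw x (k + 1) B := by
  obtain ⟨x', h1, h2⟩ := exists_inv hx
  have hd' := det_inv_mul h1
  obtain ⟨c, a, hc, ha, e⟩ := hT K V x' B A β q v h4 h3 (left_ne_zero_of_mul_eq_one hd')
    (hn.inv h1) hB hv (by rw [hA.det, hd, pow_succ, mul_assoc, mul_comm _ (LinearMap.det x'), hd', mul_one])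
  have : c = a * x := by rw [e, mul_assoc, h1, mul_one]
  exact ((hA.conj ha).succ (SC.refl x)).conj (this ▸ hc.symm)

theorem nice_succ (hT : T2St.{u}) (h4 : 4 ≤ Cardinal.mk K) (h3 : 3 ≤ finrank K V)
    {x A : End K V} {k : ℕ} {v : V} (hx : LinearMap.det x ≠ 0) (hn : NS x)
    (hA : Pw x k A) (hv : Cy A v) : ∃ B β q, Pw x (k + 1) B ∧ Nice B β q := by
  obtain ⟨B, q, hB, hd, -⟩ := exists_nice h4 h3 (pow_ne_zero (k + 1) hx) one_ne_zero one_ne_zero
  exact ⟨B, 1, q, nic_of_cyc hT h4 h3 hx hn hA hv hB hd, hB⟩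

theorem cyc_mono (hT : T2St.{u}) (h4 : 4 ≤ Cardinal.mk K) (h3 : 3 ≤ finrank K V)
    {x A : End K V} {k l : ℕ} {v : V} (hx : LinearMap.det x ≠ 0) (hn : NS x)
    (hA : Pw x k A) (hv : Cy A v) (hl : k ≤ l) : ∃ B w, Pw x l B ∧ Cy B w := by
  induction l, hl using Nat.le_induction with
  | base => exact ⟨A, v, hA, hv⟩
  | succ l _ ih =>
    obtain ⟨B, w, hB, hw⟩ := ih
    obtain ⟨B', β, q, h1, h2⟩ := nice_succ hT h4 h3 hx hn hB hw
    obtain ⟨w', hw'⟩ := h2.cy
    exact ⟨B', w', h1, hw'⟩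

/-- A cyclic and a nice product give every non-scalar element of the right determinant. -/
theorem all_of_cyc_nice (hT : T2St.{u}) (h4 : 4 ≤ Cardinal.mk K) (h3 : 3 ≤ finrank K V)
    {x A B g : End K V} {k l : ℕ} {v : V} {β : K} {q : K[X]} (hx : LinearMap.det x ≠ 0)
    (hA : Pw x k A) (hv : Cy A v) (hB : Pw x l B) (hN : Nice B β q) (hg : NS g)
    (hd : LinearMap.det g = LinearMap.det x ^ (k + l)) : Pw x (k + l) g := by
  obtain ⟨g', g1, g2⟩ := exists_inv (a := g) (hd ▸ pow_ne_zero _ hx)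
  obtain ⟨A', A1, A2⟩ := exists_inv (a := A) (hA.det ▸ pow_ne_zero _ hx)
  have d1 := det_inv_mul g1
  have d2 := det_inv_mul A1
  obtain ⟨c, a, hc, ha, e⟩ := hT K V g' B A' β q v h4 h3 (left_ne_zero_of_mul_eq_one d1)
    (hg.inv g1) hN (hv.inv A1) (by
      rw [hd, pow_add] at d1
      rw [hA.det] at d2
      rw [hB.det]
      linear_combination (LinearMap.det x ^ l * LinearMap.det g') * d2 - LinearMap.det A' * d1)
  have hda : LinearMap.det a ≠ 0 := ha.det_eq ▸ left_ne_zero_of_mul_eq_one d2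
  obtain ⟨a', a1, a2⟩ := exists_inv hda
  have : g = a' * c := by
    calc g = a' * a * g := by rw [a1, one_mul]
      _ = a' * c := by rw [e, mul_assoc, mul_assoc, g1, mul_one]
  rw [this]
  exact (hA.conj (ha.inv A1 a1)).mul (hB.conj hc)

end Cyc

section Flags

theorem mem_Fl (m : ℕ → V) {i j : ℕ} (h : i < j) : m i ∈ Fl (K := K) m j :=
  Submodule.subset_span ⟨i, h, rfl⟩

theorem Fl_mono (m : ℕ → V) {i j : ℕ} (h : i ≤ j) : Fl (K := K) m i ≤ Fl m j :=
  Submodule.span_mono (Set.image_mono (Set.Iio_subset_Iio h))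

theorem Fl_le {m : ℕ → V} {j : ℕ} {U : Submodule K V} (h : ∀ i, i < j → m i ∈ U) :
    Fl m j ≤ U := Submodule.span_le.2 (by rintro _ ⟨i, hi, rfl⟩; exact h i hi)

@[simp] theorem Fl_zero (m : ℕ → V) : Fl (K := K) m 0 = ⊥ := by simp [Fl]

theorem Fl_succ (m : ℕ → V) (j : ℕ) : Fl (K := K) m (j + 1) = Fl m j ⊔ K ∙ m j := by
  refine le_antisymm (Fl_le fun i hi => ?_) (sup_le (Fl_mono m j.le_succ) ?_)
  · rcases (Nat.lt_succ_iff.1 hi).lt_or_eq with h | rfl
    · exact Submodule.mem_sup_left (mem_Fl m h)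
    · exact Submodule.mem_sup_right (Submodule.mem_span_singleton_self _)
  · exact (Submodule.span_singleton_le_iff_mem _ _).2 (mem_Fl m j.lt_succ_self)

theorem Fl_eq_range (m : ℕ → V) (j : ℕ) :
    Fl (K := K) m j = Submodule.span K (Set.range fun i : Fin j => m i) := by
  rw [Fl]; congr 1; ext v; constructor
  · rintro ⟨i, hi, rfl⟩; exact ⟨⟨i, hi⟩, rfl⟩
  · rintro ⟨i, rfl⟩; exact ⟨i, i.2, rfl⟩

theorem finrank_Fl_le (m : ℕ → V) (j : ℕ) : finrank K (Fl (K := K) m j) ≤ j := by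
  rw [Fl_eq_range]
  have := finrank_range_le_card (R := K) fun i : Fin j => m i
  rwa [Fintype.card_fin] at this

theorem Fl_ne_top {m : ℕ → V} {j : ℕ} (h : j < finrank K V) : Fl (K := K) m j ≠ ⊤ := fun e => by
  have := finrank_Fl_le (K := K) m j
  rw [e, finrank_top] at this
  omega

theorem map_Fl (e : V →ₗ[K] W) (m : ℕ → V) (j : ℕ) :
    (Fl m j).map e = Fl (fun i => e (m i)) j := by
  rw [Fl, Fl, Submodule.map_span, Set.image_image]

theorem Fl_congr {m m' : ℕ → V} {j : ℕ} (h : ∀ i, i < j → m i = m' i) :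
    Fl (K := K) m j = Fl m' j := by
  rw [Fl, Fl, Set.image_congr (s := Set.Iio j) h]

theorem fl_basis {m : ℕ → V} {d : ℕ} (hd : finrank K V = d) (h : Fl (K := K) m d = ⊤) :
    ∃ b : Basis (Fin d) K V, ∀ i, b i = m i :=
  ⟨basisOfTopLeSpanOfCardEqFinrank _ (by rw [← Fl_eq_range, h]) (by simp [hd]), fun i => by simp⟩

/-- Two spanning families of length `dim` differ by an isomorphism. -/
theorem exists_equiv_of_fl {m : ℕ → V} {k : ℕ → W} {d : ℕ} (hd : finrank K V = d)
    (hd' : finrank K W = d) (h : Fl (K := K) m d = ⊤) (h' : Fl (K := K) k d = ⊤) :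
    ∃ e : V ≃ₗ[K] W, ∀ i, i < d → e (m i) = k i := by
  obtain ⟨b, hb⟩ := fl_basis hd h
  obtain ⟨b', hb'⟩ := fl_basis hd' h'
  exact ⟨b.equiv b' (Equiv.refl _), fun i hi => by
    have := b.equiv_apply ⟨i, hi⟩ b' (Equiv.refl _)
    rwa [hb, Equiv.refl_apply, hb'] at this⟩

theorem ext_of_fl {m : ℕ → V} {d : ℕ} (h : Fl (K := K) m d = ⊤) {U : Submodule K W}
    {T : V →ₗ[K] W} (hT : ∀ i, i < d → T (m i) ∈ U) (v : V) : T v ∈ U :=
  (Fl_le (U := U.comap T) hT) (h ▸ Submodule.mem_top)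

/-- Determinant of a triangular map. -/
theorem det_tri {m : ℕ → V} {d : ℕ} (hd : finrank K V = d) (h : Fl (K := K) m d = ⊤)
    {T : End K V} {γ : ℕ → K} (hT : ∀ j, j < d → T (m j) - γ j • m j ∈ Fl (K := K) m j) :
    LinearMap.det T = ∏ j ∈ Finset.range d, γ j := by
  classical
  obtain ⟨b, hb⟩ := fl_basis hd h
  have key : ∀ i j : Fin d, j ≤ i → b.repr (T (b j)) i = if j = i then γ j else 0 := by
    intro i j hji
    have h1 : Fl m j ≤ LinearMap.ker (b.coord i) := Fl_le fun s hs => by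
      have e := hb ⟨s, hs.trans j.2⟩
      have hne : (⟨s, hs.trans j.2⟩ : Fin d) ≠ i := fun e => by
        have := congrArg Fin.val e
        have := Fin.le_def.1 hji
        simp only at *; omega
      simp only at e
      simp [← e, hne]
    have h2 := h1 (hT j j.2)
    rw [LinearMap.mem_ker, ← hb, map_sub, map_smul, sub_eq_zero] at h2
    simpa [Finsupp.single_apply] using h2
  rw [← LinearMap.det_toMatrix b, Matrix.det_of_isUpperTriangular, Finset.prod_range]
  · exact Finset.prod_congr rfl fun j _ => by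
      rw [LinearMap.toMatrix_apply, key j j le_rfl, if_pos rfl]
  · intro i j hij
    rw [LinearMap.toMatrix_apply, key i j (le_of_lt hij), if_neg (ne_of_lt (show j < i from hij))]

end Flags

end H68.CN
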