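/- Commutators in special unitary groups (row S2446): interface (blueprint `blueprints/ORE4.md`). -/
import Cfsg.Agent.H60.OreKit
import Cfsg.Agent.H53.GUClass
import Cfsg.Agent.H59.Witt

set_option autoImplicit false
set_option linter.unusedSectionVars false

namespace H68.Ou

open Polynomial Module H53 H60.Ore
open H59 (perp mem_perp form_smul_left form_smul_right)

universe u

section defs
variable {F : Type u} [Field F] (σ : F →+* F)

/-- `σ` is an involution -/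
structure Cj : Prop where
  ne : σ ≠ RingHom.id F
  inv : ∀ a, σ (σ a) = a

/-- norm one -/
def Mu (a : F) : Prop := a * σ a = 1

/-- total degree -/
def dg (s : Multiset F[X]) : ℕ := (s.map natDegree).sum

/-- monic, self-dual, constant term non-zero -/
structure SD (f : F[X]) : Prop where
  mon : f.Monic
  c0 : f.coeff 0 ≠ 0
  sd : pstar σ f = f

/-- irreducible of degree `m`, not self-dual; `χ χ*` has constant term `D` -/
structure ND (χ : F[X]) (m : ℕ) (D : F) : Prop where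
  mon : χ.Monic
  irr : Irreducible χ
  deg : χ.natDegree = m
  c0 : χ.coeff 0 ≠ 0
  ne : pstar σ χ ≠ χ
  det : χ.coeff 0 = D * σ (χ.coeff 0)

/-- such a polynomial exists -/
def Av (m : ℕ) (D : F) : Prop := ∃ χ, ND σ χ m D

/-- a polynomial and its dual -/
noncomputable def pr (χ : F[X]) : Multiset F[X] := {χ, pstar σ χ}

/-- unitary `g`, `g y`, `y` with these elementary divisors -/
def Tri (s t t' : Multiset F[X]) : Prop :=
  ∃ (V : Type u) (_ : AddCommGroup V) (_ : Module F V) (_ : FiniteDimensional F V)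
    (B : V →ₛₗ[σ] V →ₗ[F] F) (g y : End F V),
    IsSF 1 B ∧ Inv B g ∧ Inv B y ∧ ed g = s ∧ ed (g * y) = t ∧ ed y = t'

/-- all determinants occur in the centraliser -/
def CS (t : Multiset F[X]) : Prop :=
  ∃ (φ : F[X]) (k : ℕ), φ.Monic ∧ Irreducible φ ∧ φ ^ k ∈ t ∧ ∀ c, Mu σ c → ∃ c', Mu σ c' ∧ c' ^ k = c

/-- what makes a commutator -/
def Good (s : Multiset F[X]) : Prop :=
  ∃ t, Tri σ s t t ∧ CS σ t ∧ ∃ c, Mu σ c ∧ c ^ dg s * dm t = 1

variable {σ} {V : Type u} [AddCommGroup V] [Module F V]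

/-- `L` is a maximal isotropic subspace, and `g` induces `κ` on the anisotropic line (if any) -/
structure Fr (B : V →ₛₗ[σ] V →ₗ[F] F) (g : End F V) (L : Submodule F V) (κ : F) : Prop where
  iso : ∀ u ∈ L, ∀ w ∈ L, B u w = 0
  mid : ∃ ν, perp B L = L ⊔ Submodule.span F {ν} ∧ g ν - κ • ν ∈ L

/-- `L` is invariant -/
def Ex0 (g : End F V) (L : Submodule F V) : Prop := ∀ u ∈ L, g u ∈ L

/-- `L ∩ g⁻¹ L` is a hyperplane of `L` -/
def Ex1 (g : End F V) (L : Submodule F V) : Prop :=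
  ∃ e ∈ L, g e ∉ L ∧ ∀ u ∈ L, ∃ t : F, g (u - t • e) ∈ L

/-- the span of `v, x v, ..., x ^ (m - 1) v` -/
def ch (x : End F V) (v : V) (m : ℕ) : Submodule F V :=
  Submodule.span F (Set.range fun i : Fin m => (x ^ (i : ℕ)) v)

variable (σ)

/-- a model with an invariant maximal isotropic subspace -/
def M0 (s : Multiset F[X]) (κ : F) : Prop :=
  ∃ (V : Type u) (_ : AddCommGroup V) (_ : Module F V) (_ : FiniteDimensional F V)
    (B : V →ₛₗ[σ] V →ₗ[F] F) (g : End F V) (L : Submodule F V),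
    IsSF 1 B ∧ Inv B g ∧ ed g = s ∧ Fr B g L κ ∧ Ex0 g L

/-- a model with an almost invariant maximal isotropic subspace -/
def M1 (s : Multiset F[X]) (κ : F) : Prop :=
  ∃ (V : Type u) (_ : AddCommGroup V) (_ : Module F V) (_ : FiniteDimensional F V)
    (B : V →ₛₗ[σ] V →ₗ[F] F) (g : End F V) (L : Submodule F V),
    IsSF 1 B ∧ Inv B g ∧ ed g = s ∧ Fr B g L κ ∧ Ex1 g L

end defs

/-- determinant of an element of the parabolic subgroup -/
def JobPL : Prop := ∀ (F V : Type u) [Field F] [AddCommGroup V] [Module F V] [FiniteDimensional F V]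
  (σ : F →+* F) (B : V →ₛₗ[σ] V →ₗ[F] F) (y : End F V) (L : Submodule F V) (κ : F), Cj σ →
  IsSF 1 B → Inv B y → Fr B y L κ → ∀ hL : Ex0 y L,
  LinearMap.det y * σ (LinearMap.det (y.restrict hL)) =
    κ ^ (finrank F V - 2 * finrank F L) * LinearMap.det (y.restrict hL)

/-- determinant of an element in normal form -/
def JobK : Prop := ∀ (F V : Type u) [Field F] [AddCommGroup V] [Module F V] [FiniteDimensional F V]
  (σ : F →+* F) (B : V →ₛₗ[σ] V →ₗ[F] F) (x : End F V) (v : V) (m : ℕ) (κ : F), Cj σ →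
  IsSF 1 B → Inv B x → 1 ≤ m → Fr B x (ch x v m) κ → finrank F (ch x v m) = m →
  (x ^ m) v ∉ ch x v m →
  B v ((x ^ m) v) ≠ 0 ∧
    LinearMap.det x * σ (B v ((x ^ m) v)) = -(κ ^ (finrank F V - 2 * m)) * B v ((x ^ m) v)

/-- elementary divisors of an element of the parabolic subgroup -/
def JobED : Prop := ∀ (F V : Type u) [Field F] [AddCommGroup V] [Module F V] [FiniteDimensional F V]
  (σ : F →+* F) (B : V →ₛₗ[σ] V →ₗ[F] F) (y : End F V) (χ : F[X]) (m : ℕ) (D : F) (w : V),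
  IsSF 1 B → Inv B y → ND σ χ m D → w ≠ 0 → aeval y χ w = 0 →
  (finrank F V = 2 * m → ed y = pr σ χ) ∧
    (finrank F V = 2 * m + 1 → ∃ a : F, ed y = {X - C a} + pr σ χ)

/-- the cyclic model in normal form -/
def JobM : Prop := ∀ (F : Type u) [Field F] (σ : F →+* F) (f : F[X]) (m : ℕ) (c : F), Cj σ →
  SD σ f → 1 ≤ m → c ≠ 0 →
  (f.natDegree = 2 * m ∧ f.coeff 0 * σ c = -c ∨
    f.natDegree = 2 * m + 1 ∧ ∀ κ, κ * c = f.coeff 0 * σ c → f.eval κ ≠ 0) →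
  ∃ B : AdjoinRoot f →ₛₗ[σ] AdjoinRoot f →ₗ[F] F, IsSF 1 B ∧ Inv B (cyc f) ∧
    (∀ j < m, B 1 (AdjoinRoot.root f ^ j) = 0) ∧ B 1 (AdjoinRoot.root f ^ m) = c

/-- linear algebra: a cyclic `z` on `L` such that `g z` runs through `L` -/
def JobG : Prop := ∀ (F V : Type u) [Field F] [AddCommGroup V] [Module F V] [FiniteDimensional F V]
  (g : End F V) (L : Submodule F V) (χ : F[X]), Function.Injective g → Ex1 g L → χ.Monic →
  χ.natDegree = finrank F L → χ.coeff 0 ≠ 0 →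
  ∃ z : End F V, Ex0 z L ∧ (∀ u ∈ L, aeval z χ u = 0) ∧ ∃ v, L = ch (g * z) v (finrank F L)

/-- pole placement -/
def JobPP : Prop := ∀ (F : Type u) [Field F] [Finite F] (σ : F →+* F) (s : Multiset F[X]) (κ : F)
  (χ : F[X]) (m : ℕ) (D : F), Cj σ → M1 σ s κ → ND σ χ m D →
  (dg s = 2 * m → dm s = 1 → Tri σ s (pr σ χ) (pr σ χ)) ∧
  (dg s = 2 * m + 1 → Mu σ κ → κ ≠ dm s → ∀ a, Mu σ a →
    Tri σ s ({X - C a} + pr σ χ) ({X - C (a / dm s)} + pr σ χ))

/-- cyclic elements -/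
def JobC : Prop := ∀ (F : Type u) [Field F] (σ : F →+* F) (f : F[X]) (κ : F), Cj σ →
  SD σ f → 2 ≤ f.natDegree → Mu σ κ → (Odd f.natDegree → f.eval κ ≠ 0) → M1 σ (edc f) κ

/-- sums and hyperbolic doubles -/
def JobS : Prop := ∀ (F : Type u) [Field F] (σ : F →+* F) (s t : Multiset F[X]) (κ κ' : F), Cj σ →
  (M0 σ s κ → M0 σ t κ' → Even (dg s) → M0 σ (s + t) κ') ∧
  (M0 σ s κ → M1 σ t κ' → Even (dg s) → M1 σ (s + t) κ') ∧
  (M0 σ s κ → M1 σ t κ' → Even (dg t) → M1 σ (s + t) κ) ∧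
  ((∀ P ∈ s, IsPP P) → (∀ P ∈ s, P.coeff 0 ≠ 0) → M0 σ (s + s.map (pstar σ)) κ)

/-- primary blocks -/
def JobH : Prop := ∀ (F : Type u) [Field F] [Finite F] (σ : F →+* F) (i j : ℕ) (κ : F), Cj σ →
  (∀ φ, SD σ φ → Irreducible φ →
    M0 σ {φ ^ (2 * j + 2)} κ ∧ M0 σ {φ ^ (2 * i + 1), φ ^ (2 * j + 1)} κ) ∧
  (Mu σ κ → M0 σ {(X - C κ) ^ (2 * j + 1)} κ)

/-- polynomials -/
def JobN : Prop := ∀ (F : Type u) [Field F] [Finite F] (σ : F →+* F), Cj σ →
  (∀ m D, 2 ≤ m → Mu σ D → Av σ m D) ∧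
  (∀ D, Mu σ D → 16 ≤ Nat.card F ∨ Nat.card F = 9 ∧ D * D = -1 → Av σ 1 D) ∧
  (∀ φ, SD σ φ → Irreducible φ → Odd φ.natDegree) ∧
  (∀ a b, ∃ κ, Mu σ κ ∧ κ ≠ a ∧ κ ≠ b) ∧
  (Nat.card F = 4 ∨ Nat.card F = 9 ∨ 16 ≤ Nat.card F) ∧
  (Nat.card F = 4 → ∀ a, Mu σ a ↔ a ^ 3 = 1) ∧
  (Nat.card F = 9 → (∀ a, Mu σ a ↔ a ^ 4 = 1) ∧ ∃ i : F, i * i = -1)

/-- weighted cycles -/
def JobD : Prop := ∀ (F : Type u) [Field F] [Finite F] (σ : F →+* F), Cj σ →
  (∀ (l : Multiset F) (d : F), l ≠ 0 → (∀ a ∈ l, Mu σ a) → Mu σ d →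
    Tri σ (l.map fun a => X - C a) (edc (X ^ Multiset.card l - C (d * l.prod)))
      (edc (X ^ Multiset.card l - C d))) ∧
  ∀ k, 1 ≤ k → CS σ (edc (X ^ k - C ((-1) ^ (k + 1)) : F[X]))

/-- the fields with four and nine elements -/
def JobW : Prop := ∀ (F : Type u) [Field F] [Finite F] (σ : F →+* F), Cj σ →
  (Nat.card F = 4 →
    (∀ l D : F, l ^ 3 = 1 → D ^ 3 = 1 → D ≠ 1 → Irreducible (X ^ 3 - C D) ∧
      Tri σ {(X - C l) ^ 3} {X ^ 3 - C D} {X ^ 3 - C D}) ∧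
    (∀ φ, SD σ φ → Irreducible φ → φ.natDegree = 3 → ∃ D : F, D ^ 3 = 1 ∧ D ≠ 1 ∧ φ = X ^ 3 - C D) ∧
    ∀ a : F, a ^ 3 = 1 → ∃ b c : F, b ^ 3 = 1 ∧ c ^ 3 = 1 ∧ a * b * c = 1 ∧
      edc (X ^ 3 - C 1) = {X - C a, X - C b, X - C c}) ∧
  (Nat.card F = 9 → Good σ {(X - C (-1)) ^ 3, X - C (-1)})

/-- back to the matrix group -/
def JobF : Prop := ∀ (F : Type u) [Field F] [Fintype F] (n q : ℕ) (hF : Fintype.card F = q ^ 2)
  (g : Cfsg.SU n F q),
  Good (H59.frob hF) (med ((g : Matrix.SpecialLinearGroup (Fin n) F) : Matrix (Fin n) (Fin n) F)) →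
  ∃ a b : Cfsg.SU n F q, g = a * b * a⁻¹ * b⁻¹

section kit
variable {F : Type u} [Field F] {σ : F →+* F} {s s' t t' r r' : Multiset F[X]} {a b : F}

@[simp] theorem dg_zero : dg (0 : Multiset F[X]) = 0 := rfl
@[simp] theorem dg_add (s t : Multiset F[X]) : dg (s + t) = dg s + dg t := by simp [dg]
@[simp] theorem dg_cons (P : F[X]) (t : Multiset F[X]) : dg (P ::ₘ t) = P.natDegree + dg t := by simp [dg]
@[simp] theorem dg_singleton (P : F[X]) : dg {P} = P.natDegree := by simp [dg]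

theorem dg_ed {V : Type*} [AddCommGroup V] [Module F V] [FiniteDimensional F V] (g : End F V) :
    dg (ed g) = finrank F V := sum_natDegree_ed g

theorem Mu.ne (h : Mu σ a) : a ≠ 0 := left_ne_zero_of_mul_eq_one h
theorem Mu.map (h : Mu σ a) : σ a = a⁻¹ := eq_inv_of_mul_eq_one_right h
theorem mu_one : Mu σ 1 := by simp [Mu]
theorem mu_neg_one : Mu σ (-1) := by simp [Mu]
theorem Mu.mul (h : Mu σ a) (h' : Mu σ b) : Mu σ (a * b) := by
  rw [Mu, map_mul, mul_mul_mul_comm, h, h', one_mul]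
theorem Mu.inv (h : Mu σ a) : Mu σ a⁻¹ := by rw [Mu, map_inv₀, ← mul_inv, h, inv_one]
theorem Mu.div (h : Mu σ a) (h' : Mu σ b) : Mu σ (a / b) := div_eq_mul_inv a b ▸ h.mul h'.inv
theorem Mu.neg (h : Mu σ a) : Mu σ (-a) := by simpa using mu_neg_one.mul h
theorem Mu.pow (h : Mu σ a) (k : ℕ) : Mu σ (a ^ k) := by rw [Mu, map_pow, ← mul_pow, h, one_pow]

theorem SD.mu {f : F[X]} (h : SD σ f) : Mu σ (f.coeff 0) := by
  have := coeff_zero_pstar (σ := σ) h.mon h.c0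
  rw [h.sd] at this
  exact (congrArg (· * σ (f.coeff 0)) this).trans (inv_mul_cancel₀ ((map_ne_zero σ).2 h.c0))

theorem SD.mul {f g : F[X]} (h : SD σ f) (h' : SD σ g) : SD σ (f * g) :=
  ⟨h.mon.mul h'.mon, by rw [mul_coeff_zero]; exact mul_ne_zero h.c0 h'.c0,
    by rw [pstar_mul, h.sd, h'.sd]⟩

theorem SD.pow {f : F[X]} (h : SD σ f) (k : ℕ) : SD σ (f ^ k) := by
  induction k with
  | zero => exact ⟨by simp, by simp, by simp⟩
  | succ k ih => rw [pow_succ]; exact ih.mul h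

theorem sd_lin (h : Mu σ a) : SD σ (X - C a) :=
  ⟨monic_X_sub_C a, by simpa using h.ne, by rw [pstar_X_sub_C h.ne, h.map, inv_inv]⟩

theorem ND.dm {χ : F[X]} {m : ℕ} {D : F} (h : ND σ χ m D) : dm (pr σ χ) = D := by
  have h1 := (map_ne_zero σ).2 h.c0
  rw [pr, Multiset.insert_eq_cons, dm_cons, dm_singleton, dt, dt, natDegree_pstar,
    coeff_zero_pstar h.mon h.c0, mul_mul_mul_comm, ← mul_pow, neg_mul_neg, one_mul, one_pow, one_mul,
    mul_inv_eq_iff_eq_mul₀ h1]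
  exact h.det

theorem ND.dg {χ : F[X]} {m : ℕ} {D : F} (h : ND σ χ m D) : dg (pr σ χ) = 2 * m := by
  rw [pr, Multiset.insert_eq_cons, dg_cons, dg_singleton, natDegree_pstar, h.deg, two_mul]

theorem Tri.add (h : Tri σ s t r) (h' : Tri σ s' t' r') : Tri σ (s + s') (t + t') (r + r') := by
  obtain ⟨V, _, _, _, B, g, y, h1, h2, h3, rfl, rfl, rfl⟩ := h
  obtain ⟨V', _, _, _, B', g', y', h1', h2', h3', rfl, rfl, rfl⟩ := h'
  exact ⟨V × V', _, _, inferInstance, sumForm B B', g.prodMap g', y.prodMap y', h1.sumForm h1',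
    h2.prodMap h2', h3.prodMap h3', ed_prodMap _ _, by rw [← ed_prodMap]; rfl, ed_prodMap _ _⟩

theorem Tri.swap (h : Tri σ s t r) : Tri σ r t s := by
  obtain ⟨V, _, _, _, B, g, y, h1, h2, h3, rfl, rfl, rfl⟩ := h
  refine ⟨V, _, _, inferInstance, B, y, g, h1, h3, h2, rfl, Sim.ed_eq ?_, rfl⟩
  exact ⟨LinearEquiv.ofBijective g ((End.isUnit_iff _).1 (h2.isUnit h1)), fun _ => rfl⟩

theorem Tri.mu (h : Tri σ s t r) : Mu σ (dm s) ∧ Mu σ (dm t) ∧ Mu σ (dm r) := by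
  obtain ⟨V, _, _, _, B, g, y, h1, h2, h3, rfl, rfl, rfl⟩ := h
  simp only [dm_ed]
  exact ⟨h2.det_mul_det h1, (h2.mul h3).det_mul_det h1, h3.det_mul_det h1⟩

theorem CS.of_irr {φ : F[X]} (h1 : φ.Monic) (h2 : Irreducible φ) (h : φ ∈ t) : CS σ t :=
  ⟨φ, 1, h1, h2, by rwa [pow_one], fun c hc => ⟨c, hc, pow_one c⟩⟩

variable {V : Type u} [AddCommGroup V] [Module F V] {B : V →ₛₗ[σ] V →ₗ[F] F} {g : End F V}
  {L : Submodule F V} {κ : F}

theorem pow_mem_ch (x : End F V) (v : V) {m i : ℕ} (h : i < m) : (x ^ i) v ∈ ch x v m :=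
  Submodule.subset_span ⟨⟨i, h⟩, rfl⟩

theorem Fr.le_perp (h : Fr B g L κ) : L ≤ perp B L := fun w hw u hu => h.iso u hu w hw

/-- the two possible dimensions -/
theorem Fr.dim [FiniteDimensional F V] (h : Fr B g L κ) (hB : IsSF 1 B) :
    finrank F V = 2 * finrank F L ∧ perp B L = L ∨ finrank F V = 2 * finrank F L + 1 := by
  obtain ⟨ν, h1, -⟩ := h.mid
  have h2 := hB.finrank_add_finrank_perp L
  by_cases hν : ν ∈ L
  · rw [sup_eq_left.2 ((Submodule.span_singleton_le_iff_mem _ _).2 hν)] at h1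
    rw [h1] at h2
    exact .inl ⟨by omega, h1⟩
  · rw [h1, Submodule.finrank_sup_span_singleton hν] at h2
    exact .inr (by omega)

/-- an isotropic vector perpendicular to `L` lies in `L` -/
theorem Fr.mem [FiniteDimensional F V] (h : Fr B g L κ) (hB : IsSF 1 B) {v : V}
    (h1 : v ∈ perp B L) (h2 : B v v = 0) : v ∈ L := by
  obtain ⟨ν, h3, -⟩ := h.mid
  have hν : ν ∈ perp B L :=
    h3 ▸ Submodule.mem_sup_right (Submodule.mem_span_singleton_self ν)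
  have h4 := h1
  rw [h3] at h4
  obtain ⟨u, hu, _, hw, rfl⟩ := Submodule.mem_sup.1 h4
  obtain ⟨t, rfl⟩ := Submodule.mem_span_singleton.1 hw
  rw [← hB.perp_perp L]
  intro x hx
  rw [h3] at hx
  obtain ⟨u', hu', _, hw', rfl⟩ := Submodule.mem_sup.1 hx
  obtain ⟨t', rfl⟩ := Submodule.mem_span_singleton.1 hw'
  have e1 : B ν u = 0 := hB.eq_zero_comm.1 (hν u hu)
  simp only [map_add, LinearMap.add_apply, form_smul_left, form_smul_right, h.iso u hu u hu, hν u hu,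
    e1, mul_zero, zero_add, mul_eq_zero, map_eq_zero] at h2
  simp only [map_add, LinearMap.add_apply, form_smul_left, form_smul_right, h.iso u' hu' u hu,
    hν u' hu', e1, mul_zero, zero_add]
  rcases h2 with h2 | h2 | h2 <;> simp [h2]

theorem Fr.of_even [FiniteDimensional F V] (hB : IsSF 1 B) (h : ∀ u ∈ L, ∀ w ∈ L, B u w = 0)
    (hd : finrank F V = 2 * finrank F L) : Fr B g L κ := by
  refine ⟨h, 0, ?_, by simp⟩
  have h2 := hB.finrank_add_finrank_perp L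
  rw [Submodule.span_zero_singleton, sup_bot_eq]
  exact (Submodule.eq_of_le_of_finrank_eq (S₂ := perp B L) (fun w hw u hu => h u hu w hw)
    (by omega)).symm

end kit

end H68.Ou
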