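import Mathlib
import Cfsg.Agent.Base

/-! Specification of the tower KC (S4197, S4264): class numbers of permutation groups. -/

set_option autoImplicit false

namespace H68.Kc

open scoped Classical

section defs

variable {G X : Type} [Group G] [Fintype G] [Fintype X] [MulAction G X]

/-- `Y` is invariant under `R`. -/
def Inv (R : Subgroup G) (Y : Finset X) : Prop := ∀ g ∈ R, ∀ x ∈ Y, g • x ∈ Y

/-- The elements of `R` fixing every point of `Y`. -/
def Ker (R : Subgroup G) (Y : Finset X) : Subgroup G := R ⊓ fixingSubgroup G (Y : Set X)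

/-- `u` and `v` commute on the points of `Y`. -/
def Cm (Y : Finset X) (u v : G) : Prop := ∀ x ∈ Y, u • v • x = v • u • x

/-- Weight `a` for each fixed point of `u` in `Y`, weight `b` for each moved point. -/
noncomputable def wt (a b : ℝ) (Y : Finset X) (u : G) : ℝ :=
  ∏ x ∈ Y, if u • x = x then a else b

/-- Weighted number of pairs satisfying `Q` and commuting on `Y`. -/
noncomputable def TT (a b : ℝ) (Q : G → G → Prop) (Y : Finset X) : ℝ :=
  ∑ u : G, ∑ v : G, if Q u v ∧ Cm Y u v then wt a b Y u else 0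

/-- Weighted number of pairs of elements of `R` commuting on `Y`. -/
noncomputable def T (a b : ℝ) (R : Subgroup G) (Y : Finset X) : ℝ :=
  TT a b (fun u v => u ∈ R ∧ v ∈ R) Y

/-- The orbit of `x` under `R`, as a finset. -/
noncomputable def orbF (R : Subgroup G) (x : X) : Finset X :=
  Finset.univ.filter (fun y => ∃ g ∈ R, g • x = y)

/-- The potential. -/
noncomputable def Phi (c : ℕ → ℝ) (R : Subgroup G) (Y : Finset X) : ℝ :=
  ∏ x ∈ Y, c (orbF R x).card

/-- No element of `R` moves between `1` and `p` points of `Y`. -/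
def NoCyc (p : ℕ) (R : Subgroup G) (Y : Finset X) : Prop :=
  ∀ g ∈ R, (Y.filter (fun x => g • x ≠ x)).card ≤ p → ∀ x ∈ Y, g • x = x

theorem mem_ker {R : Subgroup G} {Y : Finset X} {g : G} :
    g ∈ Ker R Y ↔ g ∈ R ∧ ∀ x ∈ Y, g • x = x := by
  simp [Ker, mem_fixingSubgroup_iff]

theorem mem_orbF {R : Subgroup G} {x y : X} : y ∈ orbF R x ↔ ∃ g ∈ R, g • x = y := by
  simp [orbF]

end defs

/-- All primes dividing the order of `g` are at most `m`. -/
def Sm {G : Type} [Group G] (m : ℕ) (g : G) : Prop :=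
  ∀ q : ℕ, q.Prime → q ∣ orderOf g → q ≤ m

/-- The number of classes of `m`-smooth elements. -/
noncomputable def kap (m : ℕ) (G : Type) [Group G] : ℕ :=
  (ConjClasses.mk '' {g : G | Sm m g}).ncard

/-- Elements acting trivially have only primes above `m` in their order. -/
def Rk (m : ℕ) (G X : Type) [Group G] [MulAction G X] : Prop :=
  ∀ g : G, (∀ x : X, g • x = x) → ∀ q : ℕ, q.Prime → q ∣ orderOf g → m < q

/-- The universal bound for the number of `m`-smooth classes. -/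
def U (m : ℕ) (a : ℝ) : Prop :=
  ∀ (G X : Type) [Group G] [Fintype G] [Fintype X] [MulAction G X],
    Rk m G X → (kap m G : ℝ) ≤ a ^ Fintype.card X

/-- Bound for the order of a `p`-group of degree `m`. -/
def om (p m : ℕ) : ℕ := p ^ ((m - 1) / (p - 1))

/-- Numerical hypothesis of the universal bound. -/
def HU (p : ℕ) (a : ℝ) (c : ℕ → ℝ) : Prop :=
  Monotone c ∧ a ≤ c 1 ∧ ∀ j m : ℕ, m = p ^ j →
    c m ^ (p * m) + ((p : ℝ) - 1) * om p m * a ^ m ≤ c (p * m) ^ (p * m) ∨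
    c m ^ (p * m) + ((p : ℝ) - 1) * om p m * a ^ (p * m) + p * ((p : ℝ) - 1) * om p m * a ^ m
      ≤ p * c (p * m) ^ (p * m)

/-- Numerical hypothesis of the refined bound. -/
def HR (p : ℕ) (a : ℝ) (c : ℕ → ℝ) : Prop :=
  Monotone c ∧ c 1 = a ∧ a ^ p + ((p : ℝ) - 1) * a ≤ c p ^ p ∧ ∀ j m : ℕ, m = p ^ (j + 1) →
    c m ^ (p * m) + p * ((p : ℝ) - 1) * om p m * a ^ m ≤ c (p * m) ^ (p * m)

/-- A normal subgroup of index `p` containing the point stabilisers of an orbit. -/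
def JobTop : Prop :=
  ∀ (p : ℕ) (G X : Type) [Group G] [Fintype G] [Fintype X] [MulAction G X]
    (R : Subgroup G) (x : X), p.Prime → IsPGroup p R → (∃ g ∈ R, g • x ≠ x) →
    ∃ M : Subgroup G, M ≤ R ∧ Nat.card R = p * Nat.card M ∧
      (∀ g ∈ R, ∀ h ∈ M, g * h * g⁻¹ ∈ M) ∧
      (∀ g ∈ R, ∀ y ∈ orbF R x, g • y = y → g ∈ M) ∧
      ∃ j : ℕ, (orbF R x).card = p * p ^ j ∧ ∀ y ∈ orbF R x, (orbF M y).card = p ^ j

/-- The order of a `p`-group in terms of an invariant set. -/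
def JobOrd : Prop :=
  ∀ (p : ℕ) (G X : Type) [Group G] [Fintype G] [Fintype X] [MulAction G X]
    (C : Subgroup G) (Y : Finset X), p.Prime → IsPGroup p C → Inv C Y →
    Nat.card C ≤ Nat.card (Ker C Y) * om p Y.card

/-- Elements of `M` commuting with an element outside `M`. -/
def JobCnt : Prop :=
  ∀ (p : ℕ) (G X : Type) [Group G] [Fintype G] [Fintype X] [MulAction G X]
    (R M : Subgroup G) (x : X) (v : G), p.Prime → IsPGroup p R → M ≤ R →
    Nat.card R = p * Nat.card M → (∀ g ∈ R, ∀ h ∈ M, g * h * g⁻¹ ∈ M) → v ∈ R → v ∉ M →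
    (Finset.univ.filter (fun u => u ∈ M ∧ Cm (orbF R x) u v)).card ≤
      Nat.card (Ker R (orbF R x)) * om p (orbF M x).card

/-- The coset inequality. -/
def JobSplit : Prop :=
  ∀ (G X : Type) [Group G] [Fintype G] [Fintype X] [MulAction G X]
    (a b : ℝ) (R N : Subgroup G) (Y : Finset X) (Q : G → G → Prop), 0 ≤ b → b ≤ a → N ≤ R →
    Inv R Y → (∀ u v, Q u v → u ∈ R ∧ v ∈ R) →
    (∀ u v, Q u v → ∀ n ∈ N, ∀ n' ∈ N, Q (u * n) (v * n')) →
    (Nat.card N : ℝ) ^ 2 * TT a b Q Y ≤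
      ((Finset.univ.filter (fun z : G × G => Q z.1 z.2)).card : ℝ) * T a b N Y

/-- The universal bound for weighted class numbers of `p`-groups. -/
def JobUniv : Prop :=
  ∀ (p : ℕ) (a b : ℝ) (c : ℕ → ℝ), p.Prime → 0 ≤ b → b ≤ a → b ^ p = a → HU p a c →
    ∀ (G X : Type) [Group G] [Fintype G] [Fintype X] [MulAction G X]
      (R : Subgroup G) (Y : Finset X), IsPGroup p R → Inv R Y →
      T a b R Y ≤ Phi c R Y * Nat.card R * Nat.card (Ker R Y)

/-- The refined bound. -/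
def JobRef : Prop :=
  ∀ (p : ℕ) (a b : ℝ) (c c' : ℕ → ℝ), p.Prime → 0 ≤ b → b ≤ a → b ^ p = a → HU p a c →
    HR p a c' → (∀ j, c j ≤ c' j) →
    ∀ (G X : Type) [Group G] [Fintype G] [Fintype X] [MulAction G X]
      (R : Subgroup G) (Y : Finset X), IsPGroup p R → Inv R Y → NoCyc p R Y →
      p * T a b R Y ≤
        (Phi c' R Y + ((p : ℝ) - 1) * a ^ Y.card) * Nat.card R * Nat.card (Ker R Y)

/-- Peeling off the largest prime. -/
def JobPeel : Prop :=
  ∀ (p : ℕ) [Fact p.Prime] (G : Type) [Group G] [Fintype G] (P : Sylow p G) (φ : G → ℝ),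
    (∀ u ∈ (P : Subgroup G), ∀ g ∈ (P : Subgroup G), φ (g * u * g⁻¹) = φ u) →
    (∀ u ∈ (P : Subgroup G), u ≠ 1 →
      (kap (p - 1) (Subgroup.centralizer ({u} : Set G)) : ℝ) ≤ φ u) →
    (Nat.card (P : Subgroup G) : ℝ) * kap p G ≤ (Nat.card (P : Subgroup G) : ℝ) * kap (p - 1) G +
      ∑ u : G, ∑ v : G,
        if u ∈ (P : Subgroup G) ∧ v ∈ (P : Subgroup G) ∧ u ≠ 1 ∧ u * v = v * u then φ u else 0

/-- The centraliser of a `p`-element acts on its cycles. -/
def JobCyc : Prop :=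
  ∀ (p : ℕ) (a b : ℝ), p.Prime → 1 ≤ a → 0 ≤ b → b ^ p = a → U (p - 1) a →
    ∀ (G X : Type) [Group G] [Fintype G] [Fintype X] [MulAction G X] (u : G) (k : ℕ),
      Rk p G X → u ^ p ^ k = 1 →
      (kap (p - 1) (Subgroup.centralizer ({u} : Set G)) : ℝ) ≤ wt a b (Finset.univ : Finset X) u

/-- Large primes. -/
def JobBig : Prop :=
  ∀ (p : ℕ) (a : ℝ), p.Prime → 1 ≤ a → U (p - 1) a →
    ∀ (G X : Type) [Group G] [Fintype G] [Fintype X] [MulAction G X] [FaithfulSMul G X],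
      Fintype.card X < 2 * p →
      (kap p G : ℝ) ≤ kap (p - 1) G + ((p : ℝ) - 1) * a ^ (Fintype.card X - p)

/-- The bound for one permutation group. -/
def Goal (X : Type) [Fintype X] (S : Subgroup (Equiv.Perm X)) : Prop :=
  Nat.card (ConjClasses S) ≤ 2 ^ (Fintype.card X - 1)

/-- Reduction to primitive groups. -/
def JobRed : Prop :=
  (∀ (X : Type) [Fintype X] (S : Subgroup (Equiv.Perm X)),
    MulAction.IsPreprimitive S X → Goal X S) →
  ∀ (X : Type) [Fintype X] (S : Subgroup (Equiv.Perm X)), Goal X S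

/-- Alternating and symmetric groups, and small degrees. -/
def JobAlt : Prop :=
  ∀ (X : Type) [Fintype X] [DecidableEq X] (S : Subgroup (Equiv.Perm X)),
    alternatingGroup X ≤ S ∨ Fintype.card X ≤ 3 → Goal X S

/-- The constants. -/
noncomputable def aa (m : ℕ) : ℝ :=
  if m ≤ 1 then 1 else if m ≤ 2 then 3 / 2 else if m ≤ 4 then 1855 / 1000
  else if m ≤ 6 then 19665 / 10000 else if m ≤ 10 then 1995 / 1000
  else 2 - 5 / 1000 * (6 / 10) ^ (m - 10)

/-- The numerical facts for the primes `2` and `3`. -/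
def JobNum1 : Prop :=
  (∃ c : ℕ → ℝ, HU 2 1 c ∧ ∀ j, c j ≤ 3 / 2) ∧
  ∃ c c' : ℕ → ℝ, HU 3 (3 / 2) c ∧ HR 3 (3 / 2) c' ∧ (∀ j, c j ≤ c' j) ∧
    (∀ j, c j ≤ 1855 / 1000) ∧ (∀ j, c' j ≤ 191 / 100) ∧ ∀ j, j ≤ 8 → c' j ≤ 1855 / 1000

/-- The numerical facts for the primes above `3`. -/
def JobNum2 : Prop :=
  Monotone aa ∧ (∀ m, aa m ≤ 2) ∧
    ∀ p : ℕ, p.Prime → 5 ≤ p → ∃ c : ℕ → ℝ, HR p (aa (p - 1)) c ∧ ∀ j, c j ≤ aa p

end H68.Kc
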