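/- Covering number of `PSL(n,q)` (row S2483): Horner bases and pole placement. -/
import Cfsg.Agent.H68.CNKit2

set_option autoImplicit false
set_option linter.unusedSectionVars false

namespace H68.CN
open Polynomial Module H53 H60.Ore

universe u
variable {K : Type u} [Field K] {V W : Type u} [AddCommGroup V] [Module K V]
  [AddCommGroup W] [Module K W] [FiniteDimensional K V]

/-- A Horner basis of `a` at `v`. -/
def Hb (a : End K V) (v : V) (f : ℕ → V) (n : ℕ) : Prop :=
  f 0 = v ∧ f n = 0 ∧ (∀ j, j < n → a (f j) - f (j + 1) ∈ K ∙ v) ∧ Fl (K := K) f n = ⊤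

theorem coeff_divX_iter (p : K[X]) (k i : ℕ) : (divX^[k] p).coeff i = p.coeff (i + k) := by
  induction k generalizing i with
  | zero => simp
  | succ k ih => rw [Function.iterate_succ_apply', coeff_divX, ih]; congr 1; omega

theorem exists_hb {a : End K V} {v : V} (h : Cy a v) {n : ℕ} (hn : finrank K V = n) :
    ∃ f, Hb a v f n := by
  have hm := a.charpoly_monic
  have hd : a.charpoly.natDegree = n := by rw [LinearMap.charpoly_natDegree, hn]
  have h0 : divX^[n] a.charpoly = 1 := by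
    ext i
    rw [coeff_divX_iter, coeff_one]
    split_ifs with hi
    · rw [hi, zero_add, ← hd]; exact hm
    · exact coeff_eq_zero_of_natDegree_lt (by omega)
  let f : ℕ → V := fun j => aeval a (divX^[n - j] a.charpoly) v
  have f0 : f 0 = v := by simp [f, h0]
  have fn : f n = 0 := by simp [f, LinearMap.aeval_self_charpoly]
  have fs : ∀ j, j < n → a (f j) - f (j + 1) ∈ K ∙ v := fun j hj => by
    have e : n - j = (n - (j + 1)) + 1 := by omega
    have e2 := X_mul_divX_add (divX^[n - (j + 1)] a.charpoly)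
    refine Submodule.mem_span_singleton.2 ⟨-(divX^[n - (j + 1)] a.charpoly).coeff 0, ?_⟩
    simp only [f]
    rw [e, Function.iterate_succ_apply']
    generalize divX^[n - (j + 1)] a.charpoly = P at e2 ⊢
    have e3 := congrArg (fun Q => aeval a Q v) e2
    simp only [map_add, map_mul, aeval_X, aeval_C, LinearMap.add_apply, End.mul_apply,
      Module.algebraMap_end_apply] at e3
    rw [← e3]; module
  have hv : v ∈ Fl (K := K) f n := by
    rcases Nat.eq_zero_or_pos n with h0 | h0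
    · rw [← f0, ← h0, fn]; exact Submodule.zero_mem _
    · exact f0 ▸ mem_Fl f h0
  refine ⟨f, f0, fn, fs, h _ hv (span_inv ?_)⟩
  rintro _ ⟨j, hj, rfl⟩
  have h1 : f (j + 1) ∈ Fl (K := K) f n := by
    rcases (Nat.succ_le_of_lt hj).lt_or_eq with h2 | h2
    · exact mem_Fl f h2
    · rw [show j + 1 = n from h2, fn]; exact Submodule.zero_mem _
  have h2 := (Submodule.span_singleton_le_iff_mem _ _).2 hv (fs j hj)
  have h3 := Submodule.add_mem _ h2 h1
  rwa [sub_add_cancel] at h3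

theorem Hb.smul {a : End K V} {v : V} {f : ℕ → V} {n : ℕ} (h : Hb a v f n) {c : K} (hc : c ≠ 0) :
    Hb a (c • v) (fun j => c • f j) n := by
  obtain ⟨h0, h1, h2, h3⟩ := h
  refine ⟨by simp [h0], by simp [h1], fun j hj => ?_, ?_⟩
  · rw [Submodule.span_singleton_smul_eq (isUnit_iff_ne_zero.2 hc), map_smul, ← smul_sub]
    exact Submodule.smul_mem _ c (h2 j hj)
  · rw [eq_top_iff, ← h3]
    exact Fl_le fun i hi => (Submodule.smul_mem_iff _ hc).1 (mem_Fl (fun j => c • f j) hi)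

theorem Hb.fb {a : End K V} {A : End K W} {v : V} {w : W} {f : ℕ → V} {F : ℕ → W} {n : ℕ}
    (h : Hb a v f n) (h' : Hb A w F n) (hn : 0 < n) {e : V ≃ₗ[K] W} (he : ∀ j, j < n → e (f j) = F j)
    (u : V) : e.symm.conj A u - a u ∈ K ∙ v := by
  obtain ⟨h0, h1, h2, h3⟩ := h
  obtain ⟨h0', h1', h2', -⟩ := h'
  have he' : ∀ j, j ≤ n → e.symm (F j) = f j := fun j hj => by
    rcases hj.lt_or_eq with hj | rfl
    · rw [← he j hj, e.symm_apply_apply]
    · rw [h1, h1', map_zero]
  refine ext_of_fl h3 (T := e.symm.conj A - a) (fun j hj => ?_) u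
  obtain ⟨s, hs⟩ := Submodule.mem_span_singleton.1 (h2 j hj)
  obtain ⟨s', hs'⟩ := Submodule.mem_span_singleton.1 (h2' j hj)
  refine Submodule.mem_span_singleton.2 ⟨s' - s, ?_⟩
  have e1 : A (F j) = s' • F 0 + F (j + 1) := by rw [h0', hs']; abel
  have e2 : a (f j) = s • v + f (j + 1) := by rw [hs]; abel
  simp only [LinearMap.sub_apply, LinearEquiv.conj_apply_apply, LinearEquiv.symm_symm, he j hj, e1, e2,
    map_add, map_smul, he' 0 hn.le, he' (j + 1) hj, h0]
  module

/-- Pole placement. -/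
theorem place {a : End K V} {v : V} (h : Cy a v) {q : K[X]} (hq : q.Monic)
    (hd : q.natDegree = finrank K V) (hn : 0 < finrank K V) :
    ∃ c : End K V, (∀ u, c u - a u ∈ K ∙ v) ∧ Cy c v ∧ aeval c q v = 0 := by
  obtain ⟨A, w, hw, hA⟩ := exists_model (V := V) hq hd
  obtain ⟨f, hf⟩ := exists_hb h rfl
  obtain ⟨F, hF⟩ := exists_hb hw rfl
  obtain ⟨e, he⟩ := exists_equiv_of_fl rfl rfl hf.2.2.2 hF.2.2.2
  have h0 : e.symm w = v := by rw [← hF.1, ← he 0 hn, e.symm_apply_apply, hf.1]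
  have hi : ∀ u, e.symm (A u) = e.symm.conj A (e.symm u) := fun u => by
    simp [LinearEquiv.conj_apply]
  refine ⟨e.symm.conj A, hf.fb hF hn he, h0 ▸ hw.map (e.symm : V →ₗ[K] V) e.symm.surjective hi, ?_⟩
  have := intertwine_aeval (e.symm : V →ₗ[K] V) hi q w
  rw [hA, map_zero] at this
  rw [← h0]; exact this.symm

section Shift
variable {a : End K V} {κ : ℕ → V} {γ : ℕ → K} {m : ℕ}

theorem shift_mem (h : ∀ j, j < m → a (κ j) - γ j • κ (j + 1) ∈ Fl (K := K) κ (j + 1)) {j : ℕ}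
    (hj : j ≤ m) {v : V} (hv : v ∈ Fl (K := K) κ j) : a v ∈ Fl (K := K) κ (j + 1) := by
  refine Fl_le (U := (Fl κ (j + 1)).comap a) (fun i hi => ?_) hv
  have h1 := Fl_mono κ (by omega : i + 1 ≤ j + 1) (h i (by omega))
  have h2 := Submodule.smul_mem _ (γ i) (mem_Fl (K := K) κ (by omega : i + 1 < j + 1))
  simpa using Submodule.add_mem _ h1 h2

theorem shift_cy (h : ∀ j, j < m → a (κ j) - γ j • κ (j + 1) ∈ Fl (K := K) κ (j + 1))
    (hγ : ∀ j, j < m → γ j ≠ 0) (ht : Fl (K := K) κ (m + 1) = ⊤) : Cy a (κ 0) := by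
  intro U h0 hU
  have key : ∀ j, j ≤ m → Fl κ (j + 1) ≤ U := by
    intro j hj
    induction j with
    | zero => exact Fl_le fun i hi => by rwa [show i = 0 by omega]
    | succ j ih =>
      have ih := ih (by omega)
      rw [Fl_succ]
      refine sup_le ih ((Submodule.span_singleton_le_iff_mem _ _).2 ?_)
      have h1 := U.sub_mem (hU _ (ih (mem_Fl κ j.lt_succ_self))) (ih (h j (by omega)))
      rw [sub_sub_cancel] at h1
      exact (U.smul_mem_iff (hγ j (by omega))).1 h1
  exact eq_top_iff.2 (ht ▸ key m le_rfl)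

theorem shift_hb (h : ∀ j, j < m → a (κ j) - γ j • κ (j + 1) ∈ Fl (K := K) κ (j + 1))
    {f : ℕ → V} (hf : Hb a (κ 0) f (m + 1)) (j : ℕ) (hj : j ≤ m) :
    f j - (∏ i ∈ Finset.range j, γ i) • κ j ∈ Fl (K := K) κ j := by
  induction j with
  | zero => simp [hf.1]
  | succ j ih =>
    have h1 := shift_mem h (by omega) (ih (by omega))
    have h2 := Submodule.smul_mem _ (∏ i ∈ Finset.range j, γ i) (h j (by omega))
    have h3 := (Submodule.span_singleton_le_iff_mem _ _).2 (mem_Fl (K := K) κ j.succ_pos)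
      (hf.2.2.1 j (by omega))
    have h4 := Submodule.sub_mem _ (Submodule.add_mem _ h1 h2) h3
    convert h4 using 1
    rw [Finset.prod_range_succ, map_sub, map_smul]
    module

end Shift

theorem fl_extend {U : Submodule K V} (t : ℕ) : ∀ (j : ℕ) (κ : ℕ → V), finrank K U = j + t →
    Fl κ j ≤ U → finrank K (Fl (K := K) κ j) = j →
    ∃ κ' : ℕ → V, (∀ i, i < j → κ' i = κ i) ∧ Fl κ' (j + t) = U := by
  induction t with
  | zero => exact fun j κ h1 h2 h3 => ⟨κ, fun _ _ => rfl, Submodule.eq_of_le_of_finrank_eq h2 (h3.trans h1.symm)⟩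
  | succ t ih =>
    intro j κ h1 h2 h3
    obtain ⟨v, hv, hv'⟩ : ∃ v ∈ U, v ∉ Fl (K := K) κ j := by
      by_contra hh
      push Not at hh
      have := Submodule.finrank_mono (show U ≤ Fl κ j from hh)
      omega
    have e1 : Fl (K := K) (Function.update κ j v) j = Fl κ j :=
      Fl_congr fun i hi => Function.update_of_ne hi.ne _ _
    have e2 : Fl (K := K) (Function.update κ j v) (j + 1) = Fl κ j ⊔ K ∙ v := by
      rw [Fl_succ, e1, Function.update_self]
    obtain ⟨κ', h4, h5⟩ := ih (j + 1) (Function.update κ j v) (by omega)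
      (by rw [e2]; exact sup_le h2 ((Submodule.span_singleton_le_iff_mem _ _).2 hv))
      (by rw [e2, Submodule.finrank_sup_span_singleton hv', h3])
    refine ⟨κ', fun i hi => by rw [h4 i (by omega), Function.update_of_ne hi.ne], ?_⟩
    rw [← h5]; congr 1; omega

theorem det_lift {c : End K V} {e : V} {β : K} (he : e ≠ 0) (hc : c e = β • e)
    {c' : End K (V ⧸ (K ∙ e))} (hq : ∀ v, (K ∙ e).mkQ (c v) = c' ((K ∙ e).mkQ v)) :
    LinearMap.det c = β * LinearMap.det c' := by
  have hle : (K ∙ e) ≤ (K ∙ e).comap c := (Submodule.span_singleton_le_iff_mem _ _).2 (by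
    rw [Submodule.mem_comap, hc]
    exact Submodule.smul_mem _ _ (Submodule.mem_span_singleton_self e))
  rw [LinearMap.det_eq_det_mul_det _ c hle]
  congr 1
  · have : c.restrict hle = β • (1 : End K (K ∙ e)) := by
      ext ⟨v, hv⟩
      obtain ⟨s, rfl⟩ := Submodule.mem_span_singleton.1 hv
      simp [hc, smul_smul, mul_comm]
    rw [this, LinearMap.det_smul, finrank_span_singleton he]; simp
  · congr 1
    ext v
    simpa using hq v

theorem nice_lift {c : End K V} {e : V} {β : K} (hc : c e = β • e)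
    {c' : End K (V ⧸ (K ∙ e))} (hq : ∀ v, (K ∙ e).mkQ (c v) = c' ((K ∙ e).mkQ v))
    {w' : V ⧸ (K ∙ e)} (hw : Cy c' w') {q : K[X]} (h0 : aeval c' q w' = 0) (h1 : q.Monic)
    (h2 : q.natDegree + 1 = finrank K V) (h3 : q.eval β ≠ 0) (h4 : q.eval 0 ≠ 0) (h5 : β ≠ 0) :
    Nice c β q := by
  obtain ⟨w₀, rfl⟩ := (K ∙ e).mkQ_surjective w'
  have i1 := intertwine_aeval (K ∙ e).mkQ hq q w₀
  rw [h0, Submodule.mkQ_apply, Submodule.Quotient.mk_eq_zero] at i1
  obtain ⟨s, hs⟩ := Submodule.mem_span_singleton.1 i1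
  have hw1 : aeval c q (w₀ + ((1 - s) / q.eval β) • e) = e := by
    rw [map_add, map_smul, aeval_eigen hc, ← hs, smul_smul, div_mul_cancel₀ _ h3, ← add_smul]
    simp
  refine ⟨h1, h2, h3, h4, h5, w₀ + ((1 - s) / q.eval β) • e, fun U hU hi => ?_, ?_⟩
  · have heU : e ∈ U := hw1 ▸ aeval_mem hi q hU
    have hw0 : w₀ ∈ U := by simpa using U.sub_mem hU (U.smul_mem ((1 - s) / q.eval β) heU)
    have := hw (U.map (K ∙ e).mkQ) ⟨w₀, hw0, rfl⟩ (by
      rintro _ ⟨v, hv, rfl⟩
      exact ⟨c v, hi v hv, hq v⟩)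
    refine eq_top_iff.2 fun v _ => ?_
    obtain ⟨v', hv', h6⟩ : (K ∙ e).mkQ v ∈ U.map (K ∙ e).mkQ := this ▸ Submodule.mem_top
    rw [Submodule.mkQ_apply, Submodule.mkQ_apply, Submodule.Quotient.eq] at h6
    have h7 := (Submodule.span_singleton_le_iff_mem _ _).2 heU h6
    simpa using U.sub_mem hv' h7
  · rw [map_mul, End.mul_apply, hw1]; simp [hc]

theorem prod_prod_range (γ : ℕ → K) (m : ℕ) :
    (∏ j ∈ Finset.range (m + 1), ∏ i ∈ Finset.range j, γ i) * ∏ i ∈ Finset.range m, γ i ^ i =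
      (∏ i ∈ Finset.range m, γ i) ^ m := by
  induction m with
  | zero => simp
  | succ m ih =>
    rw [Finset.prod_range_succ _ (m + 1), Finset.prod_range_succ (fun i => γ i ^ i),
      Finset.prod_range_succ γ m, mul_pow, pow_succ, pow_succ, ← ih]
    ring

theorem exists_scal (h4 : 4 ≤ Cardinal.mk K) (r : ℕ) {E bad : K} (hE : E ≠ 0) :
    ∃ c b : K, c ≠ 0 ∧ b ≠ 0 ∧ E / (c ^ (r + 3) * b ^ (∑ j ∈ Finset.range (r + 2), j)) ≠ bad := by
  by_cases h : E = bad
  · obtain ⟨t, h0, h1, h2⟩ := exists_ne3 h4 0 1 (-1)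
    by_contra hh
    push Not at hh
    have e1 := hh t 1 h0 one_ne_zero
    have e2 := hh 1 t one_ne_zero h0
    rw [← h, one_pow] at e1 e2
    rw [mul_one, div_eq_iff (pow_ne_zero _ h0)] at e1
    rw [one_mul, div_eq_iff (pow_ne_zero _ h0)] at e2
    have e3 : t ^ (r + 3) = 1 := mul_left_cancel₀ hE (by rw [← e1, mul_one])
    have e4 : t ^ (∑ j ∈ Finset.range (r + 2), j) = 1 := mul_left_cancel₀ hE (by rw [← e2, mul_one])
    have e5 : (∑ j ∈ Finset.range (r + 2), j) * 2 = (r + 3) * r + 2 := by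
      rw [Finset.sum_range_id_mul_two]; simp only [Nat.add_succ_sub_one]; ring
    have e6 : t ^ ((r + 3) * r + 2) = 1 := by rw [← e5, pow_mul, e4, one_pow]
    rw [pow_add, pow_mul, e3, one_pow, one_mul, sq_eq_one_iff] at e6
    tauto
  · exact ⟨1, 1, one_ne_zero, one_ne_zero, by simpa using h⟩

end H68.CN
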