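/- Covering number of `PSL(n,q)` (row S2483): products of a nice and a cyclic class. -/
import Cfsg.Agent.H68.CNT2a

set_option autoImplicit false
set_option linter.unusedSectionVars false

namespace H68.CN
open Polynomial Module H53 H60.Ore

universe u
variable {K : Type u} [Field K] {V : Type u} [AddCommGroup V] [Module K V] [FiniteDimensional K V]

theorem NS.exists_vec {g : End K V} (h : NS g) : ∃ e, g e ∉ K ∙ e := by
  by_contra hh
  push Not at hh
  obtain ⟨c, hc⟩ := LinearMap.exists_eq_smul_id_of_forall_notLinearIndependent (f := g) fun v hv => by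
    obtain ⟨s, hs⟩ := Submodule.mem_span_singleton.1 (hh v)
    have := (LinearIndependent.pair_iff.1 hv s (-1) (by rw [hs]; simp)).2
    simp at this
  exact h c hc

theorem quot_mem {κ : ℕ → V} {j : ℕ} {v : V} (hv : v ∈ Fl (K := K) κ (j + 1)) :
    (K ∙ κ 0).mkQ v ∈ Fl (K := K) (fun i => (K ∙ κ 0).mkQ (κ (i + 1))) j := by
  refine Fl_le (U := (Fl _ j).comap (K ∙ κ 0).mkQ) (fun i hi => ?_) hv
  rw [Submodule.mem_comap]
  rcases i with _ | i
  · rw [Submodule.mkQ_apply,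
      (Submodule.Quotient.mk_eq_zero _).2 (Submodule.mem_span_singleton_self _)]
    exact Submodule.zero_mem _
  · exact mem_Fl (fun i => (K ∙ κ 0).mkQ (κ (i + 1))) (by omega : i < j)

theorem mem_of_quot {κ : ℕ → V} {j : ℕ} {v : V}
    (hv : (K ∙ κ 0).mkQ v ∈ Fl (K := K) (fun i => (K ∙ κ 0).mkQ (κ (i + 1))) j) :
    v ∈ Fl (K := K) κ (j + 1) := by
  rw [← map_Fl (K ∙ κ 0).mkQ fun i => κ (i + 1)] at hv
  obtain ⟨w, hw, h⟩ := hv
  rw [Submodule.mkQ_apply, Submodule.mkQ_apply, Submodule.Quotient.eq] at h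
  have h1 : w ∈ Fl (K := K) κ (j + 1) := Fl_le (fun i hi => mem_Fl κ (by omega : i + 1 < j + 1)) hw
  have h2 := (Submodule.span_singleton_le_iff_mem _ _).2 (mem_Fl (K := K) κ j.succ_pos) h
  simpa using Submodule.sub_mem _ h1 h2

theorem exists_frame (h4 : 4 ≤ Cardinal.mk K) {g : End K V} (hd : LinearMap.det g ≠ 0) (hg : NS g)
    {m : ℕ} (hm : finrank K V = m + 1) : ∃ κ : ℕ → V, κ 0 ≠ 0 ∧ Fl (K := K) κ (m + 1) = ⊤ ∧
      Fl (K := K) (fun j => (K ∙ κ 0).mkQ (g (κ j))) m = ⊤ ∧ g (κ 0) ∉ Fl (K := K) κ m := by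
  obtain ⟨e, he⟩ := hg.exists_vec
  obtain ⟨g', g1, g2⟩ := exists_inv hd
  have g2' : ∀ v, g (g' v) = v := fun v => by rw [← End.mul_apply, g2]; rfl
  have he0 : e ≠ 0 := by rintro rfl; exact he (by simp)
  have he' : g' e ∉ K ∙ e := fun h => by
    obtain ⟨s, hs⟩ := Submodule.mem_span_singleton.1 h
    have h1 : s • g e = e := by rw [← map_smul, hs, g2']
    have h2 : s ≠ 0 := by rintro rfl; exact he0 (by simpa using h1.symm)
    exact he ((Submodule.smul_mem_iff _ h2).1 (by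
      rw [h1]; exact Submodule.mem_span_singleton_self e))
  obtain ⟨φ, p0, p1, p2, -, -⟩ := H56.RegU.avoid_dual h4 he' he he he
  have hk : finrank K (LinearMap.ker φ) = m := by
    have := H56.RegU.finrank_ker_add p1
    omega
  have hf1 : Fl (K := K) (fun _ => e) 1 = K ∙ e := by rw [Fl_succ]; simp
  have hm1 : 1 ≤ m := by
    have := Submodule.finrank_mono ((Submodule.span_singleton_le_iff_mem _ _).2
      (LinearMap.mem_ker.2 p0))
    rwa [finrank_span_singleton he0, hk] at this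
  obtain ⟨κ₁, a1, a2⟩ := fl_extend (U := LinearMap.ker φ) (m - 1) 1 (fun _ => e) (by omega)
    (by rw [hf1]; exact (Submodule.span_singleton_le_iff_mem _ _).2 p0)
    (by rw [hf1, finrank_span_singleton he0])
  rw [show 1 + (m - 1) = m by omega] at a2
  obtain ⟨κ, b1, b2⟩ := fl_extend (K := K) (U := ⊤) 1 m κ₁ (by rw [finrank_top, hm]) le_top (by rw [a2, hk])
  have c0 : κ 0 = e := by rw [b1 0 hm1, a1 0 one_pos]
  have c1 : Fl κ m = LinearMap.ker φ := by rw [← a2]; exact Fl_congr b1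
  refine ⟨κ, c0 ▸ he0, b2, ?_, by rw [c0, c1]; exact p2⟩
  have := map_Fl ((K ∙ κ 0).mkQ.comp g) κ m
  simp only [LinearMap.comp_apply] at this
  rw [← this, c1, c0, eq_top_iff]
  intro w _
  obtain ⟨v, rfl⟩ := (K ∙ e).mkQ_surjective w
  refine ⟨g' v - φ (g' v) • g' e, by simp [p1], ?_⟩
  rw [LinearMap.comp_apply, map_sub, map_smul, g2', g2', Submodule.mkQ_apply, Submodule.mkQ_apply,
    Submodule.Quotient.eq]
  simpa using Submodule.smul_mem _ _ (Submodule.mem_span_singleton_self e)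

theorem Cy.of_smul {a : End K V} {v : V} {c : K} (h : Cy a (c • v)) : Cy a v :=
  fun U hv hU => h U (U.smul_mem c hv) hU

/-- The step on the quotient: prescribed class, triangular shape, flexible weighted product. -/
theorem quot_step {n k : ℕ → V} {m : ℕ} (hm : finrank K V = m) (hm0 : 0 < m)
    (hk : Fl (K := K) k m = ⊤) {S : V ≃ₗ[K] V} (hS : ∀ j, j < m → S (k j) = n j)
    {b : End K V} {γ : ℕ → K} (hb : ∀ j, j < m → γ j ≠ 0 ∧ b (n j) - γ j • k j ∈ Fl (K := K) k j)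
    (hc : Cy b (n 0)) {β' : K} (hβ : β' ≠ 0) {q : K[X]} (hq : q.Monic) (hd : q.natDegree = m) :
    ∃ (c : End K V) (γ' : ℕ → K), Cy c (k 0) ∧ aeval c q (k 0) = 0 ∧
      (∀ j, j < m → c (n j) - γ' j • k j ∈ Fl (K := K) k j) ∧
      ∏ j ∈ Finset.range m, γ' j = dt q * LinearMap.det (S : V →ₗ[K] V) ∧
      ∏ j ∈ Finset.range m, γ' j ^ j =
        β' ^ (∑ j ∈ Finset.range m, j) * ∏ j ∈ Finset.range m, γ j ^ j := by
  have h0 : b (n 0) = γ 0 • k 0 := by simpa [sub_eq_zero] using (hb 0 hm0).2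
  have hdb : LinearMap.det b ≠ 0 := by
    have := det_tri hm hk (T := b * (S : V →ₗ[K] V)) (γ := γ) fun j hj => by
      simpa [hS j hj] using (hb j hj).2
    rw [map_mul] at this
    exact left_ne_zero_of_mul (this ▸ Finset.prod_ne_zero_iff.2 fun j hj =>
      (hb j (Finset.mem_range.1 hj)).1)
  obtain ⟨b', -, b2⟩ := exists_inv hdb
  have hc1 : Cy b (k 0) := by
    have := hc.map (b := b) b (fun v => ⟨b' v, by rw [← End.mul_apply, b2]; rfl⟩) fun _ => rfl
    rw [h0] at this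
    exact this.of_smul
  obtain ⟨c, c1, c2, c3⟩ := place (hc1.smul hβ) hq (hd.trans hm.symm) (hm ▸ hm0)
  obtain ⟨s, hs⟩ := Submodule.mem_span_singleton.1 (c1 (n 0))
  have key : ∀ j, j < m → c (n j) - (if j = 0 then s + β' * γ 0 else β' * γ j) • k j ∈
      Fl (K := K) k j := by
    intro j hj
    split_ifs with h
    · subst h
      rw [LinearMap.smul_apply, h0, eq_sub_iff_add_eq] at hs
      rw [← hs, Fl_zero, Submodule.mem_bot]; module
    · have e1 := (Submodule.span_singleton_le_iff_mem _ _).2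
        (mem_Fl (K := K) k (Nat.pos_of_ne_zero h)) (c1 (n j))
      have e2 := Submodule.add_mem _ e1 (Submodule.smul_mem _ β' (hb j hj).2)
      convert e2 using 1
      rw [LinearMap.smul_apply]; module
  refine ⟨c, _, c2, c3, key, ?_, ?_⟩
  · rw [← det_of_cy c2 hq (hd.trans hm.symm) c3, ← map_mul]
    exact (det_tri hm hk fun j hj => by simpa [hS j hj] using key j hj).symm
  · rw [← Finset.prod_pow_eq_pow_sum, ← Finset.prod_mul_distrib]
    refine Finset.prod_congr rfl fun j _ => ?_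
    split_ifs with h
    · simp [h]
    · rw [mul_pow]

theorem jobT2 : JobT2.{u} := by
  intro hCP K _ V _ _ _ g c₀ A β q v h4 h3 hdg hg hN hA hdA
  obtain ⟨r, hr⟩ : ∃ r, finrank K V = r + 3 := ⟨finrank K V - 3, by omega⟩
  obtain ⟨κ, k0, k1, k2, k3⟩ := exists_frame h4 hdg hg (m := r + 2) hr
  have hQ : finrank K (V ⧸ (K ∙ κ 0)) = r + 2 := by
    have := (K ∙ κ 0).finrank_quotient_add_finrank
    rw [finrank_span_singleton k0] at this
    omega
  have k4 : Fl (K := K) (fun i => (K ∙ κ 0).mkQ (κ (i + 1))) (r + 2) = ⊤ := by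
    refine eq_top_iff.2 fun w _ => ?_
    obtain ⟨w, rfl⟩ := (K ∙ κ 0).mkQ_surjective w
    exact quot_mem (k1 ▸ Submodule.mem_top)
  have : Nontrivial (V ⧸ (K ∙ κ 0)) := Module.nontrivial_of_finrank_pos (R := K) (by omega)
  obtain ⟨η, hη⟩ := exists_ne (0 : Dual K (V ⧸ (K ∙ κ 0)))
  obtain ⟨D, bad, hD, hρ⟩ := hCP K h4 (r + 2) (by omega) _ _ _ η hQ k2 k4
    (fun h => k3 (mem_of_quot h)) hη
  obtain ⟨S, hS⟩ := exists_equiv_of_fl hQ hQ k4 k2
  obtain ⟨F, hF⟩ := exists_hb hA hr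
  obtain ⟨H₀, hH⟩ := exists_equiv_of_fl hr hr k1 hF.2.2.2
  have hq0 := dt_ne_zero hN.2.2.2.1
  set D₁ := dt q * LinearMap.det (S : _ →ₗ[K] V ⧸ (K ∙ κ 0)) with hD₁
  have hD1 : D₁ ≠ 0 := mul_ne_zero hq0 (LinearEquiv.isUnit_det' S).ne_zero
  set d₀ := LinearMap.det (H₀ : V →ₗ[K] V) with hd₀
  have hd0 : d₀ ≠ 0 := (LinearEquiv.isUnit_det' H₀).ne_zero
  have hE : D₁ ^ (r + 2) / (d₀ * D) ≠ 0 := div_ne_zero (pow_ne_zero _ hD1) (mul_ne_zero hd0 hD)
  obtain ⟨t, β', ht, hβ', hbad⟩ := exists_scal h4 r (bad := bad) hE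
  obtain ⟨b, γ, hb, hbc, -, hγ⟩ := hρ _
    (div_ne_zero hE (mul_ne_zero (pow_ne_zero _ ht) (pow_ne_zero _ hβ'))) hbad
  obtain ⟨c', γ', c1, c2, c3, c4, c5⟩ := quot_step hQ (by omega) k4 hS hb hbc hβ' hN.1
    (by have := hN.2.1; omega)
  have hγ' : ∀ j, j < r + 2 → γ' j ≠ 0 := fun j hj =>
    Finset.prod_ne_zero_iff.1 (c4 ▸ hD1) j (Finset.mem_range.2 hj)
  obtain ⟨s, hs⟩ := (K ∙ κ 0).mkQ.exists_rightInverse_of_surjective (Submodule.range_mkQ _)
  have hs' : ∀ w, (K ∙ κ 0).mkQ (s w) = w := fun w => LinearMap.congr_fun hs w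
  let c₁ : End K V := s ∘ₗ c' ∘ₗ (K ∙ κ 0).mkQ
  have hc₁ : ∀ w, (K ∙ κ 0).mkQ (c₁ w) = c' ((K ∙ κ 0).mkQ w) := fun w => hs' _
  have sh : ∀ j, j < r + 2 → (c₁ * g) (κ j) - γ' j • κ (j + 1) ∈ Fl (K := K) κ (j + 1) :=
    fun j hj => mem_of_quot (by rw [map_sub, map_smul, End.mul_apply, hc₁]; exact c3 j hj)
  obtain ⟨f, hf⟩ := exists_hb (shift_cy sh hγ' k1) hr
  obtain ⟨T, hT⟩ := exists_equiv_of_fl hr hr k1 hf.2.2.2
  have hF' := hF.smul ht
  obtain ⟨h, hh⟩ := exists_equiv_of_fl hr hr hf.2.2.2 hF'.2.2.2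
  have dT : LinearMap.det (T : V →ₗ[K] V) =
      ∏ j ∈ Finset.range (r + 3), ∏ i ∈ Finset.range j, γ' i :=
    det_tri hr k1 fun j hj => by
      rw [LinearEquiv.coe_coe, hT j hj]; exact shift_hb sh hf j (by omega)
  have dh : LinearMap.det (h : V →ₗ[K] V) * LinearMap.det (T : V →ₗ[K] V) = t ^ (r + 3) * d₀ := by
    rw [← map_mul, ← hr, hd₀, ← LinearMap.det_smul]
    congr 1
    ext w
    rw [← sub_eq_zero, ← LinearMap.sub_apply, ← Submodule.mem_bot K]
    refine ext_of_fl k1 (fun j hj => ?_) w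
    simp [hT j hj, hh j hj, hH j hj]
  have dh1 : LinearMap.det (h : V →ₗ[K] V) = 1 := by
    have e1 := prod_prod_range γ' (r + 2)
    rw [← dT, c4, c5, hγ, ← hD₁] at e1
    have e2 : LinearMap.det (T : V →ₗ[K] V) = t ^ (r + 3) * d₀ := by
      field_simp at e1
      linear_combination e1
    rw [← e2] at dh
    exact mul_right_cancel₀ (LinearEquiv.isUnit_det' T).ne_zero (by rw [dh, one_mul])
  have fb := hf.fb hF' (by omega) hh
  obtain ⟨g', g1, g2⟩ := exists_inv hdg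
  have hsc : SC A (h.symm.conj A) :=
    ⟨h.symm, det_symm_eq_one dh1, fun w => by simp [LinearEquiv.conj_apply]⟩
  have hc : ∀ w, (h.symm.conj A * g') w - c₁ w ∈ K ∙ κ 0 := fun w => by
    have := fb (g' w)
    rwa [End.mul_apply, ← End.mul_apply g, g2] at this
  have hcq : ∀ w, (K ∙ κ 0).mkQ ((h.symm.conj A * g') w) = c' ((K ∙ κ 0).mkQ w) := fun w => by
    rw [← hc₁, Submodule.mkQ_apply, Submodule.mkQ_apply, Submodule.Quotient.eq]; exact hc w
  obtain ⟨β₂, hβ₂⟩ := Submodule.mem_span_singleton.1 (hc (κ 0))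
  have e0 : c₁ (κ 0) = 0 := by
    simp only [c₁, LinearMap.comp_apply, Submodule.mkQ_apply,
      (Submodule.Quotient.mk_eq_zero _).2 (Submodule.mem_span_singleton_self (κ 0)), map_zero]
  rw [e0, sub_zero] at hβ₂
  have e1 := det_lift k0 hβ₂.symm hcq
  rw [det_of_cy c1 hN.1 (by have := hN.2.1; omega) c2, map_mul, ← hsc.det_eq, hdA, hN.det,
    mul_assoc, mul_comm (LinearMap.det g), det_inv_mul g1, mul_one] at e1
  have e2 : β = β₂ := mul_right_cancel₀ hq0 e1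
  subst e2
  refine ⟨_, _, hN.sc (nice_lift hβ₂.symm hcq c1 c2 hN.1 hN.2.1 hN.2.2.1 hN.2.2.2.1 hN.2.2.2.2.1),
    hsc, ?_⟩
  rw [mul_assoc, g1, mul_one]

end H68.CN
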