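/- Covering number of `PSL(n,q)` (row S2483): assembly of the upper bound from the jobs. -/
import Cfsg.Agent.H68.CNT2

set_option autoImplicit false
set_option linter.unusedSectionVars false

namespace H68.CN
open Polynomial Module H53 H60.Ore

universe u
variable {K : Type u} [Field K] {V : Type u} [AddCommGroup V] [Module K V] [FiniteDimensional K V]

theorem all_of_cyc (hT : T2St.{u}) (h4 : 4 ≤ Cardinal.mk K) (h3 : 3 ≤ finrank K V)
    {x A g : End K V} {k l : ℕ} {v : V} (hx : LinearMap.det x = 1) (hn : NS x) (hA : Pw x k A)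
    (hv : Cy A v) (hl : 2 * k + 1 ≤ l) (hg : NS g) (hd : LinearMap.det g = 1) : Pw x l g := by
  have hx0 : LinearMap.det x ≠ 0 := hx ▸ one_ne_zero
  obtain ⟨B, β, q, h1, h2⟩ := nice_succ hT h4 h3 hx0 hn hA hv
  obtain ⟨A', v', h5, h6⟩ := cyc_mono hT h4 h3 hx0 hn hA hv (l := l - (k + 1)) (by omega)
  have := all_of_cyc_nice hT h4 h3 hx0 h5 h6 h1 h2 hg (by rw [hx, hd, one_pow])
  rwa [show l - (k + 1) + (k + 1) = l by omega] at this

theorem in_of_cyc (hT : T2St.{u}) (h4 : 4 ≤ Cardinal.mk K) (h3 : 3 ≤ finrank K V)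
    {x A : End K V} {k : ℕ} {v : V} (hx : LinearMap.det x = 1) (hn : NS x) (hA : Pw x k A)
    (hv : Cy A v) (hl : 2 * k + 2 ≤ finrank K V) : In x := by
  obtain ⟨x', h1, -⟩ := exists_inv (a := x) (hx ▸ one_ne_zero)
  have hd := det_inv_mul h1
  rw [hx, mul_one] at hd
  have := (all_of_cyc hT h4 h3 hx hn hA hv (l := finrank K V - 1) (by omega) (hn.inv h1) hd).succ
    (SC.refl x)
  rw [h1, show finrank K V - 1 + 1 = finrank K V by omega] at this
  exact ⟨1, by rwa [one_smul]⟩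

theorem nn_of_nice (hT : T2St.{u}) (h4 : 4 ≤ Cardinal.mk K) (h3 : 3 ≤ finrank K V)
    {x B : End K V} {k : ℕ} {β : K} {q : K[X]} (hx : LinearMap.det x = 1) (hB : Pw x k B)
    (hN : Nice B β q) (hk : finrank K V = 2 * k) : Nn x := by
  intro g hd hg
  obtain ⟨w, hw⟩ := hN.cy
  rw [hk, two_mul]
  exact all_of_cyc_nice hT h4 h3 (hx ▸ one_ne_zero) hB hw hB hN hg (by rw [hx, hd, one_pow])

section Count
variable {ι : Type} [Fintype ι] {d : ι → ℕ}

theorem sub_le_rho (j : ι) : d j - 1 ≤ ∑ i, (d i - 1) :=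
  Finset.single_le_sum (f := fun i => d i - 1) (fun _ _ => Nat.zero_le _) (Finset.mem_univ j)

theorem two_le_rho {i j : ι} (h : i ≠ j) : (d i - 1) + (d j - 1) ≤ ∑ i, (d i - 1) := by
  classical
  rw [← Finset.sum_pair (f := fun i => d i - 1) h]
  exact Finset.sum_le_sum_of_subset (Finset.subset_univ _)

theorem sum_le_two_rho (h : ∀ i, d i ≠ 1) : ∑ i, d i ≤ 2 * ∑ i, (d i - 1) := by
  rw [Finset.mul_sum]
  exact Finset.sum_le_sum fun i _ => by have := h i; omega

theorem rho_lt {j : ι} (h : 1 ≤ d j) : ∑ i, (d i - 1) + 1 ≤ ∑ i, d i :=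
  Finset.sum_lt_sum (fun i _ => Nat.sub_le _ _) ⟨j, Finset.mem_univ j, by omega⟩

theorem exists_one_of_three {j : ι} (hj : d j = 3) (h : ∀ i, i ≠ j → d i ≤ 1) (hn : 4 ≤ ∑ i, d i) :
    ∃ i, d i = 1 := by
  classical
  by_contra hh
  push Not at hh
  rw [Finset.sum_eq_single j (fun i _ hi => by have := h i hi; have := hh i; omega) (by simp)] at hn
  omega

end Count

theorem eq_X_sub_C {f : K[X]} (hm : f.Monic) (hd : f.natDegree = 1) : ∃ l, f = X - C l :=
  ⟨-f.coeff 0, by rw [C_neg, sub_neg_eq_add]; exact hm.eq_X_add_C hd⟩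

theorem eq_quad {f : K[X]} (hm : f.Monic) (hd : f.natDegree = 2) :
    f = X ^ 2 - C (-f.coeff 1) * X + C (f.coeff 0) := by
  conv_lhs => rw [hm.as_sum, hd]
  simp [Finset.sum_range_succ]; ring

theorem split_quad {f : K[X]} (hm : f.Monic) (hd : f.natDegree = 2) {l : K} (hl : f.eval l = 0) :
    ∃ μ, f = (X - C l) * (X - C μ) := by
  obtain ⟨g, hg⟩ := dvd_iff_isRoot.2 hl
  have h1 : g.Monic := (monic_X_sub_C l).of_mul_monic_left (hg ▸ hm)
  have h2 : g.natDegree = 1 := by
    rw [hg, (monic_X_sub_C l).natDegree_mul h1, natDegree_X_sub_C] at hd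
    omega
  obtain ⟨μ, rfl⟩ := eq_X_sub_C h1 h2
  exact ⟨μ, hg⟩

section Blocks
variable {ι : Type} [Fintype ι] {x : End K V} {a : ι → V} {f : ι → K[X]}

theorem Dec.aeval_eq_zero (h : Dec x a f) {P : K[X]} (hP : ∀ i, f i ∣ P) : aeval x P = 0 := by
  refine LinearMap.ker_eq_top.1 (h.2.2.2 _ (fun i => ?_) fun w hw => ?_)
  · obtain ⟨Q, rfl⟩ := hP i
    rw [LinearMap.mem_ker, mul_comm, map_mul, End.mul_apply, h.2.1, map_zero]
  · rw [LinearMap.mem_ker] at hw ⊢
    rw [← intertwine_aeval (f := x) (g := x) x (fun _ => rfl), hw, map_zero]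

theorem Dec.small (h : Dec x a f) (h1 : M1 f) {i₀ : ι} {l : K} (h0 : f i₀ = X - C l) {i : ι}
    (hi : (f i).natDegree ≤ 1) : f i ∣ X - C l := by
  rcases Nat.le_one_iff_eq_zero_or_eq_one.1 hi with hi | hi
  · rw [(h.1 i).natDegree_eq_zero.1 hi]; exact one_dvd _
  · obtain ⟨l', hl⟩ := eq_X_sub_C (h.1 i) hi
    have := h1 i₀ i l h0 hi.ge
    rw [hl] at this ⊢
    simp only [eval_sub, eval_X, eval_C, sub_eq_zero] at this
    rw [this]

end Blocks

theorem upper_of (hG : GrowSt.{u}) (hD : JobDEC.{u}) (hR : JobR1.{u}) (hQM : JobQM.{u})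
    (hQ6 : JobQ6.{u}) (hQ4 : JobQ4.{u}) (hI2 : JobID2.{u}) (hI3 : JobID3.{u}) (hT : T2St.{u})
    (hP : PtSt.{u}) (hE : EvSt.{u}) : Upper.{u} := by
  intro K _ V _ _ _ x h4 h3 hx hn
  have hx0 : LinearMap.det x ≠ 0 := hx ▸ one_ne_zero
  obtain ⟨m, a, f, hd, h1, hc⟩ := hD K V x
  have hs := hd.2.2.1
  -- the generic argument for the non-scalar elements
  have gen : ∀ j, FixAt f j → 2 ≤ rho f → (rho f = 2 → 4 ≤ finrank K V → ∃ i, (f i).natDegree = 1) →
      Nn x ∧ (3 ≤ rho f → In x) := by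
    intro j hj h2 h5
    obtain ⟨k, y, v, hk, hy, hv⟩ := hG K V _ x a f j hx0 hd hj h2
    have hk2 : 2 * k ≤ finrank K V := by
      rcases k with _ | k
      · omega
      · nlinarith
    have hk3 : 3 ≤ rho f → 3 * k ≤ finrank K V + 1 := fun h => by
      rcases k with _ | k
      · omega
      · nlinarith
    refine ⟨?_, fun h => ?_⟩
    · by_cases h6 : 2 * k + 1 ≤ finrank K V
      · exact fun g g1 g2 => all_of_cyc hT h4 h3 hx hn hy hv h6 g2 g1
      · have h7 : rho f = 2 := by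
          by_contra h7
          have := hk3 (by omega)
          omega
        obtain ⟨i, hi⟩ := h5 h7 (by omega)
        obtain ⟨l, hl⟩ := eq_X_sub_C (hd.1 i) hi
        obtain ⟨B, β, q, b1, b2⟩ := hE K V _ x a f i j l k h4 (by omega) (by omega) hx0 hd hl hj h7
        exact nn_of_nice hT h4 h3 hx b1 b2 (by omega)
    · by_cases h6 : finrank K V = 3 ∨ finrank K V = 5
      · exact hP K V x h4 h6 hx hn
      · have := hk3 h
        exact in_of_cyc hT h4 h3 hx hn hy hv (by omega)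
  by_cases hA : ∃ j, 3 ≤ (f j).natDegree
  · obtain ⟨j, hj⟩ := hA
    have r1 : (f j).natDegree - 1 ≤ rho f := sub_le_rho (d := fun i => (f i).natDegree) j
    have r2 : rho f = 2 → (f j).natDegree = 3 ∧ ∀ i, i ≠ j → (f i).natDegree ≤ 1 := fun h =>
      ⟨by omega, fun i hi => by
        have : _ ≤ rho f := two_le_rho (d := fun i => (f i).natDegree) hi
        omega⟩
    obtain ⟨g1, g2⟩ := gen j (Or.inl hj) (by omega) fun h h' =>
      exists_one_of_three (d := fun i => (f i).natDegree) (r2 h).1 (r2 h).2 (hs ▸ h')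
    refine ⟨g1, ?_⟩
    by_cases h6 : 3 ≤ rho f
    · exact g2 h6
    by_cases h7 : finrank K V = 3
    · exact hP K V x h4 (Or.inl h7) hx hn
    · exact hI3 K V _ x a f j (by omega) hx0 hd h1 (r2 (by omega)).1 (r2 (by omega)).2
  obtain ⟨hc1, hc2⟩ := hc.resolve_left hA
  by_cases hB : ∃ i, (f i).natDegree = 1
  · obtain ⟨i₀, hi₀⟩ := hB
    obtain ⟨l, hl⟩ := eq_X_sub_C (hd.1 i₀) hi₀
    obtain ⟨j, hj⟩ : ∃ j, (f j).natDegree = 2 := by
      by_contra hh
      push Not at hh
      have := hd.aeval_eq_zero (P := X - C l) fun i =>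
        hd.small h1 hl (by have := hc1 i; have := hh i; omega)
      rw [map_sub, aeval_X, aeval_C, sub_eq_zero, Algebra.algebraMap_eq_smul_one] at this
      exact hn l this
    have hjl := h1 i₀ j l hl (by omega)
    obtain ⟨μ, hμ⟩ := split_quad (hd.1 j) hj hjl
    have hz := hd.aeval_eq_zero (P := (X - C l) * (X - C μ)) fun i => by
      by_cases hi : (f i).natDegree = 2
      · rw [hc2 i j hi hj, hμ]
      · exact (hd.small h1 hl (by have := hc1 i; omega)).mul_right _
    simp only [map_mul, map_sub, aeval_X, aeval_C, Algebra.algebraMap_eq_smul_one] at hz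
    obtain ⟨ε, hε, -⟩ := hd.ss hl
    refine ⟨?_, hI2 K V x _ ε l μ h4 (by omega) hx0 hε hz⟩
    by_cases h2 : 2 ≤ rho f
    · exact (gen j (Or.inr ⟨hj, l, hjl⟩) h2 fun _ _ => ⟨i₀, hi₀⟩).1
    refine hR K V x l (x (a j) - l • a j) h4 h3 hx hn fun v => ?_
    have hcomm : ∀ w, x (x w) - l • x w = x (x w - l • w) := fun w => by rw [map_sub, map_smul]
    have hμ' : x (x (a j) - l • a j) = μ • (x (a j) - l • a j) := by
      have := LinearMap.congr_fun hz (a j)
      simp only [End.mul_apply, LinearMap.sub_apply, LinearMap.smul_apply, End.one_apply, map_sub,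
        map_smul, LinearMap.zero_apply] at this
      rw [map_sub, map_smul]
      linear_combination (norm := module) this
    have := hd.2.2.2 ((K ∙ (x (a j) - l • a j)).comap (x - l • 1)) (fun i => ?_) fun w hw => ?_
    · exact (this ▸ Submodule.mem_top : v ∈ (K ∙ (x (a j) - l • a j)).comap (x - l • 1))
    · by_cases hi : i = j
      · subst hi; exact Submodule.mem_span_singleton_self _
      · have : _ ≤ rho f := two_le_rho (d := fun i => (f i).natDegree) hi
        obtain ⟨Q, hQ⟩ := hd.small h1 hl (i := i) (by omega)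
        have e : aeval x (X - C l) (a i) = 0 := by
          rw [hQ, mul_comm, map_mul, End.mul_apply, hd.2.1, map_zero]
        rw [map_sub, aeval_X, aeval_C, Algebra.algebraMap_eq_smul_one] at e
        rw [Submodule.mem_comap, e]; exact Submodule.zero_mem _
    · obtain ⟨s, hs⟩ := Submodule.mem_span_singleton.1 hw
      change x (x w) - l • x w ∈ K ∙ (x (a j) - l • a j)
      have hs' : x w - l • w = s • (x (a j) - l • a j) := hs.symm
      rw [hcomm, hs', map_smul, hμ']
      exact Submodule.smul_mem _ _ (Submodule.smul_mem _ _ (Submodule.mem_span_singleton_self _))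
  push Not at hB
  obtain ⟨j, hj⟩ : ∃ j, (f j).natDegree = 2 := by
    by_contra hh
    push Not at hh
    rw [Finset.sum_eq_zero fun i _ => by have := hc1 i; have := hh i; have := hB i; omega] at hs
    omega
  obtain ⟨k, hk⟩ := hQM K V _ x a f (-(f j).coeff 1) ((f j).coeff 0) hd fun i => by
    by_cases hi : (f i).natDegree = 2
    · exact Or.inl ((hc2 i j hi hj).trans (eq_quad (hd.1 j) hj))
    · exact Or.inr ((hd.1 i).natDegree_eq_zero.1 (by have := hc1 i; have := hB i; omega))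
  have hk2 : finrank K V = 2 * k := by rw [hk.finrank_eq]; simp [two_mul]
  generalize -(f j).coeff 1 = τ at hk
  generalize (f j).coeff 0 = d at hk
  have hd0 : d ≠ 0 := by
    rintro rfl
    obtain ⟨y, y1, -⟩ := exists_inv (a := qm (Fin k → K) τ 0) (hk.det_eq ▸ hx0)
    have e1 : qm (Fin k → K) τ 0 (-(τ • fun _ => 1), fun _ => 1) = 0 := by simp
    have e2 := LinearMap.congr_fun y1 (-(τ • fun _ => 1), fun _ => 1)
    rw [End.mul_apply, e1, map_zero] at e2
    have e3 := congrFun (congrArg Prod.snd e2) ⟨0, by omega⟩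
    simp at e3
  by_cases h6 : k = 2
  · subst h6
    obtain ⟨⟨y, β, q, y1, y2⟩, y3⟩ := hQ4 K τ d h4 hd0
    obtain ⟨y', y4, y5⟩ := y1.sim hk
    have y6 := y3.sim_smul hk
    refine ⟨nn_of_nice hT h4 h3 hx y4 (y2.sim y5) hk2, d * d, ?_⟩
    have := y6.mul y6
    rwa [smul_mul_smul_comm, mul_one, show 2 + 2 = finrank K V by omega] at this
  · obtain ⟨y, v, y1, y2⟩ := hQ6 K k τ d h4 hd0
    obtain ⟨y', y4, y5⟩ := y1.sim hk
    obtain ⟨v', hv'⟩ := y2.sim y5
    exact ⟨fun g g1 g2 => all_of_cyc hT h4 h3 hx hn y4 hv' (by omega) g2 g1,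
      in_of_cyc hT h4 h3 hx hn y4 hv' (by omega)⟩

end H68.CN
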