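/- Covering number of `PSL(n,q)` (row S2483): cyclic maps from one flag to another. -/
import Cfsg.Agent.H68.CNT2

set_option autoImplicit false
set_option linter.unusedSectionVars false

namespace H68.CN
open Polynomial Module H53 H56.RegU

universe u
variable {K : Type u} [Field K] {V : Type u} [AddCommGroup V] [Module K V] [FiniteDimensional K V]

/-- The conclusion of the cell lemma. -/
def CPc (m k : ℕ → V) (η : Dual K V) (d : ℕ) (b : End K V) (γ : ℕ → K) : Prop :=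
  (∀ j, j < d → γ j ≠ 0 ∧ b (m j) - γ j • k j ∈ Fl (K := K) k j) ∧ Cy b (m 0) ∧
    ∃ v, b v = v ∧ η v ≠ 0

theorem exists_kill {m : ℕ → V} {d : ℕ} {v : V} (hv : v ∉ Fl (K := K) m d) :
    ∃ φ : Dual K V, φ v = 1 ∧ ∀ w ∈ Fl (K := K) m d, φ w = 0 := by
  obtain ⟨φ, h1, h2⟩ := Submodule.exists_dual_map_eq_bot_of_notMem hv inferInstance
  refine ⟨(φ v)⁻¹ • φ, by simp [h1], fun w hw => ?_⟩
  have : φ w = 0 := by rw [← Submodule.mem_bot K, ← h2]; exact ⟨w, hw, rfl⟩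
  simp [this]

theorem ker_eq_Fl {m : ℕ → V} {d : ℕ} (hm : Fl (K := K) m (d + 1) = ⊤) {φ : Dual K V} {v : V}
    (h1 : φ v = 1) (h2 : ∀ w ∈ Fl (K := K) m d, φ w = 0) :
    φ (m d) ≠ 0 ∧ ∀ w, φ w = 0 → w ∈ Fl (K := K) m d := by
  have key : ∀ w, ∃ y ∈ Fl (K := K) m d, ∃ s : K, y + s • m d = w := fun w => by
    have : w ∈ Fl (K := K) m d ⊔ K ∙ m d := by rw [← Fl_succ, hm]; trivial
    obtain ⟨y, hy, z, hz, e⟩ := Submodule.mem_sup.1 this
    obtain ⟨s, rfl⟩ := Submodule.mem_span_singleton.1 hz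
    exact ⟨y, hy, s, e⟩
  have h3 : φ (m d) ≠ 0 := fun h => by
    obtain ⟨y, hy, s, rfl⟩ := key v
    simp [h2 y hy, h] at h1
  refine ⟨h3, fun w hw => ?_⟩
  obtain ⟨y, hy, s, rfl⟩ := key w
  have : s = 0 := by simpa [h2 y hy, h3] using hw
  simpa [this] using hy

section Step
variable {m k : ℕ → V} {d : ℕ} {φM φK : Dual K V} {v : V}

theorem fl_pr_top (hm : Fl (K := K) m (d + 1) = ⊤) (hM : φM v = 1)
    (hM' : ∀ w ∈ Fl (K := K) m d, φM w = 0) (hK : φK v = 1) :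
    Fl (K := K) (fun j => pr hK (m j)) d = ⊤ := by
  rw [← map_Fl (pr hK) m d, eq_top_iff]
  intro w _
  refine ⟨w - φM w • v, (ker_eq_Fl hm hM hM').2 _ (by simp [hM]), ?_⟩
  rw [map_sub, map_smul, pr_self, pr_coe]; simp

theorem coe_mem_Fl (hK : φK v = 1) (hK' : ∀ w ∈ Fl (K := K) k d, φK w = 0) {j : ℕ} (hj : j ≤ d)
    {w : LinearMap.ker φK} (hw : w ∈ Fl (K := K) (fun j => pr hK (k j)) j) :
    (w : V) ∈ Fl (K := K) k j := by
  refine Fl_le (U := (Fl k j).comap (LinearMap.ker φK).subtype) (fun i hi => ?_) hw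
  rw [Submodule.mem_comap, Submodule.subtype_apply, coe_pr, hK' _ (mem_Fl k (by omega))]
  simpa using mem_Fl k hi

theorem cp_step (hm : Fl (K := K) m (d + 1) = ⊤) (hk : Fl (K := K) k (d + 1) = ⊤) (hM : φM v = 1)
    (hM' : ∀ w ∈ Fl (K := K) m d, φM w = 0) (hK : φK v = 1)
    (hK' : ∀ w ∈ Fl (K := K) k d, φK w = 0) {η : Dual K V} (hη : η v ≠ 0)
    {b' : End K (LinearMap.ker φK)} {γ : ℕ → K}
    (h : CPc (fun j => pr hK (m j)) (fun j => pr hK (k j)) (φM.comp (LinearMap.ker φK).subtype)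
      d b' γ) :
    ∃ b, CPc m k η (d + 1) b (Function.update γ d (φM (m d) / φK (k d))) := by
  obtain ⟨h1, h2, u, h3, h4⟩ := h
  let b : End K V := (LinearMap.ker φK).subtype ∘ₗ b' ∘ₗ pr hK + φM.smulRight v
  have hb : ∀ w, b w = (b' (pr hK w) : V) + φM w • v := fun w => rfl
  obtain ⟨m1, -⟩ := ker_eq_Fl hm hM hM'
  obtain ⟨k1, k2⟩ := ker_eq_Fl hk hK hK'
  refine ⟨b, fun j hj => ?_, fun U hU hi => ?_, v, by rw [hb, pr_self, hM]; simp, hη⟩
  · rcases (Nat.lt_succ_iff.1 hj).lt_or_eq with hj | rfl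
    · rw [Function.update_of_ne hj.ne]
      refine ⟨(h1 j hj).1, ?_⟩
      have := coe_mem_Fl hK hK' hj.le (h1 j hj).2
      rw [Submodule.coe_sub, Submodule.coe_smul, coe_pr hK (k j), hK' _ (mem_Fl k hj)] at this
      rw [hb, hM' _ (mem_Fl m hj)]
      simpa using this
    · rw [Function.update_self]
      refine ⟨div_ne_zero m1 k1, k2 _ ?_⟩
      have := (b' (pr hK (m j))).2
      rw [LinearMap.mem_ker] at this
      rw [hb, map_sub, map_add, this, map_smul, map_smul, hK, smul_eq_mul, smul_eq_mul,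
        div_mul_cancel₀ _ k1]
      ring
  · have e1 : ∀ w, pr hK (b w) = b' (pr hK w) := fun w => by
      rw [hb, map_add, map_smul, pr_self, pr_coe]; simp
    have e2 := h2 (U.map (pr hK)) ⟨_, hU, rfl⟩ (by
      rintro _ ⟨w, hw, rfl⟩
      exact ⟨b w, hi w hw, e1 w⟩)
    have e3 : ∀ y : LinearMap.ker φK, ∃ w ∈ U, pr hK w = y := fun y =>
      (e2 ▸ Submodule.mem_top : y ∈ U.map (pr hK))
    obtain ⟨w, hw, e4⟩ := e3 u
    have e5 : (u : V) = w - φK w • v := by rw [← e4, coe_pr]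
    have hv : v ∈ U := by
      have e6 := U.sub_mem (hi w hw) hw
      have e7 : b w - w = φM u • v := by
        rw [hb, e4, h3, e5, map_sub, map_smul, hM]; module
      rw [e7] at e6
      exact (U.smul_mem_iff h4).1 e6
    refine eq_top_iff.2 fun y _ => ?_
    obtain ⟨w', hw', e6⟩ := e3 (pr hK y)
    have e7 := congrArg Subtype.val e6
    rw [coe_pr, coe_pr] at e7
    have e8 : y = w' - φK w' • v + φK y • v := by rw [e7]; abel
    rw [e8]
    exact U.add_mem (U.sub_mem hw' (U.smul_mem _ hv)) (U.smul_mem _ hv)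

theorem eta_ne (hd : 0 < d) (hk : Fl (K := K) k (d + 1) = ⊤) (h0 : m 0 ∉ Fl (K := K) k d)
    (hM : φM v = 1) (hM' : ∀ w ∈ Fl (K := K) m d, φM w = 0) (hK : φK v = 1)
    (hK' : ∀ w ∈ Fl (K := K) k d, φK w = 0) :
    (φM.comp (LinearMap.ker φK).subtype) (pr hK (m 0)) ≠ 0 := by
  rw [LinearMap.comp_apply, Submodule.subtype_apply, coe_pr, map_sub, map_smul, hM,
    hM' _ (mem_Fl m hd)]
  simpa using fun h => h0 ((ker_eq_Fl hk hK hK').2 _ h)

end Step

theorem cp_one {m k : ℕ → V} {η : Dual K V} (hm : Fl (K := K) m 1 = ⊤) (hk : Fl (K := K) k 1 = ⊤)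
    (hη : η (m 0) ≠ 0) : ∃ γ, CPc m k η 1 1 γ := by
  have h1 : m 0 ∈ K ∙ k 0 := by
    have : m 0 ∈ Fl (K := K) k 1 := hk ▸ Submodule.mem_top
    simpa [Fl_succ] using this
  obtain ⟨s, hs⟩ := Submodule.mem_span_singleton.1 h1
  refine ⟨fun _ => s, fun j hj => ⟨?_, ?_⟩, fun U hU _ => ?_, m 0, rfl, hη⟩
  · rintro rfl
    exact hη (by rw [← hs]; simp)
  · rw [show j = 0 by omega, hs]; simp
  · exact eq_top_iff.2 (hm ▸ Fl_le fun i hi => by rwa [show i = 0 by omega])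

theorem cp_two {m k : ℕ → V} {η : Dual K V} (hd : finrank K V = 2) (hm : Fl (K := K) m 2 = ⊤)
    (hk : Fl (K := K) k 2 = ⊤) (h0 : m 0 ∉ Fl (K := K) k 1) (hη : η ≠ 0) :
    ∃ D bad : K, D ≠ 0 ∧ ∀ ρ : K, ρ ≠ 0 → ρ ≠ bad → ∃ b γ, CPc m k η 2 b γ ∧
      ∏ j ∈ Finset.range 2, γ j ^ j = D * ρ := by
  obtain ⟨φK, p1, p2⟩ := exists_kill h0
  have hk0 : k 0 ∉ Fl (K := K) m 1 := fun h => by
    have h1 : k 0 ≠ 0 := fun e => by
      have : Fl (K := K) k 2 ≤ Fl (fun _ => k 1) 1 := Fl_le fun i hi => by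
        rcases (by omega : i = 0 ∨ i = 1) with rfl | rfl
        · rw [e]; exact Submodule.zero_mem _
        · exact mem_Fl (fun _ => k 1) one_pos
      exact Fl_ne_top (K := K) (m := fun _ => k 1) (j := 1) (by omega) (eq_top_iff.2 (hk ▸ this))
    rw [Fl_succ, Fl_zero, bot_sup_eq] at h
    obtain ⟨s, hs⟩ := Submodule.mem_span_singleton.1 h
    have h2 := p2 _ (mem_Fl k one_pos)
    rw [← hs, map_smul, p1, smul_eq_mul, mul_one] at h2
    exact h1 (by rw [← hs, h2, zero_smul])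
  obtain ⟨φM, q1, q2⟩ := exists_kill hk0
  have p3 := p2 _ (mem_Fl k one_pos)
  have q3 := q2 _ (mem_Fl m one_pos)
  obtain ⟨k1, k2⟩ := ker_eq_Fl hk p1 p2
  refine ⟨φM (m 1) / φK (k 1), -η (k 0) / η (m 0), div_ne_zero (ker_eq_Fl hm q1 q2).1 k1,
    fun ρ hρ hb => ?_⟩
  have hM : φM (k 0 + ρ • m 0) = 1 := by simp [q1, q3]
  have hK : (ρ⁻¹ • φK) (k 0 + ρ • m 0) = 1 := by simp [p1, p3, hρ]
  have hK' : ∀ w ∈ Fl (K := K) k 1, (ρ⁻¹ • φK) w = 0 := fun w hw => by simp [p2 w hw]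
  have hv : η (k 0 + ρ • m 0) ≠ 0 := fun h => by
    rw [map_add, map_smul, smul_eq_mul] at h
    by_cases h1 : η (m 0) = 0
    · rw [h1, mul_zero, add_zero] at h
      refine hη (LinearMap.ext fun w => ?_)
      have h2 := k2 (w - φK w • m 0) (by simp [p1])
      have h3 := Fl_le (U := LinearMap.ker η) (fun i hi => by rwa [show i = 0 by omega]) h2
      simpa [h1] using h3
    · exact hb (by field_simp; linear_combination h)
  obtain ⟨γ, hγ⟩ := cp_one (fl_pr_top hm hM q2 hK) (fl_pr_top hk hK hK' hK)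
    (eta_ne one_pos hk h0 hM q2 hK hK')
  obtain ⟨b, hb⟩ := cp_step hm hk hM q2 hK hK' hv hγ
  refine ⟨b, _, hb, ?_⟩
  simp [Finset.prod_range_succ]
  field_simp

theorem jobCP : JobCP.{u} := by
  intro K _ h4 d hd
  induction d, hd using Nat.le_induction with
  | base =>
    intro V _ _ _ m k η h1 h2 h3 h5 h6
    obtain ⟨D, bad, hD, h⟩ := cp_two h1 h2 h3 h5 h6
    refine ⟨D, bad, hD, fun ρ r1 r2 => ?_⟩
    obtain ⟨b, γ, ⟨c1, c2, c3⟩, c4⟩ := h ρ r1 r2
    exact ⟨b, γ, c1, c2, c3, c4⟩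
  | succ d hd ih =>
    intro V _ _ _ m k η h1 h2 h3 h5 h6
    rw [Nat.add_sub_cancel] at h5
    have hp : Fl (K := K) k (d - 1) ⊔ K ∙ m 0 ≠ ⊤ := fun e => by
      have e1 := Submodule.finrank_sup_span_singleton
        (fun h => h5 (Fl_mono k (Nat.sub_le d 1) h) : m 0 ∉ Fl (K := K) k (d - 1))
      have e2 := finrank_Fl_le (K := K) k (d - 1)
      rw [e, finrank_top] at e1
      omega
    obtain ⟨v, v1, v2, v3, v4⟩ := avoid4 h4 (Fl_ne_top (m := m) (j := d) (by omega))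
      (Fl_ne_top (m := k) (j := d) (by omega)) (fun e => h6 (LinearMap.ker_eq_top.1 e)) hp
    obtain ⟨φM, hM, hM'⟩ := exists_kill v1
    obtain ⟨φK, hK, hK'⟩ := exists_kill v2
    have he := eta_ne (by omega) h3 h5 hM hM' hK hK'
    obtain ⟨D, bad, hD, h⟩ := ih (LinearMap.ker φK) (fun j => pr hK (m j)) (fun j => pr hK (k j))
      (φM.comp (LinearMap.ker φK).subtype) (by have := finrank_ker_add hK; omega)
      (fl_pr_top h2 hM hM' hK) (fl_pr_top h3 hK hK' hK) (fun h => by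
        have e1 := coe_mem_Fl hK hK' (Nat.sub_le d 1) h
        rw [coe_pr] at e1
        have e2 : φK (m 0) ≠ 0 := fun h => h5 ((ker_eq_Fl h3 hK hK').2 _ h)
        refine v4 ((Submodule.smul_mem_iff _ e2).1 ?_)
        have e3 := Submodule.sub_mem _ (Submodule.mem_sup_right (S := Fl (K := K) k (d - 1))
          (Submodule.mem_span_singleton_self (m 0))) (Submodule.mem_sup_left e1)
        rwa [sub_sub_cancel] at e3)
      (fun e => he (by rw [e]; rfl))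
    have hg := div_ne_zero (ker_eq_Fl h2 hM hM').1 (ker_eq_Fl h3 hK hK').1
    refine ⟨D * (φM (m d) / φK (k d)) ^ d, bad, mul_ne_zero hD (pow_ne_zero _ hg),
      fun ρ r1 r2 => ?_⟩
    obtain ⟨b', γ, c1, c2, c3, c4⟩ := h ρ r1 r2
    obtain ⟨b, e1, e2, e3⟩ := cp_step h2 h3 hM hM' hK hK' v3 ⟨c1, c2, c3⟩
    refine ⟨b, _, e1, e2, e3, ?_⟩
    rw [Finset.prod_range_succ, Function.update_self, Finset.prod_congr rfl fun j hj => by
      rw [Function.update_of_ne (Finset.mem_range.1 hj).ne], c4]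
    ring

theorem t2St : T2St.{u} := jobT2 jobCP

end H68.CN
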