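/- Covering number of `PSL(n,q)` (row S2483): bases adapted to a permutation. -/
import Cfsg.Agent.H68.CNAsm

set_option autoImplicit false
set_option linter.unusedSectionVars false

namespace H68.CN
open Polynomial Module H53

universe u
variable {K : Type u} [Field K] {V : Type u} [AddCommGroup V] [Module K V] [FiniteDimensional K V]

theorem Lb.lab_apply {Ω ι : Type} {α : Equiv.Perm Ω} {S : Set Ω} {d : ι → ℕ} {lab : Ω → Option ι}
    (h : Lb α S d lab) (w : Ω) : lab (α w) = lab w := by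
  rcases e : lab w with _ | i
  · rw [h.1 w e, e]
  · exact (h.2.2.1 i).1.mapsTo e

/-- Positions along the cycles, starting after the largest point. -/
def Pos {n : ℕ} {ι : Type} (α : Equiv.Perm (Fin n)) (d : ι → ℕ) (lab : Fin n → Option ι)
    (pos : Fin n → ℕ) : Prop :=
  (∀ w i, lab w = some i → pos w < d i) ∧ (∀ i s, s < d i → ∃ w, lab w = some i ∧ pos w = s) ∧
    ∀ w i, lab w = some i → pos (α w) = pos w + 1 ∨
      ((∀ v, lab v = some i → v ≤ w) ∧ pos w + 1 = d i)

theorem exists_pos_cycle {n : ℕ} {α : Equiv.Perm (Fin n)} {T : Finset (Fin n)}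
    (h : α.IsCycleOn T) : ∃ pos : Fin n → ℕ, (∀ w ∈ T, pos w < T.card) ∧
      (∀ s, s < T.card → ∃ w ∈ T, pos w = s) ∧
      ∀ w ∈ T, pos (α w) = pos w + 1 ∨ ((∀ v ∈ T, v ≤ w) ∧ pos w + 1 = T.card) := by
  rcases T.eq_empty_or_nonempty with rfl | hT
  · exact ⟨fun _ => 0, by simp, by simp, by simp⟩
  have ht := T.max'_mem hT
  have ht' : α (T.max' hT) ∈ T := h.1.mapsTo ht
  have ex : ∀ w, ∃ s, w ∈ T → s < T.card ∧ (α ^ s) (α (T.max' hT)) = w := fun w => by
    by_cases hw : w ∈ T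
    · obtain ⟨s, h1, h2⟩ := h.exists_pow_eq ht' hw
      exact ⟨s, fun _ => ⟨h1, h2⟩⟩
    · exact ⟨0, fun h => (hw h).elim⟩
  choose pos hpos using ex
  have uq : ∀ s s', s < T.card → s' < T.card →
      (α ^ s) (α (T.max' hT)) = (α ^ s') (α (T.max' hT)) → s = s' := fun s s' h1 h2 h3 =>
    ((h.pow_apply_eq_pow_apply ht').1 h3).eq_of_lt_of_lt h1 h2
  refine ⟨pos, fun w hw => (hpos w hw).1, fun s hs => ?_, fun w hw => ?_⟩
  · have : (α ^ s) (α (T.max' hT)) ∈ T := by
      have := (h.1.perm_pow s).mapsTo ht'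
      exact this
    exact ⟨_, this, uq _ _ (hpos _ this).1 hs (hpos _ this).2⟩
  · have hw' : α w ∈ T := h.1.mapsTo hw
    have e : (α ^ (pos w + 1)) (α (T.max' hT)) = α w := by
      rw [pow_succ', Equiv.Perm.mul_apply, (hpos w hw).2]
    rcases (Nat.succ_le_of_lt (hpos w hw).1).lt_or_eq with h1 | h1
    · exact Or.inl (uq _ _ (hpos _ hw').1 h1 ((hpos _ hw').2.trans e.symm))
    · refine Or.inr ⟨fun v hv => ?_, h1⟩
      rw [show pos w + 1 = T.card from h1, h.pow_card_apply ht'] at e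
      rw [← α.injective e]
      exact T.le_max' v hv

theorem Lb.exists_pos {n : ℕ} {ι : Type} {α : Equiv.Perm (Fin n)} {d : ι → ℕ}
    {lab : Fin n → Option ι} (h : Lb α Set.univ d lab) : ∃ pos, Pos α d lab pos := by
  classical
  have key : ∀ i, ∃ pos : Fin n → ℕ, (∀ w, lab w = some i → pos w < d i) ∧
      (∀ s, s < d i → ∃ w, lab w = some i ∧ pos w = s) ∧ ∀ w, lab w = some i →
        pos (α w) = pos w + 1 ∨ ((∀ v, lab v = some i → v ≤ w) ∧ pos w + 1 = d i) := fun i => by
    have e : ((Finset.univ.filter fun w => lab w = some i : Finset (Fin n)) : Set (Fin n)) =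
      {w | lab w = some i} := by simp
    have e2 : (Finset.univ.filter fun w => lab w = some i).card = d i := by
      rw [← h.2.2.2 i, ← e, Set.ncard_coe_finset]
    obtain ⟨pos, h1⟩ := exists_pos_cycle (e ▸ h.2.2.1 i)
    rw [e2] at h1
    exact ⟨pos, by simpa using h1⟩
  choose pos hp using key
  refine ⟨fun w => (lab w).elim 0 fun i => pos i w, fun w i hw => ?_, fun i s hs => ?_,
    fun w i hw => ?_⟩
  · simpa [hw] using (hp i).1 w hw
  · obtain ⟨w, h1, h2⟩ := (hp i).2.1 s hs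
    exact ⟨w, h1, by simpa [h1] using h2⟩
  · simpa [h.lab_apply, hw] using (hp i).2.2 w hw

section Gen
variable {n : ℕ} {ι : Type} {α : Equiv.Perm (Fin n)} {d : ι → ℕ} {lab : Fin n → Option ι}
  {pos : Fin n → ℕ} {x : End K V} {b : ι → V} {E : Fin n → V}

theorem blk_le_range (hp : Pos α d lab pos) (hE : ∀ w i, lab w = some i → E w = (x ^ pos w) (b i))
    (i : ι) : blk x (b i) (d i) ≤ Submodule.span K (Set.range E) := by
  refine Submodule.span_mono ?_
  rintro _ ⟨s, rfl⟩
  obtain ⟨w, h1, h2⟩ := hp.2.1 i s s.2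
  exact ⟨w, by rw [hE w i h1, h2]⟩

theorem blk_le_cell (h : Lb α Set.univ d lab) (hp : Pos α d lab pos)
    (hE : ∀ w i, lab w = some i → E w = (x ^ pos w) (b i)) {i : ι} {w : Fin n}
    (hw : ∀ v, lab v = some i → v ≤ w) :
    blk x (b i) (d i) ≤ Submodule.span K ((fun v => E (α v)) '' Set.Iic w) := by
  refine Submodule.span_mono ?_
  rintro _ ⟨s, rfl⟩
  obtain ⟨v, h1, h2⟩ := hp.2.1 i s s.2
  refine ⟨α.symm v, hw _ ?_, by simp only [Equiv.apply_symm_apply]; rw [hE v i h1, h2]⟩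
  rw [← h.lab_apply, Equiv.apply_symm_apply, h1]

theorem cell_gen (hn : finrank K V = n) (h : Lb α Set.univ d lab) (hp : Pos α d lab pos)
    (hE : ∀ w i, lab w = some i → E w = (x ^ pos w) (b i))
    (ht : Submodule.span K (Set.range E) = ⊤)
    (h1 : ∀ w i, lab w = some i → (∀ v, lab v = some i → v ≤ w) →
      (x ^ d i) (b i) ∈ Submodule.span K ((fun v => E (α v)) '' Set.Iic w))
    (h2 : ∀ w, lab w = none → x (E w) ∈ Submodule.span K ((fun v => E (α v)) '' Set.Iic w)) :
    ∃ B : Basis (Fin n) K V, Cl x α B := by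
  refine ⟨basisOfTopLeSpanOfCardEqFinrank E ht.ge (by simp [hn]), fun w => ?_⟩
  rw [coe_basisOfTopLeSpanOfCardEqFinrank]
  rcases e : lab w with _ | i
  · exact h2 w e
  have e1 : x (E w) = (x ^ (pos w + 1)) (b i) := by rw [hE w i e, pow_succ', End.mul_apply]
  rcases hp.2.2 w i e with h3 | ⟨h3, h4⟩
  · refine Submodule.subset_span ⟨w, le_refl w, ?_⟩
    rw [e1, ← h3]; exact hE _ i ((h.lab_apply w).trans e)
  · rw [e1, h4]; exact h1 w i e h3

end Gen

theorem pow_mem_blk' {x : End K V} {v : V} {f : K[X]} (hm : f.Monic) (hf : aeval x f v = 0)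
    (s : ℕ) : (x ^ s) v ∈ blk x v f.natDegree := pow_mem (blk_inv hm hf) s (mem_blk hm hf)

theorem jobCELL0 : JobCELL0.{u} := by
  intro K _ V _ _ _ ι _ x a f n α hn hd ⟨lab, h⟩
  obtain ⟨pos, hp⟩ := h.exists_pos
  let E : Fin n → V := fun w => (lab w).elim 0 fun i => (x ^ pos w) (a i)
  have hE : ∀ w i, lab w = some i → E w = (x ^ pos w) (a i) := fun w i e => by simp [E, e]
  refine cell_gen hn h hp hE ?_ (fun w i _ hw => blk_le_cell h hp hE hw
    (pow_mem_blk' (hd.1 i) (hd.2.1 i) _)) fun w e => by simp [E, e]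
  rw [eq_top_iff, ← hd.span, Submodule.span_le]
  rintro _ ⟨⟨i, s⟩, rfl⟩
  exact blk_le_range hp hE i (pow_mem_blk x _ s.2)

theorem exists_aeval_of_mem_blk {x : End K V} {v w : V} {d : ℕ} (h : w ∈ blk x v d) :
    ∃ Q : K[X], Q.degree < d ∧ aeval x Q v = w := by
  refine Submodule.span_induction (p := fun w _ => ∃ Q : K[X], Q.degree < d ∧ aeval x Q v = w)
    ?_ ⟨0, by simp, by simp⟩ ?_ ?_ h
  · rintro _ ⟨s, rfl⟩
    exact ⟨X ^ (s : ℕ), by rw [degree_X_pow]; exact_mod_cast s.2, by simp⟩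
  · rintro _ _ _ _ ⟨P, h1, rfl⟩ ⟨Q, h2, rfl⟩
    exact ⟨P + Q, (degree_add_le P Q).trans_lt (max_lt h1 h2), by simp⟩
  · rintro c _ _ ⟨P, h1, rfl⟩
    exact ⟨c • P, (degree_smul_le c P).trans_lt h1, by simp⟩

theorem blk_le_shift {x x' : End K V} (h1 : x' * x = 1) {v : V} {f : K[X]} (hm : f.Monic)
    (hf : aeval x f v = 0) {l s : ℕ} (hl : f.natDegree = l + 1) (hs : s ≤ l) {γ : K}
    (hγ : γ ^ s ≠ 0) :
    blk x v f.natDegree ≤ (K ∙ v) ⊔ blk x ((x' ^ s) (x v - γ • v)) l := by
  intro w hw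
  have h2 : x * x' = 1 := mul_eq_one_comm.1 h1
  have hi : x' ^ s * x ^ s = 1 := by
    rw [← Commute.mul_pow (show Commute x' x from h1.trans h2.symm), h1, one_pow]
  obtain ⟨Q, q1, q2⟩ := exists_aeval_of_mem_blk (pow_mem (blk_inv hm hf) s hw)
  obtain ⟨R, hR⟩ : (X - C γ) ∣ Q - C (Q.eval γ / γ ^ s) * X ^ s :=
    dvd_iff_isRoot.2 (by simp [div_mul_cancel₀ _ hγ])
  have hd : R.degree < l := by
    by_cases h0 : R = 0
    · simp [h0]
    have e1 : (Q - C (Q.eval γ / γ ^ s) * X ^ s).degree < ((l + 1 : ℕ) : WithBot ℕ) :=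
      (degree_sub_le _ _).trans_lt (max_lt (hl ▸ q1)
        ((degree_C_mul_X_pow_le _ _).trans_lt (by exact_mod_cast Nat.lt_succ_of_le hs)))
    rw [hR, degree_mul, degree_X_sub_C, degree_eq_natDegree h0] at e1
    rw [degree_eq_natDegree h0]
    have e2 : 1 + R.natDegree < l + 1 := by exact_mod_cast e1
    exact_mod_cast (by omega : R.natDegree < l)
  have e1 := congrArg (fun P => (x' ^ s) (aeval x P v)) hR
  have hi' : ∀ y, (x' ^ s) ((x ^ s) y) = y := fun y => by rw [← End.mul_apply, hi]; rfl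
  have hc : ∀ y, (x' ^ s) (x y) = x ((x' ^ s) y) := fun y =>
    LinearMap.congr_fun (((show Commute x' x from h1.trans h2.symm).pow_left s).eq) y
  simp only [map_sub, q2, mul_comm (X - C γ), map_mul, End.mul_apply, LinearMap.sub_apply, aeval_C,
    map_pow, aeval_X, Module.algebraMap_end_apply, map_smul, hi'] at e1
  have e2 := aeval_mem_blk_of_lt x ((x' ^ s) (x v - γ • v)) hd
  rw [← intertwine_aeval (f := x) (g := x) (x' ^ s) hc] at e2
  simp only [map_sub, map_smul] at e2 ⊢
  rw [← e1] at e2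
  have e3 := Submodule.add_mem_sup (Submodule.smul_mem _ (Q.eval γ / γ ^ s)
    (Submodule.mem_span_singleton_self (R := K) v)) e2
  rwa [add_sub_cancel] at e3

theorem jobCELL1 : JobCELL1.{u} := by
  intro K _ V _ _ _ ι _ _ x a f n α j hn hx hd hF ⟨lab, p, r, h, hp0, hr, hrp, ht⟩
  obtain ⟨pos, hp⟩ := h.exists_pos
  obtain ⟨x', h1, h2⟩ := exists_inv hx
  obtain ⟨l, hl⟩ : ∃ l, (f j).natDegree = l + 1 :=
    ⟨(f j).natDegree - 1, by rcases hF with h | h <;> omega⟩
  have hr' : lab (α r) = some j := (h.lab_apply r).trans hr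
  have hs : pos (α r) < l := by simpa [hl] using hp.1 _ _ hr'
  obtain ⟨γ, hγ, hγ'⟩ : ∃ γ : K, γ ^ pos (α r) ≠ 0 ∧
      (3 ≤ (f j).natDegree ∨ (l = 1 ∧ (f j).eval γ = 0)) := by
    rcases hF with h | ⟨h, γ, hγ⟩
    · exact ⟨1, by simp, Or.inl h⟩
    · exact ⟨γ, by rw [show pos (α r) = 0 by omega]; simp, Or.inr ⟨by omega, hγ⟩⟩
  let b : ι → V := Function.update a j ((x' ^ pos (α r)) (x (a j) - γ • a j))
  let E : Fin n → V := fun w => (lab w).elim (if w = p then a j else 0) fun i => (x ^ pos w) (b i)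
  have hE : ∀ w i, lab w = some i → E w = (x ^ pos w) (b i) := fun w i e => by simp [E, e]
  have hEp : E p = a j := by simp [E, hp0]
  have hbj : b j = (x' ^ pos (α r)) (x (a j) - γ • a j) := Function.update_self _ _ _
  have hb : ∀ i, i ≠ j → b i = a i := fun i hi => Function.update_of_ne hi _ _
  have dj : Function.update (fun i => (f i).natDegree) j ((f j).natDegree - 1) j = l := by simp [hl]
  have di : ∀ i, i ≠ j → Function.update (fun i => (f i).natDegree) j ((f j).natDegree - 1) i =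
    (f i).natDegree := fun i hi => Function.update_of_ne hi _ _
  have key := blk_le_shift h1 (hd.1 j) (hd.2.1 j) hl hs.le hγ
  rw [← hbj] at key
  have hαp : α p = p := h.1 p hp0
  refine cell_gen hn h hp hE ?_ (fun w i _ hw => ?_) fun w e => ?_
  · rw [eq_top_iff, ← hd.span, Submodule.span_le]
    rintro _ ⟨⟨i, s⟩, rfl⟩
    have e := blk_le_range hp hE i
    by_cases hi : i = j
    · subst hi
      rw [dj] at e
      have e' : a i ∈ Submodule.span K (Set.range E) := Submodule.subset_span ⟨p, hEp⟩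
      exact sup_le ((Submodule.span_singleton_le_iff_mem _ _).2 e') e (key (pow_mem_blk x _ s.2))
    · rw [di i hi, hb i hi] at e
      exact e (pow_mem_blk x _ s.2)
  · have e := blk_le_cell h hp hE hw
    by_cases hi : i = j
    · subst hi
      rw [dj] at e ⊢
      rcases hγ' with h3 | ⟨h3, h4⟩
      · obtain ⟨t, t1, t2⟩ := ht h3
        have e' : a i ∈ Submodule.span K ((fun v => E (α v)) '' Set.Iic w) := Submodule.subset_span
          ⟨p, (t2.le.trans (hw t t1) : p ≤ w), by simp only [hαp, hEp]⟩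
        refine sup_le ((Submodule.span_singleton_le_iff_mem _ _).2 e') e (key ?_)
        have i1 := blk_inv (hd.1 i) (hd.2.1 i)
        have i2 := mem_blk (hd.1 i) (hd.2.1 i)
        refine pow_mem i1 _ (hbj ▸ pow_mem (fun y hy => mem_of_apply_mem hx i1 ?_) _
          (Submodule.sub_mem _ (i1 _ i2) (Submodule.smul_mem _ _ i2)))
        rwa [← End.mul_apply, h2]
      · subst h3
        obtain ⟨μ, hμ⟩ := split_quad (hd.1 i) hl h4
        have e1 := hd.2.1 i
        rw [hμ, mul_comm] at e1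
        have e2 : x (b i) = μ • b i := by
          rw [hbj, show pos (α r) = 0 by omega]
          simp only [map_mul, map_sub, aeval_X, aeval_C, End.mul_apply, LinearMap.sub_apply,
            Module.algebraMap_end_apply, map_smul, pow_zero, End.one_apply] at e1 ⊢
          linear_combination (norm := module) e1
        rw [pow_one, e2]
        exact e (Submodule.smul_mem _ _ (by simpa using pow_mem_blk x (b i) one_pos))
    · rw [di i hi, hb i hi] at e ⊢
      exact e (pow_mem_blk' (hd.1 i) (hd.2.1 i) _)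
  · by_cases hw : w = p
    · subst hw
      have e1 : E (α r) = x (a j) - γ • a j := by
        rw [hE _ j hr', hbj, ← End.mul_apply,
          ← Commute.mul_pow (show Commute x x' from h2.trans h1.symm), h2, one_pow]; rfl
      have e2 : x (E w) = E (α r) + γ • E (α w) := by rw [e1, hαp, hEp]; abel
      rw [e2]
      exact Submodule.add_mem _ (Submodule.subset_span ⟨r, hrp.le, rfl⟩)
        (Submodule.smul_mem _ _ (Submodule.subset_span ⟨w, le_refl w, rfl⟩))
    · simp [E, e, hw]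

end H68.CN
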