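/- Covering number of `PSL(n,q)` (row S2483): growing a cyclic product; the power trick. -/
import Cfsg.Agent.H68.CNAsm

set_option autoImplicit false
set_option linter.unusedSectionVars false

namespace H68.CN
open Polynomial Module H53 H60.Ore

universe u
variable {K : Type u} [Field K] {V : Type u} [AddCommGroup V] [Module K V] [FiniteDimensional K V]

theorem cl_mul {n : ℕ} (hn : 0 < n) {x y : End K V} {α β : Equiv.Perm (Fin n)}
    {E E' : Basis (Fin n) K V} (hy0 : LinearMap.det y ≠ 0) (hy : Cl y β E) (hx : Cl x α E') :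
    ∃ x', SC x x' ∧ Cl (y * x') (β * α) E := by
  let Y : V ≃ₗ[K] V := LinearMap.equivOfIsUnitDet (isUnit_iff_ne_zero.2 hy0)
  have hY : ∀ v, Y v = y v := fun v => LinearMap.equivOfIsUnitDet_apply _ v
  let G₀ : Basis (Fin n) K V := (E.reindex β.symm).map Y.symm
  have hG₀ : ∀ w, y (G₀ w) = E (β w) := fun w => by simp [G₀, ← hY]
  let h₀ := E'.equiv G₀ (Equiv.refl _)
  have hd : LinearMap.det (h₀ : V →ₗ[K] V) ≠ 0 := (LinearEquiv.isUnit_det' h₀).ne_zero
  let t : Fin n → Kˣ := Function.update 1 ⟨0, hn⟩ (Units.mk0 _ hd)⁻¹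
  let D := E'.equiv (E'.unitsSMul t) (Equiv.refl _)
  have hD : ∀ w, D (E' w) = (t w : K) • E' w := fun w => by
    simp [D, Basis.unitsSMul_apply, Units.smul_def]
  have hD1 : LinearMap.det (D : V →ₗ[K] V) = (LinearMap.det (h₀ : V →ₗ[K] V))⁻¹ := by
    have : LinearMap.toMatrix E' E' (D : V →ₗ[K] V) = Matrix.diagonal fun w => (t w : K) := by
      ext i j
      rw [LinearMap.toMatrix_apply, LinearEquiv.coe_coe, hD, Matrix.diagonal_apply]
      by_cases h : i = j
      · simp [h]
      · simp [h]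
    rw [← LinearMap.det_toMatrix E', this, Matrix.det_diagonal,
      Finset.prod_eq_single (⟨0, hn⟩ : Fin n) (fun w _ hw => by simp [t, hw]) (by simp)]
    simp [t]
  let h := D.trans h₀
  have hh : ∀ w, h (E' w) = (t w : K) • G₀ w := fun w => by simp [h, hD, h₀]
  refine ⟨h.conj x, ⟨h, ?_, fun v => by simp [LinearEquiv.conj_apply]⟩, fun w => ?_⟩
  · rw [LinearEquiv.coe_trans, LinearMap.det_comp, hD1, mul_inv_cancel₀ hd]
  have k1 : ∀ v, v ≤ w → (y * h.conj x) (G₀ v) ∈
      Submodule.span K ((fun v => E ((β * α) v)) '' Set.Iic w) := fun v hv => by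
    refine (Submodule.smul_mem_iff _ (t v).ne_zero).1 ?_
    rw [← map_smul, ← hh]
    have e : (y * h.conj x) (h (E' v)) = (y ∘ₗ (h : V →ₗ[K] V)) (x (E' v)) := by
      simp [LinearEquiv.conj_apply]
    rw [e, ← Submodule.mem_comap]
    refine Submodule.span_le.2 ?_ (hx v)
    rintro _ ⟨v', hv', rfl⟩
    simp only [SetLike.mem_coe, Submodule.mem_comap, LinearMap.comp_apply, LinearEquiv.coe_coe, hh,
      map_smul, hG₀]
    exact Submodule.smul_mem _ _ (Submodule.subset_span ⟨v', le_trans hv' hv, rfl⟩)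
  have k2 : Submodule.span K ((fun v => E (β v)) '' Set.Iic w) ≤
      (Submodule.span K ((fun v => E ((β * α) v)) '' Set.Iic w)).comap
        ((y * h.conj x) ∘ₗ (Y.symm : V →ₗ[K] V)) := by
    refine Submodule.span_le.2 ?_
    rintro _ ⟨v, hv, rfl⟩
    have := k1 v hv
    simpa [G₀] using this
  have k3 := k2 (hy w)
  rwa [Submodule.mem_comap, LinearMap.comp_apply, ← hY, LinearEquiv.coe_coe,
    Y.symm_apply_apply] at k3

theorem cl_cy {n : ℕ} (hn : 0 < n) {y : End K V} {σ : Equiv.Perm (Fin n)} {E : Basis (Fin n) K V}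
    (hy0 : LinearMap.det y ≠ 0) (hy : Cl y σ E)
    (hσ : ∀ w : Fin n, w.val + 1 < n → (σ w).val = w.val + 1) : Cy y (E ⟨0, hn⟩) := by
  intro U h0 hU
  obtain ⟨y', y1, -⟩ := exists_inv hy0
  have hi : Function.Injective y := fun p q h => by
    have := congrArg y' h
    rwa [← End.mul_apply, ← End.mul_apply, y1] at this
  have key : ∀ j (hj : j < n), ∀ i (hi : i ≤ j), E ⟨i, by omega⟩ ∈ U := by
    intro j
    induction j with
    | zero => intro _ i hi; obtain rfl : i = 0 := by omega
              exact h0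
    | succ j ih =>
      intro hj i hi'
      rcases hi'.lt_or_eq with h | rfl
      · exact ih (by omega) i (by omega)
      let A := Submodule.span K (Set.range fun s : Fin (j + 1) => E ⟨s, by omega⟩)
      let B := Submodule.span K (Set.range fun s : Fin (j + 1) => E ⟨s + 1, by omega⟩)
      have hA : finrank K A = j + 1 := by
        have := finrank_span_eq_card (E.linearIndependent.comp
          (fun s : Fin (j + 1) => (⟨s, by omega⟩ : Fin n)) fun p q h => Fin.ext (by simpa using h))
        rwa [Fintype.card_fin] at this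
      have hB : finrank K B ≤ j + 1 := by
        have := finrank_range_le_card (R := K) fun s : Fin (j + 1) => E ⟨s + 1, by omega⟩
        rwa [Fintype.card_fin] at this
      have h1 : A.map y ≤ B := by
        rw [Submodule.map_le_iff_le_comap]
        refine Submodule.span_le.2 ?_
        rintro _ ⟨s, rfl⟩
        refine Submodule.span_mono ?_ (hy ⟨s, by omega⟩)
        rintro _ ⟨v, hv, rfl⟩
        have hv' : v.val ≤ s := hv
        exact ⟨⟨v, by omega⟩, congrArg E (Fin.ext (hσ v (by omega)).symm)⟩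
      have h2 : A.map y = B := Submodule.eq_of_le_of_finrank_le h1 (by
        rwa [← (Submodule.equivMapOfInjective y hi A).finrank_eq, hA])
      have h3 : A ≤ U := Submodule.span_le.2 (by
        rintro _ ⟨s, rfl⟩
        exact ih (by omega) s (by omega))
      obtain ⟨w, hw, e⟩ : E ⟨j + 1, hj⟩ ∈ A.map y :=
        h2 ▸ Submodule.subset_span ⟨⟨j, by omega⟩, rfl⟩
      exact e ▸ hU w (h3 hw)
  rw [eq_top_iff, ← E.span_eq, Submodule.span_le]
  rintro _ ⟨w, rfl⟩
  exact key w w.2 w le_rfl

theorem jobGROW : JobGROW.{u} := by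
  classical
  intro hP h0 h1 K _ V _ _ _ ι _ x a f j hx hd hF h2
  obtain ⟨L, l1, l2, l3⟩ := hP (finrank K V) ι (fun i => (f i).natDegree) j hd.2.2.1
    (by rcases hF with h | h <;> omega) h2
  have hn : 0 < finrank K V := by
    have := rho_lt (d := fun i => (f i).natDegree) (j := j) (by rcases hF with h | h <;> omega)
    rw [hd.2.2.1] at this
    omega
  let E := Module.finBasis K V
  have key : ∀ L : List (Equiv.Perm (Fin (finrank K V))),
      (∀ α ∈ L, Ty0 α (fun i => (f i).natDegree) ∨ Ty1 α (fun i => (f i).natDegree) j) →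
      ∃ y, Pw x L.length y ∧ Cl y L.prod E := by
    intro L hL
    induction L using List.reverseRecOn with
    | nil => exact ⟨1, Pw.zero x, fun w => Submodule.subset_span ⟨w, le_refl w, rfl⟩⟩
    | append_singleton L α ih =>
      obtain ⟨y, y1, y2⟩ := ih fun β hβ => hL β (List.mem_append_left _ hβ)
      obtain ⟨E', hE'⟩ : ∃ E', Cl x α E' := by
        rcases hL α (by simp) with h | h
        · exact h0 K V ι x a f _ α rfl hd h
        · exact h1 K V ι x a f _ α j rfl hx hd hF h
      obtain ⟨x', x1, x2⟩ := cl_mul hn (y1.det ▸ pow_ne_zero _ hx) y2 hE'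
      exact ⟨y * x', by simpa using y1.succ x1, by simpa using x2⟩
  obtain ⟨y, y1, y2⟩ := key L l3
  exact ⟨_, y, _, l1, y1, cl_cy hn (y1.det ▸ pow_ne_zero _ hx) y2 l2⟩

theorem SC.pow_eq_one {a b : End K V} (h : SC a b) {n : ℕ} (ha : a ^ n = 1) : b ^ n = 1 :=
  (h.sim.pow n).eq_one_iff.1 ha

theorem jobPT : JobPT.{u} := by
  intro hT K _ V _ _ _ x h4 hn hx hs
  obtain ⟨n, hp, h3, ho, e⟩ : ∃ n, n.Prime ∧ 3 ≤ n ∧ Odd n ∧ finrank K V = n := by
    rcases hn with h | h
    · exact ⟨3, by norm_num, by norm_num, by decide, h⟩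
    · exact ⟨5, by norm_num, by norm_num, by decide, h⟩
  by_cases h0 : (n : K) = 0
  · have := Fact.mk hp
    have hc : CharP K n := (CharP.charP_iff_prime_eq_zero hp).2 h0
    have : Nontrivial V := Module.nontrivial_of_finrank_pos (R := K) (by omega)
    have : CharP (End K V) n := charP_of_injective_algebraMap (algebraMap K _).injective n
    obtain ⟨u, v, h1, h2, -, h5, -⟩ := H56.RegU.exists_mul h4 (n := n - 1) (by omega) (by omega) hx hs
    rw [show n - 1 + 1 = n by omega, sub_pow_char_of_commute _ (Commute.one_right _), one_pow,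
      sub_eq_zero] at h2 h5
    have h6 : LinearMap.det u = 1 := by
      have := congrArg LinearMap.det h2
      rw [map_pow, map_one, ← sub_eq_zero, ← one_pow n, ← sub_pow_char] at this
      exact sub_eq_zero.1 (pow_eq_zero_iff (by omega) |>.1 this)
    have h7 : LinearMap.det (u ^ (n - 1)) = 1 := by rw [map_pow, h6, one_pow]
    refine in_of_pow (c := u ^ (n - 1)) (z := 1) (z' := 1) (h7 ▸ one_ne_zero) (Or.inl h7) ?_ ?_
    · rw [h1, ← mul_assoc, ← pow_succ, show n - 1 + 1 = n by omega, h2, one_mul, e, h5, one_smul]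
    · rw [← pow_mul, mul_comm, pow_mul, e, h2, one_pow, one_smul]
  · let q : K[X] := ∑ i ∈ Finset.range n, X ^ i
    have hq : (X - C 1) * q = X ^ n - 1 := by rw [C_1, mul_geom_sum]
    have hm : q.Monic := monic_geom_sum_X (by omega)
    have hm' : (X ^ n - 1 : K[X]).Monic := by rw [← C_1]; exact monic_X_pow_sub_C 1 (by omega)
    have hd' : (X ^ n - 1 : K[X]).natDegree = n := by rw [← C_1, natDegree_X_pow_sub_C]
    have hd : q.natDegree + 1 = n := by
      rw [← hq, (monic_X_sub_C 1).natDegree_mul hm, natDegree_X_sub_C] at hd'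
      omega
    obtain ⟨R, w, hw, hR⟩ := exists_model (V := V) hm' (hd'.trans e.symm)
    have hN : Nice R 1 q := by
      refine ⟨hm, hd.trans e.symm, by simpa [q, eval_finsetSum] using h0, fun h => ?_, one_ne_zero,
        w, hw, hq ▸ hR⟩
      have := congrArg (eval 0) hq
      rw [eval_mul, h] at this
      simp [show n ≠ 0 by omega] at this
    have hR1 : R ^ n = 1 := by simpa [sub_eq_zero] using hw.aeval_eq_zero hR
    have hdR : LinearMap.det R = 1 := by
      rw [det_of_cy hw hm' (hd'.trans e.symm) hR, dt, hd', ho.neg_one_pow]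
      simp [coeff_X_pow, show 0 ≠ n by omega]
    obtain ⟨c, a, c1, c2, c3⟩ := hT K V x R R 1 q w h4 (by omega) (hx ▸ one_ne_zero) hs hN hw
      (by rw [hx, mul_one])
    have h7 : LinearMap.det c = 1 := c1.det_eq ▸ hdR
    refine in_of_pow (c := c) (z := 1) (z' := 1) (h7 ▸ one_ne_zero) (Or.inl h7) ?_ ?_
    · rw [← c3, e, c2.pow_eq_one hR1, one_smul]
    · rw [e, c1.pow_eq_one hR1, one_smul]

theorem aeval_prodMap {z : End K V} {t : K} (P : K[X]) (w : V) (c : K) :
    aeval (z.prodMap (t • (1 : End K K))) P (w, c) = (aeval z P w, P.eval t * c) := by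
  refine Prod.ext ?_ ?_
  · exact intertwine_aeval (f := z.prodMap (t • (1 : End K K))) (g := z) (LinearMap.fst K V K)
      (fun _ => rfl) P (w, c)
  · have := intertwine_aeval (f := z.prodMap (t • (1 : End K K))) (g := t • (1 : End K K))
      (LinearMap.snd K V K) (fun _ => rfl) P (w, c)
    rw [aeval_eigen (c := t • (1 : End K K)) (β := t) (by simp)] at this
    exact this

theorem Nice.prodMap {z : End K V} {β t : K} {q : K[X]} (h : Nice z β q) (ht : t ≠ 0) (h1 : t ≠ β)
    (h2 : q.eval t ≠ 0) : Nice (z.prodMap (t • (1 : End K K))) t ((X - C β) * q) := by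
  obtain ⟨w, hw, h6⟩ := h.2.2.2.2.2
  have h3 : ((X - C β) * q).eval t ≠ 0 := by simpa [sub_eq_zero] using ⟨h1, h2⟩
  refine ⟨h.monic, by rw [h.natDegree]; simp, h3, by simpa using ⟨h.2.2.2.2.1, h.2.2.2.1⟩, ht,
    (w, 1), fun U hU hi => ?_, ?_⟩
  · have e1 := aeval_mem hi ((X - C β) * q) hU
    rw [aeval_prodMap, h6] at e1
    have e2 : ((0, 1) : V × K) ∈ U := (U.smul_mem_iff h3).1 (by simpa using e1)
    have e3 := hw (U.comap (LinearMap.inl K V K)) (by simpa using U.sub_mem hU e2)
      fun v hv => by simpa using hi _ hv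
    refine eq_top_iff.2 fun ⟨v, c⟩ _ => ?_
    have e4 : (v, (0 : K)) ∈ U := (e3 ▸ Submodule.mem_top : v ∈ U.comap (LinearMap.inl K V K))
    simpa using U.add_mem e4 (U.smul_mem c e2)
  · rw [aeval_prodMap, map_mul, End.mul_apply, h6]; simp

open H56.RegU in
theorem jobEV : JobEV.{u} := by
  classical
  intro hG hT K _ V _ _ _ ι _ x a f i j l k h4 hn hk hx hd hi hF hρ
  obtain ⟨ε, ⟨s1, s2, s3⟩, -⟩ := hd.ss hi
  have hinv : ∀ v ∈ LinearMap.ker ε, x v ∈ LinearMap.ker ε := fun v hv => by
    rw [LinearMap.mem_ker] at hv ⊢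
    rw [s2, hv, mul_zero]
  let x' := x.restrict hinv
  have hpr : ∀ v, pr s3 (x v) = x' (pr s3 v) := fun v => Subtype.ext (by
    simp only [x', coe_pr, LinearMap.coe_restrict_apply, s2, map_sub, map_smul, s1, smul_smul,
      mul_comm])
  have hs : Sim x (x'.prodMap (l • (1 : End K K))) := by
    refine ⟨LinearEquiv.ofLinearMap ((pr s3).prod ε)
      ((LinearMap.ker ε).subtype.coprod (LinearMap.toSpanSingleton K V (a i))) ?_ ?_, fun v => ?_⟩
    · refine LinearMap.ext fun ⟨v, c⟩ => ?_
      have := LinearMap.mem_ker.1 v.2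
      simp [pr_self, pr_coe, this, s3]
    · refine LinearMap.ext fun v => ?_
      simp [coe_pr]
    · simp [hpr, s2]
  have hf := finrank_ker_add s3
  have di : (f i).natDegree = 1 := by rw [hi, natDegree_X_sub_C]
  have hji : j ≠ i := by rintro rfl; rcases hF with h | h <;> omega
  have hd' : Dec x' (fun j => pr s3 (a j)) (Function.update f i 1) := by
    refine ⟨fun j => ?_, fun j => ?_, ?_, fun U h1 h2 => ?_⟩
    · by_cases h : j = i
      · subst h; simp
      · simpa [h] using hd.1 j
    · by_cases h : j = i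
      · subst h; simp [pr_self]
      · rw [Function.update_of_ne h, ← intertwine_aeval _ hpr, hd.2.1, map_zero]
    · have e1 := Finset.add_sum_erase Finset.univ (fun j => (f j).natDegree) (Finset.mem_univ i)
      have e2 := Finset.add_sum_erase Finset.univ (fun j => (Function.update f i 1 j).natDegree)
        (Finset.mem_univ i)
      rw [Finset.sum_congr rfl fun j hj => by
        rw [Function.update_of_ne (Finset.ne_of_mem_erase hj)]] at e2
      have e3 := hd.2.2.1
      simp only [Function.update_self, natDegree_one] at e2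
      omega
    · have := hd.2.2.2 (U.comap (pr s3)) h1 fun w hw => by
        rw [Submodule.mem_comap, hpr]; exact h2 _ hw
      refine eq_top_iff.2 fun v _ => ?_
      rw [← pr_coe s3 v]
      exact (this ▸ Submodule.mem_top : (v : V) ∈ U.comap (pr s3))
  have hρ' : rho (Function.update f i 1) = 2 := by
    rw [← hρ]
    refine Finset.sum_congr rfl fun j _ => ?_
    by_cases h : j = i
    · subst h; simp [di]
    · rw [Function.update_of_ne h]
  have hF' : FixAt (Function.update f i 1) j := by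
    unfold FixAt at hF ⊢
    rwa [Function.update_of_ne hji]
  have hdet := hs.det_eq
  rw [LinearMap.det_prodMap] at hdet
  have hx' : LinearMap.det x' ≠ 0 := left_ne_zero_of_mul (hdet ▸ hx)
  have hl : l ≠ 0 := by
    have := right_ne_zero_of_mul (hdet ▸ hx)
    simpa using this
  have hn' : NS x' := hd'.ns (j := j) (by rcases hF' with h | h <;> omega)
  obtain ⟨κ, y, v, k1, k2, k3⟩ := hG K _ ι x' _ _ j hx' hd' hF' hρ'.ge
  rw [hρ'] at k1
  obtain ⟨y', v', k4, k5⟩ := cyc_mono hT h4 (by omega) hx' hn' k2 k3 (l := k - 1) (by omega)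
  obtain ⟨β, b1, b2, -⟩ := exists_ne3 h4 0 (l ^ k) 0
  obtain ⟨z, q, z1, z2, z3⟩ := exists_nice (V := LinearMap.ker ε) h4 (by omega)
    (pow_ne_zero (k - 1 + 1) hx') b1 (pow_ne_zero k hl)
  have k6 := nic_of_cyc hT h4 (by omega) hx' hn' k4 k5 z1 z2
  rw [show k - 1 + 1 = k by omega] at k6
  obtain ⟨B, B1, B2⟩ := (k6.prodMap (W := K) l).sim hs
  exact ⟨B, _, _, B1, (z1.prodMap (pow_ne_zero k hl) b2.symm z3).sim B2⟩

end H68.CN
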