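/- Covering number of `PSL(n,q)` (row S2483): scalars as products of `n` conjugates. -/
import Cfsg.Agent.H68.CNAsm

set_option autoImplicit false
set_option linter.unusedSectionVars false

namespace H68.CN
open Polynomial Module H53 H60.Ore

universe u
variable {K : Type u} [Field K] {V : Type u} [AddCommGroup V] [Module K V] [FiniteDimensional K V]

theorem inj_of_det {y : End K V} (h : LinearMap.det y ≠ 0) : Function.Injective y := by
  obtain ⟨y', y1, -⟩ := exists_inv h
  intro p q h
  have := congrArg y' h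
  rwa [← End.mul_apply, ← End.mul_apply, y1] at this

/-- A weighted cyclic shift has a scalar `n`-th power. -/
theorem wcyc {z : End K V} {G : ℕ → V} {m : ℕ} (hm : finrank K V = m + 1)
    (hG : Fl (K := K) G (m + 1) = ⊤) {d : ℕ → K} (hz : LinearMap.det z ≠ 0)
    (h : ∀ i, i < m → z (G i) = d i • G (i + 1)) (h' : z (G m) = d m • G 0) :
    z ^ finrank K V = (∏ i ∈ Finset.range (m + 1), d i) • 1 := by
  obtain ⟨b, hb⟩ := fl_basis hm hG
  have hd : ∀ i, i < m → d i ≠ 0 := fun i hi e => by
    have e1 := h i hi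
    rw [e, zero_smul, ← map_zero z] at e1
    exact b.ne_zero ⟨i, by omega⟩ ((hb _).trans (inj_of_det hz e1))
  have hc : Cy z (G 0) := shift_cy (γ := d) (fun j hj => by rw [h j hj]; simp) hd hG
  have key : ∀ k, k ≤ m → (z ^ k) (G 0) = (∏ i ∈ Finset.range k, d i) • G k := by
    intro k hk
    induction k with
    | zero => simp
    | succ k ih =>
      rw [pow_succ', End.mul_apply, ih (by omega), map_smul, h k (by omega), smul_smul,
        Finset.prod_range_succ]
  have := hc.aeval_eq_zero (P := X ^ (m + 1) - C (∏ i ∈ Finset.range (m + 1), d i)) (by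
    rw [map_sub, map_pow, aeval_X, aeval_C, LinearMap.sub_apply, pow_succ', End.mul_apply,
      key m le_rfl, map_smul, h', smul_smul, Finset.prod_range_succ,
      Module.algebraMap_end_apply, sub_self])
  rwa [map_sub, map_pow, aeval_X, aeval_C, sub_eq_zero, Algebra.algebraMap_eq_smul_one,
    show z ^ (m + 1) = z ^ finrank K V by rw [hm]] at this

theorem exists_shift {E : ℕ → V} {m : ℕ} (hm : finrank K V = m + 1)
    (hE : Fl (K := K) E (m + 1) = ⊤) : ∃ P : End K V, LinearMap.det P ≠ 0 ∧
      P ^ finrank K V = (1 : K) • 1 ∧ (∀ i, i < m → P (E i) = E (i + 1)) ∧ P (E m) = E 0 := by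
  obtain ⟨P, hP⟩ := exists_equiv_of_fl (k := fun i => if i < m then E (i + 1) else E 0) hm hm hE
    (eq_top_iff.2 (hE ▸ Fl_le fun i hi => by
      rcases i with _ | i
      · simpa using mem_Fl (K := K) (fun i => if i < m then E (i + 1) else E 0) m.lt_succ_self
      · simpa [show i < m by omega] using
          mem_Fl (K := K) (fun i => if i < m then E (i + 1) else E 0) (show i < m + 1 by omega)))
  have h1 : ∀ i, i < m → P (E i) = E (i + 1) := fun i hi => by rw [hP i (by omega), if_pos hi]
  have h2 : P (E m) = E 0 := by rw [hP m (by omega), if_neg (lt_irrefl m)]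
  have h0 := (LinearEquiv.isUnit_det' P).ne_zero
  refine ⟨P, h0, ?_, h1, h2⟩
  simpa using wcyc hm hE (d := fun _ => 1) h0 (fun i hi => by simpa using h1 i hi) (by simpa using h2)

theorem fl_extend_set {s : Set V} (t : ℕ) : ∀ (j : ℕ) (κ : ℕ → V), finrank K V = j + t →
    Fl κ j ⊔ Submodule.span K s = ⊤ → finrank K (Fl (K := K) κ j) = j →
    ∃ κ' : ℕ → V, (∀ i, i < j → κ' i = κ i) ∧ (∀ i, j ≤ i → i < j + t → κ' i ∈ s) ∧
      Fl (K := K) κ' (j + t) = ⊤ := by
  induction t with
  | zero => exact fun j κ h1 _ h3 => ⟨κ, fun _ _ => rfl, fun i _ _ => by omega,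
      Submodule.eq_top_of_finrank_eq (h3.trans h1.symm)⟩
  | succ t ih =>
    intro j κ h1 h2 h3
    obtain ⟨v, hv, hv'⟩ : ∃ v ∈ s, v ∉ Fl (K := K) κ j := by
      by_contra hh
      push Not at hh
      rw [sup_eq_left.2 (Submodule.span_le.2 hh)] at h2
      exact Fl_ne_top (by omega) h2
    have e1 : Fl (K := K) (Function.update κ j v) j = Fl κ j :=
      Fl_congr fun i hi => Function.update_of_ne hi.ne _ _
    have e2 : Fl (K := K) (Function.update κ j v) (j + 1) = Fl κ j ⊔ K ∙ v := by
      rw [Fl_succ, e1, Function.update_self]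
    obtain ⟨κ', h4, h5, h6⟩ := ih (j + 1) (Function.update κ j v) (by omega)
      (by rw [e2, eq_top_iff, ← h2]; exact sup_le_sup_right le_sup_left _)
      (by rw [e2, Submodule.finrank_sup_span_singleton hv', h3])
    refine ⟨κ', fun i hi => by rw [h4 i (by omega), Function.update_of_ne hi.ne],
      fun i h7 h8 => ?_, by rw [← h6]; congr 1; omega⟩
    rcases h7.lt_or_eq with h7 | rfl
    · exact h5 i h7 (by omega)
    · rw [h4 j (by omega), Function.update_self]; exact hv

theorem SS.ne_zero {x : End K V} {e : V} {ε : Dual K V} {l : K} (h : SS x e ε l)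
    (hx : LinearMap.det x ≠ 0) : l ≠ 0 := by
  rintro rfl
  have := inj_of_det hx (h.1.trans (by simp : (0 : K) • e = x 0))
  simpa [this] using h.2.2

theorem SS.smul {x : End K V} {e : V} {ε : Dual K V} {l : K} (h : SS x e ε l) (c : K) :
    SS (c • x) e ε (c * l) :=
  ⟨by simp [h.1, smul_smul], fun v => by simp [h.2.1, mul_assoc], h.2.2⟩

theorem sim_unip {N : End K V} (hN : N * N = 0) {c : K} (hc : c ≠ 0) : Sim (1 + N) (1 + c • N) := by
  obtain ⟨U, hU⟩ := (LinearMap.ker N).exists_isCompl
  let p : End K V := (LinearMap.ker N).projection U hU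
  have p1 : ∀ v, N (p v) = 0 := fun v => Submodule.projection_apply_mem hU v
  have p2 : ∀ v, p (N v) = N v := fun v =>
    Submodule.projection_apply_of_mem_left hU (LinearMap.congr_fun hN v)
  have p3 : ∀ v, p (p v) = p v := fun v =>
    Submodule.projection_apply_of_mem_left hU (p1 v)
  have := sim_conj (1 + N) (h := c⁻¹ • (1 - p) + p) (h' := c • (1 - p) + p) (by
    ext v
    simp [p3, smul_smul, smul_sub, hc])
  convert this using 1
  ext v
  simp [p1, p2, p3, smul_smul, smul_sub, hc]
  abel

theorem pw_unip (h4 : 4 ≤ Cardinal.mk K) {N : End K V} (hN : N * N = 0)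
    (h : ∀ x', Sim (1 + N) x' → SC (1 + N) x') (k : ℕ) :
    ∀ c : K, (k = 0 → c ≠ 0) → Pw (1 + N) (k + 1) (1 + c • N) := by
  induction k with
  | zero => exact fun c hc => Pw.one (h _ (sim_unip hN (hc rfl)))
  | succ k ih =>
    intro c _
    obtain ⟨t, t1, t2, -⟩ := exists_ne3 h4 0 c 0
    have := (ih (c - t) fun _ => sub_ne_zero.2 t2.symm).succ (h _ (sim_unip hN t1))
    convert this using 1
    rw [add_mul, mul_add, mul_add, smul_mul_smul_comm, hN]
    simp only [one_mul, mul_one, smul_zero]
    module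

theorem jobID2 : JobID2.{u} := by
  intro K _ V _ _ _ x e ε l μ h4 h2 hx hs h0
  obtain ⟨m, hm⟩ : ∃ m, finrank K V = m + 1 := ⟨finrank K V - 1, by omega⟩
  by_cases hμ : μ = l
  · subst hμ
    have hl := hs.ne_zero hx
    have e1 : μ⁻¹ • x = 1 + μ⁻¹ • (x - μ • 1) := by
      rw [smul_sub, smul_smul, inv_mul_cancel₀ hl, one_smul]; abel
    have h1 := pw_unip h4 (N := μ⁻¹ • (x - μ • 1)) (by rw [smul_mul_smul_comm, h0, smul_zero])
      (fun x' hx' => by rw [← e1] at hx' ⊢; exact (hs.smul μ⁻¹).sc hx') m 0 (by omega)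
    rw [← e1, ← hm] at h1
    have h3 : In (μ⁻¹ • x) := ⟨1, by simpa using h1⟩
    simpa [smul_smul, hl] using h3.smul μ
  · have hμ' : μ - l ≠ 0 := sub_ne_zero.2 hμ
    obtain ⟨E, -, h5, h6⟩ := fl_extend_set (K := K) (s := {v | ∃ c : K, x v = c • v}) (m + 1) 0
      (fun _ => 0) (by omega) (by
        refine eq_top_iff.2 fun v _ => Submodule.mem_sup_right ?_
        have e1 := LinearMap.congr_fun h0 v
        simp only [End.mul_apply, LinearMap.sub_apply, LinearMap.smul_apply, End.one_apply, map_sub,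
          map_smul, LinearMap.zero_apply] at e1
        refine (Submodule.smul_mem_iff _ hμ').1 ?_
        rw [show (μ - l) • v = (x v - l • v) - (x v - μ • v) by module]
        refine Submodule.sub_mem _ (Submodule.subset_span ⟨μ, ?_⟩) (Submodule.subset_span ⟨l, ?_⟩)
        all_goals
          rw [map_sub, map_smul]
          linear_combination (norm := module) e1) (by simp)
    rw [zero_add] at h5 h6
    choose! d hd using fun i hi => h5 i (Nat.zero_le i) hi
    obtain ⟨P, p1, p2, p3, p4⟩ := exists_shift hm h6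
    refine in_of_pow p1 (Or.inr fun _ h => hs.sc h) (wcyc hm h6 (d := d)
      (by rw [map_mul]; exact mul_ne_zero p1 hx) (fun i hi => ?_) ?_) p2
    · rw [End.mul_apply, hd i (by omega), map_smul, p3 i hi]
    · rw [End.mul_apply, hd m (by omega), map_smul, p4]

theorem id3_core {y : End K V} {a : V} {κ : ℕ → V} {m : ℕ} {τ δ : K} (hm : finrank K V = m + 4)
    (hy : LinearMap.det y ≠ 0) (hs : ∀ x', Sim y x' → SC y x')
    (h1 : y (y (y a)) = (τ + 1) • y (y a) - (τ + δ) • y a + δ • a)
    (h2 : ∀ i, 3 ≤ i → i < m + 4 → y (κ i) = κ i)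
    (h3 : ∀ U : Submodule K V, a ∈ U → y a ∈ U → y (y a) ∈ U →
      (∀ i, 3 ≤ i → i < m + 4 → κ i ∈ U) → U = ⊤) : In y := by
  let b := δ + 1 - τ
  let E : ℕ → V := fun i => match i with
    | 0 => a
    | 1 => y a - a
    | 2 => (δ - b) • (y a - a) - (y (y a) - y a)
    | 3 => κ 3 - b • ((δ - b) • y a - y (y a))
    | i + 4 => κ (i + 4)
  let G : ℕ → V := fun i => match i with
    | 0 => E 0 + E 1
    | 2 => E 2 + b • E 1
    | i => E i
  have hE : ∀ U : Submodule K V, (∀ i, i < m + 4 → E i ∈ U) → U = ⊤ := fun U hU => by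
    have u0 : a ∈ U := hU 0 (by omega)
    have u1 : y a ∈ U := by simpa [E] using U.add_mem (hU 1 (by omega)) u0
    have u2 : y (y a) ∈ U := by
      have := U.add_mem (U.sub_mem (U.smul_mem (δ - b) (hU 1 (by omega))) (hU 2 (by omega))) u1
      simpa [E] using this
    refine h3 U u0 u1 u2 fun i i1 i2 => ?_
    obtain ⟨i, rfl⟩ : ∃ j, i = j + 3 := ⟨i - 3, by omega⟩
    rcases i with _ | i
    · have := U.add_mem (hU 3 (by omega)) (U.smul_mem b (U.sub_mem (U.smul_mem (δ - b) u1) u2))
      simpa [E] using this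
    · exact hU (i + 4) i2
  have hE' : Fl (K := K) E (m + 3 + 1) = ⊤ := hE _ fun i hi => mem_Fl E hi
  have hG : Fl (K := K) G (m + 3 + 1) = ⊤ := hE _ fun i hi => by
    have g1 : E 1 ∈ Fl (K := K) G (m + 3 + 1) := mem_Fl G (show 1 < _ by omega)
    match i with
    | 0 => simpa [G] using Submodule.sub_mem _ (mem_Fl G hi) g1
    | 1 => exact g1
    | 2 => simpa [G] using Submodule.sub_mem _ (mem_Fl G hi) (Submodule.smul_mem _ b g1)
    | i + 3 => exact mem_Fl G hi
  obtain ⟨P, p1, p2, p3, p4⟩ := exists_shift hm hE'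
  have hPG : Fl (K := K) (fun i => P (G i)) (m + 3 + 1) = ⊤ := by
    rw [← map_Fl, hG, Submodule.map_top, LinearMap.range_eq_top]
    exact LinearMap.injective_iff_surjective.1 (inj_of_det p1)
  refine in_of_pow p1 (Or.inr hs) (wcyc hm hPG (d := fun i => if i = 0 then δ else 1)
    (by rw [map_mul]; exact mul_ne_zero p1 hy) (fun i hi => ?_) ?_) p2
  · rw [End.mul_apply, ← map_smul P]
    congr 1
    match i with
    | 0 =>
      simp only [G, map_add, p3 0 (by omega), p3 1 (by omega), E, map_sub, map_smul, h1, if_true, b]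
      module
    | 1 =>
      simp only [G, p3 1 (by omega), E, map_sub, map_smul, h1, b, one_ne_zero, if_false]
      module
    | 2 =>
      simp only [G, map_add, map_smul, p3 1 (by omega), p3 2 (by omega), E, map_sub, h1, b,
        h2 3 le_rfl (by omega), OfNat.ofNat_ne_zero, if_false]
      module
    | i + 3 =>
      have e : G (i + 3) = E (i + 3) := rfl
      rw [e, p3 _ hi, if_neg (by omega), one_smul]
      exact h2 (i + 4) (by omega) (by omega)
  · have e : G (m + 3) = E (m + 3) := rfl
    rw [End.mul_apply, e, p4, if_neg (by omega), one_smul]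
    simp [G, E]

theorem jobID3 : JobID3.{u} := by
  intro K _ V _ _ _ ι _ x a f j h4 hx hd h1 hj hi
  obtain ⟨m, hm⟩ : ∃ m, finrank K V = m + 4 := ⟨finrank K V - 4, by omega⟩
  obtain ⟨i₀, hi₀⟩ := exists_one_of_three (d := fun i => (f i).natDegree) hj hi (hd.2.2.1 ▸ h4)
  obtain ⟨l, hl⟩ := eq_X_sub_C (hd.1 i₀) hi₀
  obtain ⟨ε, hs, -⟩ := hd.ss hl
  have hl0 := hs.ne_zero hx
  obtain ⟨g, hg⟩ := dvd_iff_isRoot.2 (h1 i₀ j l hl (by omega))
  have g1 : g.Monic := (monic_X_sub_C l).of_mul_monic_left (hg ▸ hd.1 j)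
  have g2 : g.natDegree = 2 := by
    rw [hg, (monic_X_sub_C l).natDegree_mul g1, natDegree_X_sub_C] at hj
    omega
  have g3 := hd.2.1 j
  rw [hg, eq_quad g1 g2] at g3
  generalize -g.coeff 1 = s at g3
  generalize g.coeff 0 = t at g3
  simp only [map_mul, map_sub, map_add, map_pow, aeval_X, aeval_C, End.mul_apply, pow_two,
    LinearMap.sub_apply, LinearMap.add_apply, Module.algebraMap_end_apply, map_smul] at g3
  obtain ⟨b, hb⟩ := hd.basis
  obtain ⟨κ, k1, k2, k3⟩ := fl_extend_set (K := K) (s := {v | x v = l • v}) (m + 1) 3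
    (fun i => (x ^ i) (a j)) (by omega) (by
      have e : Fl (K := K) (fun i => (x ^ i) (a j)) 3 = blk x (a j) (f j).natDegree := by
        rw [Fl_eq_range, hj]; rfl
      rw [e]
      refine hd.2.2.2 _ (fun i => ?_) fun w hw => ?_
      · by_cases h : i = j
        · subst h; exact Submodule.mem_sup_left (mem_blk (hd.1 i) (hd.2.1 i))
        · obtain ⟨Q, hQ⟩ := hd.small h1 hl (hi i h)
          have e : aeval x (X - C l) (a i) = 0 := by
            rw [hQ, mul_comm, map_mul, End.mul_apply, hd.2.1, map_zero]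
          exact Submodule.mem_sup_right (Submodule.subset_span (by simpa [sub_eq_zero] using e))
      · obtain ⟨p, hp, q, hq, rfl⟩ := Submodule.mem_sup.1 hw
        rw [map_add]
        refine Submodule.add_mem_sup (blk_inv (hd.1 j) (hd.2.1 j) p hp) (span_inv (fun w hw => ?_) q hq)
        rw [show x w = l • w from hw]
        exact Submodule.smul_mem _ _ (Submodule.subset_span hw)) (by
      rw [Fl_eq_range]
      have := finrank_span_eq_card (b.linearIndependent.comp
        (fun s : Fin 3 => (⟨j, s.cast hj.symm⟩ : Σ i, Fin (f i).natDegree))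
        fun p q h => by simpa using h)
      rw [Fintype.card_fin] at this
      rwa [show (b ∘ fun s : Fin 3 => (⟨j, s.cast hj.symm⟩ : Σ i, Fin (f i).natDegree)) =
        fun s : Fin 3 => (x ^ (s : ℕ)) (a j) from funext fun s => hb _] at this)
  have key : In (l⁻¹ • x) := by
    refine id3_core (a := a j) (κ := κ) (τ := s / l) (δ := t / l ^ 2) hm ?_
      (fun _ h => (hs.smul l⁻¹).sc h) ?_ (fun i i1 i2 => ?_) fun U u0 u1 u2 u3 => ?_
    · rw [LinearMap.det_smul]; exact mul_ne_zero (pow_ne_zero _ (inv_ne_zero hl0)) hx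
    · simp only [LinearMap.smul_apply, map_smul]
      have e : x (x (x (a j))) = (s + l) • x (x (a j)) - (l * s + t) • x (a j) + (l * t) • a j := by
        linear_combination (norm := module) g3
      rw [e]
      match_scalars <;> field_simp
    · rw [LinearMap.smul_apply, show x (κ i) = l • κ i from k2 i i1 (by omega), smul_smul,
        inv_mul_cancel₀ hl0, one_smul]
    · simp only [LinearMap.smul_apply, map_smul, U.smul_mem_iff (inv_ne_zero hl0)] at u1 u2
      refine eq_top_iff.2 (k3 ▸ Fl_le fun i hi => ?_)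
      by_cases h : i < 3
      · rw [k1 i h]
        interval_cases i
        exacts [u0, u1, u2]
      · exact u3 i (by omega) (by omega)
  simpa [smul_smul, hl0] using key.smul l

end H68.CN
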