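/- Groups of central type: the commutator form and subnormal subgroups with cyclic Sylow subgroups. -/
import Cfsg.Agent.H32.FullyRam
import Cfsg.Agent.H32.CentralChar
import Cfsg.Agent.H8.Focal
import Cfsg.Agent.H3.AutP

set_option autoImplicit false
set_option linter.unusedSectionVars false

namespace H68.Gag

open Cfsg H28 H33 H32
open scoped ComplexConjugate

/-- A non-degenerate invariant commutator form. -/
structure Form (G : Type*) [Group G] where
  b : G → G → ℂ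
  mul_left : ∀ {x y z : G}, Commute x z → Commute y z → b (x * y) z = b x z * b y z
  mul_right : ∀ {x y z : G}, Commute x y → Commute x z → b x (y * z) = b x y * b x z
  self : ∀ x, b x x = 1
  one_left : ∀ x, b 1 x = 1
  one_right : ∀ x, b x 1 = 1
  cj : ∀ (g : G) {x y : G}, Commute x y → b (g * x * g⁻¹) (g * y * g⁻¹) = b x y
  nondeg : ∀ x : G, x ≠ 1 → ∃ y, Commute x y ∧ b x y ≠ 1

theorem exists_form {Q G : Type*} [Group Q] [Finite Q] [Group G] (ρ : Q →* G) {lam : ρ.ker → ℂ}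
    {β : Q → ℂ} {e : ℕ} (hρ : Function.Surjective ρ) (hc : ρ.ker ≤ Subgroup.center Q)
    (hβ : FullyRam ρ.ker lam β e) : Nonempty (Form G) := by
  classical
  have := Fintype.ofFinite Q
  choose σ hσ using hρ
  let Λ : Q → ℂ := fun q => if h : q ∈ ρ.ker then lam ⟨q, h⟩ else 1
  have hΛ : ∀ q (h : q ∈ ρ.ker), Λ q = lam ⟨q, h⟩ := fun q h => dif_pos h
  have h0 := hβ.classInner_res_ne_zero
  have hm : ∀ a ∈ ρ.ker, ∀ b ∈ ρ.ker, Λ (a * b) = Λ a * Λ b := fun a ha b hb => by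
    have h1 := apply_mul_of_le_center hc hβ.irr_sub hβ.irr h0 ⟨a, ha⟩ b
    have h2 := (res_eq_of_le_center hc hβ.irr_sub hβ.irr h0).2
    rw [h2 ⟨b, hb⟩] at h1
    have h3 := h2 ⟨a * b, mul_mem ha hb⟩
    rw [hΛ _ (mul_mem ha hb), hΛ _ ha, hΛ _ hb]
    refine mul_left_cancel₀ hβ.irr.apply_one_ne_zero ?_
    rw [← h3, h1]; ring
  have h1 : Λ 1 = 1 := by
    rw [hΛ _ (one_mem _)]
    exact hβ.irr_sub.apply_one_of_comm (comm_of_le_center hc)
  have hk : ∀ {u v : Q}, Commute (ρ u) (ρ v) → u * v * u⁻¹ * v⁻¹ ∈ ρ.ker := fun h => by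
    rw [MonoidHom.mem_ker, map_mul, map_mul, map_mul, map_inv, map_inv, h.eq]; group
  have hz : ∀ {z : Q}, z ∈ ρ.ker → ∀ q, q * z = z * q := fun h => Subgroup.mem_center_iff.1 (hc h)
  have key : ∀ u v, Λ (σ (ρ u) * σ (ρ v) * (σ (ρ u))⁻¹ * (σ (ρ v))⁻¹) = Λ (u * v * u⁻¹ * v⁻¹) := by
    intro u v
    have e : ∀ w, ∃ z ∈ ρ.ker, σ (ρ w) = z * w := fun w =>
      ⟨σ (ρ w) * w⁻¹, by rw [MonoidHom.mem_ker, map_mul, hσ, map_inv, mul_inv_cancel], by group⟩
    obtain ⟨a, ha, ea⟩ := e u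
    obtain ⟨c, hc', ec⟩ := e v
    rw [ea, ec]
    congr 1
    calc a * u * (c * v) * (a * u)⁻¹ * (c * v)⁻¹ = a * (u * c * v * u⁻¹) * a⁻¹ * v⁻¹ * c⁻¹ := by group
      _ = c * (u * v * u⁻¹ * v⁻¹) * c⁻¹ := by rw [← hz ha, hz hc']; group
      _ = _ := by rw [← hz hc']; group
  refine ⟨⟨fun x y => Λ (σ x * σ y * (σ x)⁻¹ * (σ y)⁻¹), ?_, ?_, fun x => ?_, fun x => ?_, fun x => ?_,
    ?_, ?_⟩⟩
  · intro x y z hx hy
    have a := hk (u := σ x) (v := σ z) (by rwa [hσ, hσ])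
    have b := hk (u := σ y) (v := σ z) (by rwa [hσ, hσ])
    have := key (σ x * σ y) (σ z)
    rw [map_mul, hσ, hσ, hσ] at this
    rw [this, ← hm _ a _ b, hz b]
    congr 1
    calc _ = σ x * (σ y * σ z * (σ y)⁻¹ * (σ z)⁻¹) * σ z * (σ x)⁻¹ * (σ z)⁻¹ := by group
      _ = _ := by rw [hz b]; group
  · intro x y z hy hz'
    have a := hk (u := σ x) (v := σ y) (by rwa [hσ, hσ])
    have b := hk (u := σ x) (v := σ z) (by rwa [hσ, hσ])
    have := key (σ x) (σ y * σ z)
    rw [map_mul, hσ, hσ, hσ] at this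
    rw [this, ← hm _ a _ b]
    congr 1
    calc _ = σ x * σ y * (σ x)⁻¹ * (σ x * σ z * (σ x)⁻¹ * (σ z)⁻¹) * (σ y)⁻¹ := by group
      _ = _ := by rw [mul_assoc _ _ (σ y)⁻¹, ← hz b]; group
  · simpa using h1
  · have := key 1 (σ x)
    rw [map_one, hσ] at this
    simpa [this] using h1
  · have := key (σ x) 1
    rw [map_one, hσ] at this
    simpa [this] using h1
  · intro g x y h
    have a := hk (u := σ x) (v := σ y) (by rwa [hσ, hσ])
    have := key (σ g * σ x * (σ g)⁻¹) (σ g * σ y * (σ g)⁻¹)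
    simp only [map_mul, map_inv, hσ] at this
    rw [this]
    congr 1
    calc _ = σ g * (σ x * σ y * (σ x)⁻¹ * (σ y)⁻¹) * (σ g)⁻¹ := by group
      _ = _ := by rw [hz a]; group
  · intro x hx
    by_contra hn
    push Not at hn
    have hs := sum_over_mul_conj hc hβ.irr_sub (σ x) (σ x)
    rw [Finset.sum_eq_zero fun χ hχ => by
      rw [hβ.eq_of_over χ.2 (Finset.mem_filter.1 hχ).2, hβ.eq_zero (by rwa [MonoidHom.mem_ker, hσ]),
        zero_mul], mul_zero, Finset.sum_congr rfl (g := fun z : ρ.ker =>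
          ((Nat.card {y : Q // y * σ x * y⁻¹ = z * σ x} : ℕ) : ℂ)) fun z _ => by
      rcases isEmpty_or_nonempty {y : Q // y * σ x * y⁻¹ = z * σ x} with h | ⟨⟨y, hy⟩⟩
      · simp
      have hc' : Commute x (ρ y) := by
        have := congrArg ρ hy
        rw [map_mul, map_mul, map_mul, hσ, map_inv, MonoidHom.mem_ker.1 z.2, one_mul,
          mul_inv_eq_iff_eq_mul] at this
        exact this.symm
      have h2 := hn _ hc'
      have h3 := key (σ x) y
      rw [hσ] at h3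
      have e : σ x * y * (σ x)⁻¹ * y⁻¹ * z = 1 := by
        rw [show (z : Q) = y * σ x * y⁻¹ * (σ x)⁻¹ by rw [hy]; group]; group
      have h4 := hm _ (hk (u := σ x) (v := y) (by rwa [hσ])) _ z.2
      rw [e, h1, ← h3, h2, one_mul, hΛ _ z.2] at h4
      rw [← h4, map_one, one_mul], ← Nat.cast_sum, eq_comm, Nat.cast_eq_zero, Finset.sum_eq_zero_iff] at hs
    have h5 := hs 1 (Finset.mem_univ _)
    have : Nonempty {y : Q // y * σ x * y⁻¹ = (1 : ρ.ker) * σ x} := ⟨⟨1, by simp⟩⟩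
    exact Nat.card_pos.ne' h5

variable {G : Type*} [Group G] [Finite G] {p : ℕ} [hp : Fact p.Prime]

theorem eq_one_of_pow_coprime {c : ℂ} {m n : ℕ} (h : m.Coprime n) (hm : c ^ m = 1) (hn : c ^ n = 1) :
    c = 1 := by
  simpa [Nat.Coprime.gcd_eq_one h] using pow_gcd_eq_one.2 ⟨hm, hn⟩

namespace Form

variable (B : Form G)

theorem pow_left {x y : G} (h : Commute x y) (n : ℕ) : B.b (x ^ n) y = B.b x y ^ n := by
  induction n with
  | zero => simpa using B.one_left y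
  | succ n ih => rw [pow_succ, B.mul_left (h.pow_left n) h, ih, pow_succ]

theorem pow_right {x y : G} (h : Commute x y) (n : ℕ) : B.b x (y ^ n) = B.b x y ^ n := by
  induction n with
  | zero => simpa using B.one_right x
  | succ n ih => rw [pow_succ, B.mul_right (h.pow_right n) h, ih, pow_succ]

theorem eq_one_of_cyclic {K : Subgroup G} (hK : IsCyclic K) {x y : G} (hx : x ∈ K) (hy : y ∈ K) :
    B.b x y = 1 := by
  obtain ⟨c, hc⟩ := hK.exists_monoid_generator
  obtain ⟨i, hi⟩ := hc ⟨x, hx⟩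
  obtain ⟨j, hj⟩ := hc ⟨y, hy⟩
  rw [← show (c : G) ^ i = x from congrArg Subtype.val hi, ← show (c : G) ^ j = y from congrArg Subtype.val hj,
    B.pow_left ((Commute.refl _).pow_right j), B.pow_right (Commute.refl _), B.self, one_pow, one_pow]

theorem eq_one_of_pgroup {K : Subgroup G} {x : G} {k : ℕ} (hk : x ^ p ^ k = 1) (hx : x ∈ K)
    (h : ∀ A ≤ K, x ∈ A → IsPGroup p A → (∀ a ∈ A, ∀ b ∈ A, a * b = b * a) → IsCyclic A) {y : G}
    (hy : y ∈ K) (hc : Commute x y) : B.b x y = 1 := by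
  obtain ⟨m, n, hn, e⟩ := Nat.exists_eq_pow_mul_and_not_dvd (orderOf_pos y).ne' p hp.out.ne_one
  refine eq_one_of_pow_coprime (m := p ^ k) (n := n)
    (Nat.Coprime.pow_left k ((Nat.Prime.coprime_iff_not_dvd hp.out).2 hn)) ?_ ?_
  · rw [← B.pow_left hc, hk, B.one_left]
  have hz : ∀ {a : G} {k : ℕ}, a ^ p ^ k = 1 → IsPGroup p (Subgroup.zpowers a) := fun {a k} h => by
    obtain ⟨j, -, hj⟩ := (Nat.dvd_prime_pow hp.out).1 (orderOf_dvd_of_pow_eq_one h)
    exact IsPGroup.of_card (by rw [Nat.card_zpowers, hj])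
  have hc' : Subgroup.zpowers x ≤ Subgroup.centralizer (Subgroup.zpowers (y ^ n) : Set G) :=
    Subgroup.zpowers_le.2 fun _ ⟨i, hi⟩ => hi ▸ ((hc.pow_right n).zpow_right i).eq.symm
  have hab : ∀ {a : G}, Subgroup.zpowers a ≤ Subgroup.centralizer (Subgroup.zpowers a : Set G) :=
    fun {a} => Subgroup.le_centralizer_iff_isMulCommutative.2 inferInstance
  rw [← B.pow_right hc]
  refine B.eq_one_of_cyclic (h (Subgroup.zpowers x ⊔ Subgroup.zpowers (y ^ n))
    (sup_le (Subgroup.zpowers_le.2 hx) (Subgroup.zpowers_le.2 (pow_mem hy n)))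
    (Subgroup.mem_sup_left (Subgroup.mem_zpowers x))
    (IsPGroup.to_sup_of_normal_right' (hz hk) (hz (k := m) (by
      rw [← pow_mul, mul_comm, ← e, pow_orderOf_eq_one])) (hc'.trans (Subgroup.centralizer_le_normalizer _)))
    fun a ha b hb => ?_) (Subgroup.mem_sup_left (Subgroup.mem_zpowers x))
    (Subgroup.mem_sup_right (Subgroup.mem_zpowers _))
  have h1 : ∀ L : Subgroup G, Subgroup.zpowers x ≤ Subgroup.centralizer (L : Set G) →
      Subgroup.zpowers (y ^ n) ≤ Subgroup.centralizer (L : Set G) →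
      L ≤ Subgroup.centralizer (Subgroup.zpowers x ⊔ Subgroup.zpowers (y ^ n) : Subgroup G) :=
    fun L h1 h2 => Subgroup.le_centralizer_iff.1 (sup_le h1 h2)
  exact sup_le (h1 _ hab (Subgroup.le_centralizer_iff.1 hc')) (h1 _ hc' hab) hb a ha

theorem eq_one_of_subnormal {X : Subgroup G} (hX : X.IsSubnormal) {x t : G} {a : ℕ} (ht : t ∈ X)
    (hx : x ^ p = 1) (e : t * x * t⁻¹ = x ^ a) (ha : x ^ a ≠ x)
    (h : ∀ y ∈ X, Commute x y → B.b x y = 1) (y : G) (hy : Commute x y) : B.b x y = 1 := by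
  induction hX with
  | top => exact h y trivial hy
  | step H K hle _ hN ih =>
    refine ih (hle ht) fun y hyK hy => ?_
    have hu : Commute x (t⁻¹ * y * t) := by
      have := (e ▸ hy.pow_left a : Commute (t * x * t⁻¹) y).eq
      change _ = _
      calc x * (t⁻¹ * y * t) = t⁻¹ * (t * x * t⁻¹ * y) * t := by group
        _ = _ := by rw [this]; group
    have hw : y⁻¹ * t⁻¹ * y * t ∈ H := mul_mem (by
      simpa [Subgroup.mem_subgroupOf] using
        hN.conj_mem ⟨t⁻¹, inv_mem (hle ht)⟩ (inv_mem ht) ⟨y⁻¹, inv_mem hyK⟩) ht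
    have hw' : Commute x (y⁻¹ * t⁻¹ * y * t) := by
      simpa [mul_assoc] using hy.inv_right.mul_right hu
    have h1 := B.cj t hu
    rw [e, show t * (t⁻¹ * y * t) * t⁻¹ = y by group, B.pow_left hy,
      show t⁻¹ * y * t = y * (y⁻¹ * t⁻¹ * y * t) by group, B.mul_right hy hw', h _ hw hw', mul_one] at h1
    have h2 : B.b x y ^ p = 1 := by rw [← B.pow_left hy, hx, B.one_left]
    have h0 : B.b x y ≠ 0 := fun h => by simp [h, hp.out.ne_zero] at h2
    obtain _ | a := a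
    · simpa using h1.symm
    refine eq_one_of_pow_coprime (m := p) (n := a) ((Nat.Prime.coprime_iff_not_dvd hp.out).2 ?_) h2
      (mul_right_cancel₀ h0 (by rw [← pow_succ, h1, one_mul]))
    rintro ⟨c, rfl⟩
    exact ha (by rw [pow_succ, pow_mul, hx, one_pow, one_mul])

end Form

end H68.Gag
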