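/- Groups of central type: perfect groups with small Sylow subgroups over a simple quotient. -/
import Cfsg.Agent.H68.Gag1
import Cfsg.Agent.H4.HallBasic
import Cfsg.Agent.H8.TransferEval
import Cfsg.Agent.S0102

set_option autoImplicit false
set_option linter.unusedSectionVars false

namespace H68.Gag

open Cfsg

universe u

/-- all `p`-subgroups are cyclic -/
def Cyc (p : ℕ) (G : Type*) [Group G] : Prop := ∀ K : Subgroup G, IsPGroup p K → IsCyclic K

/-- all `p`-subgroups are abelian -/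
def AbP (p : ℕ) (G : Type*) [Group G] : Prop :=
  ∀ K : Subgroup G, IsPGroup p K → ∀ a ∈ K, ∀ b ∈ K, a * b = b * a

variable {G S : Type*} [Group G] [Finite G] [Group S] {p : ℕ} [hp : Fact p.Prime]

theorem Cyc.of_sylow (h : ∀ P : Sylow p G, IsCyclic P) : Cyc p G := fun _ hK =>
  let ⟨P, hP⟩ := hK.exists_le_sylow
  have := h P
  Subgroup.isCyclic_of_le hP

theorem AbP.of_sylow (h : ∀ P : Sylow p G, IsMulCommutative P) : AbP p G := fun _ hK a ha b hb =>
  let ⟨P, hP⟩ := hK.exists_le_sylow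
  congrArg Subtype.val ((h P).is_comm.comm ⟨a, hP ha⟩ ⟨b, hP hb⟩)

theorem exists_map_ge {f : G →* S} (hf : Function.Surjective f) {K : Subgroup S} (hK : IsPGroup p K) :
    ∃ P : Sylow p G, K ≤ (P : Subgroup G).map f := by
  obtain ⟨Q, hQ⟩ := hK.exists_le_sylow
  obtain ⟨P, rfl⟩ := Sylow.mapSurjective_surjective hf p Q
  exact ⟨P, hQ⟩

theorem Cyc.of_surj (h : Cyc p G) {f : G →* S} (hf : Function.Surjective f) : Cyc p S := fun _ hK => by
  obtain ⟨P, hP⟩ := exists_map_ge hf hK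
  have := h P P.2
  have := isCyclic_of_surjective _ (f.subgroupMap_surjective P)
  exact Subgroup.isCyclic_of_le hP

theorem AbP.of_surj (h : AbP p G) {f : G →* S} (hf : Function.Surjective f) : AbP p S :=
  fun _ hK a ha b hb => by
    obtain ⟨P, hP⟩ := exists_map_ge hf hK
    obtain ⟨x, hx, rfl⟩ := hP ha
    obtain ⟨y, hy, rfl⟩ := hP hb
    rw [← map_mul, h P P.2 x hx y hy, map_mul]

omit [Finite G] in
theorem AbP.of_inj (h : AbP p S) {f : G →* S} (hf : Function.Injective f) : AbP p G :=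
  fun K hK a ha b hb => hf (by
    rw [map_mul, map_mul]
    exact h _ (hK.map f) _ ⟨a, ha, rfl⟩ _ ⟨b, hb, rfl⟩)

theorem eq_one_of_ker {f : G →* S} (hf : ¬ p ∣ Nat.card f.ker) {K : Subgroup G} (hK : IsPGroup p K)
    {a : G} (ha : a ∈ K) (h : a ∈ f.ker) : a = 1 := by
  obtain ⟨k, hk⟩ := hK ⟨a, ha⟩
  exact orderOf_eq_one_iff.1 (Nat.eq_one_of_dvd_coprimes
    (Nat.Coprime.pow_left k ((Nat.Prime.coprime_iff_not_dvd hp.out).2 hf))
    (orderOf_dvd_of_pow_eq_one (congrArg Subtype.val hk)) (Subgroup.orderOf_dvd_natCard _ h))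

theorem Cyc.of_ker (h : Cyc p S) {f : G →* S} (hf : ¬ p ∣ Nat.card f.ker) : Cyc p G := fun K hK => by
  have := h _ (hK.map f)
  refine isCyclic_of_injective (f.subgroupMap K) ((injective_iff_map_eq_one _).2 fun a ha => ?_)
  exact Subtype.ext (eq_one_of_ker hf hK a.2 (congrArg Subtype.val ha))

theorem cyc_of_not_dvd (h : ¬ p ^ 2 ∣ Nat.card G) : Cyc p G := fun K hK => by
  obtain ⟨k, hk⟩ := hK.exists_card_eq
  have h1 := hk ▸ K.card_subgroup_dvd_card
  obtain _ | _ | k := k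
  · have := (Nat.card_eq_one_iff_unique.1 hk).1
    exact isCyclic_of_subsingleton
  · exact isCyclic_of_prime_card (p := p) (by simpa using hk)
  · exact absurd ((pow_dvd_pow p (by omega)).trans h1) h

theorem le_of_perfect [Group.IsPerfect G] (P : Sylow p G) (hP : IsMulCommutative P) {m : ℕ}
    (h : ∀ y ∈ P, ∀ n ∈ Subgroup.normalizer (P : Set G), n * y ^ m * n⁻¹ = y ^ m) :
    ∀ y ∈ P, y ^ m = 1 := by
  have hc : ∀ a ∈ P, ∀ b ∈ P, Commute a b := fun a ha b hb =>
    congrArg Subtype.val (hP.is_comm.comm ⟨a, ha⟩ ⟨b, hb⟩)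
  let K : Subgroup G :=
    { carrier := {y | y ∈ P ∧ y ^ m = 1}
      mul_mem' := fun ha hb => ⟨mul_mem ha.1 hb.1, by rw [(hc _ ha.1 _ hb.1).mul_pow, ha.2, hb.2, one_mul]⟩
      one_mem' := ⟨one_mem _, one_pow m⟩
      inv_mem' := fun ha => ⟨inv_mem ha.1, by rw [inv_pow, ha.2, inv_one]⟩ }
  have h1 := H8.commutator_inf_abelian_sylow P hP
  rw [Group.isPerfect_def.1 inferInstance, top_inf_eq] at h1
  have h2 : ⁅(P : Subgroup G), Subgroup.normalizer (P : Set G)⁆ ≤ K :=
    Subgroup.commutator_le.2 fun y hy n hn => by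
      have h3 : n * y⁻¹ * n⁻¹ ∈ P := (Subgroup.mem_normalizer_iff.1 hn _).1 (inv_mem hy)
      rw [commutatorElement_def, show y * n * y⁻¹ * n⁻¹ = y * (n * y⁻¹ * n⁻¹) by group]
      exact ⟨mul_mem hy h3, by
        rw [(hc _ hy _ h3).mul_pow, conj_pow, h _ (inv_mem hy) n hn, inv_pow, mul_inv_cancel]⟩
  exact fun y hy => (h2 (h1.le hy)).2

theorem Form.false_of_cyc (B : Form G) {X : Subgroup G} (hX : X.IsSubnormal) [Group.IsPerfect X]
    (hd : p ∣ Nat.card X) (hc : Cyc p X) : False := by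
  obtain ⟨P⟩ : Nonempty (Sylow p X) := inferInstance
  have := hc P P.2
  obtain ⟨c, hgen⟩ := this.exists_monoid_generator
  obtain ⟨m, hm⟩ : p ∣ Nat.card P := P.dvd_card_of_dvd_card hd
  have ho : orderOf (c : X) = p * m := by
    rw [Subgroup.orderOf_coe, orderOf_eq_card_of_forall_mem_powers hgen, hm]
  have hm0 : 0 < m := Nat.pos_of_ne_zero fun h => Nat.card_pos.ne' (by rw [hm, h, mul_zero])
  have h1 : (c : X) ^ m ≠ 1 := pow_ne_one_of_lt_orderOf hm0.ne' (by
    rw [ho]; nlinarith [hp.out.two_le])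
  obtain ⟨t, ht, hne⟩ : ∃ t ∈ Subgroup.normalizer (P : Set X), t * (c : X) ^ m * t⁻¹ ≠ (c : X) ^ m := by
    by_contra hn
    push Not at hn
    refine h1 (le_of_perfect P inferInstance (fun y hy n hn' => ?_) c c.2)
    obtain ⟨i, hi⟩ := hgen ⟨y, hy⟩
    rw [← show (c : X) ^ i = y from congrArg Subtype.val hi, ← pow_mul, mul_comm i, pow_mul, ← conj_pow,
      hn n hn']
  obtain ⟨a, ha⟩ := hgen ⟨_, (Subgroup.mem_normalizer_iff.1 ht _).1 c.2⟩
  have e : t * (c : X) ^ m * t⁻¹ = ((c : X) ^ m) ^ a := by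
    rw [← conj_pow, ← show (c : X) ^ a = t * c * t⁻¹ from congrArg Subtype.val ha, ← pow_mul, ← pow_mul,
      mul_comm]
  have hp1 : ((c : X) ^ m) ^ p = 1 := by rw [← pow_mul, mul_comm, ← ho, pow_orderOf_eq_one]
  generalize (c : X) ^ m = x at h1 hne e hp1
  obtain ⟨y, hy, h⟩ := B.nondeg x fun h => h1 (Subtype.ext h)
  refine h (B.eq_one_of_subnormal (p := p) (a := a) hX t.2 (congrArg Subtype.val hp1)
    (congrArg Subtype.val e) (fun h => hne (e.trans (Subtype.ext h))) (fun y hy => B.eq_one_of_pgroup (k := 1)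
      (by simpa using congrArg Subtype.val hp1) x.2 (fun A hA _ h _ => ?_) hy) y hy)
  have := hc (A.subgroupOf X) (h.of_equiv (Subgroup.subgroupOfEquivOfLe hA).symm)
  exact isCyclic_of_surjective _ (Subgroup.subgroupOfEquivOfLe hA).surjective

theorem le_ker_or_eq_top [IsSimpleGroup S] [Group.IsPerfect G] {π : G →* S} (hπ : Function.Surjective π)
    (hs : Group.IsSolvable π.ker) (N : Subgroup G) [N.Normal] : N ≤ π.ker ∨ N = ⊤ := by
  rcases (Subgroup.Normal.map inferInstance π hπ : (N.map π).Normal).eq_bot_or_eq_top with h | h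
  · exact Or.inl (Subgroup.map_eq_bot_iff _ |>.1 h)
  right
  have h1 : Function.Surjective ((QuotientGroup.mk' N).comp π.ker.subtype) := fun g => by
    obtain ⟨g, rfl⟩ := QuotientGroup.mk_surjective g
    obtain ⟨n, hn, e⟩ := h.ge (Subgroup.mem_top (π g))
    exact ⟨⟨g * n⁻¹, by rw [MonoidHom.mem_ker, map_mul, map_inv, e, mul_inv_cancel]⟩,
      QuotientGroup.eq.2 (by simpa using hn)⟩
  have := Group.isSolvable_of_surjective h1
  by_contra hN
  have := QuotientGroup.nontrivial_iff.2 hN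
  exact Group.IsPerfect.not_isSolvable (G := G ⧸ N) inferInstance

theorem card_dvd [Finite S] [IsSimpleGroup S] (hc : Cyc p S) (hd : p ∣ Nat.card S) (n : ℕ) :
    ∀ (X : Type u) [Group X] [Finite X] [Group.IsPerfect X] (π : X →* S), Nat.card X = n →
      Function.Surjective π → Group.IsSolvable π.ker → p ∣ Nat.card π.ker →
      (AbP p X ∨ ¬ p ^ 5 ∣ Nat.card X) → Nat.card S ∣ p * ((p - 1) * (p ^ 2 - 1) * (p ^ 3 - 1)) := by
  induction n using Nat.strong_induction_on with
  | _ n ih =>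
  intro X _ _ _ π hn hπ hs hk hA
  obtain ⟨V, r, hV, hV1, hle, hr, hab, hexp, -⟩ := H4.exists_minimal_normal_elemab π.ker
    fun h => hp.out.one_lt.ne' (by simpa [h] using hk)
  have := Fact.mk hr
  have hVr : IsPGroup r V := fun x => ⟨1, Subtype.ext (by simpa using hexp x x.2)⟩
  let π' := QuotientGroup.lift V π hle
  have hker : π'.ker = π.ker.map (QuotientGroup.mk' V) := QuotientGroup.ker_lift V π hle
  have hcard : Nat.card π'.ker * Nat.card V = Nat.card π.ker := by
    rw [hker, ← Subgroup.relIndex_ker, QuotientGroup.ker_mk', mul_comm,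
      ← Subgroup.card_mul_index (V.subgroupOf π.ker), Nat.card_congr (Subgroup.subgroupOfEquivOfLe hle).toEquiv]
    rfl
  have hXV := (Subgroup.card_eq_card_quotient_mul_card_subgroup V)
  by_cases hk' : p ∣ Nat.card π'.ker
  · refine ih _ ?_ (X ⧸ V) π' rfl (QuotientGroup.lift_surjective_of_surjective V π hπ hle) (by
      rw [hker]; exact Group.isSolvable_of_surjective (MonoidHom.subgroupMap_surjective _ _)) hk'
      (hA.imp (·.of_surj (QuotientGroup.mk'_surjective V)) fun h h' => h (h'.trans (Dvd.intro _ hXV.symm)))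
    rw [← hn, hXV]
    exact lt_mul_of_one_lt_right Nat.card_pos (V.one_lt_card_iff_ne_bot.2 hV1)
  obtain ⟨d, hd'⟩ := hVr.exists_card_eq
  obtain rfl : p = r := (Nat.prime_dvd_prime_iff_eq hp.out hr).1 (hp.out.dvd_of_dvd_pow
    (hd' ▸ ((Nat.Prime.dvd_mul hp.out).1 (hcard ▸ hk)).resolve_left hk'))
  have hS : π.ker.index = Nat.card S := by
    rw [Subgroup.index_ker, MonoidHom.range_eq_top.2 hπ, Subgroup.card_top]
  rcases le_ker_or_eq_top hπ hs (Subgroup.centralizer (V : Set X)) with h | h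
  swap
  · refine absurd ?_ (Agent.S0102.result (Group.isPerfect_def.1 inferInstance) (fun P => hc.of_ker hk' P P.2)
      (QuotientGroup.mk' V) (QuotientGroup.mk'_surjective V) ?_ (Group.isPerfect_def.1 inferInstance))
    · rw [QuotientGroup.ker_mk']
      exact ((Nat.Prime.dvd_mul hp.out).1 (hcard ▸ hk)).resolve_left hk'
    · rw [QuotientGroup.ker_mk']
      exact Subgroup.centralizer_eq_top_iff_subset.1 h
  replace hA := hA.resolve_left fun hA => by
    obtain ⟨P, hP⟩ := hVr.exists_le_sylow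
    exact P.not_dvd_index (hd.trans (hS ▸ Subgroup.index_dvd_of_le 
      fun a ha => h fun b hb => hA P P.2 b (hP hb) a ha))
  have h1 : Nat.card S ∣ ∏ i ∈ Finset.range d, (p ^ d - p ^ i) := by
    rw [← H3.card_mulAut_of_elementary hab.is_comm.comm (fun a => Subtype.ext (hexp a a.2)) hd', ← hS]
    refine (Subgroup.index_dvd_of_le h).trans ?_
    have := Subgroup.card_subgroup_dvd_card (MulAut.conjNormal (G := X) (H := V)).range
    rwa [← Subgroup.index_ker, show (MulAut.conjNormal (G := X) (H := V)).ker = Subgroup.centralizer V by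
      ext g
      simp only [MonoidHom.mem_ker, MulEquiv.ext_iff, Subtype.ext_iff, MulAut.conjNormal_apply,
        MulAut.one_apply, Subtype.forall, Subgroup.mem_centralizer_iff, mul_inv_eq_iff_eq_mul]
      exact forall₂_congr fun _ _ => eq_comm] at this
  have h2 : Nat.card S * p ^ d ∣ Nat.card X := by
    rw [← hS, ← π.ker.index_mul_card, ← hcard, hd']
    exact mul_dvd_mul_left _ (Dvd.intro_left _ rfl)
  have h3 : ∀ k, p ^ k ∣ Nat.card S → k + d < 5 := fun k hk => by
    by_contra h5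
    exact hA (((pow_dvd_pow p (by omega)).trans (pow_add p k d ▸ mul_dvd_mul_right hk _)).trans h2)
  have h4 := h3 1 (by simpa using hd)
  obtain ⟨q, rfl⟩ : ∃ q, p = q + 1 := ⟨p - 1, by have := hp.out.pos; omega⟩
  have e1 : (q + 1) ^ 2 - 1 = q * (q + 2) := by rw [Nat.sub_eq_iff_eq_add (Nat.one_le_pow _ _ (by omega))]; ring
  have e2 : (q + 1) ^ 2 - (q + 1) = (q + 1) * q := by rw [Nat.sub_eq_iff_eq_add (by nlinarith)]; ring
  have e3 : (q + 1) ^ 3 - (q + 1) = (q + 1) * (q * (q + 2)) := by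
    rw [Nat.sub_eq_iff_eq_add (Nat.le_self_pow (by omega) _)]; ring
  have e4 : (q + 1) ^ 3 - (q + 1) ^ 2 = (q + 1) ^ 2 * q := by
    rw [Nat.sub_eq_iff_eq_add (Nat.pow_le_pow_right (by omega) (by omega))]; ring
  obtain rfl | rfl | rfl | rfl : d = 0 ∨ d = 1 ∨ d = 2 ∨ d = 3 := by omega
  · exact h1.trans (by simp)
  · exact h1.trans ⟨(q + 1) * (((q + 1) ^ 2 - 1) * ((q + 1) ^ 3 - 1)), by simp; ring⟩
  · exact h1.trans ⟨(q + 1) ^ 3 - 1, by simp [Finset.prod_range_succ, e2]; ring⟩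
  obtain ⟨s, hs⟩ := hd
  rw [hs] at h1 h3 ⊢
  refine mul_dvd_mul_left _ (Nat.Coprime.dvd_of_dvd_mul_left (m := (q + 1) ^ 3) (Nat.Coprime.pow_right _
    ((Nat.Prime.coprime_iff_not_dvd hp.out).2 fun h => ?_).symm) ((Dvd.intro_left _ rfl).trans (h1.trans ?_)))
  · exact absurd (h3 2 (pow_two (q + 1) ▸ mul_dvd_mul_left _ h)) (by omega)
  · simp only [Finset.prod_range_succ, Finset.prod_range_zero, pow_zero, pow_one, e1, e3, e4, one_mul,
      Nat.add_sub_cancel]
    exact Dvd.intro 1 (by ring)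

end H68.Gag
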