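/- A non-abelian group of order 16 and rank 3 is not a Sylow subgroup of a group without index 2. -/
import Cfsg.Agent.H8.TransferEval
import Cfsg.Agent.H98.Sylow

set_option autoImplicit false
set_option linter.unusedSectionVars false

namespace H68.Gag

open Cfsg

variable {S : Type*} [Group S] [Finite S]

theorem two_mul_card_le {A B : Subgroup S} (h : A ≤ B) {x : S} (hx : x ∈ B) (hx' : x ∉ A) :
    2 * Nat.card A ≤ Nat.card B := by
  obtain ⟨c, hc⟩ := Subgroup.card_dvd_of_le h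
  obtain _ | _ | c := c
  · exact absurd hc (by simpa using Nat.card_pos.ne')
  · exact absurd ((Subgroup.eq_of_le_of_card_ge h (by omega)).ge hx) hx'
  · rw [hc]; nlinarith

theorem relIndex_two {A T : Subgroup S} (hT : Nat.card T = 16) (h : A ≤ T) (hA : Nat.card A = 8) :
    A.relIndex T = 2 := by
  have := (A.subgroupOf T).card_mul_index
  rw [Nat.card_congr (Subgroup.subgroupOfEquivOfLe h).toEquiv, hT, hA] at this
  unfold Subgroup.relIndex
  omega

theorem mul_mem_of_two {A T : Subgroup S} (h : A.relIndex T = 2) {x y : S} (hx : x ∈ T) (hy : y ∈ T) :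
    x * y ∈ A ↔ (x ∈ A ↔ y ∈ A) :=
  Subgroup.mul_mem_iff_of_index_two h (a := ⟨x, hx⟩) (b := ⟨y, hy⟩)

variable (h2 : ∀ N : Subgroup S, N.Normal → N.index ≠ 2) (T : Sylow 2 S) (hT : Nat.card T = 16)
include h2 hT

set_option maxHeartbeats 400000 in
theorem r3_aux {Z : Subgroup S} (hZ : Z = (T : Subgroup S) ⊓ Subgroup.centralizer (T : Set S)) (h4 : Nat.card Z = 4)
    (hZ2 : ∀ w ∈ Z, w * w = 1) {e f z : S} (he : e ∈ T) (hf : f ∈ T) (he2 : e * e = 1) (hf2 : f * f = 1)
    (hz : z ∈ Z) (hz1 : z ≠ 1) (hef : f * e = z * (e * f))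
    (hall : ∀ x ∈ T, ∃ w ∈ Z, x = w ∨ x = w * e ∨ x = w * f ∨ x = w * (e * f)) : False := by
  have hZT : Z ≤ T := hZ ▸ inf_le_left
  have hc : ∀ w ∈ Z, ∀ x ∈ T, x * w = w * x := fun w hw => (hZ ▸ hw).2
  have hodd : Odd (T : Subgroup S).index := Nat.odd_iff.2 (by have := T.not_dvd_index; omega)
  obtain ⟨a, ha, ha1⟩ : ∃ a ∈ Z, a ∉ Subgroup.zpowers z := by
    by_contra h
    push Not at h
    have := Subgroup.card_le_of_le (show Z ≤ _ from h)
    rw [h4, Nat.card_zpowers] at this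
    exact absurd (this.trans (orderOf_le_of_pow_eq_one two_pos (by rw [pow_two, hZ2 z hz]))) (by omega)
  have hZ4 : ∀ w ∈ Z, w = 1 ∨ w = z ∨ w = a ∨ w = a * z := fun w hw => by
    have h1 : (Subgroup.zpowers z).relIndex Z = 2 := by
      have := ((Subgroup.zpowers z).subgroupOf Z).card_mul_index
      rw [Nat.card_congr (Subgroup.subgroupOfEquivOfLe (Subgroup.zpowers_le.2 hz)).toEquiv, h4,
        Nat.card_zpowers, orderOf_eq_prime (p := 2) (by rw [pow_two, hZ2 z hz]) hz1] at this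
      unfold Subgroup.relIndex
      omega
    have h3 : ∀ y ∈ Subgroup.zpowers z, y = 1 ∨ y = z := by
      rintro _ ⟨k, rfl⟩
      have : z ^ (2 : ℤ) = 1 := by rw [zpow_two, hZ2 z hz]
      rcases Int.even_or_odd' k with ⟨j, rfl | rfl⟩ <;> simp [zpow_add, zpow_mul, this]
    by_cases h : w ∈ Subgroup.zpowers z
    · rcases h3 w h with h | h <;> simp [h]
    · have := h3 _ ((mul_mem_of_two h1 ha hw).2 (by simp [h, ha1]))
      rcases this with h | h
      · exact Or.inr (Or.inr (Or.inl (by rw [← one_mul w, ← hZ2 a ha, mul_assoc, h, mul_one])))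
      · exact Or.inr (Or.inr (Or.inr (by rw [← one_mul w, ← hZ2 a ha, mul_assoc, h])))
  have hsq0 : ∀ {e f : S}, e ∈ T → e * e = 1 → f * f = 1 → f * e = z * (e * f) → ∀ w ∈ Z, f ∈ T →
      w * (e * f) * (w * (e * f)) = z := fun {e f} he he2 hf2 hef w hw hf => by
    calc _ = w * (e * f * w) * (e * f) := by group
      _ = w * w * (e * (f * e) * f) := by rw [hc w hw _ (mul_mem he hf)]; group
      _ = (e * z) * e * (f * f) := by rw [hZ2 w hw, hef]; group
      _ = z := by rw [hc z hz e he, hf2, mul_assoc z, he2]; group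
  have hsq1 : ∀ {e : S}, e ∈ T → e * e = 1 → ∀ w ∈ Z, w * e * (w * e) = 1 := fun {e} he he2 w hw => by
    calc _ = w * (e * w) * e := by group
      _ = w * w * (e * e) := by rw [hc w hw _ he]; group
      _ = 1 := by rw [hZ2 w hw, he2, mul_one]
  have hNz : ∀ n ∈ Subgroup.normalizer (T : Set S), n * z * n⁻¹ = z := fun n hn => by
    have h1 : n * z * n⁻¹ = n * (e * f) * n⁻¹ * (n * (e * f) * n⁻¹) := by
      rw [← hsq0 he he2 hf2 hef 1 (one_mem _) hf]; group
    have h3 : n * z * n⁻¹ ≠ 1 := fun h => hz1 (by simpa using h)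
    obtain ⟨w, hw, h | h | h | h⟩ := hall _ ((Subgroup.mem_normalizer_iff.1 hn _).1 (mul_mem he hf)) <;>
      rw [h] at h1
    · exact absurd (h1.trans (hZ2 w hw)) h3
    · exact absurd (h1.trans (hsq1 he he2 w hw)) h3
    · exact absurd (h1.trans (hsq1 hf hf2 w hw)) h3
    · exact h1.trans (hsq0 he he2 hf2 hef w hw hf)
  have hNa : ∀ n ∈ Subgroup.normalizer (T : Set S), ∀ w ∈ Z, n * w * n⁻¹ ≠ w * z := fun n hn w hw h => by
    have h1 : n ^ 2 ∈ Subgroup.centralizer {w} := Subgroup.mem_centralizer_singleton_iff.2 (by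
      rw [pow_two]
      calc n * n * w = n * (n * w * n⁻¹) * n⁻¹ * (n * n) := by group
        _ = n * (w * z) * n⁻¹ * (n * n) := by rw [h]
        _ = n * w * n⁻¹ * (n * z * n⁻¹) * (n * n) := by group
        _ = _ := by rw [h, hNz n hn, mul_assoc w, hZ2 z hz, mul_one])
    obtain ⟨k, hk⟩ : Odd ((T : Subgroup S).subgroupOf (Subgroup.normalizer (T : Set S))).index :=
      hodd.of_dvd_nat (Subgroup.relIndex_dvd_index_of_le Subgroup.le_normalizer)
    have h3 : n ^ (2 * k + 1) ∈ T := by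
      rw [← hk]
      have := (T : Subgroup S).normal_in_normalizer
      exact Subgroup.pow_index_mem ((T : Subgroup S).subgroupOf (Subgroup.normalizer (T : Set S))) ⟨n, hn⟩
    have h5 : n ^ (2 * k + 1) ∈ Subgroup.centralizer {w} :=
      Subgroup.mem_centralizer_singleton_iff.2 (hc w hw _ h3)
    rw [pow_succ, pow_mul, mul_mem_cancel_left (pow_mem h1 k), Subgroup.mem_centralizer_singleton_iff] at h5
    rw [h5, mul_inv_cancel_right, left_eq_mul] at h
    exact hz1 h
  have c1 : ∀ w ∈ Z, ∀ w' ∈ Z, IsConj w w' → w = w' := fun w hw w' hw' h => by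
    obtain ⟨g, rfl⟩ := isConj_iff.1 h
    obtain ⟨n, hn, e⟩ := T.conj_eq_normalizer_conj_of_mem_centralizer w g⁻¹ (hZ ▸ hw).2
      (by simpa using (hZ ▸ hw').2)
    rw [inv_inv] at e
    rw [e] at hw' ⊢
    have h1 := hNz _ (inv_mem hn)
    have h3 := hNa _ (inv_mem hn) w hw
    rw [inv_inv] at h1 h3
    have h5 : n⁻¹ * w * n = z → w = z := fun h => by rw [← h1] at h; simpa using h
    have h6 : n⁻¹ * w * n = 1 → w = 1 := fun h => by
      rw [← mul_left_inj n, ← mul_right_inj n⁻¹, ← mul_assoc, h]; group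
    rcases hZ4 w hw with rfl | rfl | h | h
    · simp
    · exact h1.symm
    all_goals
      rcases hZ4 _ hw' with h' | h' | h' | h'
      · rw [h', h6 h']
      · rw [h', h5 h']
      all_goals first | exact h.trans h'.symm | exact absurd (by rw [h', h]; try rw [mul_assoc, hZ2 z hz, mul_one]) h3
  have hne : ∀ {e f : S}, f * e = z * (e * f) → e * f ≠ f * e := fun h h' =>
    hz1 (by rwa [h', right_eq_mul] at h)
  have hC : ∀ x ∈ T, x ∉ Z → Nat.card ↥((T : Subgroup S) ⊓ Subgroup.centralizer {x}) = 8 := fun x hx hx' => by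
    have h1 := two_mul_card_le (A := Z) (B := T ⊓ Subgroup.centralizer {x})
      (fun w hw => ⟨hZT hw, Subgroup.mem_centralizer_singleton_iff.2 (hc w hw x hx).symm⟩)
      ⟨hx, Subgroup.mem_centralizer_singleton_iff.2 rfl⟩ hx'
    obtain ⟨y, hy, hy'⟩ : ∃ y ∈ T, y * x ≠ x * y := by
      by_contra h
      push Not at h
      exact hx' (hZ ▸ ⟨hx, h⟩)
    have h3 := two_mul_card_le (A := T ⊓ Subgroup.centralizer {x}) inf_le_left hy
      fun h => hy' (Subgroup.mem_centralizer_singleton_iff.1 h.2)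
    omega
  have hth : ∀ u : S, u * u = 1 → ∃ w ∈ Z, IsConj u w := fun u hu => by
    by_contra hn
    push Not at hn
    have h0 : e * f ∉ Z := fun h => hne hef (by
      have := hc _ h f hf
      rwa [mul_assoc e, hf2, mul_one, ← mul_assoc, ← mul_left_inj f, mul_assoc _ f, hf2, mul_one,
        eq_comm] at this)
    have h7 : ∀ g, g * u * g⁻¹ ∉ (T : Subgroup S) ⊓ Subgroup.centralizer {e * f} := fun g hg => by
      have h1 := Subgroup.mem_centralizer_singleton_iff.1 hg.2
      have h3 : g * u * g⁻¹ * (g * u * g⁻¹) = 1 := by rw [conj_mul, hu, mul_one, mul_inv_cancel]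
      obtain ⟨w, hw, h | h | h | h⟩ := hall _ hg.1
      · exact hn w hw (isConj_iff.2 ⟨g, h⟩)
      · rw [h, ← mul_assoc _ w, hc w hw _ (mul_mem he hf), mul_assoc, mul_assoc, mul_assoc, mul_right_inj,
          mul_right_inj] at h1
        exact hne hef h1
      · rw [h, ← mul_assoc _ w, hc w hw _ (mul_mem he hf), mul_assoc, mul_assoc w, mul_right_inj,
          ← mul_assoc, mul_left_inj] at h1
        exact hne hef h1.symm
      · rw [h, hsq0 he he2 hf2 hef w hw hf] at h3
        exact hz1 h3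
    have h8 := hC _ (mul_mem he hf) h0
    have h9 := relIndex_two hT (inf_le_left (b := Subgroup.centralizer {e * f})) h8
    obtain ⟨N, hN, h, -⟩ := H8.thompson_transfer _ _ hodd h9 u ((pow_two u).trans hu) h7
    exact h2 N hN h
  have K : ∀ {e f : S}, e ∈ T → f ∈ T → e * e = 1 → f * f = 1 → f * e = z * (e * f) →
      (∀ x ∈ T, ∃ w ∈ Z, x = w ∨ x = w * e ∨ x = w * f ∨ x = w * (e * f)) →
      ∃ b ∈ Z, IsConj (b * e) z := fun {e f} he hf he2 hf2 hef hall => by
    by_contra hn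
    push Not at hn
    obtain ⟨w, hw, h⟩ := hth e he2
    obtain ⟨g₀, h₀⟩ := isConj_iff.1 h
    have heZ : e ∉ Z := fun h => hne hef (hc e h f hf).symm
    obtain ⟨c, hc', hle⟩ := (H98.isSyl_sylow_of_le T (H := Subgroup.centralizer {w}) fun x hx =>
      Subgroup.mem_centralizer_singleton_iff.2 (hc w hw x hx)).exists_cj_le
      (Q := H98.cj g₀ (T ⊓ Subgroup.centralizer {e})) ((T.2.to_le inf_le_left).map _) (by
        rintro _ ⟨y, hy, rfl⟩
        have := Subgroup.mem_centralizer_singleton_iff.1 hy.2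
        refine Subgroup.mem_centralizer_singleton_iff.2 ?_
        change g₀ * y * g₀⁻¹ * w = w * (g₀ * y * g₀⁻¹)
        rw [← h₀, conj_mul, conj_mul, this])
    have h7 := (mul_mem_of_two (relIndex_two hT hle
      (by rw [H98.card_cj, H98.card_cj, hC e he heZ])) (mul_mem (one_mem _) (mul_mem he hf))
        (mul_mem (one_mem _) (mul_mem he hf))).2 Iff.rfl
    rw [hsq0 he he2 hf2 hef 1 (one_mem _) hf] at h7
    obtain ⟨_, ⟨y, hy, rfl⟩, hy'⟩ := h7
    change c * (g₀ * y * g₀⁻¹) * c⁻¹ = z at hy'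
    have hyz : IsConj y z := isConj_iff.2 ⟨c * g₀, by rw [← hy']; group⟩
    have h1 := Subgroup.mem_centralizer_singleton_iff.1 hy.2
    obtain ⟨v, hv, rfl | rfl | rfl | rfl⟩ := hall y hy.1
    · obtain rfl := c1 _ hv _ hz hyz
      have h3 : IsConj w (y * w) := h.symm.trans ((isConj_iff.2 ⟨f, by
        rw [hef, mul_assoc, mul_assoc, mul_inv_cancel, mul_one]⟩ : IsConj e (y * e)).trans
        (isConj_iff.2 ⟨c * g₀, by
          calc _ = c * (g₀ * y * g₀⁻¹) * c⁻¹ * (c * (g₀ * e * g₀⁻¹) * c⁻¹) := by group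
            _ = _ := by rw [hy', h₀, Subgroup.mem_centralizer_singleton_iff.1 hc', mul_inv_cancel_right]⟩))
      exact hz1 (right_eq_mul.1 (c1 _ hw _ (mul_mem hz hw) h3))
    · exact hn v hv hyz
    · rw [← mul_assoc, hc v hv e he, mul_assoc, mul_assoc, mul_right_inj] at h1
      exact hne hef h1.symm
    · rw [← mul_assoc e, hc v hv e he, mul_assoc, mul_assoc, mul_assoc, mul_right_inj, mul_right_inj] at h1
      exact hne hef h1.symm
  have hfe : e * f = z * (f * e) := by rw [hef, ← mul_assoc, hZ2 z hz, one_mul]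
  obtain ⟨b, hb, hbe⟩ := K he hf he2 hf2 hef hall
  obtain ⟨d, hd, hdf⟩ := K hf he hf2 he2 hfe fun x hx => by
    obtain ⟨w, hw, h | h | h | h⟩ := hall x hx
    exacts [⟨w, hw, Or.inl h⟩, ⟨w, hw, Or.inr (Or.inr (Or.inl h))⟩, ⟨w, hw, Or.inr (Or.inl h)⟩,
      ⟨w * z, mul_mem hw hz, Or.inr (Or.inr (Or.inr (by rw [h, hfe, mul_assoc])))⟩]
  have hef' : d * f * (b * e) = z * (b * e * (d * f)) := by
    calc _ = d * (f * b) * e := by group
      _ = d * b * (f * e) := by rw [hc b hb f hf]; group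
      _ = z * (b * (d * e) * f) := by rw [hef, hc b hb d (hZT hd), ← mul_assoc, hc z hz _ (hZT (mul_mem hb hd))]; group
      _ = _ := by rw [← hc d hd e he]; group
  have he' := mul_mem (hZT hb) he
  have hf' := mul_mem (hZT hd) hf
  have he2' := hsq1 he he2 b hb
  have hf2' := hsq1 hf hf2 d hd
  clear K hall hef hfe he2 hf2 he hf
  generalize b * e = e at *
  generalize d * f = f at *
  have hM : ∀ x ∈ Subgroup.closure {e, f}, ∃ w, (w = 1 ∨ w = z) ∧
      (x = w ∨ x = w * e ∨ x = w * f ∨ x = w * (e * f)) := fun x hx => by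
    have key : ∀ s ∈ ({e, f} : Set S), ∀ x, (∃ w, (w = 1 ∨ w = z) ∧
        (x = w ∨ x = w * e ∨ x = w * f ∨ x = w * (e * f))) → ∃ w, (w = 1 ∨ w = z) ∧
        (s * x = w ∨ s * x = w * e ∨ s * x = w * f ∨ s * x = w * (e * f)) := by
      rintro s hs x ⟨w, hw, h⟩
      have hw' : w ∈ Z := by rcases hw with rfl | rfl; exacts [one_mem _, hz]
      have hwz : w * z = 1 ∨ w * z = z := by rcases hw with rfl | rfl <;> simp [hZ2 _ hz]
      have a1 : ∀ y, e * (w * y) = w * (e * y) := fun y => by rw [← mul_assoc, hc w hw' e he', mul_assoc]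
      have a2 : ∀ y, f * (w * y) = w * (f * y) := fun y => by rw [← mul_assoc, hc w hw' f hf', mul_assoc]
      rcases hs with rfl | rfl <;> rcases h with rfl | rfl | rfl | rfl
      · exact ⟨x, hw, Or.inr (Or.inl (hc x hw' _ he'))⟩
      · exact ⟨w, hw, Or.inl (by rw [a1, he2', mul_one])⟩
      · exact ⟨w, hw, Or.inr (Or.inr (Or.inr (a1 _)))⟩
      · exact ⟨w, hw, Or.inr (Or.inr (Or.inl (by rw [a1, ← mul_assoc s, he2', one_mul])))⟩
      · exact ⟨x, hw, Or.inr (Or.inr (Or.inl (hc x hw' _ hf')))⟩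
      · exact ⟨w * z, hwz, Or.inr (Or.inr (Or.inr (by rw [a2, hef', mul_assoc])))⟩
      · exact ⟨w, hw, Or.inl (by rw [a2, hf2', mul_one])⟩
      · exact ⟨w * z, hwz, Or.inr (Or.inl (by
          rw [a2, ← mul_assoc s, hef', mul_assoc, mul_assoc, hf2', mul_one, mul_assoc]))⟩
    induction hx using Subgroup.closure_induction_left with
    | one => exact ⟨1, Or.inl rfl, Or.inl rfl⟩
    | mul_left s hs x _ ih => exact key s hs x ih
    | inv_mul_cancel s hs x _ ih =>
      rw [show s⁻¹ = s by rcases hs with rfl | rfl <;> exact inv_eq_of_mul_eq_one_right ‹_›]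
      exact key s hs x ih
  have hMa : ∀ g, g * a * g⁻¹ ∉ Subgroup.closure {e, f} := fun g hg => by
    have h0 : IsConj a (g * a * g⁻¹) := isConj_iff.2 ⟨g, rfl⟩
    have h1 : ¬ IsConj a z := fun h => ha1 (c1 _ ha _ hz h ▸ Subgroup.mem_zpowers _)
    have h3 : IsConj (z * e) z := (isConj_iff.2 ⟨f, by
      rw [hef', mul_assoc, mul_assoc, mul_inv_cancel, mul_one]⟩ : IsConj e (z * e)).symm.trans hbe
    have h5 : IsConj (z * f) z := (isConj_iff.2 ⟨e, by
      rw [mul_inv_eq_iff_eq_mul, mul_assoc, hef', ← mul_assoc, hZ2 z hz, one_mul]⟩ :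
        IsConj f (z * f)).symm.trans hdf
    obtain ⟨w, hw, h | h | h | h⟩ := hM _ hg <;> rw [h] at h0
    · rcases hw with rfl | rfl
      exacts [ha1 (isConj_one_left.1 h0 ▸ one_mem _), h1 h0]
    · rcases hw with rfl | rfl
      exacts [h1 (h0.trans (by rwa [one_mul])), h1 (h0.trans h3)]
    · rcases hw with rfl | rfl
      exacts [h1 (h0.trans (by rwa [one_mul])), h1 (h0.trans h5)]
    · have := hsq0 he' he2' hf2' hef' w (by rcases hw with rfl | rfl; exacts [one_mem _, hz]) hf'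
      rw [← h, conj_mul, hZ2 a ha, mul_one, mul_inv_cancel] at this
      exact hz1 this.symm
  have hMT : Subgroup.closure {e, f} ≤ T := (Subgroup.closure_le _).2 (by rintro _ (rfl | rfl) <;> assumption)
  have heM : e ∈ Subgroup.closure {e, f} := Subgroup.subset_closure (by simp)
  have hfM : f ∈ Subgroup.closure {e, f} := Subgroup.subset_closure (by simp)
  have h8 : Nat.card (Subgroup.closure {e, f} : Subgroup S) = 8 := by
    have b0 := hMa 1
    rw [one_mul, inv_one, mul_one] at b0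
    have b1 := two_mul_card_le hMT (hZT ha) b0
    have b4 : e ∉ Subgroup.zpowers (e * f) := fun ⟨k, hk⟩ => hne hef' (by
      have h := ((Commute.refl (e * f)).zpow_left k).eq
      rwa [show (e * f) ^ k = e from hk, mul_assoc, mul_right_inj] at h)
    have b2 := two_mul_card_le (Subgroup.zpowers_le.2 (mul_mem heM hfM)) heM b4
    have b5 := hsq0 he' he2' hf2' hef' 1 (one_mem _) hf'
    rw [one_mul, ← pow_two] at b5
    have b3 : orderOf (e * f) = 2 ^ (1 + 1) := orderOf_eq_prime_pow (by rwa [pow_one, b5])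
      (by rw [pow_succ, pow_one, pow_mul, b5, pow_two, hZ2 z hz])
    rw [Nat.card_zpowers, b3] at b2
    rw [hT] at b1
    exact le_antisymm (by omega) b2
  have h9 := relIndex_two hT hMT h8
  obtain ⟨N, hN, h, -⟩ := H8.thompson_transfer _ _ hodd h9 a ((pow_two a).trans (hZ2 a ha)) hMa
  exact h2 N hN h

theorem r3 (hna : ¬ IsMulCommutative T) {E : Subgroup S} (hE : E ≤ T) (h8 : Nat.card E = 8)
    (hE2 : ∀ a ∈ E, a * a = 1) : False := by
  have hodd : Odd (T : Subgroup S).index := Nat.odd_iff.2 (by have := T.not_dvd_index; omega)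
  have h9 := relIndex_two hT hE h8
  have hinv : ∀ a ∈ E, a⁻¹ = a := fun a ha => inv_eq_of_mul_eq_one_right (hE2 a ha)
  have hEc : ∀ a ∈ E, ∀ b ∈ E, a * b = b * a := fun a ha b hb => by
    rw [← hinv _ (mul_mem ha hb), mul_inv_rev, hinv a ha, hinv b hb]
  obtain ⟨f, hf, hfE, hf2⟩ : ∃ f ∈ T, f ∉ E ∧ f * f = 1 := by
    by_contra hn
    push Not at hn
    obtain ⟨t, ht, htE⟩ : ∃ t ∈ T, t ∉ E := by
      by_contra h
      push Not at h
      have := Subgroup.card_le_of_le (show (T : Subgroup S) ≤ E from h)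
      omega
    have h4 : t ^ 2 * t ^ 2 = 1 := hE2 _ (pow_two t ▸ (mul_mem_of_two h9 ht ht).2 Iff.rfl)
    have h5 : ∀ k, t ^ (2 * k) * t ^ (2 * k) = 1 := fun k => by
      rw [pow_mul, ← (Commute.refl _).mul_pow, h4, one_pow]
    obtain ⟨N, hN, h, -⟩ := H8.thompson_transfer_general _ _ hodd h9 t (by
      rintro _ a ⟨k, rfl⟩ h
      have h6 := hE2 _ h
      rw [show ∀ x : S, a⁻¹ * x * a * (a⁻¹ * x * a) = a⁻¹ * (x * x) * a from fun x => by group,
        show t ^ (2 * k + 1) * t ^ (2 * k + 1) = t ^ (2 * k) * t ^ (2 * k) * (t * t) by group, h5, one_mul,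
        mul_assoc, inv_mul_eq_one, right_eq_mul] at h6
      exact hn t ht htE h6) (by
      rintro _ a ⟨k, rfl⟩ h
      by_contra h6
      exact hn _ h h6 (by
        rw [show ∀ x : S, a⁻¹ * x * a * (a⁻¹ * x * a) = a⁻¹ * (x * x) * a from fun x => by group,
          ← two_mul, h5, mul_one, inv_mul_cancel]))
    exact h2 N hN h
  have hdec : ∀ x ∈ T, x ∈ E ∨ ∃ y ∈ E, x = y * f := fun x hx => (em _).imp id fun h =>
    ⟨x * f, (mul_mem_of_two h9 hx hf).2 (iff_of_false h hfE), by rw [mul_assoc, hf2, mul_one]⟩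
  have hcj : ∀ a ∈ E, f * a * f ∈ E := fun a ha =>
    (mul_mem_of_two h9 (mul_mem hf (hE ha)) hf).2 (iff_of_false
      (fun h => hfE ((mul_mem_cancel_right ha).1 h)) hfE)
  obtain ⟨Z, hZ⟩ : ∃ Z, Z = (T : Subgroup S) ⊓ Subgroup.centralizer (T : Set S) := ⟨_, rfl⟩
  have hZE : ∀ a ∈ E, f * a = a * f → a ∈ Z := fun a ha h => hZ ▸ ⟨hE ha, fun x hx => by
    rcases hdec x hx with h' | ⟨y, hy, rfl⟩
    exacts [hEc _ h' _ ha, by rw [mul_assoc, h, ← mul_assoc, hEc _ hy _ ha, mul_assoc]]⟩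
  obtain ⟨e, he, hef⟩ : ∃ e ∈ E, f * e ≠ e * f := by
    by_contra h
    push Not at h
    refine hna ⟨⟨fun x y => Subtype.ext ?_⟩⟩
    rcases hdec x x.2 with h' | ⟨u, hu, e⟩
    · exact ((hZ ▸ hZE _ h' (h _ h')).2 y y.2).symm
    have h1 := (hZ ▸ hZE _ hu (h _ hu)).2 y y.2
    change (x : S) * y = y * x
    rw [e, ← mul_assoc, h1, mul_assoc, mul_assoc, mul_right_inj]
    rcases hdec y y.2 with h' | ⟨v, hv, e'⟩
    exacts [h _ h', by rw [e', ← mul_assoc, h v hv]]
  have hZle : Z ≤ E := fun w hw => by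
    rw [hZ] at hw
    rcases hdec w hw.1 with h | ⟨y, hy, rfl⟩
    · exact h
    have := hw.2 e (hE he)
    rw [← mul_assoc, hEc _ he _ hy, mul_assoc, mul_assoc, mul_right_inj] at this
    exact absurd this.symm hef
  have hφ : ∀ a ∈ E, a * (f * a * f) ∈ Z := fun a ha => hZE _ (mul_mem ha (hcj a ha)) (by
    rw [mul_assoc a, mul_assoc _ f f, hf2, mul_one, hEc _ ha _ (hcj a ha)]
    simp only [← mul_assoc, hf2, one_mul])
  have heZ : e ∉ Z := fun h => hef ((hZ ▸ h).2 f hf)
  have h4 : Nat.card Z = 4 := by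
    let φ : E →* Z := MonoidHom.mk' (fun a => ⟨_, hφ a a.2⟩) fun a b => Subtype.ext (by
      change (a : S) * b * (f * (a * b) * f) = a * (f * a * f) * (b * (f * b * f))
      rw [mul_assoc (a : S) (f * a * f), ← mul_assoc (f * a * f), ← hEc _ b.2 _ (hcj a a.2),
        show f * ((a : S) * b) * f = f * a * (f * f) * b * f by rw [hf2]; group]
      group)
    have b1 := two_mul_card_le hZle he heZ
    have b2 := φ.ker.card_mul_index
    have b3 : Nat.card φ.ker ≤ Nat.card Z := by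
      rw [← Nat.card_congr (Subgroup.subgroupOfEquivOfLe hZle).toEquiv]
      refine Subgroup.card_le_of_le fun a ha => hZE _ a.2 ?_
      have : (a : S) * (f * a * f) = 1 := congrArg Subtype.val ha
      change f * (a : S) = a * f
      rw [← mul_left_inj f, mul_assoc _ f, hf2, mul_one, ← mul_right_inj (a : S), this, hE2 _ a.2]
    rw [Subgroup.index_ker, h8] at b2
    have b4 := φ.range.card_le_card_group
    obtain ⟨k, hk⟩ := (T.2.to_le (hZle.trans hE)).exists_card_eq
    have b5 := Nat.mul_le_mul b3 b4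
    rw [b2, hk] at b5
    rw [hk, h8] at b1
    rw [hk]
    obtain _ | _ | _ | k := k
    · omega
    · omega
    · rfl
    · have := Nat.one_le_two_pow (n := k)
      simp only [pow_succ] at b1
      omega
  have hZ2 : Z.relIndex E = 2 := by
    have := (Z.subgroupOf E).card_mul_index
    rw [Nat.card_congr (Subgroup.subgroupOfEquivOfLe hZle).toEquiv, h4, h8] at this
    unfold Subgroup.relIndex
    omega
  have hdec' : ∀ x ∈ E, x ∈ Z ∨ ∃ y ∈ Z, x = y * e := fun x hx => (em _).imp id fun h =>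
    ⟨x * e, (mul_mem_of_two hZ2 hx he).2 (iff_of_false h heZ), by rw [mul_assoc, hE2 e he, mul_one]⟩
  refine r3_aux h2 T hT hZ h4 (fun w hw => hE2 w (hZle hw)) (hE he) hf (hE2 e he) hf2 (hφ e he)
    (fun h => hef ?_) ?_ fun x hx => ?_
  · rw [← mul_left_inj f, mul_assoc _ f, hf2, mul_one, ← mul_right_inj e, h, hE2 e he]
  · rw [hEc _ he _ (hcj e he), mul_assoc, ← mul_assoc e e, hE2 e he, one_mul, mul_assoc, hf2, mul_one]
  · rcases hdec x hx with h | ⟨y, hy, rfl⟩
    · rcases hdec' x h with h | ⟨w, hw, rfl⟩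
      exacts [⟨x, h, Or.inl rfl⟩, ⟨w, hw, Or.inr (Or.inl rfl)⟩]
    · rcases hdec' y hy with h | ⟨w, hw, rfl⟩
      exacts [⟨y, h, Or.inr (Or.inr (Or.inl rfl))⟩, ⟨w, hw, Or.inr (Or.inr (Or.inr (mul_assoc _ _ _)))⟩]

end H68.Gag
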