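import Cfsg.Agent.H68.KcSpec

/-! Basic lemmas of the tower KC and the coset inequality. -/

set_option autoImplicit false
set_option linter.unusedSectionVars false

namespace H68.Kc

open scoped Classical
open Finset

variable {G X : Type} [Group G] [Fintype G] [Fintype X] [MulAction G X]

theorem Cm.symm {Y : Finset X} {u v : G} (h : Cm Y u v) : Cm Y v u := fun x hx => (h x hx).symm

theorem cm_comm {Y : Finset X} {u v : G} : Cm Y u v ↔ Cm Y v u := ⟨Cm.symm, Cm.symm⟩

theorem Cm.mono {Y Y' : Finset X} {u v : G} (h : Cm Y u v) (hY : Y' ⊆ Y) : Cm Y' u v :=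
  fun x hx => h x (hY hx)

theorem Inv.mono {R M : Subgroup G} {Y : Finset X} (h : Inv R Y) (hM : M ≤ R) : Inv M Y :=
  fun g hg x hx => h g (hM hg) x hx

/-- The elements of `R` commuting with `u` on `Y`. -/
def cmSub (R : Subgroup G) (Y : Finset X) (hI : Inv R Y) (u : G) : Subgroup G where
  carrier := {v | v ∈ R ∧ Cm Y u v}
  one_mem' := ⟨R.one_mem, fun x _ => by simp⟩
  mul_mem' := by
    rintro v w ⟨hv, hv'⟩ ⟨hw, hw'⟩
    refine ⟨R.mul_mem hv hw, fun x hx => ?_⟩
    rw [mul_smul, mul_smul, hv' _ (hI w hw x hx), hw' x hx]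
  inv_mem' := by
    rintro v ⟨hv, hv'⟩
    refine ⟨R.inv_mem hv, fun x hx => ?_⟩
    have h := hv' _ (hI _ (R.inv_mem hv) x hx)
    rw [smul_inv_smul] at h
    rw [h, inv_smul_smul]

theorem mem_cmSub {R : Subgroup G} {Y : Finset X} {hI : Inv R Y} {u v : G} :
    v ∈ cmSub R Y hI u ↔ v ∈ R ∧ Cm Y u v := Iff.rfl

theorem wt_nonneg {a b : ℝ} (hb : 0 ≤ b) (hab : b ≤ a) (Y : Finset X) (u : G) :
    0 ≤ wt a b Y u := by
  refine Finset.prod_nonneg fun x _ => ?_
  split_ifs
  · linarith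
  · exact hb

theorem wt_le {a b : ℝ} (hb : 0 ≤ b) (hab : b ≤ a) (Y : Finset X) (u : G) :
    wt a b Y u ≤ a ^ Y.card := by
  rw [← Finset.prod_const]
  refine Finset.prod_le_prod (fun x _ => ?_) (fun x _ => ?_)
  · split_ifs
    · linarith
    · exact hb
  · split_ifs
    · exact le_rfl
    · exact hab

theorem wt_fix {a b : ℝ} {Y : Finset X} {u : G} (h : ∀ x ∈ Y, u • x = x) :
    wt a b Y u = a ^ Y.card := by
  rw [← Finset.prod_const]
  exact Finset.prod_congr rfl fun x hx => if_pos (h x hx)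

theorem wt_move {a b : ℝ} {Y : Finset X} {u : G} (h : ∀ x ∈ Y, u • x ≠ x) :
    wt a b Y u = b ^ Y.card := by
  rw [← Finset.prod_const]
  exact Finset.prod_congr rfl fun x hx => if_neg (h x hx)

theorem wt_sdiff {a b : ℝ} {Y O : Finset X} (h : O ⊆ Y) (u : G) :
    wt a b Y u = wt a b O u * wt a b (Y \ O) u := by
  unfold wt
  rw [mul_comm, Finset.prod_sdiff h]

theorem wt_expand (a b : ℝ) (Y : Finset X) (u : G) :
    wt a b Y u = ∑ S ∈ Y.powerset,
      if u ∈ fixingSubgroup G (S : Set X) then (a - b) ^ S.card * b ^ (Y \ S).card else 0 := by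
  have h1 : wt a b Y u = ∏ x ∈ Y, ((if u • x = x then a - b else 0) + b) := by
    refine Finset.prod_congr rfl fun x _ => ?_
    split_ifs <;> ring
  rw [h1, Finset.prod_add]
  refine Finset.sum_congr rfl fun S _ => ?_
  rw [Finset.prod_const]
  split_ifs with h
  · rw [mem_fixingSubgroup_iff] at h
    rw [Finset.prod_congr rfl fun x hx => if_pos (h x hx), Finset.prod_const]
  · rw [mem_fixingSubgroup_iff] at h
    push Not at h
    obtain ⟨x, hx, hx'⟩ := h
    rw [Finset.prod_eq_zero (i := x) hx (if_neg hx'), zero_mul]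

theorem card_coset_le (H N : Subgroup G) (g : G) :
    (univ.filter (fun n => n ∈ N ∧ g * n ∈ H)).card ≤
      (univ.filter (fun n => n ∈ N ∧ n ∈ H)).card := by
  by_cases h : ∃ n₀, n₀ ∈ N ∧ g * n₀ ∈ H
  · obtain ⟨n₀, h₀, h₀'⟩ := h
    refine Finset.card_le_card_of_injOn (fun n => n₀⁻¹ * n) ?_ ?_
    · intro n hn
      simp only [coe_filter, mem_univ, true_and, Set.mem_ofPred_eq] at hn ⊢
      refine ⟨N.mul_mem (N.inv_mem h₀) hn.1, ?_⟩
      have := H.mul_mem (H.inv_mem h₀') hn.2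
      simpa [mul_assoc] using this
    · intro n _ n' _ h
      exact mul_left_cancel h
  · push Not at h
    rw [Finset.filter_eq_empty_iff.2 (fun n _ hn => h n hn.1 hn.2)]
    simp

theorem sum_ite_card (P : G → Prop) [DecidablePred P] (c : ℝ) :
    (∑ n : G, if P n then c else 0) = ((univ.filter P).card : ℝ) * c := by
  rw [← Finset.sum_filter, Finset.sum_const, nsmul_eq_mul]

theorem sum_coset_le (H N : Subgroup G) (g : G) {c : ℝ} (hc : 0 ≤ c) :
    (∑ n : G, if n ∈ N ∧ g * n ∈ H then c else 0) ≤ ∑ n : G, if n ∈ N ∧ n ∈ H then c else 0 := by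
  rw [sum_ite_card, sum_ite_card]
  exact mul_le_mul_of_nonneg_right (by exact_mod_cast card_coset_le H N g) hc

theorem card_filter_mem (N : Subgroup G) :
    (univ.filter (fun n => n ∈ N)).card = Nat.card N := by
  rw [Nat.card_eq_fintype_card, Fintype.card_subtype]

theorem coset_wt_le {a b : ℝ} (hb : 0 ≤ b) (hab : b ≤ a) (H N : Subgroup G) (Y : Finset X)
    (g : G) :
    (∑ n : G, if n ∈ N ∧ g * n ∈ H then wt a b Y (g * n) else 0) ≤
      ∑ n : G, if n ∈ N ∧ n ∈ H then wt a b Y n else 0 := by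
  have key : ∀ (P : G → Prop) [DecidablePred P] (f : G → G), (∑ n : G, if P n then wt a b Y (f n) else 0) =
      ∑ S ∈ Y.powerset, ∑ n : G, if P n ∧ f n ∈ fixingSubgroup G (S : Set X) then
        (a - b) ^ S.card * b ^ (Y \ S).card else 0 := by
    intro P _ f
    rw [Finset.sum_comm]
    refine Finset.sum_congr rfl fun n _ => ?_
    by_cases hP : P n
    · simp only [hP, if_true, true_and]
      exact wt_expand a b Y (f n)
    · simp [hP]
  rw [key (fun n => n ∈ N ∧ g * n ∈ H) (fun n => g * n),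
    key (fun n => n ∈ N ∧ n ∈ H) (fun n => n)]
  refine Finset.sum_le_sum fun S _ => ?_
  have := sum_coset_le (H ⊓ fixingSubgroup G (S : Set X)) N g
    (c := (a - b) ^ S.card * b ^ (Y \ S).card) (by have := sub_nonneg.2 hab; positivity)
  simpa only [Subgroup.mem_inf, and_assoc] using this

theorem T_eq (a b : ℝ) (N : Subgroup G) (Y : Finset X) : T a b N Y =
    ∑ u : G, ∑ v : G, if (u ∈ N ∧ v ∈ N) ∧ Cm Y u v then wt a b Y u else 0 := by
  unfold T TT
  exact Finset.sum_congr rfl fun u _ => Finset.sum_congr rfl fun v _ => by congr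

theorem coset_pair_le {a b : ℝ} (hb : 0 ≤ b) (hab : b ≤ a) {R N : Subgroup G} {Y : Finset X}
    (hN : N ≤ R) (hI : Inv R Y) {g h : G} (hg : g ∈ R) (hh : h ∈ R) :
    (∑ n : G, ∑ n' : G, if (n ∈ N ∧ n' ∈ N) ∧ Cm Y (g * n) (h * n') then wt a b Y (g * n) else 0)
      ≤ T a b N Y := by
  calc _ ≤ ∑ n : G, ∑ n' : G,
        if (n ∈ N ∧ n' ∈ N) ∧ Cm Y (g * n) n' then wt a b Y (g * n) else 0 := by
        refine Finset.sum_le_sum fun n _ => ?_
        by_cases hn : n ∈ N
        · have := sum_coset_le (cmSub R Y hI (g * n)) N h (wt_nonneg hb hab Y (g * n))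
          refine le_trans (le_of_eq ?_) (le_trans this (le_of_eq ?_))
          · refine Finset.sum_congr rfl fun n' _ => if_congr ?_ rfl rfl
            rw [mem_cmSub]
            exact ⟨fun h1 => ⟨h1.1.2, R.mul_mem hh (hN h1.1.2), h1.2⟩,
              fun h1 => ⟨⟨hn, h1.1⟩, h1.2.2⟩⟩
          · refine Finset.sum_congr rfl fun n' _ => if_congr ?_ rfl rfl
            rw [mem_cmSub]
            exact ⟨fun h1 => ⟨⟨hn, h1.1⟩, h1.2.2⟩, fun h1 => ⟨h1.1.2, hN h1.1.2, h1.2⟩⟩
        · simp [hn]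
    _ ≤ T a b N Y := by
        rw [T_eq, Finset.sum_comm, Finset.sum_comm (f := fun u v =>
          if (u ∈ N ∧ v ∈ N) ∧ Cm Y u v then wt a b Y u else 0)]
        refine Finset.sum_le_sum fun n' _ => ?_
        by_cases hn : n' ∈ N
        · have := coset_wt_le hb hab (cmSub R Y hI n') N Y g
          refine le_trans (le_of_eq ?_) (le_trans this (le_of_eq ?_))
          · refine Finset.sum_congr rfl fun n _ => if_congr ?_ rfl rfl
            rw [mem_cmSub]
            exact ⟨fun h1 => ⟨h1.1.1, R.mul_mem hg (hN h1.1.1), h1.2.symm⟩,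
              fun h1 => ⟨⟨h1.1, hn⟩, h1.2.2.symm⟩⟩
          · refine Finset.sum_congr rfl fun n _ => if_congr ?_ rfl rfl
            rw [mem_cmSub]
            exact ⟨fun h1 => ⟨⟨h1.1, hn⟩, h1.2.2.symm⟩,
              fun h1 => ⟨h1.1.1, hN h1.1.1, h1.2.symm⟩⟩
        · simp [hn]

theorem jobSplit : JobSplit := by
  intro G X _ _ _ _ a b R N Y Q hb hab hN hI hQ hQN
  have hiff : ∀ u v n n', n ∈ N → n' ∈ N → (Q (u * n) (v * n') ↔ Q u v) := by
    intro u v n n' hn hn'
    refine ⟨fun h => ?_, fun h => hQN u v h n hn n' hn'⟩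
    simpa using hQN _ _ h n⁻¹ (N.inv_mem hn) n'⁻¹ (N.inv_mem hn')
  have h1 : (Nat.card N : ℝ) ^ 2 * TT a b Q Y =
      ∑ n : G, ∑ n' : G, if n ∈ N ∧ n' ∈ N then TT a b Q Y else 0 := by
    have : ∀ n : G, (∑ n' : G, if n ∈ N ∧ n' ∈ N then TT a b Q Y else 0) =
        if n ∈ N then (Nat.card N : ℝ) * TT a b Q Y else 0 := by
      intro n
      by_cases hn : n ∈ N
      · simp only [hn, true_and, if_true]
        rw [sum_ite_card, card_filter_mem]
      · simp [hn]
    rw [Finset.sum_congr rfl fun n _ => this n, sum_ite_card, card_filter_mem]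
    ring
  have h2 : ∀ n n' : G, (if n ∈ N ∧ n' ∈ N then TT a b Q Y else 0) =
      ∑ u : G, ∑ v : G, if Q u v then
        (if (n ∈ N ∧ n' ∈ N) ∧ Cm Y (u * n) (v * n') then wt a b Y (u * n) else 0) else 0 := by
    intro n n'
    by_cases hn : n ∈ N ∧ n' ∈ N
    · rw [if_pos hn]
      unfold TT
      rw [← Equiv.sum_comp (Equiv.mulRight n)]
      refine Finset.sum_congr rfl fun u _ => ?_
      rw [← Equiv.sum_comp (Equiv.mulRight n')]
      refine Finset.sum_congr rfl fun v _ => ?_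
      simp only [Equiv.coe_mulRight, hiff u v n n' hn.1 hn.2, hn, true_and, ite_and]
    · simp [hn]
  have h3 : (∑ n : G, ∑ n' : G, if n ∈ N ∧ n' ∈ N then TT a b Q Y else 0) =
      ∑ u : G, ∑ v : G, if Q u v then (∑ n : G, ∑ n' : G,
        if (n ∈ N ∧ n' ∈ N) ∧ Cm Y (u * n) (v * n') then wt a b Y (u * n) else 0) else 0 := by
    simp only [h2]
    rw [Finset.sum_congr rfl fun n _ => Finset.sum_comm, Finset.sum_comm]
    refine Finset.sum_congr rfl fun u _ => ?_
    rw [Finset.sum_congr rfl fun n _ => Finset.sum_comm, Finset.sum_comm]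
    refine Finset.sum_congr rfl fun v _ => ?_
    by_cases h : Q u v <;> simp [h]
  rw [h1, h3]
  calc _ ≤ ∑ u : G, ∑ v : G, if Q u v then T a b N Y else 0 := by
        refine Finset.sum_le_sum fun u _ => Finset.sum_le_sum fun v _ => ?_
        by_cases h : Q u v
        · rw [if_pos h, if_pos h]
          exact coset_pair_le hb hab hN hI (hQ u v h).1 (hQ u v h).2
        · simp [h]
    _ = _ := by
        rw [← Fintype.sum_prod_type' (f := fun u v => if Q u v then T a b N Y else 0),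
          ← Finset.sum_filter, Finset.sum_const, nsmul_eq_mul]

theorem TT_nonneg {a b : ℝ} (hb : 0 ≤ b) (hab : b ≤ a) (Q : G → G → Prop) (Y : Finset X) :
    0 ≤ TT a b Q Y := by
  refine Finset.sum_nonneg fun u _ => Finset.sum_nonneg fun v _ => ?_
  split_ifs
  · exact wt_nonneg hb hab Y u
  · exact le_rfl

theorem TT_le_add {a b : ℝ} (hb : 0 ≤ b) (hab : b ≤ a) {Q Q₁ Q₂ : G → G → Prop} (Y : Finset X)
    (h : ∀ u v, Q u v → Q₁ u v ∨ Q₂ u v) : TT a b Q Y ≤ TT a b Q₁ Y + TT a b Q₂ Y := by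
  unfold TT
  rw [← Finset.sum_add_distrib]
  refine Finset.sum_le_sum fun u _ => ?_
  rw [← Finset.sum_add_distrib]
  refine Finset.sum_le_sum fun v _ => ?_
  have h0 := wt_nonneg hb hab Y u
  have h1 := h u v
  by_cases hc : Cm Y u v <;> by_cases hq : Q u v <;> by_cases hq1 : Q₁ u v <;>
    by_cases hq2 : Q₂ u v <;> simp_all

theorem TT_restrict {a b w : ℝ} (hb : 0 ≤ b) (hab : b ≤ a) (hw : 0 ≤ w) {Q Q' : G → G → Prop}
    {Y O : Finset X} (hO : O ⊆ Y) (h : ∀ u v, Q u v → wt a b O u ≤ w)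
    (h' : ∀ u v, Q u v → Cm O u v → Q' u v) :
    TT a b Q Y ≤ w * TT a b Q' (Y \ O) := by
  unfold TT
  rw [Finset.mul_sum]
  refine Finset.sum_le_sum fun u _ => ?_
  rw [Finset.mul_sum]
  refine Finset.sum_le_sum fun v _ => ?_
  have h0 := wt_nonneg hb hab (Y \ O) u
  by_cases hq : Q u v ∧ Cm Y u v
  · rw [if_pos hq, if_pos ⟨h' u v hq.1 (hq.2.mono hO), hq.2.mono Finset.sdiff_subset⟩,
      wt_sdiff hO]
    exact mul_le_mul_of_nonneg_right (h u v hq.1) h0
  · rw [if_neg hq]
    refine mul_nonneg hw ?_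
    split_ifs
    · exact h0
    · exact le_rfl

theorem card_le_mul_inf {p : ℕ} {R M C : Subgroup G} (hM : M ≤ R) (hC : C ≤ R)
    (hcard : Nat.card R = p * Nat.card M) : Nat.card C ≤ p * Nat.card (M ⊓ C : Subgroup G) := by
  have h1 : Nat.card M * M.relIndex R = Nat.card R := by
    have := (M.subgroupOf R).card_mul_index
    rwa [Nat.card_congr (Subgroup.subgroupOfEquivOfLe hM).toEquiv] at this
  have hpos : 0 < Nat.card M := Nat.card_pos
  have h2 : M.relIndex R = p := by
    rw [hcard, mul_comm p] at h1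
    exact Nat.eq_of_mul_eq_mul_left hpos h1
  have h3 : M.relIndex C ≤ p := by
    rw [← h2]
    exact Subgroup.relIndex_le_of_le_right hC (Subgroup.index_ne_zero_of_finite)
  have h4 : Nat.card (M ⊓ C : Subgroup G) * M.relIndex C = Nat.card C := by
    have := (M.subgroupOf C).card_mul_index
    rw [← Subgroup.inf_subgroupOf_right,
      Nat.card_congr (Subgroup.subgroupOfEquivOfLe (inf_le_right : M ⊓ C ≤ C)).toEquiv,
      Subgroup.inf_subgroupOf_right] at this
    exact this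
  rw [← h4, mul_comm]
  exact Nat.mul_le_mul_right _ h3

theorem card_cm_le {p : ℕ} {R M : Subgroup G} {Y : Finset X} (hM : M ≤ R) (hI : Inv R Y)
    (hcard : Nat.card R = p * Nat.card M) (u : G) :
    (univ.filter (fun v => v ∈ R ∧ Cm Y u v)).card ≤
      p * (univ.filter (fun v => v ∈ M ∧ Cm Y u v)).card := by
  have h := card_le_mul_inf (C := cmSub R Y hI u) hM (fun v hv => hv.1) hcard
  rw [← card_filter_mem, ← card_filter_mem] at h
  convert h using 3
  · rfl
  · congr 1
    ext v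
    rw [Subgroup.mem_inf, mem_cmSub]
    exact ⟨fun h1 => ⟨h1.1, hM h1.1, h1.2⟩, fun h1 => ⟨h1.1, h1.2.2⟩⟩

theorem TT_inall_le {a b : ℝ} (hb : 0 ≤ b) (hab : b ≤ a) {p : ℕ} {R M : Subgroup G}
    {Y : Finset X} (hM : M ≤ R) (hI : Inv R Y) (hcard : Nat.card R = p * Nat.card M) :
    TT a b (fun u v => u ∈ M ∧ v ∈ R) Y ≤ p * T a b M Y := by
  rw [T_eq]
  unfold TT
  rw [Finset.mul_sum]
  refine Finset.sum_le_sum fun u _ => ?_
  by_cases hu : u ∈ M
  · have := card_cm_le hM hI hcard u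
    have e1 := sum_ite_card (fun v => v ∈ R ∧ Cm Y u v) (wt a b Y u)
    have e2 := sum_ite_card (fun v => v ∈ M ∧ Cm Y u v) (wt a b Y u)
    calc _ = ∑ v : G, if v ∈ R ∧ Cm Y u v then wt a b Y u else 0 :=
          Finset.sum_congr rfl fun v _ => by simp [hu]
      _ ≤ p * ∑ v : G, if v ∈ M ∧ Cm Y u v then wt a b Y u else 0 := by
          rw [e1, e2, ← mul_assoc]
          refine mul_le_mul_of_nonneg_right ?_ (wt_nonneg hb hab Y u)
          exact_mod_cast this
      _ = _ := by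
          congr 1
          exact Finset.sum_congr rfl fun v _ => by simp [hu]
  · simp [hu]

end H68.Kc
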