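import Cfsg.Agent.H68.KcUniv
import Cfsg.Agent.H19.KcCyc
import Cfsg.Agent.H19.KcNum1
import Cfsg.Agent.H30.KcNum2
import Cfsg.Agent.H87.KcRed
import Cfsg.Agent.H1.KcCnt
import Cfsg.Agent.H41.KcPeel
import Cfsg.Agent.H25.Jordan

/-! A permutation group of degree `n` has at most `2 ^ (n - 1)` conjugacy classes. -/

set_option autoImplicit false
set_option linter.unusedSectionVars false

namespace H68.Kc

open scoped Classical
open Finset

theorem univ_bd : JobUniv := jobUniv H41.Kc.jobTop H1.KcCnt.jobCnt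

theorem ref_bd : JobRef := jobRef H41.Kc.jobTop H1.KcCnt.jobCnt

theorem exists_root {p : ℕ} (hp : p.Prime) {a : ℝ} (ha : 1 ≤ a) :
    ∃ b : ℝ, 0 ≤ b ∧ b ≤ a ∧ b ^ p = a := by
  have h1 : (a ^ ((p : ℝ)⁻¹)) ^ p = a := Real.rpow_inv_natCast_pow (by linarith) hp.ne_zero
  have h2 : 1 ≤ a ^ ((p : ℝ)⁻¹) := Real.one_le_rpow ha (by positivity)
  refine ⟨a ^ ((p : ℝ)⁻¹), by linarith, ?_, h1⟩
  calc _ ≤ (a ^ ((p : ℝ)⁻¹)) ^ p := le_self_pow₀ h2 hp.ne_zero
    _ = a := h1

theorem HR.hu {p : ℕ} (hp : p.Prime) {a : ℝ} (ha : 0 ≤ a) {c : ℕ → ℝ} (h : HR p a c) :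
    HU p a c := by
  refine ⟨h.1, h.2.1.ge, fun j m hm => Or.inl ?_⟩
  have hp1 : (1 : ℝ) ≤ p := by exact_mod_cast hp.one_le
  rcases j with _ | j
  · subst hm
    simpa [om, h.2.1] using h.2.2.1
  · refine le_trans ?_ (h.2.2.2 j m hm)
    have : 0 ≤ ((p : ℝ) - 1) * om p m * a ^ m :=
      mul_nonneg (mul_nonneg (by linarith) (Nat.cast_nonneg _)) (pow_nonneg ha _)
    nlinarith

section

variable {G X : Type} [Group G] [Fintype G] [Fintype X] [MulAction G X]

theorem wt_conj (a b : ℝ) (g u : G) :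
    wt a b (univ : Finset X) (g * u * g⁻¹) = wt a b (univ : Finset X) u := by
  unfold wt
  rw [← Equiv.prod_comp (MulAction.toPerm g)]
  refine Finset.prod_congr rfl fun x _ => if_congr ?_ rfl rfl
  simp [mul_smul]

theorem Rk.mono {m m' : ℕ} (h : Rk m G X) (hm : m' ≤ m) : Rk m' G X :=
  fun g hg q hq hd => lt_of_le_of_lt hm (h g hg q hq hd)

theorem card_ker_sylow {p : ℕ} [hp : Fact p.Prime] (hR : Rk p G X) (P : Sylow p G) :
    Nat.card (Ker (P : Subgroup G) (univ : Finset X)) = 1 := by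
  rw [Subgroup.card_eq_one, eq_bot_iff]
  intro g hg
  rw [mem_ker] at hg
  obtain ⟨k, hk⟩ := IsPGroup.iff_orderOf.1 P.isPGroup' ⟨g, hg.1⟩
  rw [← Subgroup.orderOf_coe] at hk
  rcases k with _ | k
  · exact Subgroup.mem_bot.2 (orderOf_eq_one_iff.1 (by simpa using hk))
  · exact absurd (hR g (fun x => hg.2 x (mem_univ x)) p hp.out
      (by rw [show orderOf g = p ^ (k + 1) from hk]; exact dvd_pow_self p (by omega))) (lt_irrefl p)

theorem peel_step {p : ℕ} [hp : Fact p.Prime] {a b : ℝ} (ha : 1 ≤ a) (hb : 0 ≤ b) (hab : b ≤ a)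
    (hba : b ^ p = a) (hU : U (p - 1) a) (hR : Rk p G X) (P : Sylow p G) :
    (Nat.card (P : Subgroup G) : ℝ) * kap p G + Nat.card (P : Subgroup G) * a ^ Fintype.card X ≤
      (Nat.card (P : Subgroup G) : ℝ) * kap (p - 1) G + T a b (P : Subgroup G) (univ : Finset X) := by
  have h1 := H41.Kc.jobPeel p G P (wt a b (univ : Finset X)) (fun u _ g _ => wt_conj a b g u) (by
    intro u hu _
    obtain ⟨k, hk⟩ := P.isPGroup' ⟨u, hu⟩
    exact H19.Kc.jobCyc p a b hp.out ha hb hba hU G X u k hR (by simpa using congrArg Subtype.val hk))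
  have h2 : (∑ u : G, ∑ v : G, if u ∈ (P : Subgroup G) ∧ v ∈ (P : Subgroup G) ∧ u ≠ 1 ∧
      u * v = v * u then wt a b (univ : Finset X) u else 0) +
      Nat.card (P : Subgroup G) * a ^ Fintype.card X ≤ T a b (P : Subgroup G) (univ : Finset X) := by
    have h3 : (Nat.card (P : Subgroup G) : ℝ) * a ^ Fintype.card X =
        ∑ u : G, ∑ v : G, if u = 1 ∧ v ∈ (P : Subgroup G) then a ^ Fintype.card X else 0 := by
      rw [Finset.sum_eq_single (1 : G)]
      · rw [← card_filter_mem, ← sum_ite_card]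
        exact Finset.sum_congr rfl fun v _ => by simp
      · intro u _ hu
        simp [hu]
      · simp
    rw [h3, T_eq, ← Finset.sum_add_distrib]
    refine Finset.sum_le_sum fun u _ => ?_
    rw [← Finset.sum_add_distrib]
    refine Finset.sum_le_sum fun v _ => ?_
    have h0 := wt_nonneg hb hab (univ : Finset X) u
    by_cases hu : u = 1
    · subst hu
      have hw : wt a b (univ : Finset X) (1 : G) = a ^ Fintype.card X :=
        wt_fix fun x _ => one_smul _ _
      have hc : Cm (univ : Finset X) (1 : G) v := fun x _ => by simp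
      by_cases hv : v ∈ (P : Subgroup G)
      · rw [if_neg (by simp), if_pos ⟨rfl, hv⟩, if_pos ⟨⟨Subgroup.one_mem _, hv⟩, hc⟩, hw, zero_add]
      · rw [if_neg (by simp), if_neg (fun h => hv h.2), if_neg (fun h => hv h.1.2), zero_add]
    · rw [if_neg (fun h : u = 1 ∧ _ => hu h.1), add_zero]
      by_cases hq : u ∈ (P : Subgroup G) ∧ v ∈ (P : Subgroup G) ∧ u ≠ 1 ∧ u * v = v * u
      · rw [if_pos hq, if_pos]
        exact ⟨⟨hq.1, hq.2.1⟩, fun x _ => by rw [← mul_smul, ← mul_smul, hq.2.2.2]⟩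
      · rw [if_neg hq]
        split_ifs
        · exact h0
        · exact le_rfl
  linarith

theorem Phi_le {c : ℕ → ℝ} (hc : Monotone c) (h1 : 0 ≤ c 1) {C : ℝ}
    (hC : ∀ j, j ≤ Fintype.card X → c j ≤ C) (R : Subgroup G) :
    Phi c R (univ : Finset X) ≤ C ^ Fintype.card X := by
  unfold Phi
  rw [← Finset.card_univ, ← Finset.prod_const]
  exact Finset.prod_le_prod (fun x _ => h1.trans (hc (orbF_card_pos R x)))
    fun x _ => hC _ (Finset.card_le_univ _)

theorem inv_univ (R : Subgroup G) : Inv R (univ : Finset X) := fun _ _ _ _ => mem_univ _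

theorem ref_step {p : ℕ} (hp : p.Prime) {a C : ℝ} {c c' : ℕ → ℝ} (ha : 1 ≤ a) (hU : U (p - 1) a)
    (hc : HU p a c) (hc' : HR p a c') (hcc : ∀ j, c j ≤ c' j)
    (hC : ∀ j, j ≤ Fintype.card X → c' j ≤ C) (hR : Rk p G X)
    (hN : ∀ P : Subgroup G, IsPGroup p P → NoCyc p P (univ : Finset X)) :
    (p : ℝ) * kap p G ≤ p * kap (p - 1) G + (C ^ Fintype.card X - a ^ Fintype.card X) := by
  have := Fact.mk hp
  obtain ⟨b, hb, hab, hba⟩ := exists_root hp ha
  obtain ⟨P⟩ : Nonempty (Sylow p G) := inferInstance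
  have h1 := peel_step ha hb hab hba hU hR P
  have h2 := ref_bd p a b c c' hp hb hab hba hc hc' hcc G X P univ P.isPGroup' (inv_univ _)
    (hN _ P.isPGroup')
  rw [card_ker_sylow hR P, Finset.card_univ] at h2
  have h3 := Phi_le hc'.1 (by rw [hc'.2.1]; linarith) hC (P : Subgroup G)
  have hpos : (0 : ℝ) < Nat.card (P : Subgroup G) := by exact_mod_cast Nat.card_pos
  have hp0 : (0 : ℝ) < p := by exact_mod_cast hp.pos
  refine le_of_mul_le_mul_left ?_ hpos
  have h4 := mul_le_mul_of_nonneg_left h1 hp0.le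
  have h5 := mul_le_mul_of_nonneg_left h3 hpos.le
  push_cast at h2
  nlinarith

end

theorem univ_step {p : ℕ} (hp : p.Prime) {a C : ℝ} {c : ℕ → ℝ} (ha : 1 ≤ a) (hU : U (p - 1) a)
    (hc : HU p a c) (hC : ∀ j, c j ≤ C) : U p C := by
  intro G X _ _ _ _ hR
  have := Fact.mk hp
  obtain ⟨b, hb, hab, hba⟩ := exists_root hp ha
  obtain ⟨P⟩ : Nonempty (Sylow p G) := inferInstance
  have h1 := peel_step ha hb hab hba hU hR P
  have h2 := univ_bd p a b c hp hb hab hba hc G X P univ P.isPGroup' (inv_univ _)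
  rw [card_ker_sylow hR P] at h2
  have h3 := Phi_le (X := X) hc.1 (by linarith [hc.2.1]) (fun j _ => hC j) (P : Subgroup G)
  have h4 := hU G X (hR.mono (Nat.sub_le _ _))
  have hpos : (0 : ℝ) < Nat.card (P : Subgroup G) := by exact_mod_cast Nat.card_pos
  refine le_of_mul_le_mul_left ?_ hpos
  have h5 := mul_le_mul_of_nonneg_left h3 hpos.le
  have h6 := mul_le_mul_of_nonneg_left h4 hpos.le
  push_cast at h2
  nlinarith

theorem kap_succ {m : ℕ} (hm : ¬ (m + 1).Prime) (G : Type) [Group G] :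
    kap (m + 1) G = kap m G := by
  unfold kap
  congr 2
  ext g
  refine ⟨fun h q hq hd => ?_, fun h q hq hd => (h q hq hd).trans (Nat.le_succ m)⟩
  have := h q hq hd
  rcases Nat.lt_or_ge m q with h1 | h1
  · exact absurd (by rwa [show m + 1 = q by omega]) hm
  · exact h1

theorem kap_one (G : Type) [Group G] : kap 1 G ≤ 1 := by
  unfold kap
  refine le_trans (Set.ncard_le_ncard ?_ (Set.finite_singleton (ConjClasses.mk (1 : G))))
    (Set.ncard_singleton _).le
  rintro _ ⟨g, hg, rfl⟩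
  have : orderOf g = 1 := by
    by_contra h
    obtain ⟨q, hq, hd⟩ := Nat.exists_prime_and_dvd h
    exact absurd (hg q hq hd) (not_le.2 hq.one_lt)
  rw [orderOf_eq_one_iff.1 this]
  rfl

theorem one_le_aa (m : ℕ) : 1 ≤ aa m := by
  have := H30.Kc.jobNum2.1 (Nat.zero_le m)
  simpa [aa] using this

theorem U_aa (m : ℕ) : U (m + 1) (aa (m + 1)) := by
  induction m with
  | zero =>
    intro G X _ _ _ _ _
    have : (kap 1 G : ℝ) ≤ 1 := by exact_mod_cast kap_one G
    simpa [aa] using this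
  | succ m ih =>
    by_cases hp : (m + 1 + 1).Prime
    · rcases Nat.lt_or_ge (m + 1 + 1) 5 with h5 | h5
      · have hm : m = 0 ∨ m = 1 ∨ m = 2 := by omega
        rcases hm with rfl | rfl | rfl
        · obtain ⟨c, hc, hC⟩ := H19.Kc.jobNum1.1
          have h1 : aa (0 + 1) = 1 := by simp [aa]
          have h2 : aa (0 + 1 + 1) = 3 / 2 := by simp [aa]
          rw [h2]
          rw [h1] at ih
          exact univ_step hp le_rfl ih hc hC
        · obtain ⟨c, c', hc, -, -, hC, -⟩ := H19.Kc.jobNum1.2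
          have h1 : aa (1 + 1) = 3 / 2 := by simp [aa]
          have h2 : aa (1 + 1 + 1) = 1855 / 1000 := by simp [aa]
          rw [h2]
          rw [h1] at ih
          exact univ_step hp (by norm_num) ih hc hC
        · exact absurd hp (by decide)
      · obtain ⟨c, hc, hC⟩ := H30.Kc.jobNum2.2.2 _ hp h5
        exact univ_step hp (one_le_aa _) ih (hc.hu hp (by linarith [one_le_aa (m + 1 + 1 - 1)])) hC
    · intro G X _ _ _ _ hR
      rw [kap_succ hp]
      refine (ih G X (hR.mono (Nat.le_succ _))).trans ?_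
      exact pow_le_pow_left₀ (by linarith [one_le_aa (m + 1)]) (H30.Kc.jobNum2.1 (Nat.le_succ _)) _

theorem U_aa' {m : ℕ} (hm : 1 ≤ m) : U m (aa m) := by
  obtain ⟨k, rfl⟩ : ∃ k, m = k + 1 := ⟨m - 1, by omega⟩
  exact U_aa k

section perm

variable {X : Type} [Fintype X] (S : Subgroup (Equiv.Perm X))

theorem rk_perm (m : ℕ) : Rk m S X := by
  intro g hg q hq hd
  have : g = 1 := Subtype.ext (Equiv.ext hg)
  rw [this, orderOf_one, Nat.dvd_one] at hd
  exact absurd hd hq.ne_one

theorem kap_card : kap (Fintype.card X) S = Nat.card (ConjClasses S) := by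
  unfold kap
  rw [← Set.ncard_univ]
  congr 1
  refine Set.eq_univ_of_forall fun c => ?_
  obtain ⟨g, rfl⟩ := ConjClasses.mk_surjective c
  refine ⟨g, fun q hq hd => ?_, rfl⟩
  rw [← Subgroup.orderOf_coe] at hd
  have h1 := hd.trans (orderOf_dvd_card (x := (g : Equiv.Perm X)))
  rw [Fintype.card_perm] at h1
  exact (hq.dvd_factorial).1 h1

theorem nocyc (hS : MulAction.IsPreprimitive S X) (hA : ¬ alternatingGroup X ≤ S) {p : ℕ}
    (hp : p.Prime) (hn : p + 3 ≤ Fintype.card X) (P : Subgroup S) (hP : IsPGroup p P) :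
    NoCyc p P (univ : Finset X) := by
  intro g hg hle x _
  by_contra hx
  have := Fact.mk hp
  obtain ⟨k, hk⟩ := IsPGroup.iff_orderOf.1 hP ⟨g, hg⟩
  rw [← Subgroup.orderOf_coe, ← Subgroup.orderOf_coe] at hk
  set σ : Equiv.Perm X := (g : Equiv.Perm X) with hσ
  have hk' : orderOf σ = p ^ k := hk
  have hsup : σ.support.card ≤ p := by
    refine le_trans (le_of_eq ?_) hle
    congr 1
  have hne : σ ≠ 1 := fun h => hx (by
    change σ x = x
    rw [h]; rfl)
  have hge : ∀ l ∈ σ.cycleType, p ≤ l := by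
    intro l hl
    have h1 : l ∣ p ^ k := hk' ▸ Equiv.Perm.dvd_of_mem_cycleType hl
    obtain ⟨i, -, rfl⟩ := (Nat.dvd_prime_pow hp).1 h1
    have h2 := Equiv.Perm.two_le_of_mem_cycleType hl
    rcases i with _ | i
    · simp at h2
    · exact Nat.le_self_pow (by omega) p
  have hsum := Equiv.Perm.sum_cycleType σ
  have h1 : Multiset.card σ.cycleType • p ≤ σ.cycleType.sum :=
    Multiset.card_nsmul_le_sum hge
  have h2 : 0 < Multiset.card σ.cycleType := Equiv.Perm.card_cycleType_pos.2 hne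
  rw [smul_eq_mul, hsum] at h1
  have h3 : Multiset.card σ.cycleType = 1 := by
    by_contra h
    have h4 : 2 ≤ Multiset.card σ.cycleType := by omega
    have := Nat.mul_le_mul_right p h4
    have := hp.pos
    omega
  rw [h3, one_mul] at h1
  exact hA (H25.jordan_prime_cycle hS hp hn (Equiv.Perm.card_cycleType_eq_one.1 h3)
    (le_antisymm hsup h1) g.2)

theorem big_step {q : ℕ} (hn : Fintype.card X < 2 * (q + 1)) (hq : 1 ≤ q) :
    (kap (q + 1) S : ℝ) ≤ kap q S +
      if (q + 1).Prime then (q : ℝ) * aa q ^ (Fintype.card X - (q + 1)) else 0 := by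
  split_ifs with hp
  · have := H19.Kc.jobBig H41.Kc.jobPeel (q + 1) (aa q) hp (one_le_aa q) (U_aa' hq) S X hn
    simpa using this
  · rw [kap_succ hp, add_zero]

theorem big_step' {q : ℕ} (hn : Fintype.card X < 2 * (q + 1)) (hq : 1 ≤ q) :
    (kap (q + 1) S : ℝ) ≤ kap q S + (q : ℝ) * 2 ^ (Fintype.card X - (q + 1)) := by
  refine (big_step S hn hq).trans (add_le_add le_rfl ?_)
  split_ifs
  · exact mul_le_mul_of_nonneg_left
      (pow_le_pow_left₀ (by linarith [one_le_aa q]) (H30.Kc.jobNum2.2.1 q) _) (Nat.cast_nonneg _)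
  · positivity

theorem mid_steps (hS : MulAction.IsPreprimitive S X) (hA : ¬ alternatingGroup X ≤ S) (m : ℕ)
    (hm : m + 3 + 3 ≤ Fintype.card X) :
    5 * (kap (m + 3) S : ℝ) ≤ 5 * kap 3 S + (aa (m + 3) ^ Fintype.card X - aa 3 ^ Fintype.card X) := by
  induction m with
  | zero => simp
  | succ m ih =>
    have ih' := ih (by omega)
    have hmono : aa (m + 3) ^ Fintype.card X ≤ aa (m + 3 + 1) ^ Fintype.card X :=
      pow_le_pow_left₀ (by linarith [one_le_aa (m + 3)]) (H30.Kc.jobNum2.1 (Nat.le_succ _)) _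
    rw [show m + 1 + 3 = m + 3 + 1 by omega]
    by_cases hp : (m + 3 + 1).Prime
    · have h5 : 5 ≤ m + 3 + 1 := by
        rcases m with _ | m
        · exact absurd hp (by decide)
        · omega
      obtain ⟨c, hc, hC⟩ := H30.Kc.jobNum2.2.2 _ hp h5
      have h1 := ref_step (G := S) (X := X) hp (one_le_aa _) (U_aa' (by omega))
        (hc.hu hp (by linarith [one_le_aa (m + 3 + 1 - 1)])) hc (fun _ => le_rfl)
        (fun j _ => hC j) (rk_perm S _) (nocyc S hS hA hp (by omega))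
      rw [Nat.add_sub_cancel] at h1
      have h5' : (5 : ℝ) ≤ ((m + 3 + 1 : ℕ) : ℝ) := by exact_mod_cast h5
      have h2 : 5 * ((kap (m + 3 + 1) S : ℝ) - kap (m + 3) S) ≤
          aa (m + 3 + 1) ^ Fintype.card X - aa (m + 3) ^ Fintype.card X := by
        rcases le_total ((kap (m + 3 + 1) S : ℝ) - kap (m + 3) S) 0 with h | h
        · linarith
        · nlinarith
      linarith
    · rw [kap_succ hp]
      linarith

theorem kap_two : (kap 2 S : ℝ) ≤ (3 / 2) ^ Fintype.card X := by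
  have := U_aa 1 S X (rk_perm S _)
  simpa [aa] using this

theorem kap_three (hS : MulAction.IsPreprimitive S X) (hA : ¬ alternatingGroup X ≤ S)
    (hn : 6 ≤ Fintype.card X) :
    3 * (kap 3 S : ℝ) ≤ 2 * (3 / 2) ^ Fintype.card X + (191 / 100) ^ Fintype.card X ∧
    (Fintype.card X ≤ 8 →
      3 * (kap 3 S : ℝ) ≤ 2 * (3 / 2) ^ Fintype.card X + (1855 / 1000) ^ Fintype.card X) := by
  obtain ⟨c, c', hc, hc', hcc, -, h1, h2⟩ := H19.Kc.jobNum1.2
  have hU : U (3 - 1) (3 / 2) := by simpa [aa] using U_aa 1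
  have h3 := kap_two S
  constructor
  · have := ref_step (G := S) (X := X) Nat.prime_three (by norm_num) hU hc hc' hcc
      (fun j _ => h1 j) (rk_perm S _) (nocyc S hS hA Nat.prime_three hn)
    norm_num at this ⊢
    linarith
  · intro h8
    have := ref_step (G := S) (X := X) Nat.prime_three (by norm_num) hU hc hc' hcc
      (fun j hj => h2 j (hj.trans h8)) (rk_perm S _) (nocyc S hS hA Nat.prime_three hn)
    norm_num at this ⊢
    linarith

theorem num_big (k : ℕ) : 10 * ((3 : ℝ) / 2) ^ (k + 11) + 5 * (191 / 100) ^ (k + 11) +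
    105 * ((k : ℝ) + 11) ≤ 9 * 2 ^ (k + 10) := by
  induction k with
  | zero => norm_num
  | succ k ih =>
    have h1 : (0 : ℝ) ≤ (3 / 2) ^ (k + 11) := by positivity
    have h2 : (0 : ℝ) ≤ (191 / 100) ^ (k + 11) := by positivity
    have h3 : (0 : ℝ) ≤ k := Nat.cast_nonneg _
    rw [show k + 1 + 11 = k + 11 + 1 by omega, show k + 1 + 10 = k + 10 + 1 by omega,
      pow_succ (3 / 2 : ℝ) (k + 11), pow_succ (191 / 100 : ℝ) (k + 11), pow_succ (2 : ℝ) (k + 10)]
    push_cast
    nlinarith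

theorem goal_of_lt (h : (kap (Fintype.card X) S : ℝ) < 2 ^ (Fintype.card X - 1) + 1) :
    Goal X S := by
  rw [kap_card] at h
  have : Nat.card (ConjClasses S) < 2 ^ (Fintype.card X - 1) + 1 := by exact_mod_cast h
  exact Nat.lt_succ_iff.1 this

theorem goal_prim (hS : MulAction.IsPreprimitive S X) : Goal X S := by
  by_cases hA : alternatingGroup X ≤ S
  · exact H41.Kc.jobAlt X S (Or.inl hA)
  rcases Nat.lt_or_ge (Fintype.card X) 4 with h4 | h4
  · exact H41.Kc.jobAlt X S (Or.inr (by omega))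
  refine goal_of_lt S ?_
  obtain ⟨κ, hκ⟩ : ∃ κ : ℕ → ℝ, ∀ m, (kap m S : ℝ) = κ m := ⟨_, fun _ => rfl⟩
  have h2 := kap_two S
  have a2 : aa 2 = 3 / 2 := by simp [aa]
  have a3 : aa 3 = 1855 / 1000 := by simp [aa]
  have a4 : aa 4 = 1855 / 1000 := by simp [aa]
  rcases Nat.lt_or_ge (Fintype.card X) 6 with h6 | h6
  · have e3 := big_step S (q := 2) (by omega) (by omega)
    have e4 := big_step S (q := 3) (by omega) (by omega)
    rw [if_pos (by decide), a2] at e3
    rw [if_neg (by decide)] at e4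
    simp only [hκ] at h2 e3 e4 ⊢
    rcases (by omega : Fintype.card X = 4 ∨ Fintype.card X = 5) with h | h
    · rw [h] at h2 e3 ⊢
      norm_num at h2 e3 e4 ⊢
      linarith
    · have e5 := big_step' S (q := 4) (by omega) (by omega)
      simp only [hκ] at e5
      rw [h] at h2 e3 e5 ⊢
      norm_num at h2 e3 e4 e5 ⊢
      linarith
  obtain ⟨m, hm⟩ : ∃ m, Fintype.card X = m + 6 := ⟨Fintype.card X - 6, by omega⟩
  have h3 := kap_three S hS hA h6
  have e0 := mid_steps S hS hA m (by omega)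
  have e1 := big_step S (q := m + 3) (by omega) (by omega)
  have e2 := big_step S (q := m + 4) (by omega) (by omega)
  have e3 := big_step S (q := m + 5) (by omega) (by omega)
  have f1 := big_step' S (q := m + 3) (by omega) (by omega)
  have f2 := big_step' S (q := m + 4) (by omega) (by omega)
  have f3 := big_step' S (q := m + 5) (by omega) (by omega)
  have g0 : aa (m + 3) ^ (m + 6) ≤ 2 ^ (m + 6) :=
    pow_le_pow_left₀ (by linarith [one_le_aa (m + 3)]) (H30.Kc.jobNum2.2.1 _) _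
  simp only [hκ] at h3 e0 e1 e2 e3 f1 f2 f3 ⊢
  rw [hm] at h3 e0 e1 e2 e3 f1 f2 f3 ⊢
  rw [a3] at e0
  rw [show m + 6 - (m + 3 + 1) = 2 by omega] at f1
  rw [show m + 6 - (m + 4 + 1) = 1 by omega] at f2
  rw [show m + 6 - (m + 5 + 1) = 0 by omega] at f3
  rw [show m + 6 - 1 = m + 5 by omega]
  simp only [show m + 3 + 1 = m + 4 by omega, show m + 4 + 1 = m + 5 by omega,
    show m + 5 + 1 = m + 6 by omega] at e1 e2 e3 f1 f2 f3
  push_cast at f1 f2 f3
  rcases Nat.lt_or_ge m 5 with h5 | h5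
  · interval_cases m
    · rw [if_neg (by decide)] at e1 e3
      have := h3.2 (by omega)
      norm_num at this e1 e3 f2 ⊢
      linarith
    · rw [if_neg (by decide)] at e2
      have := h3.2 (by omega)
      rw [a4] at e0
      norm_num at this e0 e2 f1 f3 ⊢
      linarith
    · have := h3.2 (by omega)
      norm_num at this e0 f1 f2 f3 g0 ⊢
      linarith
    · have := h3.1
      norm_num at this e0 f1 f2 f3 g0 ⊢
      linarith
    · have := h3.1
      norm_num at this e0 f1 f2 f3 g0 ⊢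
      linarith
  · obtain ⟨k, rfl⟩ : ∃ k, m = k + 5 := ⟨m - 5, by omega⟩
    have n1 := num_big k
    have n2 : (0 : ℝ) ≤ (1855 / 1000) ^ (k + 5 + 6) := by positivity
    have := h3.1
    rw [show k + 5 + 6 = k + 11 by omega] at this
    rw [show k + 5 + 6 = k + 10 + 1 by omega, pow_succ (2 : ℝ)] at g0
    rw [show k + 5 + 6 = k + 10 + 1 by omega] at e0 n2
    rw [show k + 5 + 5 = k + 10 by omega]
    push_cast at f1 f2 f3
    linarith

end perm

theorem goal_all (X : Type) [Fintype X] (S : Subgroup (Equiv.Perm X)) : Goal X S :=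
  H87.KcRed.jobRed (fun _ _ S hS => goal_prim S hS) X S

theorem card_conjClasses_le {α : Type*} [Fintype α] (S : Subgroup (Equiv.Perm α)) :
    Nat.card (ConjClasses S) ≤ 2 ^ (Fintype.card α - 1) := by
  let e : Equiv.Perm α ≃* Equiv.Perm (Fin (Fintype.card α)) := (Fintype.equivFin α).permCongrHom
  have h := goal_all (Fin (Fintype.card α)) (S.map e.toMonoidHom)
  unfold Goal at h
  rw [Fintype.card_fin] at h
  refine le_trans (Nat.card_le_card_of_surjective
    (ConjClasses.map (e.subgroupMap S).symm.toMonoidHom) ?_) h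
  exact ConjClasses.map_surjective (e.subgroupMap S).symm.surjective

end H68.Kc
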