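import Cfsg.Agent.H68.KcKit

/-! The universal and the refined bound for weighted class numbers of `p`-groups. -/

set_option autoImplicit false
set_option linter.unusedSectionVars false

namespace H68.Kc

open scoped Classical
open Finset

variable {G X : Type} [Group G] [Fintype G] [Fintype X] [MulAction G X]

theorem card_pairs_fst (Q : G → G → Prop) (A : G → Prop) [DecidablePred A] (k : ℕ)
    (hA : ∀ u v, Q u v → A u) (hk : ∀ u, A u → (univ.filter (fun v => Q u v)).card ≤ k) :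
    (univ.filter (fun z : G × G => Q z.1 z.2)).card ≤ k * (univ.filter A).card := by
  refine Finset.card_le_mul_card_image_of_maps_to (f := Prod.fst) ?_ k ?_
  · intro z hz
    simp only [mem_filter, mem_univ, true_and] at hz ⊢
    exact hA _ _ hz
  · intro u hu
    simp only [mem_filter, mem_univ, true_and] at hu
    refine le_trans ?_ (hk u hu)
    refine Finset.card_le_card_of_injOn Prod.snd ?_ ?_
    · intro z hz
      simp only [coe_filter, mem_filter, mem_univ, true_and, Set.mem_ofPred_eq] at hz ⊢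
      rw [← hz.2]; exact hz.1
    · intro z hz z' hz' h
      simp only [coe_filter, mem_filter, mem_univ, true_and, Set.mem_ofPred_eq] at hz hz'
      exact Prod.ext (hz.2.trans hz'.2.symm) h

theorem card_pairs_snd (Q : G → G → Prop) (A : G → Prop) [DecidablePred A] (k : ℕ)
    (hA : ∀ u v, Q u v → A v) (hk : ∀ v, A v → (univ.filter (fun u => Q u v)).card ≤ k) :
    (univ.filter (fun z : G × G => Q z.1 z.2)).card ≤ k * (univ.filter A).card := by
  have := card_pairs_fst (fun v u => Q u v) A k (fun v u h => hA u v h) hk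
  refine le_trans (le_of_eq ?_) this
  refine Finset.card_bij (fun z _ => z.swap) ?_ ?_ ?_
  · intro z hz; simpa using hz
  · intro z _ z' _ h; exact Prod.swap_injective h
  · intro z hz; exact ⟨z.swap, by simpa using hz, by simp⟩

theorem card_diff {p : ℕ} {R M : Subgroup G} (hM : M ≤ R) (hcard : Nat.card R = p * Nat.card M) :
    ((univ.filter (fun u => u ∈ R ∧ u ∉ M)).card : ℝ) = ((p : ℝ) - 1) * Nat.card M := by
  have h1 : (univ.filter (fun u => u ∈ R ∧ u ∉ M)) =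
      (univ.filter (fun u => u ∈ R)) \ (univ.filter (fun u => u ∈ M)) := by
    ext u; simp
  have h2 : (univ.filter (fun u => u ∈ M)) ⊆ (univ.filter (fun u => u ∈ R)) := by
    intro u hu
    simp only [mem_filter, mem_univ, true_and] at hu ⊢
    exact hM hu
  have h3 := Finset.card_sdiff_add_card_eq_card h2
  rw [card_filter_mem, card_filter_mem, ← h1, hcard] at h3
  have h4 : (((univ.filter (fun u => u ∈ R ∧ u ∉ M)).card + Nat.card M : ℕ) : ℝ) =
      ((p * Nat.card M : ℕ) : ℝ) := by rw [h3]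
  push_cast at h4
  linarith

theorem inv_orbF (R : Subgroup G) (x : X) : Inv R (orbF R x) := by
  intro g hg y hy
  obtain ⟨h, hh, rfl⟩ := mem_orbF.1 hy
  exact mem_orbF.2 ⟨g * h, R.mul_mem hg hh, mul_smul _ _ _⟩

theorem self_mem_orbF (R : Subgroup G) (x : X) : x ∈ orbF R x :=
  mem_orbF.2 ⟨1, R.one_mem, one_smul _ _⟩

theorem orbF_subset {R : Subgroup G} {Y : Finset X} (hI : Inv R Y) {x : X} (hx : x ∈ Y) :
    orbF R x ⊆ Y := by
  intro y hy
  obtain ⟨h, hh, rfl⟩ := mem_orbF.1 hy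
  exact hI h hh x hx

theorem orbF_eq {R : Subgroup G} {x y : X} (hy : y ∈ orbF R x) : orbF R y = orbF R x := by
  refine Finset.Subset.antisymm (orbF_subset (inv_orbF R x) hy) (orbF_subset (inv_orbF R y) ?_)
  obtain ⟨h, hh, rfl⟩ := mem_orbF.1 hy
  exact mem_orbF.2 ⟨h⁻¹, R.inv_mem hh, inv_smul_smul _ _⟩

theorem Inv.sdiff {R : Subgroup G} {Y O : Finset X} (hY : Inv R Y) (hO : Inv R O) :
    Inv R (Y \ O) := by
  intro g hg x hx
  rw [mem_sdiff] at hx ⊢
  refine ⟨hY g hg x hx.1, fun h => hx.2 ?_⟩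
  simpa using hO g⁻¹ (R.inv_mem hg) _ h

theorem orbF_card_mono {R M : Subgroup G} (hM : M ≤ R) (x : X) :
    (orbF M x).card ≤ (orbF R x).card := by
  refine Finset.card_le_card fun y hy => ?_
  obtain ⟨h, hh, rfl⟩ := mem_orbF.1 hy
  exact mem_orbF.2 ⟨h, hM hh, rfl⟩

theorem orbF_card_pos (R : Subgroup G) (x : X) : 1 ≤ (orbF R x).card :=
  Finset.card_pos.2 ⟨x, self_mem_orbF R x⟩

theorem Phi_nonneg {c : ℕ → ℝ} (hc : Monotone c) (h1 : 0 ≤ c 1) (R : Subgroup G) (Y : Finset X) :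
    0 ≤ Phi c R Y :=
  Finset.prod_nonneg fun x _ => h1.trans (hc (orbF_card_pos R x))

theorem Phi_mono {c c' : ℕ → ℝ} (hc : Monotone c) (h1 : 0 ≤ c 1) (hcc : ∀ j, c j ≤ c' j)
    {R M : Subgroup G} (hM : M ≤ R) (Y : Finset X) : Phi c M Y ≤ Phi c' R Y :=
  Finset.prod_le_prod (fun x _ => h1.trans (hc (orbF_card_pos M x)))
    fun x _ => (hc (orbF_card_mono hM x)).trans (hcc _)

theorem Phi_split (c : ℕ → ℝ) (R : Subgroup G) {Y O : Finset X} (hO : O ⊆ Y) {m : ℕ}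
    (hm : ∀ y ∈ O, (orbF R y).card = m) : Phi c R Y = c m ^ O.card * Phi c R (Y \ O) := by
  unfold Phi
  rw [← Finset.prod_sdiff hO, mul_comm, ← Finset.prod_const]
  congr 1
  exact Finset.prod_congr rfl fun y hy => by rw [hm y hy]

theorem T_fix {a b : ℝ} {R : Subgroup G} {Y : Finset X} (h : ∀ g ∈ R, ∀ x ∈ Y, g • x = x) :
    T a b R Y = a ^ Y.card * Nat.card R * Nat.card (Ker R Y) := by
  have hK : Ker R Y = R := by
    ext g
    rw [mem_ker]
    exact ⟨fun h1 => h1.1, fun h1 => ⟨h1, h g h1⟩⟩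
  rw [hK, T_eq]
  have h1 : ∀ u : G, (∑ v : G, if (u ∈ R ∧ v ∈ R) ∧ Cm Y u v then wt a b Y u else 0) =
      if u ∈ R then (Nat.card R : ℝ) * a ^ Y.card else 0 := by
    intro u
    by_cases hu : u ∈ R
    · rw [if_pos hu, ← card_filter_mem, ← sum_ite_card]
      refine Finset.sum_congr rfl fun v _ => ?_
      by_cases hv : v ∈ R
      · rw [if_pos hv, if_pos, wt_fix (h u hu)]
        exact ⟨⟨hu, hv⟩, fun x hx => by rw [h v hv x hx, h u hu x hx, h v hv x hx]⟩
      · simp [hv]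
    · simp [hu]
  rw [Finset.sum_congr rfl fun u _ => h1 u, sum_ite_card, card_filter_mem]
  ring

theorem Phi_fix (c : ℕ → ℝ) {R : Subgroup G} {Y : Finset X} (h : ∀ g ∈ R, ∀ x ∈ Y, g • x = x) :
    Phi c R Y = c 1 ^ Y.card := by
  unfold Phi
  rw [← Finset.prod_const]
  refine Finset.prod_congr rfl fun x hx => ?_
  congr 1
  rw [Finset.card_eq_one]
  refine ⟨x, Finset.eq_singleton_iff_unique_mem.2 ⟨self_mem_orbF R x, fun y hy => ?_⟩⟩
  obtain ⟨g, hg, rfl⟩ := mem_orbF.1 hy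
  exact h g hg x hx

theorem cm_mul_ker {R : Subgroup G} {O : Finset X} (hI : Inv R O) {u v n n' : G} (hu : u ∈ R)
    (hv : v ∈ R) (hn : n ∈ Ker R O) (hn' : n' ∈ Ker R O) (h : Cm O u v) :
    Cm O (u * n) (v * n') := by
  intro y hy
  rw [mem_ker] at hn hn'
  simp only [mul_smul]
  rw [hn'.2 y hy, hn.2 y hy, hn.2 _ (hI v hv y hy), hn'.2 _ (hI u hu y hy), h y hy]

section step

variable {p : ℕ} {R M : Subgroup G} {x : X} {Y : Finset X} {a b B : ℝ}

theorem ker_le_M (hst : ∀ g ∈ R, ∀ y ∈ orbF R x, g • y = y → g ∈ M) : Ker R (orbF R x) ≤ M :=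
  fun g hg => hst g (mem_ker.1 hg).1 x (self_mem_orbF R x)
    ((mem_ker.1 hg).2 x (self_mem_orbF R x))

theorem split_bound (hb : 0 ≤ b) (hab : b ≤ a) {N : Subgroup G} (hN : N ≤ R) (hI : Inv R Y)
    (Q : G → G → Prop) (hQ : ∀ u v, Q u v → u ∈ R ∧ v ∈ R)
    (hQN : ∀ u v, Q u v → ∀ n ∈ N, ∀ n' ∈ N, Q (u * n) (v * n')) {k : ℝ}
    (hk : ((univ.filter (fun z : G × G => Q z.1 z.2)).card : ℝ) ≤ k * Nat.card N)
    (hB : T a b N Y ≤ B * Nat.card N) : TT a b Q Y ≤ k * B := by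
  have h1 := jobSplit G X a b R N Y Q hb hab hN hI hQ hQN
  have hpos : (0 : ℝ) < Nat.card N := by exact_mod_cast Nat.card_pos
  have hT : 0 ≤ T a b N Y := TT_nonneg hb hab _ _
  have h2 : (Nat.card N : ℝ) ^ 2 * TT a b Q Y ≤ (Nat.card N : ℝ) ^ 2 * (k * B) :=
    calc _ ≤ _ := h1
      _ ≤ (k * Nat.card N) * (B * Nat.card N) :=
          mul_le_mul hk hB hT (le_trans (Nat.cast_nonneg _) hk)
      _ = _ := by ring
  exact le_of_mul_le_mul_left h2 (by positivity)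

theorem out_bound (hC : JobCnt) (hp : p.Prime) (hb : 0 ≤ b) (hab : b ≤ a) (hR : IsPGroup p R)
    (hI : Inv R Y) (hx : x ∈ Y) (hM : M ≤ R) (hcard : Nat.card R = p * Nat.card M)
    (hno : ∀ g ∈ R, ∀ h ∈ M, g * h * g⁻¹ ∈ M)
    (hst : ∀ g ∈ R, ∀ y ∈ orbF R x, g • y = y → g ∈ M)
    (hB : T a b (Ker R (orbF R x)) (Y \ orbF R x) ≤ B * Nat.card (Ker R (orbF R x))) :
    TT a b (fun u v => (u ∈ R ∧ u ∉ M) ∧ v ∈ R) Y ≤ b ^ (orbF R x).card *
      ((p * om p (orbF M x).card * (((p : ℝ) - 1) * Nat.card M)) * B) := by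
  have hO := orbF_subset hI hx
  have hIO := inv_orbF R x
  have hKM := ker_le_M hst
  refine le_trans (TT_restrict (Q' := fun u v => (u ∈ R ∧ u ∉ M) ∧ v ∈ R ∧ Cm (orbF R x) u v)
    hb hab (pow_nonneg hb _) hO ?_ ?_) (mul_le_mul_of_nonneg_left ?_ (pow_nonneg hb _))
  · intro u v h
    exact le_of_eq (wt_move fun y hy hy' => h.1.2 (hst u h.1.1 y hy hy'))
  · intro u v h h'
    exact ⟨h.1, h.2, h'⟩
  · refine split_bound hb hab (hKM.trans hM) (hI.sdiff hIO) _ (fun u v h => ⟨h.1.1, h.2.1⟩) ?_ ?_ hB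
    · intro u v h n hn n' hn'
      refine ⟨⟨R.mul_mem h.1.1 (hM (hKM hn)), fun h1 => h.1.2 ?_⟩,
        R.mul_mem h.2.1 (hM (hKM hn')), cm_mul_ker hIO h.1.1 h.2.1 hn hn' h.2.2⟩
      simpa using M.mul_mem h1 (M.inv_mem (hKM hn))
    · have h1 := card_pairs_fst (fun u v => (u ∈ R ∧ u ∉ M) ∧ v ∈ R ∧ Cm (orbF R x) u v)
        (fun u => u ∈ R ∧ u ∉ M) (p * (Nat.card (Ker R (orbF R x)) * om p (orbF M x).card))
        (fun u v h => h.1) (by
          intro u hu
          have h2 := card_cm_le hM hIO hcard u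
          have h3 := hC p G X R M x u hp hR hM hcard hno hu.1 hu.2
          refine le_trans (le_of_eq ?_) (h2.trans (Nat.mul_le_mul_left p (le_trans (le_of_eq ?_) h3)))
          · congr 1; ext v; simp [hu]
          · congr 1; ext v; simp [cm_comm (u := u)])
      have h2 := card_diff hM hcard
      calc _ ≤ ((p * (Nat.card (Ker R (orbF R x)) * om p (orbF M x).card) *
            (univ.filter (fun u => u ∈ R ∧ u ∉ M)).card : ℕ) : ℝ) := by exact_mod_cast h1
        _ = _ := by push_cast; rw [h2]; ring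

theorem inout_bound (hC : JobCnt) (hp : p.Prime) (hb : 0 ≤ b) (hab : b ≤ a) (hR : IsPGroup p R)
    (hI : Inv R Y) (hx : x ∈ Y) (hM : M ≤ R) (hcard : Nat.card R = p * Nat.card M)
    (hno : ∀ g ∈ R, ∀ h ∈ M, g * h * g⁻¹ ∈ M)
    (hst : ∀ g ∈ R, ∀ y ∈ orbF R x, g • y = y → g ∈ M)
    (hB : T a b (Ker R (orbF R x)) (Y \ orbF R x) ≤ B * Nat.card (Ker R (orbF R x))) :
    TT a b (fun u v => u ∈ M ∧ v ∈ R ∧ v ∉ M) Y ≤ a ^ (orbF R x).card *
      ((om p (orbF M x).card * (((p : ℝ) - 1) * Nat.card M)) * B) := by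
  have hO := orbF_subset hI hx
  have hIO := inv_orbF R x
  have hKM := ker_le_M hst
  have ha : 0 ≤ a := hb.trans hab
  refine le_trans (TT_restrict (Q' := fun u v => (u ∈ M ∧ Cm (orbF R x) u v) ∧ v ∈ R ∧ v ∉ M)
    hb hab (pow_nonneg ha _) hO ?_ ?_) (mul_le_mul_of_nonneg_left ?_ (pow_nonneg ha _))
  · intro u v _
    exact wt_le hb hab _ u
  · intro u v h h'
    exact ⟨⟨h.1, h'⟩, h.2⟩
  · refine split_bound hb hab (hKM.trans hM) (hI.sdiff hIO) _
      (fun u v h => ⟨hM h.1.1, h.2.1⟩) ?_ ?_ hB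
    · intro u v h n hn n' hn'
      refine ⟨⟨M.mul_mem h.1.1 (hKM hn), cm_mul_ker hIO (hM h.1.1) h.2.1 hn hn' h.1.2⟩,
        R.mul_mem h.2.1 (hM (hKM hn')), fun h1 => h.2.2 ?_⟩
      simpa using M.mul_mem h1 (M.inv_mem (hKM hn'))
    · have h1 := card_pairs_snd (fun u v => (u ∈ M ∧ Cm (orbF R x) u v) ∧ v ∈ R ∧ v ∉ M)
        (fun u => u ∈ R ∧ u ∉ M) (Nat.card (Ker R (orbF R x)) * om p (orbF M x).card)
        (fun u v h => h.2) (by
          intro v hv
          have h3 := hC p G X R M x v hp hR hM hcard hno hv.1 hv.2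
          refine le_trans (le_of_eq ?_) h3
          congr 1; ext u; simp [hv])
      have h2 := card_diff hM hcard
      calc _ ≤ ((Nat.card (Ker R (orbF R x)) * om p (orbF M x).card *
            (univ.filter (fun u => u ∈ R ∧ u ∉ M)).card : ℕ) : ℝ) := by exact_mod_cast h1
        _ = _ := by push_cast; rw [h2]; ring

theorem ker_M_eq (hx : x ∈ Y) (hM : M ≤ R)
    (hst : ∀ g ∈ R, ∀ y ∈ orbF R x, g • y = y → g ∈ M) : Ker M Y = Ker R Y := by
  ext g
  rw [mem_ker, mem_ker]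
  exact ⟨fun h => ⟨hM h.1, h.2⟩, fun h => ⟨hst g h.1 x (self_mem_orbF R x) (h.2 x hx), h.2⟩⟩

theorem ker_ker_eq {O : Finset X} (hO : O ⊆ Y) : Ker (Ker R O) (Y \ O) = Ker R Y := by
  ext g
  rw [mem_ker, mem_ker, mem_ker]
  refine ⟨fun h => ⟨h.1.1, fun y hy => ?_⟩,
    fun h => ⟨⟨h.1, fun y hy => h.2 y (hO hy)⟩, fun y hy => h.2 y (mem_sdiff.1 hy).1⟩⟩
  by_cases hyO : y ∈ O
  · exact h.1.2 y hyO
  · exact h.2 y (mem_sdiff.2 ⟨hy, hyO⟩)

end step

theorem jobUniv (hT : JobTop) (hC : JobCnt) : JobUniv := by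
  intro p a b c hp hb hab hba hU G X _ _ _ _ R
  have ha : 0 ≤ a := hb.trans hab
  have hc1 : 0 ≤ c 1 := ha.trans hU.2.1
  have hp1 : (1 : ℝ) ≤ p := by exact_mod_cast hp.one_le
  induction hn : Nat.card R using Nat.strong_induction_on generalizing R with
  | _ n ih =>
  subst hn
  intro Y hR hI
  by_cases hfix : ∀ g ∈ R, ∀ x ∈ Y, g • x = x
  · rw [T_fix hfix, Phi_fix c hfix]
    have := pow_le_pow_left₀ ha hU.2.1 Y.card
    gcongr
  push Not at hfix
  obtain ⟨g₀, hg₀, x, hx, hgx⟩ := hfix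
  obtain ⟨M, hM, hcard, hno, hst, j, hOc, hMo⟩ := hT p G X R x hp hR ⟨g₀, hg₀, hgx⟩
  have hO := orbF_subset hI hx
  have hIO := inv_orbF R x
  have hMpos : 0 < Nat.card M := Nat.card_pos
  have hMlt : Nat.card M < Nat.card R := by
    rw [hcard]; exact lt_mul_of_one_lt_left hMpos hp.one_lt
  have hKM := ker_le_M hst
  have hNlt : Nat.card (Ker R (orbF R x)) < Nat.card R :=
    lt_of_le_of_lt (Subgroup.card_le_of_le hKM) hMlt
  have ihM := ih _ hMlt M rfl Y (hR.to_le hM) (hI.mono hM)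
  have ihN := ih _ hNlt (Ker R (orbF R x)) rfl (Y \ orbF R x) (hR.to_le (hKM.trans hM))
    ((hI.sdiff hIO).mono (hKM.trans hM))
  rw [ker_M_eq hx hM hst] at ihM
  rw [ker_ker_eq hO] at ihN
  set K : ℝ := (Nat.card (Ker R Y) : ℝ) with hK
  set F : ℝ := Phi c R (Y \ orbF R x) with hF
  have hK0 : 0 ≤ K := Nat.cast_nonneg _
  have hF0 : 0 ≤ F := Phi_nonneg hU.1 hc1 _ _
  have hB : T a b (Ker R (orbF R x)) (Y \ orbF R x) ≤ (F * K) * Nat.card (Ker R (orbF R x)) := by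
    refine ihN.trans ?_
    have := Phi_mono hU.1 hc1 (fun _ => le_rfl) (hKM.trans hM) (Y \ orbF R x)
    calc _ ≤ F * Nat.card (Ker R (orbF R x)) * K := by gcongr
      _ = _ := by ring
  have hout := out_bound hC hp hb hab hR hI hx hM hcard hno hst hB
  have hinout := inout_bound hC hp hb hab hR hI hx hM hcard hno hst hB
  rw [hMo x (self_mem_orbF R x), hOc] at hout hinout
  rw [pow_mul, hba] at hout
  have hPR : Phi c R Y = c (p * p ^ j) ^ (p * p ^ j) * F := by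
    rw [Phi_split c R hO (m := p * p ^ j) (fun y hy => by rw [orbF_eq hy, hOc]), hOc]
  have hPM : Phi c M Y ≤ c (p ^ j) ^ (p * p ^ j) * F := by
    rw [Phi_split c M hO hMo, hOc]
    have h0 : 0 ≤ c (p ^ j) := hc1.trans (hU.1 (Nat.one_le_pow _ _ hp.pos))
    exact mul_le_mul_of_nonneg_left (Phi_mono hU.1 hc1 (fun _ => le_rfl) hM _) (pow_nonneg h0 _)
  have hTM : T a b M Y ≤ c (p ^ j) ^ (p * p ^ j) * F * Nat.card M * K := by
    refine ihM.trans ?_
    gcongr
  have hs1 : T a b R Y ≤ TT a b (fun u v => u ∈ M ∧ v ∈ R) Y +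
      TT a b (fun u v => (u ∈ R ∧ u ∉ M) ∧ v ∈ R) Y := by
    refine TT_le_add hb hab Y fun u v h => ?_
    by_cases hu : u ∈ M
    · exact Or.inl ⟨hu, h.2⟩
    · exact Or.inr ⟨⟨h.1, hu⟩, h.2⟩
  have hW : 0 ≤ F * Nat.card M * K := by positivity
  rw [hPR, hcard]
  push_cast
  rcases hU.2.2 j (p ^ j) rfl with hA | hBB
  · have hs2 := TT_inall_le hb hab hM hI hcard
    have h1 := mul_le_mul_of_nonneg_left hA (mul_nonneg (by linarith : (0 : ℝ) ≤ p) hW)
    have h2 := mul_le_mul_of_nonneg_left hTM (by linarith : (0 : ℝ) ≤ p)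
    nlinarith
  · have hs2 : TT a b (fun u v => u ∈ M ∧ v ∈ R) Y ≤ T a b M Y +
        TT a b (fun u v => u ∈ M ∧ v ∈ R ∧ v ∉ M) Y := by
      refine TT_le_add hb hab Y fun u v h => ?_
      by_cases hv : v ∈ M
      · exact Or.inl ⟨h.1, hv⟩
      · exact Or.inr ⟨h.1, h.2, hv⟩
    have h1 := mul_le_mul_of_nonneg_left hBB hW
    nlinarith

theorem T_le_cyc {a b : ℝ} (hb : 0 ≤ b) (hab : b ≤ a) {R M : Subgroup G} {Y O : Finset X}
    (hO : O ⊆ Y) (hM : M ≤ R) (h1 : ∀ g ∈ M, ∀ y ∈ O, g • y = y)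
    (h2 : ∀ g ∈ R, ∀ y ∈ O, g • y = y → g ∈ M) :
    T a b R Y ≤ b ^ O.card * T a b R (Y \ O) +
      (a ^ O.card - b ^ O.card) * TT a b (fun u v => u ∈ M ∧ v ∈ R) (Y \ O) := by
  have hd : 0 ≤ a ^ O.card - b ^ O.card := sub_nonneg.2 (pow_le_pow_left₀ hb hab _)
  have hb' : 0 ≤ b ^ O.card := pow_nonneg hb _
  unfold T TT
  rw [Finset.mul_sum, Finset.mul_sum, ← Finset.sum_add_distrib]
  refine Finset.sum_le_sum fun u _ => ?_
  rw [Finset.mul_sum, Finset.mul_sum, ← Finset.sum_add_distrib]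
  refine Finset.sum_le_sum fun v _ => ?_
  have h0 := wt_nonneg hb hab (Y \ O) u
  by_cases hq : (u ∈ R ∧ v ∈ R) ∧ Cm Y u v
  · have hc : Cm (Y \ O) u v := hq.2.mono Finset.sdiff_subset
    rw [if_pos hq, if_pos ⟨hq.1, hc⟩, wt_sdiff hO]
    by_cases hu : u ∈ M
    · rw [if_pos ⟨⟨hu, hq.1.2⟩, hc⟩, wt_fix (h1 u hu)]
      exact le_of_eq (by ring)
    · rw [if_neg (fun h => hu h.1.1), wt_move (fun y hy hy' => hu (h2 u hq.1.1 y hy hy'))]
      exact le_of_eq (by ring)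
  · rw [if_neg hq]
    refine add_nonneg (mul_nonneg hb' ?_) (mul_nonneg hd ?_)
    · split_ifs
      · exact h0
      · exact le_rfl
    · split_ifs
      · exact h0
      · exact le_rfl

theorem jobRef (hT : JobTop) (hC : JobCnt) : JobRef := by
  intro p a b c c' hp hb hab hba hU hR' hcc G X _ _ _ _ R
  have hUn := jobUniv hT hC p a b c hp hb hab hba hU G X
  have ha : 0 ≤ a := hb.trans hab
  have hc1 : 0 ≤ c 1 := ha.trans hU.2.1
  have hc1' : 0 ≤ c' 1 := by rw [hR'.2.1]; exact ha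
  have hp1 : (1 : ℝ) ≤ p := by exact_mod_cast hp.one_le
  induction hn : Nat.card R using Nat.strong_induction_on generalizing R with
  | _ n ih =>
  subst hn
  intro Y hR hI hNC
  by_cases hfix : ∀ g ∈ R, ∀ x ∈ Y, g • x = x
  · rw [T_fix hfix, Phi_fix c' hfix, hR'.2.1]
    exact le_of_eq (by ring)
  push Not at hfix
  obtain ⟨g₀, hg₀, x, hx, hgx⟩ := hfix
  obtain ⟨M, hM, hcard, hno, hst, j, hOc, hMo⟩ := hT p G X R x hp hR ⟨g₀, hg₀, hgx⟩
  have hO := orbF_subset hI hx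
  have hIO := inv_orbF R x
  have hMpos : 0 < Nat.card M := Nat.card_pos
  have hMlt : Nat.card M < Nat.card R := by
    rw [hcard]; exact lt_mul_of_one_lt_left hMpos hp.one_lt
  have hKM := ker_le_M hst
  have hPR : Phi c' R Y = c' (p * p ^ j) ^ (p * p ^ j) * Phi c' R (Y \ orbF R x) := by
    rw [Phi_split c' R hO (m := p * p ^ j) (fun y hy => by rw [orbF_eq hy, hOc]), hOc]
  have hF0 : 0 ≤ Phi c' R (Y \ orbF R x) := Phi_nonneg hR'.1 hc1' _ _
  have hK0 : (0 : ℝ) ≤ Nat.card (Ker R Y) := Nat.cast_nonneg _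
  have hM0 : (0 : ℝ) ≤ Nat.card M := Nat.cast_nonneg _
  rcases j with _ | j
  · simp only [pow_zero, mul_one] at hOc hMo hPR
    have hMfix : ∀ g ∈ M, ∀ y ∈ orbF R x, g • y = y := by
      intro g hg y hy
      exact Finset.card_le_one.1 (hMo y hy).le _ (mem_orbF.2 ⟨g, hg, rfl⟩) _ (self_mem_orbF M y)
    have hKR : Ker R (Y \ orbF R x) = Ker R Y := by
      ext g
      rw [mem_ker, mem_ker]
      refine ⟨fun h => ⟨h.1, hNC g h.1 ?_⟩, fun h => ⟨h.1, fun y hy => h.2 y (mem_sdiff.1 hy).1⟩⟩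
      rw [← hOc]
      refine Finset.card_le_card fun y hy => ?_
      rw [mem_filter] at hy
      by_contra hyO
      exact hy.2 (h.2 y (mem_sdiff.2 ⟨hy.1, hyO⟩))
    have hKM' : Ker M (Y \ orbF R x) = Ker R Y := by
      refine le_antisymm ?_ ?_
      · rw [← hKR]
        intro g hg
        rw [mem_ker] at hg ⊢
        exact ⟨hM hg.1, hg.2⟩
      · rw [← ker_M_eq hx hM hst]
        intro g hg
        rw [mem_ker] at hg ⊢
        exact ⟨hg.1, fun y hy => hg.2 y (mem_sdiff.1 hy).1⟩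
    have hNC' : NoCyc p M (Y \ orbF R x) := by
      intro g hg hle y hy
      refine hNC g (hM hg) (le_trans (Finset.card_le_card fun z hz => ?_) hle) y (mem_sdiff.1 hy).1
      rw [mem_filter] at hz ⊢
      exact ⟨mem_sdiff.2 ⟨hz.1, fun hzO => hz.2 (hMfix g hg z hzO)⟩, hz.2⟩
    have ihM := ih _ hMlt M rfl (Y \ orbF R x) (hR.to_le hM) ((hI.sdiff hIO).mono hM) hNC'
    have hu := hUn R (Y \ orbF R x) hR (hI.sdiff hIO)
    rw [hKM'] at ihM
    rw [hKR, hcard] at hu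
    have h1 := T_le_cyc hb hab hO hM hMfix hst
    have h2 := TT_inall_le hb hab hM (hI.sdiff hIO) hcard
    have hcY : Y.card = p + (Y \ orbF R x).card := by
      rw [← hOc, add_comm, Finset.card_sdiff_add_card_eq_card hO]
    rw [hOc, hba] at h1
    rw [hPR, hcY, pow_add, hcard]
    have hd : 0 ≤ a ^ p - a := by
      have := pow_le_pow_left₀ hb hab p
      rw [hba] at this
      linarith
    have h3 := Phi_mono hU.1 hc1 hcc (le_refl R) (Y \ orbF R x)
    have h4 := Phi_mono hR'.1 hc1' (fun _ => le_rfl) hM (Y \ orbF R x)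
    push_cast at hu ⊢
    set K : ℝ := (Nat.card (Ker R Y) : ℝ)
    set F : ℝ := Phi c' R (Y \ orbF R x)
    set W : ℝ := (Nat.card M : ℝ)
    set E : ℝ := a ^ (Y \ orbF R x).card
    have hE : 0 ≤ E := pow_nonneg ha _
    have hWK : 0 ≤ p * W * K := by positivity
    have e1 : T a b R (Y \ orbF R x) ≤ F * (p * W * K) :=
      hu.trans (by rw [mul_assoc]; exact mul_le_mul_of_nonneg_right h3 hWK)
    have e2 : TT a b (fun u v => u ∈ M ∧ v ∈ R) (Y \ orbF R x) ≤ (F + (p - 1) * E) * (W * K) := by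
      refine h2.trans (ihM.trans ?_)
      rw [mul_assoc]
      exact mul_le_mul_of_nonneg_right (by linarith) (mul_nonneg hM0 hK0)
    have e3 := mul_le_mul_of_nonneg_left e1 ha
    have e4 := mul_le_mul_of_nonneg_left e2 hd
    have e5 := mul_le_mul_of_nonneg_right hR'.2.2.1 (mul_nonneg hF0 hWK)
    have e6 : 0 ≤ a * ((p - 1) * E) * (p * W * K) :=
      mul_nonneg (mul_nonneg ha (mul_nonneg (by linarith) hE)) hWK
    have e7 : (p : ℝ) * T a b R Y ≤ p * (a * (F * (p * W * K)) +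
        (a ^ p - a) * ((F + (p - 1) * E) * (W * K))) :=
      mul_le_mul_of_nonneg_left (by linarith) (by linarith)
    nlinarith
  · have hNC' : NoCyc p M Y := fun g hg => hNC g (hM hg)
    have ihM := ih _ hMlt M rfl Y (hR.to_le hM) (hI.mono hM) hNC'
    have ihN := hUn (Ker R (orbF R x)) (Y \ orbF R x) (hR.to_le (hKM.trans hM))
      ((hI.sdiff hIO).mono (hKM.trans hM))
    rw [ker_M_eq hx hM hst] at ihM
    rw [ker_ker_eq hO] at ihN
    set K : ℝ := (Nat.card (Ker R Y) : ℝ)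
    set F : ℝ := Phi c' R (Y \ orbF R x) with hF
    have hB : T a b (Ker R (orbF R x)) (Y \ orbF R x) ≤ (F * K) * Nat.card (Ker R (orbF R x)) := by
      refine ihN.trans ?_
      have := Phi_mono hU.1 hc1 hcc (hKM.trans hM) (Y \ orbF R x)
      calc _ ≤ F * Nat.card (Ker R (orbF R x)) * K := by gcongr
        _ = _ := by ring
    have hout := out_bound hC hp hb hab hR hI hx hM hcard hno hst hB
    rw [hMo x (self_mem_orbF R x), hOc, pow_mul, hba] at hout
    have hPM : Phi c' M Y ≤ c' (p ^ (j + 1)) ^ (p * p ^ (j + 1)) * F := by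
      rw [Phi_split c' M hO hMo, hOc]
      have h0 : 0 ≤ c' (p ^ (j + 1)) := hc1'.trans (hR'.1 (Nat.one_le_pow _ _ hp.pos))
      exact mul_le_mul_of_nonneg_left (Phi_mono hR'.1 hc1' (fun _ => le_rfl) hM _) (pow_nonneg h0 _)
    have hs1 : T a b R Y ≤ TT a b (fun u v => u ∈ M ∧ v ∈ R) Y +
        TT a b (fun u v => (u ∈ R ∧ u ∉ M) ∧ v ∈ R) Y := by
      refine TT_le_add hb hab Y fun u v h => ?_
      by_cases hu : u ∈ M
      · exact Or.inl ⟨hu, h.2⟩
      · exact Or.inr ⟨⟨h.1, hu⟩, h.2⟩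
    have hs2 := TT_inall_le hb hab hM hI hcard
    rw [hPR, hcard]
    push_cast
    set W : ℝ := (Nat.card M : ℝ)
    have hWK : 0 ≤ W * K := mul_nonneg hM0 hK0
    have e1 : TT a b (fun u v => u ∈ M ∧ v ∈ R) Y ≤
        (c' (p ^ (j + 1)) ^ (p * p ^ (j + 1)) * F + (p - 1) * a ^ Y.card) * (W * K) := by
      refine hs2.trans (ihM.trans ?_)
      rw [mul_assoc]
      exact mul_le_mul_of_nonneg_right (by linarith) hWK
    have e2 := mul_le_mul_of_nonneg_right (hR'.2.2.2 j _ rfl)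
      (mul_nonneg (mul_nonneg (by linarith : (0 : ℝ) ≤ p) hF0) hWK)
    have e3 := mul_le_mul_of_nonneg_left (hs1.trans (add_le_add e1 hout))
      (by linarith : (0 : ℝ) ≤ p)
    nlinarith

end H68.Kc
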