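import Cfsg.Agent.S3744
import Cfsg.Agent.S0012
import Cfsg.Agent.H10.StableNormal
import Cfsg.Agent.H18.PSolv
import Cfsg.Prelude.Def_CaseTheorems

/-! Reduction of the class count of Hall `p'`-subgroups to the `k(GV)` bound. -/

set_option autoImplicit false

open Cfsg Subgroup
open scoped commutatorElement Pointwise

namespace H68.Kgv

universe u

/-- The `k(GV)` bound. -/
def KGV : Prop := ∀ (X : Type u) [Group X] [Finite X] (p : ℕ) [Fact p.Prime] (V : Subgroup X) [V.Normal],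
  (∀ v ∈ V, v ^ p = 1) → ¬ p ∣ V.index → Subgroup.centralizer (V : Set X) = V →
    Nat.card (ConjClasses X) ≤ Nat.card V

/-- A complement to a nontrivial normal subgroup has fewer classes. -/
theorem card_lt {Y T : Type*} [Group Y] [Finite Y] [Group T] (V : Subgroup Y) [V.Normal] (ι : T →* Y)
    (h1 : ∀ y, ∃ v ∈ V, ∃ t, y = v * ι t) (h2 : ∀ t, ι t ∈ V → t = 1) (hV : V ≠ ⊥) :
    Nat.card (ConjClasses T) < Nat.card (ConjClasses Y) := by
  classical
  have hinj : Function.Injective (ConjClasses.map ι) := by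
    intro a b h
    obtain ⟨a, rfl⟩ := ConjClasses.mk_surjective a
    obtain ⟨b, rfl⟩ := ConjClasses.mk_surjective b
    have h' : IsConj (ι a) (ι b) := ConjClasses.mk_eq_mk_iff_isConj.1 h
    obtain ⟨y, hy⟩ := isConj_iff.1 h'
    obtain ⟨v, hv, s, rfl⟩ := h1 y
    refine ConjClasses.mk_eq_mk_iff_isConj.2 (isConj_iff.2 ⟨s, ?_⟩)
    have : ι (s * a * s⁻¹ * b⁻¹) ∈ V := by
      have e : ι (s * a * s⁻¹ * b⁻¹) = v⁻¹ * (ι b * v * (ι b)⁻¹) := by
        simp only [map_mul, map_inv]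
        rw [← hy]; group
      rw [e]
      exact mul_mem (inv_mem hv) (Subgroup.Normal.conj_mem inferInstance _ hv _)
    exact mul_inv_eq_one.1 (h2 _ this)
  obtain ⟨v, hv, v1⟩ := (Subgroup.ne_bot_iff_exists_ne_one.1 hV).elim fun a ha =>
    (⟨a.1, a.2, fun h => ha (Subtype.ext h)⟩ : ∃ v ∈ V, v ≠ 1)
  have hns : ConjClasses.mk v ∉ Set.range (ConjClasses.map ι) := by
    rintro ⟨a, ha⟩
    obtain ⟨a, rfl⟩ := ConjClasses.mk_surjective a
    have h' : IsConj v (ι a) := (ConjClasses.mk_eq_mk_iff_isConj.1 ha).symm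
    obtain ⟨y, hy⟩ := isConj_iff.1 h'
    have : ι a ∈ V := hy ▸ Subgroup.Normal.conj_mem inferInstance _ hv _
    rw [h2 a this, map_one] at hy
    apply v1
    have : v = y⁻¹ * (y * v * y⁻¹) * y := by group
    rw [this, hy]; group
  haveI : Finite (ConjClasses T) := Finite.of_injective _ hinj
  haveI := Fintype.ofFinite (ConjClasses T)
  haveI := Fintype.ofFinite (ConjClasses Y)
  rw [Nat.card_eq_fintype_card, Nat.card_eq_fintype_card]
  exact Fintype.card_lt_of_injective_of_notMem _ hinj hns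

/-- An elementary abelian image is bounded by the sectional rank. -/
theorem card_le_of_sec {Q W : Type*} [Group Q] [Group W] {p r : ℕ} (hr : SectionalPRankLE p r Q)
    (f : Q →* W) (hf : Function.Surjective f) (hc : ∀ a b : W, a * b = b * a) (he : ∀ a : W, a ^ p = 1) :
    Nat.card W ≤ p ^ r := by
  let g : (⊤ : Subgroup Q) →* W := f.comp (⊤ : Subgroup Q).subtype
  have hg : Function.Surjective g := fun w => by
    obtain ⟨x, rfl⟩ := hf w
    exact ⟨⟨x, mem_top x⟩, rfl⟩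
  let e := QuotientGroup.quotientKerEquivOfSurjective g hg
  have := hr ⊤ g.ker ⊤ ⟨⟨fun a b => Subtype.ext (e.injective (by
    simp only [Subgroup.coe_mul, map_mul]; exact hc _ _))⟩⟩
    (fun a _ => e.injective (by rw [map_pow, map_one]; exact he _))
  rwa [Subgroup.card_top, Nat.card_congr e.toEquiv] at this

theorem hall_lt (kgv : KGV.{u}) {X : Type u} [Group X] [Finite X] (p : ℕ) [Fact p.Prime]
    (Q : Subgroup X) [Q.Normal] (hQ : IsPGroup p Q) (hQ1 : Q ≠ ⊥)
    (hC : centralizer (Q : Set X) ≤ Q) (r : ℕ) (hr : SectionalPRankLE p r Q)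
    (T : Subgroup X) (hT : (Nat.card T).Coprime p) : Nat.card (ConjClasses T) < p ^ r := by
  let Φ : Subgroup X := (frattini Q).map Q.subtype
  haveI : Φ.Normal := ConjAct.normal_of_characteristic_of_normal
  have ΦQ : Φ ≤ Q := map_subtype_le _
  let π : X →* X ⧸ Φ := QuotientGroup.mk' Φ
  have hπ : ∀ x, π x = 1 ↔ x ∈ Φ := fun x => QuotientGroup.eq_one_iff x
  haveI : (Q.map π).Normal := Subgroup.Normal.map inferInstance π (QuotientGroup.mk'_surjective Φ)
  let Y : Subgroup (X ⧸ Φ) := Q.map π ⊔ T.map π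
  let V : Subgroup Y := (Q.map π).subgroupOf Y
  have memQ : ∀ x, π x ∈ Q.map π → x ∈ Q := by
    rintro x ⟨q, hq, e⟩
    have : q⁻¹ * x ∈ Φ := (hπ _).1 (by rw [map_mul, map_inv, e, inv_mul_cancel])
    simpa using mul_mem hq (ΦQ this)
  have fr := Cfsg.Agent.S0012.result p hQ
  have hpow : ∀ q ∈ Q, π q ^ p = 1 := fun q hq => by
    rw [← map_pow, hπ]
    exact ⟨⟨q, hq⟩ ^ p, fr.2 _, rfl⟩
  have hcomm : ∀ a ∈ Q, ∀ b ∈ Q, π a * π b = π b * π a := fun a ha b hb => by
    rw [← commutatorElement_eq_one_iff_mul_comm, ← map_commutatorElement, hπ]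
    exact ⟨⁅(⟨a, ha⟩ : Q), ⟨b, hb⟩⁆,
      fr.1 (commutator_mem_commutator (mem_top _) (mem_top _)), rfl⟩
  have hTQ : ∀ t ∈ T, t ∈ Q → t = 1 := fun t ht hq => by
    obtain ⟨k, hk⟩ := hQ ⟨t, hq⟩
    have h1 : orderOf t ∣ p ^ k := orderOf_dvd_of_pow_eq_one (congrArg Subtype.val hk)
    have h2 : orderOf t ∣ Nat.card T := Subgroup.orderOf_dvd_natCard T ht
    exact orderOf_eq_one_iff.1 (Nat.eq_one_of_dvd_coprimes (hT.pow_right k) h2 h1)
  let ι : T →* Y := (π.comp T.subtype).codRestrict Y fun t =>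
    mem_sup_right (mem_map_of_mem π t.2)
  have dec : ∀ y : Y, ∃ q ∈ Q, ∃ t : T, (y : X ⧸ Φ) = π q * π t := by
    intro y
    have hy : (y : X ⧸ Φ) ∈ (Q.map π : Set (X ⧸ Φ)) * (T.map π : Set (X ⧸ Φ)) := by
      rw [← normal_mul]; exact y.2
    obtain ⟨_, ⟨q, hq, rfl⟩, _, ⟨t, ht, rfl⟩, e⟩ := hy
    exact ⟨q, hq, ⟨t, ht⟩, e.symm⟩
  have h1 : ∀ y : Y, ∃ v ∈ V, ∃ t, y = v * ι t := by
    intro y
    obtain ⟨q, hq, t, e⟩ := dec y
    exact ⟨⟨π q, mem_sup_left (mem_map_of_mem π hq)⟩, mem_map_of_mem π hq, t, Subtype.ext e⟩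
  have h2 : ∀ t, ι t ∈ V → t = 1 := fun t ht =>
    Subtype.ext (hTQ t t.2 (memQ _ ht))
  have hV : V ≠ ⊥ := by
    intro hb
    have : Q ≤ Φ := fun q hq => by
      have : (⟨π q, mem_sup_left (mem_map_of_mem π hq)⟩ : Y) ∈ V := mem_map_of_mem π hq
      rw [hb] at this
      exact (hπ q).1 (congrArg Subtype.val (mem_bot.1 this))
    have ht : frattini Q = ⊤ := by
      rw [eq_top_iff]
      intro x _
      obtain ⟨y, hy, e⟩ := this x.2
      exact (Subtype.ext e : y = x) ▸ hy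
    have := frattini_nongenerating (K := (⊥ : Subgroup Q)) (by rw [ht, sup_top_eq])
    apply hQ1
    rw [eq_bot_iff]
    intro q hq
    have h : (⟨q, hq⟩ : Q) ∈ (⊥ : Subgroup Q) := this ▸ mem_top _
    exact congrArg Subtype.val (mem_bot.1 h)
  have hk := kgv Y p V
    (fun v hv => by
      obtain ⟨q, hq, e⟩ := mem_subgroupOf.1 hv
      exact Subtype.ext (by rw [Subgroup.coe_pow, ← e]; exact hpow q hq))
    (by
      intro hd
      have e : V.index = (Q.map π).relIndex (T.map π) := relIndex_sup_left _ _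
      have d1 : V.index ∣ Nat.card T := by
        rw [e]
        exact (index_dvd_card _).trans (card_map_dvd _ _)
      exact (Fact.out : p.Prime).one_lt.ne' (Nat.eq_one_of_dvd_coprimes hT (hd.trans d1) dvd_rfl))
    (by
      apply le_antisymm
      · intro y hy
        obtain ⟨q, hq, t, e⟩ := dec y
        have hn : (t : X) ∈ normalizer (Q : Set X) := by rw [normalizer_eq_top]; exact mem_top _
        have ho : (orderOf (t : X)).Coprime p :=
          Nat.Coprime.coprime_dvd_left (Subgroup.orderOf_dvd_natCard T t.2) hT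
        have := H10.mem_centralizer_of_forall_commutator_mem_frattini hQ hn ho (fun k hk => by
          refine (hπ _).1 ?_
          rw [map_commutatorElement, commutatorElement_eq_one_iff_mul_comm]
          have h := congrArg Subtype.val (mem_centralizer_iff.1 hy
            ⟨π k, mem_sup_left (mem_map_of_mem π hk)⟩ (mem_map_of_mem π hk))
          simp only [Subgroup.coe_mul, e] at h
          rw [← mul_assoc, hcomm k hk q hq, mul_assoc, mul_assoc] at h
          exact mul_left_cancel h)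
        rw [mem_subgroupOf, e]
        exact mul_mem (mem_map_of_mem π hq) (mem_map_of_mem π (hC this))
      · intro y hy
        refine mem_centralizer_iff.2 fun z hz => Subtype.ext ?_
        obtain ⟨a, ha, e1⟩ := mem_subgroupOf.1 hy
        obtain ⟨b, hb, e2⟩ := mem_subgroupOf.1 hz
        simp only [Subgroup.coe_mul]
        rw [← e1, ← e2]
        exact hcomm b hb a ha)
  have hc : Nat.card V ≤ p ^ r := by
    have e : Nat.card V = Nat.card (Q.map π) :=
      Nat.card_congr (subgroupOfEquivOfLe (le_sup_left : Q.map π ≤ Y)).toEquiv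
    rw [e]
    refine card_le_of_sec hr (π.subgroupMap Q) (π.subgroupMap_surjective Q) ?_ ?_
    · rintro ⟨_, a, ha, rfl⟩ ⟨_, b, hb, rfl⟩
      exact Subtype.ext (hcomm a ha b hb)
    · rintro ⟨_, a, ha, rfl⟩
      exact Subtype.ext (hpow a ha)
  exact (card_lt V ι h1 h2 hV).trans_le (hk.trans hc)

theorem row4533 (kgv : KGV.{u}) {X : Type u} [Group X] [Finite X] [Nontrivial X] (p : ℕ) [Fact p.Prime]
    (hsolv : Cfsg.IsPSolvable p X) (hcore : Cfsg.pPrimeCore p X = ⊥) (r : ℕ)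
    (hr : Cfsg.SectionalPRankLE p r ↥(Cfsg.pCore p X)) :
    (∀ T : Subgroup X, (Nat.card T).Coprime p → (∃ m : ℕ, T.index = p ^ m) →
      Nat.card (ConjClasses T) < p ^ r) ∧
    Nat.card {C : ConjClasses X // ∃ g : X, ConjClasses.mk g = C ∧ ¬ p ∣ orderOf g} < p ^ r := by
  have hp : p.Prime := Fact.out
  have hne : Cfsg.pCore p X ≠ ⊥ := (H18.isPSolvable_core_ne_bot hsolv).resolve_right fun h => h hcore
  have main : ∀ T : Subgroup X, (Nat.card T).Coprime p → Nat.card (ConjClasses T) < p ^ r :=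
    hall_lt kgv p (Cfsg.pCore p X) (H18.isPGroup_pCore p) hne (H18.centralizer_pCore_le hsolv hcore) r hr
  refine ⟨fun T h _ => main T h, ?_⟩
  obtain ⟨⟨T, hT, hTi⟩, hconj, hle⟩ := Cfsg.Agent.S3744.result hsolv
  refine lt_of_le_of_lt ?_ (main T hT)
  let f : ConjClasses T → {C : ConjClasses X // ∃ g : X, ConjClasses.mk g = C ∧ ¬ p ∣ orderOf g} :=
    fun C => ⟨ConjClasses.map T.subtype C, by
      obtain ⟨t, rfl⟩ := ConjClasses.mk_surjective C
      refine ⟨t, rfl, fun hd => hp.one_lt.ne' ?_⟩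
      exact Nat.eq_one_of_dvd_coprimes hT (hd.trans (Subgroup.orderOf_dvd_natCard T t.2)) dvd_rfl⟩
  refine Nat.card_le_card_of_surjective f ?_
  rintro ⟨_, g, rfl, hg⟩
  obtain ⟨H, hH, hHi, a, ha⟩ := hle (zpowers g) (by
    rw [Nat.card_zpowers]; exact ((Nat.Prime.coprime_iff_not_dvd hp).2 hg).symm)
  obtain ⟨b, hb⟩ := hconj T H hT hTi hH hHi
  have : (MulAut.conj a).toMonoidHom g ∈ H := ha (mem_map_of_mem _ (mem_zpowers g))
  rw [hb] at this
  obtain ⟨t, ht, e⟩ := this
  refine ⟨ConjClasses.mk ⟨t, ht⟩, Subtype.ext ?_⟩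
  refine ConjClasses.mk_eq_mk_iff_isConj.2 (isConj_iff.2 ⟨a⁻¹ * b, ?_⟩)
  have e' : b * t * b⁻¹ = a * g * a⁻¹ := e
  show a⁻¹ * b * t * (a⁻¹ * b)⁻¹ = g
  calc a⁻¹ * b * t * (a⁻¹ * b)⁻¹ = a⁻¹ * (b * t * b⁻¹) * a := by group
    _ = g := by rw [e']; group

end H68.Kgv
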