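/- Orthogonal decomposition of a space with a non-degenerate symmetric or alternating form under an
isometry into cyclic and double blocks (blueprint `blueprints/ORE.md`, chapter 0). -/
import Cfsg.Agent.H53.Wall
import Cfsg.Agent.H53.SpClass

set_option autoImplicit false
set_option linter.unusedSectionVars false

namespace H68.Ore0
open Polynomial Module H53
open H59 (perp mem_perp)

universe u

variable {F : Type*} [Field F] {V : Type*} [AddCommGroup V] [Module F V]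

/-- the reciprocal polynomial -/
noncomputable abbrev st (f : F[X]) : F[X] := pstar (RingHom.id F) f

/-- `p ↦ p(g) v` -/
noncomputable def cyL (g : End F V) (v : V) : F[X] →ₗ[F] V :=
  LinearMap.applyₗ v ∘ₗ (aeval g).toLinearMap

@[simp] theorem cyL_apply (g : End F V) (v : V) (p : F[X]) : cyL g v p = aeval g p v := rfl

/-- the cyclic subspace `F[g] v` -/
noncomputable def cy (g : End F V) (v : V) : Submodule F V := LinearMap.range (cyL g v)

/-- `B` is non-degenerate on `U` -/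
def ND (B : V →ₗ[F] V →ₗ[F] F) (U : Submodule F V) : Prop :=
  ∀ x ∈ U, (∀ y ∈ U, B x y = 0) → x = 0

/-- a cyclic block with generator `v` and minimal polynomial `P` -/
structure Cyc (B : V →ₗ[F] V →ₗ[F] F) (g : End F V) (W : Submodule F V) (v : V) (f : F[X]) (k : ℕ)
    (P : F[X]) : Prop where
  monic : f.Monic
  irr : Irreducible f
  eq : W = cy g v
  nd : ND B W
  ann : ∀ p, aeval g p v = 0 ↔ P ∣ p
  typ : (st f = f ∧ P = f ^ (k + 1)) ∨ (st f ≠ f ∧ P = (f * st f) ^ (k + 1))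

/-- a double block: two Jordan blocks of size `k + 1` for the eigenvalue `e` -/
structure Dbl (B : V →ₗ[F] V →ₗ[F] F) (g : End F V) (W : Submodule F V) (v w : V) (e : F) (k : ℕ) :
    Prop where
  sq : e * e = 1
  eq : W = cy g v ⊔ cy g w
  nd : ND B W
  free : ∀ p q, aeval g p v + aeval g q w = 0 ↔ (X - C e) ^ (k + 1) ∣ p ∧ (X - C e) ^ (k + 1) ∣ q
  alt : ∀ x ∈ W, B ((nl g e ^ k) x) x = 0
  ne : B ((nl g e ^ k) v) w ≠ 0

/-- a block -/
def Blk (B : V →ₗ[F] V →ₗ[F] F) (g : End F V) (W : Submodule F V) : Prop :=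
  (∃ v f k P, Cyc B g W v f k P) ∨ ∃ v w e k, Dbl B g W v w e k

variable {B : V →ₗ[F] V →ₗ[F] F} {ε : F} {g g' : End F V} {W U : Submodule F V} {v w x : V}

theorem ae_mul (p q : F[X]) (v : V) : aeval g (p * q) v = aeval g p (aeval g q v) := by
  rw [map_mul]; rfl

theorem ae_comm (p q : F[X]) (v : V) : aeval g p (aeval g q v) = aeval g q (aeval g p v) := by
  rw [← ae_mul, mul_comm, ae_mul]

theorem ae_X (v : V) : aeval g (X : F[X]) v = g v := by rw [aeval_X]

theorem ae_g (p : F[X]) (v : V) : g (aeval g p v) = aeval g p (g v) := by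
  rw [← ae_X (g := g), ae_comm, ae_X]

theorem ae_dvd {p q : F[X]} (h : aeval g p v = 0) (hd : p ∣ q) : aeval g q v = 0 := by
  obtain ⟨r, rfl⟩ := hd
  rw [mul_comm, ae_mul, h, map_zero]

theorem mem_cy : x ∈ cy g v ↔ ∃ p : F[X], aeval g p v = x := Iff.rfl

theorem ae_mem_cy (p : F[X]) : aeval g p v ∈ cy g v := ⟨p, rfl⟩

theorem self_mem_cy : v ∈ cy g v := ⟨1, by simp⟩

theorem ae_mem (hU : ∀ x ∈ U, g x ∈ U) (p : F[X]) (hx : x ∈ U) : aeval g p x ∈ U :=
  coe_aeval_restrict hU p ⟨x, hx⟩ ▸ Subtype.prop _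

theorem cy_inv : ∀ x ∈ cy g v, g x ∈ cy g v := by
  rintro _ ⟨p, rfl⟩
  exact ⟨X * p, by simp⟩

theorem cy_le (hU : ∀ x ∈ U, g x ∈ U) (hv : v ∈ U) : cy g v ≤ U := by
  rintro _ ⟨p, rfl⟩
  exact ae_mem hU p hv

theorem sup_inv (hU : ∀ x ∈ U, g x ∈ U) (hW : ∀ x ∈ W, g x ∈ W) : ∀ x ∈ U ⊔ W, g x ∈ U ⊔ W :=
  fun x hx => by
    obtain ⟨a, ha, b, hb, rfl⟩ := Submodule.mem_sup.1 hx
    rw [map_add]
    exact Submodule.add_mem_sup (hU a ha) (hW b hb)

theorem mem_cy_sup : x ∈ cy g v ⊔ cy g w ↔ ∃ p q : F[X], aeval g p v + aeval g q w = x := by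
  rw [Submodule.mem_sup]
  exact ⟨by rintro ⟨_, ⟨p, rfl⟩, _, ⟨q, rfl⟩, rfl⟩; exact ⟨p, q, rfl⟩,
    by rintro ⟨p, q, rfl⟩; exact ⟨_, ⟨p, rfl⟩, _, ⟨q, rfl⟩, rfl⟩⟩

theorem Blk.inv (h : Blk B g W) : ∀ x ∈ W, g x ∈ W := by
  rcases h with ⟨v, f, k, P, h⟩ | ⟨v, w, e, k, h⟩ <;> rw [h.eq]
  exacts [cy_inv, sup_inv cy_inv cy_inv]

theorem Blk.nd (h : Blk B g W) : ND B W := by
  rcases h with ⟨v, f, k, P, h⟩ | ⟨v, w, e, k, h⟩ <;> exact h.nd

theorem Cyc.ne_zero {f P : F[X]} {k : ℕ} (h : Cyc B g W v f k P) : v ≠ 0 := fun e => by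
  have h1 := (h.ann 1).1 (by simp [e])
  refine h.irr.not_isUnit (isUnit_of_dvd_one (Dvd.dvd.trans ?_ h1))
  rcases h.typ with ⟨-, rfl⟩ | ⟨-, rfl⟩
  exacts [dvd_pow_self _ k.succ_ne_zero, (dvd_mul_right _ _).trans (dvd_pow_self _ k.succ_ne_zero)]

theorem Dbl.ne_zero {e : F} {k : ℕ} (h : Dbl B g W v w e k) : v ≠ 0 := fun e => h.ne (by simp [e])

theorem Blk.ne_bot (h : Blk B g W) : W ≠ ⊥ := by
  rcases h with ⟨v, f, k, P, h⟩ | ⟨v, w, e, k, h⟩ <;> rw [h.eq, Submodule.ne_bot_iff]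
  exacts [⟨v, self_mem_cy, h.ne_zero⟩, ⟨v, Submodule.mem_sup_left self_mem_cy, h.ne_zero⟩]

theorem pow_dvd_of_mem {π : F[X]} (hπ : Prime π) {k : ℕ} {I : Ideal F[X]}
    (h1 : π ^ (k + 1) ∈ I) (h2 : π ^ k ∉ I) {b : F[X]} (hb : b ∈ I) : π ^ (k + 1) ∣ b := by
  rw [Submodule.IsPrincipal.mem_iff_generator_dvd] at h1 h2 hb
  obtain ⟨i, hi, h⟩ := (dvd_prime_pow hπ _).1 h1
  obtain rfl : i = k + 1 := by
    by_contra hne
    exact h2 (h.dvd.trans (pow_dvd_pow π (by omega)))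
  exact h.symm.dvd.trans hb

/-- the socle argument -/
theorem socle {π : F[X]} (hπ : Prime π) {k : ℕ} (l : V →ₗ[F] F) (h1 : aeval g (π ^ (k + 1)) v = 0)
    {r : F[X]} (h2 : l (aeval g (r * π ^ k) v) ≠ 0) {a : F[X]}
    (ha : ∀ s, l (aeval g (s * a) v) = 0) : π ^ (k + 1) ∣ a :=
  pow_dvd_of_mem hπ (I :=
    { carrier := {b | ∀ s : F[X], l (aeval g (s * b) v) = 0}
      add_mem' := fun ha hb s => by
        rw [mul_add, map_add, LinearMap.add_apply, map_add, ha, hb, add_zero]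
      zero_mem' := fun s => by simp
      smul_mem' := fun c b hb s => by rw [smul_eq_mul, ← mul_assoc, hb] })
    (fun s => by rw [ae_mul, h1, map_zero, map_zero]) (fun h => h2 (h r)) ha

/-- linear maps with prescribed values on a parametrised subspace -/
theorem exists_of_ker {M V' : Type*} [AddCommGroup M] [Module F M] [AddCommGroup V'] [Module F V']
    (A : M →ₗ[F] V) (A' : M →ₗ[F] V') (h : ∀ m, A m = 0 → A' m = 0) :
    ∃ s : V →ₗ[F] V', ∀ m, s (A m) = A' m := by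
  obtain ⟨s, hs⟩ := LinearMap.exists_extend ((LinearMap.ker A).liftQ A' h ∘ₗ
    A.quotKerEquivRange.symm.toLinearMap)
  refine ⟨s, fun m => (LinearMap.congr_fun hs ⟨A m, m, rfl⟩).trans ?_⟩
  exact congrArg ((LinearMap.ker A).liftQ A' h) (A.quotKerEquivRange_symm_apply_image m ⟨m, rfl⟩)

variable [FiniteDimensional F V]

/-- the inverse is a polynomial -/
theorem exists_rho (h1 : g * g' = 1) : ∃ ρ : F[X], aeval g ρ = g' := by
  have h0 : g.charpoly.coeff 0 ≠ 0 := fun e => by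
    have := (LinearMap.hasEigenvalue_zero_tfae g).out 0 3
    rw [End.hasEigenvalue_iff_isRoot_charpoly, IsRoot, ← coeff_zero_eq_eval_zero] at this
    have h2 := congrArg LinearMap.det h1
    rw [map_mul, this.1 e, zero_mul, map_one] at h2
    exact zero_ne_one h2
  refine ⟨-C (g.charpoly.coeff 0)⁻¹ * g.charpoly.divX, ?_⟩
  have h2 := congrArg (aeval g) (divX_mul_X_add g.charpoly)
  rw [LinearMap.aeval_self_charpoly, map_add, map_mul, aeval_X, aeval_C, add_eq_zero_iff_eq_neg] at h2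
  rw [← mul_one (aeval g _), ← h1, ← mul_assoc, map_mul, mul_assoc _ _ g, h2, map_neg, aeval_C,
    neg_mul_neg, ← map_mul, inv_mul_cancel₀ h0, map_one, one_mul]

theorem exists_bar_poly (h1 : g * g' = 1) (p : F[X]) : ∃ q : F[X], aeval g q = aeval g' p := by
  obtain ⟨ρ, rfl⟩ := exists_rho h1
  exact ⟨p.comp ρ, aeval_comp _⟩

theorem inv_mem (h1 : g * g' = 1) (hU : ∀ x ∈ U, g x ∈ U) (p : F[X]) (hx : x ∈ U) :
    aeval g' p x ∈ U := by
  obtain ⟨q, e⟩ := exists_bar_poly h1 p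
  exact e ▸ ae_mem hU q hx

theorem ae_comm' (h1 : g * g' = 1) (p q : F[X]) (v : V) :
    aeval g p (aeval g' q v) = aeval g' q (aeval g p v) := by
  obtain ⟨r, e⟩ := exists_bar_poly h1 q
  rw [← e, ae_comm]

/-- `p(g⁻¹)` kills `x` if and only if the reciprocal polynomial in `g` does -/
theorem st_zero_iff (h1 : g * g' = 1) {p : F[X]} (h0 : p.coeff 0 ≠ 0) :
    aeval g (st p) x = 0 ↔ aeval g' p x = 0 := by
  have hu : IsUnit (g ^ p.natDegree) := (IsUnit.of_mul_eq_one _ h1).pow _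
  rw [aeval_pstar h1 h0, Polynomial.map_id, LinearMap.smul_apply, smul_eq_zero, RingHom.id_apply,
    or_iff_right (inv_ne_zero h0), End.mul_apply,
    map_eq_zero_iff _ ((End.isUnit_iff _).1 hu).1]

variable (hB : IsSF (σ := RingHom.id F) ε B) (hg : Inv B g)

omit [FiniteDimensional F V] in
include hg in
theorem adj (h1 : g * g' = 1) (p : F[X]) (x y : V) : B (aeval g p x) y = B x (aeval g' p y) := by
  simpa using (hg.isAdj (σ := RingHom.id F) h1).aeval p x y

include hB hg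

omit [FiniteDimensional F V] in
theorem adj' (h1 : g * g' = 1) (p : F[X]) (x y : V) : B (aeval g' p x) y = B x (aeval g p y) := by
  rw [hB.symm, ← adj hg h1, hB.symm x, RingHom.id_apply, RingHom.id_apply, ← mul_assoc,
    show ε * ε = 1 from hB.eps, one_mul]

omit hg in
theorem ND.disjoint (h : ND B U) : Disjoint U (perp B U) := hB.disjoint_of_restrict h

omit [FiniteDimensional F V] hg in
theorem nd_of_disjoint (h : Disjoint U (perp B U)) : ND B U := fun x hx h' =>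
  Submodule.disjoint_def.1 h x hx (hB.mem_perp'.2 h')

theorem cyc_self {f r : F[X]} {k : ℕ} (hm : f.Monic) (hi : Irreducible f) (hs : st f = f)
    (h1 : aeval g (f ^ (k + 1)) v = 0) (h2 : B (aeval g (r * f ^ k) v) v ≠ 0) :
    Cyc B g (cy g v) v f k (f ^ (k + 1)) := by
  obtain ⟨g', e1, -, -⟩ := hg.exists_inv hB
  have key : ∀ a, (∀ y ∈ cy g v, B (aeval g a v) y = 0) → f ^ (k + 1) ∣ a := fun a ha =>
    socle hi.prime (B.flip v) h1 h2 fun s => by
      rw [ae_mul, LinearMap.flip_apply, adj hg e1]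
      exact ha _ (inv_mem e1 cy_inv s self_mem_cy)
  refine ⟨hm, hi, rfl, ?_, fun p => ⟨fun h => key p fun y _ => by rw [h, map_zero]; rfl,
    ae_dvd h1⟩, .inl ⟨hs, rfl⟩⟩
  rintro _ ⟨a, rfl⟩ ha
  exact ae_dvd h1 (key a ha)

theorem cyc_pair {f : F[X]} {k : ℕ} (hm : f.Monic) (hi : Irreducible f) (h0 : f.coeff 0 ≠ 0)
    (hs : st f ≠ f) (h1 : aeval g (f ^ (k + 1)) v = 0) (h2 : aeval g (st f ^ (k + 1)) w = 0)
    (h3 : B (aeval g (f ^ k) v) w ≠ 0) :
    Cyc B g (cy g (v + w)) (v + w) f k ((f * st f) ^ (k + 1)) := by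
  obtain ⟨g', e1, e2, -⟩ := hg.exists_inv hB
  have hm' : (st f).Monic := monic_pstar hm.ne_zero
  have hi' : Irreducible (st f) := irreducible_pstar (fun _ => rfl) hm hi
  have hc : IsCoprime (f ^ (k + 1)) (st f ^ (k + 1)) :=
    (isCoprime_of_monic_irreducible_ne hm hi hm' hi' hs.symm).pow
  have p0 : ∀ {f : F[X]}, f.coeff 0 ≠ 0 → ∀ j, (f ^ j).coeff 0 ≠ 0 := fun h j => by
    rw [coeff_zero_eq_eval_zero, eval_pow, ← coeff_zero_eq_eval_zero]; exact pow_ne_zero _ h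
  have h0' : (st f).coeff 0 ≠ 0 := coeff_zero_pstar_ne_zero h0
  have iso : ∀ {φ : F[X]} {x : V}, φ.coeff 0 ≠ 0 → IsCoprime φ (st φ) → aeval g φ x = 0 →
      ∀ p, ∀ y ∈ cy g x, B (aeval g p x) y = 0 := fun h hc hx p => by
    rintro _ ⟨q, rfl⟩
    exact hg.ortho_of_isCoprime hB h hc (by rw [ae_comm, hx, map_zero])
      (by rw [cyL_apply, ae_comm, hx, map_zero])
  have i1 := iso (p0 h0 _) (by rwa [st, pstar_pow]) h1
  have i2 := iso (p0 h0' _) (by
    simp only [st, pstar_pow, pstar_pstar (σ := RingHom.id F) (fun _ => rfl) hm]; exact hc.symm) h2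
  obtain ⟨a, b, hab⟩ := hc
  have m1 : v ∈ cy g (v + w) := ⟨b * st f ^ (k + 1), by
    rw [cyL_apply, map_add, ae_dvd h2 (dvd_mul_left _ _), add_zero, ← sub_eq_iff_eq_add'.2 hab.symm,
      map_sub, LinearMap.sub_apply, ae_dvd h1 (dvd_mul_left _ _), map_one, sub_zero]; rfl⟩
  have m2 : w ∈ cy g (v + w) := by simpa using sub_mem (self_mem_cy (g := g)) m1
  have h4 : ∃ r, B (aeval g (r * st f ^ k) w) v ≠ 0 := by
    obtain ⟨ρ, hρ⟩ := exists_rho e1
    refine ⟨C ((f ^ k).coeff 0) * ρ ^ (f ^ k).natDegree, ?_⟩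
    have hp : ∀ n : ℕ, g' ^ n * g ^ n = 1 := fun n => by
      rw [← Commute.mul_pow (e2.trans e1.symm), e2, one_pow]
    rw [← pstar_pow, map_mul, aeval_pstar e1 (p0 h0 k), map_mul, map_pow, hρ, aeval_C,
      Polynomial.map_id, mul_smul_comm, mul_assoc, ← mul_assoc (g' ^ _), hp, one_mul,
      Algebra.algebraMap_eq_smul_one, smul_mul_assoc, one_mul, smul_smul, RingHom.id_apply,
      inv_mul_cancel₀ (p0 h0 k), one_smul, adj' hB hg e1, Ne, hB.eq_zero_comm]
    exact h3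
  obtain ⟨r, h4⟩ := h4
  have key : ∀ a, (∀ y ∈ cy g (v + w), B (aeval g a (v + w)) y = 0) → (f * st f) ^ (k + 1) ∣ a :=
    fun c hc => by
    rw [mul_pow]
    refine IsCoprime.mul_dvd ⟨a, b, hab⟩ (socle (r := 1) hi.prime (B.flip w) h1 (by simpa using h3)
      fun s => ?_) (socle hi'.prime (B.flip v) h2 h4 fun s => ?_)
    · have := hc _ (inv_mem e1 cy_inv s m2)
      rw [map_add, map_add, LinearMap.add_apply, i2 c _ (inv_mem e1 cy_inv s self_mem_cy),
        add_zero] at this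
      rwa [ae_mul, LinearMap.flip_apply, adj hg e1]
    · have := hc _ (inv_mem e1 cy_inv s m1)
      rw [map_add, map_add, LinearMap.add_apply, i1 c _ (inv_mem e1 cy_inv s self_mem_cy),
        zero_add] at this
      rwa [ae_mul, LinearMap.flip_apply, adj hg e1]
  have h5 : aeval g ((f * st f) ^ (k + 1)) (v + w) = 0 := by
    rw [mul_pow, map_add, ae_dvd h1 (dvd_mul_right _ _), ae_dvd h2 (dvd_mul_left _ _), add_zero]
  refine ⟨hm, hi, rfl, ?_, fun p => ⟨fun h => key p fun y _ => by rw [h, map_zero]; rfl,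
    ae_dvd h5⟩, .inr ⟨hs, rfl⟩⟩
  rintro _ ⟨a, rfl⟩ ha
  exact ae_dvd h5 (key a ha)

theorem dbl_of {e : F} {k : ℕ} (he : e * e = 1) (h1 : (nl g e ^ (k + 1)) v = 0)
    (h2 : (nl g e ^ (k + 1)) w = 0)
    (h3 : ∀ x, (nl g e ^ (k + 1)) x = 0 → B ((nl g e ^ k) x) x = 0)
    (h4 : B ((nl g e ^ k) v) w ≠ 0) : Dbl B g (cy g v ⊔ cy g w) v w e k := by
  obtain ⟨g', e1, -, -⟩ := hg.exists_inv hB
  rw [← aeval_X_sub_C_pow] at h1 h2
  have h5 : B ((nl g e ^ k) w) v ≠ 0 := fun h => h4 (by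
    have := h3 (v + w) (by rw [← aeval_X_sub_C_pow, map_add, h1, h2, add_zero])
    simpa [h3 v (aeval_X_sub_C_pow g e _ ▸ h1), h3 w (aeval_X_sub_C_pow g e _ ▸ h2), h] using this)
  have top : ∀ {x : V}, aeval g ((X - C e) ^ (k + 1)) x = 0 → ∀ p : F[X],
      aeval g ((X - C e) ^ k * p) x = p.eval e • (nl g e ^ k) x := fun {x} hx p => by
    obtain ⟨q, hq⟩ := X_sub_C_dvd_sub_C_eval (a := e) (p := p)
    rw [sub_eq_iff_eq_add] at hq
    conv_lhs => rw [hq]
    rw [mul_add, ← mul_assoc, ← pow_succ, map_add, LinearMap.add_apply, ae_dvd hx (dvd_mul_right _ _),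
      zero_add, ae_mul, aeval_X_sub_C_pow, aeval_C, Module.algebraMap_end_apply, map_smul]
  have key : ∀ p q, (∀ y ∈ cy g v ⊔ cy g w, B (aeval g p v + aeval g q w) y = 0) →
      ∀ j ≤ k + 1, (X - C e) ^ j ∣ p ∧ (X - C e) ^ j ∣ q := fun p q h j => by
    induction j with
    | zero => simp
    | succ j ih =>
      intro hj
      obtain ⟨⟨p, rfl⟩, q, rfl⟩ := ih (by omega)
      have a : ∀ y ∈ cy g v ⊔ cy g w,
          p.eval e * B ((nl g e ^ k) v) y + q.eval e * B ((nl g e ^ k) w) y = 0 := fun y hy => by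
        have := h _ (inv_mem e1 (sup_inv cy_inv cy_inv) ((X - C e) ^ (k - j)) hy)
        rw [← adj hg e1, map_add, ← ae_mul, ← ae_mul, ← mul_assoc, ← mul_assoc, ← pow_add,
          Nat.sub_add_cancel (by omega), top h1, top h2] at this
        simpa using this
      have a1 := a w (Submodule.mem_sup_right self_mem_cy)
      have a2 := a v (Submodule.mem_sup_left self_mem_cy)
      rw [h3 w (aeval_X_sub_C_pow g e _ ▸ h2), mul_zero, add_zero, mul_eq_zero, or_iff_left h4] at a1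
      rw [h3 v (aeval_X_sub_C_pow g e _ ▸ h1), mul_zero, zero_add, mul_eq_zero, or_iff_left h5] at a2
      rw [pow_succ]
      exact ⟨mul_dvd_mul_left _ (dvd_iff_isRoot.2 a1), mul_dvd_mul_left _ (dvd_iff_isRoot.2 a2)⟩
  have z : ∀ p q, (X - C e) ^ (k + 1) ∣ p ∧ (X - C e) ^ (k + 1) ∣ q →
      aeval g p v + aeval g q w = 0 := fun p q h => by rw [ae_dvd h1 h.1, ae_dvd h2 h.2, add_zero]
  refine ⟨he, rfl, fun x hx h => ?_, fun p q => ⟨fun h => key p q (fun y _ => by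
    rw [h, map_zero]; rfl) _ le_rfl, z p q⟩, fun x hx => h3 x ?_, h4⟩
  · obtain ⟨p, q, rfl⟩ := mem_cy_sup.1 hx
    exact z p q (key p q h _ le_rfl)
  · obtain ⟨p, q, rfl⟩ := mem_cy_sup.1 hx
    rw [← aeval_X_sub_C_pow, map_add, ae_comm, h1, ae_comm, h2, map_zero, map_zero, add_zero]

theorem exists_blk_top [Nontrivial V] : ∃ W, Blk B g W := by
  obtain ⟨g', e1, e2, -⟩ := hg.exists_inv hB
  have hI : IsIntegral F g := Algebra.IsIntegral.isIntegral g
  obtain ⟨f, hm, hi, hd⟩ := exists_monic_irreducible_factor _ (minpoly.not_isUnit F g)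
  obtain ⟨n, h, hn, hμ⟩ := WfDvdMonoid.max_power_factor (minpoly.ne_zero hI) hi
  obtain ⟨k, rfl⟩ : ∃ k, n = k + 1 := Nat.exists_eq_succ_of_ne_zero fun e => hn (by
    simpa [hμ, e] using hd)
  have μ0 : ∀ x, aeval g (f ^ (k + 1) * h) x = 0 := fun x => by rw [← hμ, minpoly.aeval]; rfl
  have h0 : h ≠ 0 := fun e => hn (e ▸ dvd_zero f)
  obtain ⟨u, hu⟩ : ∃ u, aeval g (f ^ k * h) u ≠ 0 := by
    by_contra! a
    have := minpoly.dvd F g (p := f ^ k * h) (LinearMap.ext a)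
    rw [hμ, mul_dvd_mul_iff_right h0, pow_succ] at this
    exact hi.not_isUnit (isUnit_of_dvd_one ((mul_dvd_mul_iff_left (pow_ne_zero k hm.ne_zero)).1
      (by simpa using this)))
  rw [ae_mul] at hu
  have h1 := μ0 u
  rw [ae_mul] at h1
  generalize aeval g h u = v at hu h1
  have kf : aeval g f (aeval g (f ^ k) v) = 0 := by rw [← ae_mul, ← pow_succ', h1]
  have f0 : f.coeff 0 ≠ 0 := fun e => hu (by
    rw [eq_of_monic_of_associated hm monic_X
      (irreducible_X.associated_of_dvd hi (X_dvd_iff.2 e)).symm] at kf hu ⊢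
    exact hg.injective hB (by rw [map_zero, ← ae_X, kf]))
  obtain ⟨a, b, hab⟩ := ((hi.coprime_iff_not_dvd).2 hn).pow_left (m := k + 1)
  have pr1 : ∀ y, aeval g (st f ^ (k + 1)) (aeval g' (b * h) y) = 0 := fun y => by
    rw [← pstar_pow, st_zero_iff e1 ((coeff_zero_pow_ne_zero_iff k.succ_pos).2 f0), ← ae_mul]
    refine hB.nondeg' _ fun x => ?_
    rw [← adj hg e1, ae_dvd (μ0 x) ⟨b, by rw [Nat.succ_eq_add_one]; ring⟩, map_zero]; rfl
  have pr2 : ∀ x, aeval g (f ^ (k + 1)) x = 0 → ∀ y, B x (aeval g' (b * h) y) = B x y := fun x hx y => by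
    rw [← adj hg e1, ← sub_eq_iff_eq_add'.2 hab.symm, map_sub, LinearMap.sub_apply,
      ae_dvd hx (dvd_mul_left _ _), map_one, sub_zero]; rfl
  obtain ⟨w, h2, h3⟩ : ∃ w, aeval g (st f ^ (k + 1)) w = 0 ∧ B (aeval g (f ^ k) v) w ≠ 0 := by
    obtain ⟨y, hy⟩ := not_forall.1 fun a => hu (hB.nondeg _ a)
    exact ⟨_, pr1 y, by rwa [pr2 _ (by rw [ae_comm, h1, map_zero])]⟩
  by_cases hs : st f = f
  swap
  · exact ⟨_, .inl ⟨_, _, _, _, cyc_pair hB hg hm hi f0 hs h1 h2 h3⟩⟩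
  by_cases h4 : ∀ (r : F[X]) x, aeval g (f ^ (k + 1)) x = 0 → B (aeval g (r * f ^ k) x) x = 0
  swap
  · push Not at h4
    obtain ⟨r, x, a1, a2⟩ := h4
    exact ⟨_, .inl ⟨_, _, _, _, cyc_self hB hg hm hi hs a1 a2⟩⟩
  rw [hs] at pr1 h2
  have pol : ∀ (r : F[X]) x y, aeval g (f ^ (k + 1)) x = 0 → aeval g (f ^ (k + 1)) y = 0 →
      B (aeval g (r * f ^ k) x) y = -B (aeval g (r * f ^ k) y) x := fun r x y hx hy => by
    have := h4 r (x + y) (by rw [map_add, hx, hy, add_zero])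
    simp only [map_add, LinearMap.add_apply, h4 r x hx, h4 r y hy, zero_add, add_zero] at this
    exact eq_neg_of_add_eq_zero_right this
  have h5 : aeval g (X ^ 2 - 1 : F[X]) (aeval g (f ^ k) v) = 0 := by
    refine hB.nondeg _ fun y => ?_
    have gv : aeval g (f ^ (k + 1)) (g v) = 0 := by rw [← ae_g, h1, map_zero]
    rw [← pr2 _ (by rw [ae_comm, ae_comm (f ^ (k + 1)), h1, map_zero, map_zero])]
    have a1 := pol X (g v) _ gv (pr1 y)
    have a2 := pol 1 v _ h1 (pr1 y)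
    generalize aeval g' (b * h) y = t at a1 a2
    rw [ae_mul, ae_mul, ae_X, ae_X, hg, ← ae_g] at a1
    rw [one_mul] at a2
    rw [map_sub, map_one, map_pow _ X, aeval_X, pow_two, LinearMap.sub_apply, map_sub,
      LinearMap.sub_apply, End.mul_apply, End.one_apply, a1, a2, sub_self]
  have h6 : f ∣ X ^ 2 - 1 := by
    by_contra a
    obtain ⟨c, d, hcd⟩ := (hi.coprime_iff_not_dvd).2 a
    have := LinearMap.congr_fun (congrArg (aeval g) hcd) (aeval g (f ^ k) v)
    rw [map_add, LinearMap.add_apply, ae_mul, ae_mul, kf, h5, map_zero, map_zero, add_zero,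
      map_one] at this
    exact hu this.symm
  obtain ⟨e, he, rfl⟩ : ∃ e : F, e * e = 1 ∧ f = X - C e := by
    by_contra! a
    exact hi.not_isUnit ((isCoprime_X_sq_sub_one hm hi (by simpa using a 1 (one_mul 1))
      (by simpa using a (-1) (by simp))).isUnit_of_dvd' dvd_rfl h6)
  simp only [aeval_X_sub_C_pow] at h1 h2 h3
  exact ⟨_, .inr ⟨v, w, e, k, dbl_of hB hg he h1 h2 (fun x hx => by
    simpa only [one_mul, aeval_X_sub_C_pow] using h4 1 x (by rwa [aeval_X_sub_C_pow])) h3⟩⟩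

omit [FiniteDimensional F V] hB hg in
theorem cy_map (hU : ∀ x ∈ U, g x ∈ U) (v : U) :
    (cy (g.restrict hU : End F U) v).map U.subtype = cy g v := by
  ext x
  exact ⟨by rintro ⟨_, ⟨p, rfl⟩, rfl⟩; exact ⟨p, (coe_aeval_restrict hU p v).symm⟩,
    by rintro ⟨p, rfl⟩; exact ⟨_, ⟨p, rfl⟩, coe_aeval_restrict hU p v⟩⟩

omit [FiniteDimensional F V] hB hg in
theorem Blk.map (hU : ∀ x ∈ U, g x ∈ U) {W : Submodule F U}
    (h : Blk (B.domRestrict₁₂ U U) (g.restrict hU) W) : Blk B g (W.map U.subtype) := by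
  have nd : ND B (W.map U.subtype) := by
    rintro _ ⟨x, hx, rfl⟩ h1
    exact congrArg Subtype.val (h.nd x hx fun y hy => h1 y ⟨y, hy, rfl⟩)
  rcases h with ⟨v, f, k, P, h⟩ | ⟨v, w, e, k, h⟩
  · exact .inl ⟨v, f, k, P, h.monic, h.irr, by rw [h.eq, cy_map], nd, fun p => by
      rw [← h.ann, ← coe_aeval_restrict hU, Submodule.coe_eq_zero], h.typ⟩
  · refine .inr ⟨v, w, e, k, h.sq, by rw [h.eq, Submodule.map_sup, cy_map, cy_map], nd,
      fun p q => ?_, ?_, coe_nl_restrict hU k v ▸ h.ne⟩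
    · rw [← h.free, ← coe_aeval_restrict hU, ← coe_aeval_restrict hU, ← Submodule.coe_add,
        Submodule.coe_eq_zero]
    · rintro _ ⟨x, hx, rfl⟩
      exact (congrArg (B · x) (coe_nl_restrict hU k x)).symm.trans (h.alt x hx)

/-- D2: every non-zero invariant non-degenerate subspace contains a block -/
theorem exists_blk (hU : ∀ x ∈ U, g x ∈ U) (hn : ND B U) (h0 : U ≠ ⊥) : ∃ W ≤ U, Blk B g W := by
  have : Nontrivial U := Submodule.nontrivial_iff_ne_bot.2 h0
  obtain ⟨W, h⟩ := exists_blk_top (hB.restrict (hn.disjoint hB)) (hg.restrict hU)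
  exact ⟨_, Submodule.map_subtype_le _ _, h.map hU⟩

omit hg in
theorem ND.split (h : ND B W) (hle : W ≤ U) (hx : x ∈ U) :
    ∃ a ∈ W, ∃ b ∈ U ⊓ perp B W, a + b = x := by
  obtain ⟨a, ha, b, hb, rfl⟩ := Submodule.mem_sup.1
    ((hB.isCompl_perp (h.disjoint hB)).sup_eq_top.ge (Submodule.mem_top (x := x)))
  exact ⟨a, ha, b, ⟨by simpa using sub_mem hx (hle ha), hb⟩, rfl⟩

omit hg in
theorem ND.inf_perp (h : ND B W) (hle : W ≤ U) (hn : ND B U) : ND B (U ⊓ perp B W) :=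
  fun x hx h1 => hn x hx.1 fun y hy => by
    obtain ⟨a, ha, b, hb, rfl⟩ := h.split hB hle hy
    rw [map_add, h1 b hb, hB.eq_zero_comm.1 (hx.2 a ha), add_zero]

omit hg in
theorem ND.sup_inf_perp (h : ND B W) (hle : W ≤ U) : W ⊔ U ⊓ perp B W = U :=
  le_antisymm (sup_le hle inf_le_left) fun _ hx => Submodule.mem_sup.2 (h.split hB hle hx)

omit hg in
theorem ND.finrank_add (h : ND B W) (hle : W ≤ U) :
    finrank F W + finrank F ↥(U ⊓ perp B W) = finrank F U := by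
  rw [← Submodule.finrank_sup_add_finrank_inf_eq, h.sup_inf_perp hB hle,
    ((h.disjoint hB).mono_right inf_le_right).eq_bot, finrank_bot, add_zero]

theorem inf_perp_inv (hU : ∀ x ∈ U, g x ∈ U) (hW : ∀ x ∈ W, g x ∈ W) :
    ∀ x ∈ U ⊓ perp B W, g x ∈ U ⊓ perp B W :=
  fun x hx => ⟨hU x hx.1, hg.perp_mapsTo hB hW x hx.2⟩

theorem dec_le (hU : ∀ x ∈ U, g x ∈ U) (hn : ND B U) : ∃ (n : ℕ) (W : Fin n → Submodule F V),
    (∀ i, Blk B g (W i)) ∧ (∀ i j, i ≠ j → ∀ x ∈ W i, ∀ y ∈ W j, B x y = 0) ∧ ⨆ i, W i = U := by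
  generalize hd : finrank F U = d
  induction d using Nat.strong_induction_on generalizing U with | _ d ih => ?_
  by_cases h0 : U = ⊥
  · exact ⟨0, Fin.elim0, fun i => i.elim0, fun i => i.elim0, by simp [h0]⟩
  obtain ⟨W, hle, h⟩ := exists_blk hB hg hU hn h0
  have h1 := h.nd.finrank_add hB hle
  have h2 := Submodule.one_le_finrank_iff.2 h.ne_bot
  obtain ⟨n, W', a1, a2, a3⟩ := ih _ (by omega) (inf_perp_inv hB hg hU h.inv)
    (h.nd.inf_perp hB hle hn) rfl
  have a4 : ∀ j, ∀ x ∈ W, ∀ y ∈ W' j, B x y = 0 := fun j x hx y hy =>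
    (a3.le (le_iSup W' j hy)).2 x hx
  refine ⟨n + 1, Fin.cons W W', Fin.cases h a1, Fin.cases (Fin.cases (fun h => absurd rfl h)
    fun j _ => a4 j) fun i => Fin.cases (fun _ x hx y hy => hB.eq_zero_comm.1 (a4 i y hy x hx))
      fun j h => a2 i j fun e => h (e ▸ rfl), ?_⟩
  rw [← h.nd.sup_inf_perp hB hle, ← a3]
  exact le_antisymm (iSup_le (Fin.cases le_sup_left fun i => le_sup_of_le_right (le_iSup W' i)))
    (sup_le (le_iSup (Fin.cons W W' : Fin (n + 1) → _) 0)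
      (iSup_le fun i => le_iSup (Fin.cons W W' : Fin (n + 1) → _) i.succ))

/-- an orthogonal decomposition into non-degenerate subspaces -/
structure OD (B : V →ₗ[F] V →ₗ[F] F) {ι : Type*} (W : ι → Submodule F V) : Prop where
  nd : ∀ i, ND B (W i)
  orth : ∀ i j, i ≠ j → ∀ x ∈ W i, ∀ y ∈ W j, B x y = 0
  top : ⨆ i, W i = ⊤

/-- the decomposition into blocks -/
theorem dec : ∃ (n : ℕ) (W : Fin n → Submodule F V), (∀ i, Blk B g (W i)) ∧ OD B W := by
  obtain ⟨n, W, h1, h2, h3⟩ := dec_le hB hg (U := ⊤) (fun _ _ => trivial)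
    fun x _ h => hB.nondeg x fun y => h y trivial
  exact ⟨n, W, h1, fun i => (h1 i).nd, h2, h3⟩

omit hB hg

namespace OD
variable {ι : Type*} [Fintype ι] [DecidableEq ι] {W : ι → Submodule F V} (h : OD B W)
include h

theorem exists_sum (x : V) : ∃ m : ι → V, (∀ i, m i ∈ W i) ∧ ∑ i, m i = x := by
  refine Submodule.iSup_induction W (motive := fun x => ∃ m : ι → V, (∀ i, m i ∈ W i) ∧ ∑ i, m i = x)
    (h.top.ge Submodule.mem_top) (fun i x hx => ⟨Pi.single i x, fun j => ?_, by simp⟩)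
    ⟨0, fun _ => zero_mem _, by simp⟩ ?_
  · by_cases e : j = i
    · rwa [e, Pi.single_eq_same]
    · rw [Pi.single_eq_of_ne e]; exact zero_mem _
  · rintro _ _ ⟨m, h1, rfl⟩ ⟨m', h2, rfl⟩
    exact ⟨m + m', fun i => add_mem (h1 i) (h2 i), Finset.sum_add_distrib⟩

theorem form_sum {m m' : ι → V} (h1 : ∀ i, m i ∈ W i) (h2 : ∀ i, m' i ∈ W i) :
    B (∑ i, m i) (∑ i, m' i) = ∑ i, B (m i) (m' i) := by
  simp only [map_sum, LinearMap.sum_apply]
  exact Finset.sum_congr rfl fun j _ => Finset.sum_eq_single j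
    (fun i _ e => h.orth i j e _ (h1 i) _ (h2 j)) fun a => absurd (Finset.mem_univ j) a

theorem eq_zero {m : ι → V} (h1 : ∀ i, m i ∈ W i) (e : ∑ i, m i = 0) (i : ι) : m i = 0 :=
  h.nd i _ (h1 i) fun y hy => by
    have := congrArg (B · y) e
    simp only [map_sum, LinearMap.sum_apply, map_zero, LinearMap.zero_apply] at this
    rwa [Finset.sum_eq_single i (fun j _ e => h.orth j i e _ (h1 j) _ hy)
      fun a => absurd (Finset.mem_univ i) a] at this

theorem ext {V' : Type*} [AddCommGroup V'] [Module F V'] {s t : V →ₗ[F] V'}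
    (e : ∀ i, ∀ x ∈ W i, s x = t x) : s = t :=
  LinearMap.ext fun x => by
    obtain ⟨m, h1, rfl⟩ := h.exists_sum x
    rw [map_sum, map_sum]
    exact Finset.sum_congr rfl fun i _ => e i _ (h1 i)

/-- maps given on the summands -/
theorem glue {V' : Type*} [AddCommGroup V'] [Module F V'] (a : ι → V →ₗ[F] V') :
    ∃ s : V →ₗ[F] V', ∀ i, ∀ x ∈ W i, s x = a i x := by
  obtain ⟨s, hs⟩ := exists_of_ker (M := (i : ι) → W i)
    (∑ i, (W i).subtype ∘ₗ LinearMap.proj i) (∑ i, a i ∘ₗ (W i).subtype ∘ₗ LinearMap.proj i)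
    fun m hm => by
      have := h.eq_zero (fun i => (m i).2) (by simpa using hm)
      simp [this]
  refine ⟨s, fun i x hx => ?_⟩
  have k : ∀ j, j ≠ i → ((Pi.single i ⟨x, hx⟩ : (i : ι) → W i) j : V) = 0 := fun j e => by
    rw [Pi.single_eq_of_ne e]; rfl
  have := hs (Pi.single i ⟨x, hx⟩)
  simp only [LinearMap.sum_apply, LinearMap.comp_apply, LinearMap.proj_apply,
    Submodule.subtype_apply] at this
  rwa [Finset.sum_eq_single i (fun j _ e => k j e) fun a => absurd (Finset.mem_univ i) a,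
    Finset.sum_eq_single i (fun j _ e => by rw [k j e, map_zero])
      fun a => absurd (Finset.mem_univ i) a, Pi.single_eq_same] at this

/-- similarities can be tested on the summands -/
theorem form {s t : End F V} {μ : F} (hs : ∀ i, ∀ x ∈ W i, s x ∈ W i) (ht : ∀ i, ∀ x ∈ W i, t x ∈ W i)
    (e : ∀ i, ∀ x ∈ W i, ∀ y ∈ W i, B (s x) (t y) = μ * B x y) (x y : V) :
    B (s x) (t y) = μ * B x y := by
  obtain ⟨m, h1, rfl⟩ := h.exists_sum x
  obtain ⟨m', h2, rfl⟩ := h.exists_sum y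
  rw [h.form_sum h1 h2, map_sum s, map_sum t, h.form_sum (fun i => hs i _ (h1 i))
    (fun i => ht i _ (h2 i)), Finset.mul_sum]
  exact Finset.sum_congr rfl fun i _ => e i _ (h1 i) _ (h2 i)

/-- dimensions of subspaces that are compatible with the decomposition -/
theorem finrank_eq {K : Submodule F V}
    (hK : ∀ m : ι → V, (∀ i, m i ∈ W i) → ∑ i, m i ∈ K → ∀ i, m i ∈ K) :
    finrank F K = ∑ i, finrank F ↥(K ⊓ W i) := by
  let A : ((i : ι) → ↥(K ⊓ W i)) →ₗ[F] V := ∑ i, (K ⊓ W i).subtype ∘ₗ LinearMap.proj i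
  have hA : ∀ m, A m = ∑ i, (m i : V) := fun m => by simp [A]
  have h1 : Function.Injective A := (injective_iff_map_eq_zero A).2 fun m hm =>
    funext fun i => Subtype.ext (h.eq_zero (fun i => (m i).2.2) ((hA m).symm.trans hm) i)
  have h2 : LinearMap.range A = K := by
    refine le_antisymm ?_ fun x hx => ?_
    · rintro _ ⟨m, rfl⟩
      exact hA m ▸ sum_mem fun i _ => (m i).2.1
    · obtain ⟨m, h1, rfl⟩ := h.exists_sum x
      exact ⟨fun i => ⟨m i, hK m h1 hx i, h1 i⟩, hA _⟩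
  rw [← Module.finrank_pi_fintype, ← LinearMap.finrank_range_of_inj h1, h2]

theorem finrank_top : finrank F V = ∑ i, finrank F (W i) := by
  rw [← _root_.finrank_top, h.finrank_eq (K := ⊤) fun _ _ _ _ => trivial]
  exact Finset.sum_congr rfl fun i _ => by rw [top_inf_eq]

theorem finrank_ker {s : End F V} (hs : ∀ i, ∀ x ∈ W i, s x ∈ W i) :
    finrank F (LinearMap.ker s) = ∑ i, finrank F ↥(LinearMap.ker s ⊓ W i) :=
  h.finrank_eq fun m h1 e => h.eq_zero (fun i => hs i _ (h1 i)) (by rw [← map_sum]; exact e)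

end OD

/-! ### semilinear maps -/

omit [FiniteDimensional F V] in
theorem semi_ae {s h : End F V} (hU : ∀ x ∈ U, g x ∈ U) (hs : ∀ x ∈ U, s (g x) = h (s x))
    (p : F[X]) (hx : x ∈ U) : s (aeval g p x) = aeval h p (s x) := by
  have := intertwine_aeval (f := g.restrict hU) (g := h) (s ∘ₗ U.subtype)
    (fun v => hs v v.2) p ⟨x, hx⟩
  rwa [LinearMap.comp_apply, Submodule.subtype_apply, coe_aeval_restrict] at this

theorem semi_inv {s : End F V} (h1 : g * g' = 1) (hU : ∀ x ∈ U, g x ∈ U)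
    (hs : ∀ x ∈ U, s (g x) = g' (s x)) : ∀ x ∈ U, s (g' x) = g (s x) := fun x hx => by
  have h2 : g' x ∈ U := by simpa using inv_mem h1 hU X hx
  have := hs _ h2
  rw [← End.mul_apply g, h1, End.one_apply] at this
  rw [this, ← End.mul_apply g, h1, End.one_apply]

theorem semi_ae' {s : End F V} (h1 : g * g' = 1) (hU : ∀ x ∈ U, g x ∈ U)
    (hs : ∀ x ∈ U, s (g x) = g' (s x)) (p : F[X]) (hx : x ∈ U) :
    s (aeval g' p x) = aeval g p (s x) :=
  semi_ae (fun x hx => by simpa using inv_mem h1 hU X hx) (semi_inv h1 hU hs) p hx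

omit [FiniteDimensional F V] in
theorem semi_g {s : End F V} {v' w' : V}
    (hs : ∀ p q : F[X], s (aeval g p v + aeval g q w) = aeval g' p v' + aeval g' q w') :
    ∀ x ∈ cy g v ⊔ cy g w, s (g x) = g' (s x) := fun x hx => by
  obtain ⟨p, q, rfl⟩ := mem_cy_sup.1 hx
  have := hs (X * p) (X * q)
  simp only [ae_mul, ae_X] at this
  rw [map_add g, this, hs, map_add]

omit [FiniteDimensional F V] in
theorem semi_g₁ {s : End F V} {v' : V} (hs : ∀ p : F[X], s (aeval g p v) = aeval g' p v') :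
    ∀ x ∈ cy g v, s (g x) = g' (s x) := by
  rintro _ ⟨p, rfl⟩
  have := hs (X * p)
  simp only [ae_mul, ae_X] at this
  rw [cyL_apply, this, hs]

theorem Dbl.exists_semi {e : F} {k : ℕ} (h : Dbl B g W v w e k) (h1 : g * g' = 1) {v' w' : V}
    (hv : (nl g e ^ (k + 1)) v' = 0) (hw : (nl g e ^ (k + 1)) w' = 0) :
    ∃ s : End F V, ∀ p q : F[X], s (aeval g p v + aeval g q w) = aeval g' p v' + aeval g' q w' := by
  have k0 : ∀ x, (nl g e ^ (k + 1)) x = 0 → aeval g' ((X - C e) ^ (k + 1)) x = 0 := fun x hx => by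
    rw [← st_zero_iff h1 ((coeff_zero_pow_ne_zero_iff k.succ_pos).2
      (by simpa using left_ne_zero_of_mul_eq_one h.sq)), st, pstar_pow,
      pstar_X_sub_C_of_mul_self h.sq, aeval_X_sub_C_pow, hx]
  obtain ⟨s, hs⟩ := exists_of_ker ((cyL g v).coprod (cyL g w)) ((cyL g' v').coprod (cyL g' w'))
    fun m hm => by
      obtain ⟨a, b⟩ := (h.free m.1 m.2).1 hm
      exact (congrArg₂ (· + ·) (ae_dvd (k0 _ hv) a) (ae_dvd (k0 _ hw) b)).trans (add_zero 0)
  exact ⟨s, fun p q => hs (p, q)⟩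

theorem Dbl.kill {e : F} {k : ℕ} (h : Dbl B g W v w e k) : ∀ x ∈ W, (nl g e ^ (k + 1)) x = 0 :=
  fun x hx => by
    obtain ⟨p, q, rfl⟩ := mem_cy_sup.1 (h.eq ▸ hx)
    rw [← aeval_X_sub_C_pow, map_add, ← ae_mul, ← ae_mul]
    exact (h.free _ _).2 ⟨dvd_mul_right _ _, dvd_mul_right _ _⟩

include hB hg

theorem ann_bar (h1 : g * g' = 1) (hn : ND B (cy g v)) {p : F[X]} (hp : aeval g p v = 0)
    (hx : x ∈ cy g v) : aeval g' p x = 0 :=
  hn _ (inv_mem h1 cy_inv p hx) (by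
    rintro _ ⟨q, rfl⟩
    rw [adj' hB hg h1, cyL_apply, ae_comm, hp, map_zero, map_zero])

/-- `p v ↦ p̄ v'` on a non-degenerate cyclic subspace -/
theorem exists_bar (h1 : g * g' = 1) (hn : ND B (cy g v)) {v' : V} (hv : v' ∈ cy g v) :
    ∃ s : End F V, ∀ p : F[X], s (aeval g p v) = aeval g' p v' :=
  exists_of_ker (cyL g v) (cyL g' v') fun _ hp => ann_bar hB hg h1 hn hp hv

omit hB hg in
theorem bar_mem {s : End F V} (h1 : g * g' = 1) (hs : ∀ p : F[X], s (aeval g p v) = aeval g' p v) :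
    ∀ x ∈ cy g v, s x ∈ cy g v := by
  rintro _ ⟨p, rfl⟩
  rw [cyL_apply, hs]
  exact inv_mem h1 cy_inv p self_mem_cy

omit hB hg in
theorem bar_bar {s : End F V} (h1 : g * g' = 1) (hs : ∀ p : F[X], s (aeval g p v) = aeval g' p v) :
    ∀ x ∈ cy g v, s (s x) = x := by
  rintro _ ⟨p, rfl⟩
  have h2 : s v = v := by simpa using hs 1
  rw [cyL_apply, hs, semi_ae' h1 cy_inv (semi_g₁ hs) p self_mem_cy, h2]

theorem bar_form {s : End F V} (h1 : g * g' = 1) (hs : ∀ p : F[X], s (aeval g p v) = aeval g' p v) :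
    ∀ x ∈ cy g v, ∀ y ∈ cy g v, B (s x) (s y) = ε * B x y := by
  rintro _ ⟨p, rfl⟩ _ ⟨q, rfl⟩
  rw [cyL_apply, cyL_apply, hs, hs, adj' hB hg h1, ae_comm' h1, ← adj hg h1, hB.symm]
  rfl

/-! ### parity -/

theorem Cyc.sign {e : F} {k : ℕ} {P : F[X]} (h : Cyc B g W v (X - C e) k P) (he : e * e = 1) :
    P = (X - C e) ^ (k + 1) ∧ B ((nl g e ^ k) v) v ≠ 0 ∧ ε * (-1) ^ k = 1 ∧
      ((∀ x, B x x = 0) → Odd k) := by
  obtain rfl : P = (X - C e) ^ (k + 1) :=
    (h.typ.resolve_right fun a => a.1 (pstar_X_sub_C_of_mul_self he)).2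
  have h1 : (nl g e ^ (k + 1)) v = 0 := aeval_X_sub_C_pow g e _ ▸ (h.ann _).2 dvd_rfl
  have h2 : B ((nl g e ^ k) v) v ≠ 0 := fun a => by
    have : aeval g ((X - C e) ^ k) v = 0 := h.nd _ (h.eq ▸ ae_mem_cy _) fun y hy => by
      obtain ⟨p, rfl⟩ := mem_cy.1 (h.eq ▸ hy)
      obtain ⟨q, hq⟩ := X_sub_C_dvd_sub_C_eval (a := e) (p := p)
      rw [sub_eq_iff_eq_add.1 hq, aeval_X_sub_C_pow, map_add, LinearMap.add_apply, map_add, aeval_C,
        Module.algebraMap_end_apply, map_smul, a, smul_zero, add_zero]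
      refine nl_zero hB hg he ?_ _
      rw [← aeval_X_sub_C_pow, ← ae_mul, ← mul_assoc, ← pow_succ]
      exact (h.ann _).2 (dvd_mul_right _ _)
    have h3 := natDegree_le_of_dvd ((h.ann _).1 this) (pow_ne_zero _ (X_sub_C_ne_zero e))
    simp only [natDegree_pow, natDegree_X_sub_C] at h3
    omega
  refine ⟨rfl, h2, mul_right_cancel₀ h2 ?_, fun ha => ?_⟩
  · conv_rhs => rw [one_mul, nl_sign hB hg he h1, hB.symm]
    simp only [RingHom.id_apply]; ring
  · by_contra a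
    obtain ⟨j, rfl⟩ := Nat.not_odd_iff_even.1 a
    have := nl_sign hB hg he (j := j) (y := (nl g e ^ j) v)
      (by rw [← End.mul_apply, ← pow_add, ← h1]; congr 2; omega) v
    rw [ha, ← End.mul_apply, ← pow_add, eq_comm, mul_eq_zero,
      or_iff_right (pow_ne_zero _ (neg_ne_zero.2 one_ne_zero))] at this
    exact h2 (hB.eq_zero_comm.1 this)

theorem Dbl.swap {e : F} {k : ℕ} (h : Dbl B g W v w e k) {x y : V} (hx : x ∈ W) (hy : y ∈ W) :
    B ((nl g e ^ k) y) x = -B ((nl g e ^ k) x) y := by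
  have := h.alt _ (add_mem hx hy)
  simp only [map_add, LinearMap.add_apply, h.alt x hx, h.alt y hy, zero_add, add_zero] at this
  exact eq_neg_of_add_eq_zero_left this

theorem Dbl.sign {e : F} {k : ℕ} (h : Dbl B g W v w e k) : ε * (-1) ^ k = -1 := by
  have hv : v ∈ W := h.eq ▸ Submodule.mem_sup_left self_mem_cy
  have := h.swap hB hg hv (h.eq ▸ Submodule.mem_sup_right self_mem_cy)
  rw [nl_sign hB hg h.sq (h.kill v hv), hB.symm, RingHom.id_apply] at this
  exact mul_right_cancel₀ h.ne (by linear_combination this)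

omit hB hg

/-! ### dimensions -/

omit [FiniteDimensional F V] in
theorem finrank_cy {P : F[X]} (hP : P.Monic) (h : ∀ p, aeval g p v = 0 ↔ P ∣ p) :
    finrank F (cy g v) = P.natDegree := by
  have h1 : Function.Injective (cyL g v ∘ₗ (degreeLT F P.natDegree).subtype) :=
    (injective_iff_map_eq_zero _).2 fun p hp => Subtype.ext (eq_zero_of_dvd_of_degree_lt
      ((h p).1 hp) (by rw [degree_eq_natDegree hP.ne_zero]; exact mem_degreeLT.1 p.2))
  have h2 : LinearMap.range (cyL g v ∘ₗ (degreeLT F P.natDegree).subtype) = cy g v := by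
    refine le_antisymm (LinearMap.range_comp_le_range _ _) ?_
    rintro _ ⟨p, rfl⟩
    refine ⟨⟨p %ₘ P, mem_degreeLT.2 (degree_eq_natDegree hP.ne_zero ▸ degree_modByMonic_lt p hP)⟩, ?_⟩
    conv_rhs => rw [← modByMonic_add_div p P, map_add, cyL_apply g v (P * _),
      (h _).2 (dvd_mul_right _ _), add_zero]
    rfl
  rw [← h2, LinearMap.finrank_range_of_inj h1, (degreeLTEquiv F _).finrank_eq, finrank_fin_fun]

omit [FiniteDimensional F V] in
theorem Cyc.monicP {f P : F[X]} {k : ℕ} (h : Cyc B g W v f k P) : P.Monic := by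
  rcases h.typ with ⟨-, rfl⟩ | ⟨-, rfl⟩
  exacts [h.monic.pow _, (h.monic.mul (monic_pstar h.monic.ne_zero)).pow _]

omit [FiniteDimensional F V] in
theorem Cyc.finrank {f P : F[X]} {k : ℕ} (h : Cyc B g W v f k P) : finrank F W = P.natDegree := by
  rw [h.eq, finrank_cy h.monicP h.ann]

omit [FiniteDimensional F V] in
theorem Dbl.ann_left {e : F} {k : ℕ} (h : Dbl B g W v w e k) (p : F[X]) :
    aeval g p v = 0 ↔ (X - C e) ^ (k + 1) ∣ p := by simpa using h.free p 0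

omit [FiniteDimensional F V] in
theorem Dbl.ann_right {e : F} {k : ℕ} (h : Dbl B g W v w e k) (p : F[X]) :
    aeval g p w = 0 ↔ (X - C e) ^ (k + 1) ∣ p := by simpa using h.free 0 p

theorem Dbl.finrank {e : F} {k : ℕ} (h : Dbl B g W v w e k) : finrank F W = 2 * (k + 1) := by
  have hm := (monic_X_sub_C e).pow (k + 1)
  have h1 : cy g v ⊓ cy g w = ⊥ := eq_bot_iff.2 (by
    rintro _ ⟨⟨p, rfl⟩, q, hq⟩
    exact (h.ann_left p).2 ((h.free p (-q)).1 (by
      rw [map_neg, LinearMap.neg_apply, add_neg_eq_zero]; exact hq.symm)).1)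
  have h2 := Submodule.finrank_sup_add_finrank_inf_eq (cy g v) (cy g w)
  rw [h1, finrank_bot, finrank_cy hm h.ann_left, finrank_cy hm h.ann_right, ← h.eq] at h2
  simp only [natDegree_pow, natDegree_X_sub_C] at h2
  omega

/-! ### norms -/

/-- CB: on an invariant subspace without eigenvalues `±1` every unit of `F[z]`, `z = g + g⁻¹`, is a
norm `ν̄ ν`, `ν = a(z) + b(z) g` -/
theorem cb [Finite F] (h1 : g * g' = 1) (hU : ∀ x ∈ U, g x ∈ U)
    (h2 : ∀ x ∈ U, g (g x) = x → x = 0) {r : F[X]} (hr : ∀ x ∈ U, aeval (g + g') r x = 0 → x = 0) :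
    ∃ a b : F[X], ∀ x ∈ U, (aeval (g + g') a + g' * aeval (g + g') b)
      ((aeval (g + g') a + aeval (g + g') b * g) x) = aeval (g + g') r x := by
  have : Finite U := Module.finite_of_finite F
  have : Finite (End F U) := Module.finite_of_finite F
  have hU' : ∀ x ∈ U, g' x ∈ U := fun x hx => by simpa using inv_mem h1 hU X hx
  have hz : ∀ x ∈ U, (g + g') x ∈ U := fun x hx => add_mem (hU x hx) (hU' x hx)
  have e1 : (g.restrict hU : End F U) * g'.restrict hU' = 1 :=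
    LinearMap.ext fun x => Subtype.ext (LinearMap.congr_fun h1 x)
  have e2 := mul_eq_one_comm.1 e1
  have ez : ((g + g').restrict hz : End F U) = g.restrict hU + g'.restrict hU' := rfl
  have c : Commute (g.restrict hU : End F U) (g'.restrict hU') := e1.trans e2.symm
  have u : ∀ {s : End F U}, (∀ x, s x = 0 → x = 0) → IsUnit s := fun h =>
    (LinearMap.isUnit_iff_ker_eq_bot _).2 (LinearMap.ker_eq_bot'.2 h)
  obtain ⟨x, hx, y, hy, e⟩ := exists_norm_eq_of_commute (s := aeval ((g + g').restrict hz : End F U) r)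
    c (commute_aeval_of_commute (ez ▸ (Commute.refl _).add_right c) r)
    (commute_aeval_of_commute (ez ▸ c.symm.add_right (Commute.refl _)) r)
    (u fun x hx => Subtype.ext (h2 x x.2 (by
      rw [show g x = g' x from congrArg Subtype.val (sub_eq_zero.1 hx)]
      exact LinearMap.congr_fun h1 x)))
    (u fun x hx => Subtype.ext (hr x x.2 (by rw [← coe_aeval_restrict hz, hx]; rfl)))
  have k : Subring.closure {g.restrict hU + g'.restrict hU', g.restrict hU * g'.restrict hU',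
      aeval ((g + g').restrict hz : End F U) r} ≤
      (aeval ((g + g').restrict hz : End F U) : F[X] →ₐ[F] _).toRingHom.range := by
    rw [Subring.closure_le]
    rintro _ (rfl | rfl | rfl)
    exacts [⟨X, aeval_X _⟩, ⟨1, (map_one _).trans e1.symm⟩, ⟨r, rfl⟩]
  obtain ⟨a, rfl⟩ := k hx
  obtain ⟨b, rfl⟩ := k hy
  refine ⟨a, b, fun x hx => ?_⟩
  have := congrArg Subtype.val (LinearMap.congr_fun e ⟨x, hx⟩)
  simpa [coe_aeval_restrict] using this

end H68.Ore0
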