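/- The square of a semisimple class covers the triality group. -/
import Cfsg.Agent.H68.Ore4

set_option autoImplicit false
set_option linter.unusedSectionVars false

namespace H68.Gow

open Cfsg Cfsg.Lie H67 H33 H61 H83 H72 H68.OreSL Polynomial

variable {K : Type*} [Field K]

theorem nfRi_D4 : (mat chevD4 K).NF (Up (mat chevD4 K).T (wP chevD4 [1]))
    [12, 13, 18, 15, 16, 19, 17, 20, 21, 22, 23] := nf_Up _ _ (by decide +kernel)

theorem nfRj_D4 : (mat chevD4 K).NF (Up (mat chevD4 K).T (wP chevD4 [0, 2, 3]))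
    [14, 19, 16, 15, 21, 20, 17, 22, 23] := nf_Up _ _ (by decide +kernel)

theorem conjR_D4 (a₀ a₁ a₂ a₃ a₄ a₅ a₆ a₇ a₈ b c d : K) : ∃ r ∈ Up (mat chevD4 K).T (wP chevD4 [1]),
    ((mat chevD4 K).wd [(5, b), (10, c), (11, d)])⁻¹ * (mat chevD4 K).wd [(14, a₀), (19, a₁), (16, a₂), (15, a₃),
      (21, a₄), (20, a₅), (17, a₆), (22, a₇), (23, a₈)] * (mat chevD4 K).wd [(5, b), (10, c), (11, d)] =
    (mat chevD4 K).x 14 (a₀ + a₁ * b - a₂ * c - a₃ * d - a₄ * b * c - a₅ * b * d + a₆ * c * d + a₇ * b * c * d) * r := by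
  have h := engD4 [a₀, a₁, a₂, a₃, a₄, a₅, a₆, a₇, a₈, b, c, d] (by simp)
    [(14, [(1, [0])]), (19, [(1, [1])]), (16, [(1, [2])]), (15, [(1, [3])]), (21, [(1, [4])]), (20, [(1, [5])]),
      (17, [(1, [6])]), (22, [(1, [7])]), (23, [(1, [8])]), (5, [(1, [9])]), (10, [(1, [10])]), (11, [(1, [11])])]
    ([(5, [(1, [9])]), (10, [(1, [10])]), (11, [(1, [11])])] ++ ((14, [(1, [0]), (1, [1, 9]), (-1, [2, 10]),
      (-1, [3, 11]), (-1, [4, 9, 10]), (-1, [5, 9, 11]), (1, [6, 10, 11]), (1, [7, 9, 10, 11])]) ::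
      [(19, [(1, [1]), (-1, [4, 10]), (-1, [5, 11]), (1, [7, 10, 11])]),
      (16, [(1, [2]), (1, [4, 9]), (-1, [6, 11]), (-1, [7, 9, 11])]),
      (15, [(1, [3]), (1, [5, 9]), (-1, [6, 10]), (-1, [7, 9, 10])]), (21, [(1, [4]), (-1, [7, 11])]),
      (20, [(1, [5]), (-1, [7, 10])]), (17, [(1, [6]), (1, [7, 9])]), (22, [(1, [7])]),
      (23, [(1, [4, 5, 9]), (-1, [4, 6, 10]), (-1, [4, 7, 9, 10]), (-1, [5, 6, 11]), (-1, [5, 7, 9, 11]),
        (1, [6, 7, 10, 11]), (1, [7, 7, 9, 10, 11]), (1, [8])])])) (by decide +kernel)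
  rw [evPW, evPW, List.map_append, CM.wd_append, List.map_cons (a := (14, _)) (l := (19, _) :: (16, _) :: (15, _) ::
    (21, [(1, [4]), (-1, [7, 11])]) :: _), CM.wd_cons] at h
  refine ⟨_, nfRi_D4.wd_mem ?_, (mul_assoc _ _ _).trans (inv_mul_eq_iff_eq_mul.2 (Eq.trans ?_ (h.trans
    (congrArg₂ _ ?_ (congrArg₂ _ ?_ rfl)))))⟩
  · simp
  · rw [← CM.wd_append]
    simp
  · simp
  · congr 1
    simp
    ring

theorem rot_D4 (a b c : K) : (mat chevD4 K).wd [(16, b), (15, c), (19, a)] =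
    (mat chevD4 K).wd [(19, a), (16, b), (15, c)] := by
  refine (congrArg _ ?_).trans ((engD4 [a, b, c] (by simp) [(16, [(1, [1])]), (15, [(1, [2])]), (19, [(1, [0])])]
    [(19, [(1, [0])]), (16, [(1, [1])]), (15, [(1, [2])])] (by decide +kernel)).trans (congrArg _ ?_)) <;>
  simp [evPW]

theorem exists_root_cubic [Fintype K] {q : ℕ} (hq : 1 < q) (hK : Fintype.card K = q ^ 3)
    (a₀ a₁ a₂ a₃ a₄ a₅ a₆ : K) {a₇ : K} (h : a₇ ≠ 0) {f : K → K} (hf : ∀ b, f b = a₀ + a₁ * b - a₂ * b ^ q - a₃ * (b ^ q) ^ q -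
      a₄ * b * b ^ q - a₅ * b * (b ^ q) ^ q + a₆ * b ^ q * (b ^ q) ^ q + a₇ * b * b ^ q * (b ^ q) ^ q)
    (h1 : ∀ b, f b ^ q = f b) : ∃ b, f b = 0 := by
  by_contra h2
  push Not at h2
  obtain ⟨n, rfl⟩ : ∃ n, q = n + 2 := ⟨q - 2, by omega⟩
  let P : K[X] := C a₀ + C a₁ * X - C a₂ * X ^ (n + 2) - C a₃ * X ^ (n + 2) ^ 2 - C a₄ * X ^ (n + 3) -
    C a₅ * X ^ ((n + 2) ^ 2 + 1) + C a₆ * X ^ ((n + 2) ^ 2 + (n + 2)) + C a₇ * X ^ ((n + 2) ^ 2 + (n + 2) + 1)
  have h3 : P.natDegree = (n + 2) ^ 2 + (n + 2) + 1 := by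
    rw [natDegree_add_eq_right_of_natDegree_lt] <;> rw [natDegree_C_mul_X_pow _ _ h]
    refine Nat.lt_succ_of_le ?_
    compute_degree
    exact max_le (by nlinarith) le_rfl
  have h4 : (P ^ (n + 1) - C 1).natDegree = (n + 1) * ((n + 2) ^ 2 + (n + 2) + 1) := by
    rw [natDegree_sub_C, natDegree_pow, h3]
  have h5 := eq_zero_of_natDegree_lt_card_of_eval_eq_zero (P ^ (n + 1) - C 1) Function.injective_id (fun b => by
    have : P.eval b = f b := by simp [P, hf]; ring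
    rw [eval_sub, eval_pow, id, this, eval_C, sub_eq_zero]
    exact mul_right_cancel₀ (h2 b) (by rw [← pow_succ, h1, one_mul])) (by rw [h4, hK]; nlinarith)
  rw [h5, natDegree_zero] at h4
  nlinarith

variable {F : Type*} [Field F] [Fintype F] [Fintype K]

theorem isEll_cubic (hK : Fintype.card K = Fintype.card F ^ 3) (μ : F →+* K) {M : M2 F} (h : IsEll M) :
    IsEll (M.map μ) := by
  obtain ⟨f, hf⟩ := exists_frob hqF hK
  have h1 : ∀ s, f (μ s) = μ s := fun s => by rw [hf, ← map_pow, FiniteField.pow_card]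
  refine H33.isEll_iff.2 fun y h2 => ?_
  rw [show (M.map μ).trace = μ M.trace by simp [Matrix.trace_fin_two],
    show (M.map μ).det = μ M.det by simp [Matrix.det_fin_two]] at h2
  have h3 : f y ≠ y := fun e => by
    obtain ⟨s, rfl⟩ := (mem_range_iff hK μ y).1 (hf y ▸ e)
    exact H33.isEll_iff.1 h s (μ.injective (by simpa using h2))
  have h4 := congrArg f h2
  simp only [map_add, map_sub, map_mul, map_pow, h1, map_zero] at h4
  have h5 : f y + y = μ M.trace := by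
    refine mul_left_cancel₀ (sub_ne_zero.2 h3) ?_
    linear_combination h4 - h2
  have h6 := congrArg f h5
  rw [map_add, h1] at h6
  have h7 := congrArg f (show f (f y) = y by linear_combination h6 - h5)
  refine h3 (h7.symm.trans ?_)
  rw [hf, hf, hf, ← pow_mul, ← pow_mul, ← pow_three, ← hK, FiniteField.pow_card]

theorem map_cj (μ : F →+* K) (a : Fˣ) (m : SL2 F) : Matrix.SpecialLinearGroup.map μ (cj a m) =
    cj (Units.map (μ : F →* K) a) (Matrix.SpecialLinearGroup.map μ m) := by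
  apply Subtype.ext
  apply m2_ext <;> simp [cj_coe]

theorem ore_D4 (p : ℕ) [Fact p.Prime] [CharP K p] [CharP F p] (hK : Fintype.card K = Fintype.card F ^ 3) :
    ∃ x : twistedD4 K (Fintype.card F), ¬ p ∣ orderOf x ∧ ∀ g ≠ 1, Pr x x g := by
  obtain ⟨μ⟩ := H54.nonempty_ringHom_of_card_eq_pow hK
  obtain ⟨f, hf⟩ := exists_frob hqF hK
  have hT := isTw_D4 hqF hK
  have hG := twistedD4_eq_Fix hqF hK
  have hD := good_twD4 p hqF hK
  have := (simple_D4 hqF hK).1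
  have cm : Cmp (mat chevD4 K).T (twChev p hT) :=
    ⟨fun _ => mem_twChev_U p hT, fun _ => mem_twChev_B p hT, fun _ => mem_twChev_N p hT⟩
  obtain ⟨ν, hν, hac⟩ := hT.exists_N (w := wP chevD4 [0, 2, 3, 1, 0, 2, 3, 1, 0, 2, 3, 1]) (by
    have h := mul_mem (twD4.wo_mem_Wf 0) (twD4.wo_mem_Wf 1)
    have := mul_mem h (mul_mem h h)
    rwa [wo0_D4, wo1_D4, ← wP_append, ← wP_append, ← wP_append] at this)
  have h0 : ∀ r, wP chevD4 [0, 2, 3, 1, 0, 2, 3, 1, 0, 2, 3, 1] r = (rd chevD4).neg r := fun r => Fin.ext (by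
    rw [wP_val, rd_neg_val]
    exact (by decide +kernel : ∀ r < 24, fN chevD4 [0, 2, 3, 1, 0, 2, 3, 1, 0, 2, 3, 1] r = chevD4.neg r) r r.2)
  let ν' : twistedD4 K (Fintype.card F) := ⟨ν, hν.2⟩
  have hν' := (cm.N ν').2 hν.1
  let s : Fin 2 → (twChev p hT).P.S := fun o => ⟨⟨hT.no o, hT.no_mem o⟩, o, rfl⟩
  have hs : ∀ o, Ac (mat chevD4 K).T (s o : twistedD4 K (Fintype.card F)) (twD4.wo o) := hT.ac_no
  have hinv : ∀ o, (twD4.wo o)⁻¹ = twD4.wo o := fun o => inv_eq_of_mul_eq_one_right (Tw.wo_mul_wo o)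
  have hW : ∀ o, twD4.wo o ∈ (rd chevD4).W := fun o => twD4.Wf_le_W (twD4.wo_mem_Wf o)
  let R := cm.rk2 (ν := ν') (s 1) (s 0) (fun h => by
      have h1 := hs 1
      rw [h] at h1
      exact absurd (TwG.wo_inj (h1.unique (hs 0) (hW _) (hW _))) (by decide))
    (by rintro ⟨_, o, rfl⟩; fin_cases o; exacts [.inr rfl, .inl rfl]) (hs 1) (hinv 1) (hW 1) hν' hac h0
  let φ : SL2 F →* twistedD4 K (Fintype.card F) := (φD4 μ).codRestrict _ fun m => hG.ge (range_φD4 hK μ m)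
  let ψ : SL2 K →* twistedD4 K (Fintype.card F) := (ψD4 f).codRestrict _ fun m => hG.ge (range_ψD4 hK hf m)
  have hφ : ∀ m, (φ m : GL chevD4.Idx K) = φD4 μ m := fun _ => rfl
  have hψ : ∀ m, (ψ m : GL chevD4.Idx K) = ψD4 f m := fun _ => rfl
  have hR : ∀ o (g : twistedD4 K (Fintype.card F)), g ∈ (twChev p hT).R {s o} ↔
      (g : GL chevD4.Idx K) ∈ Up (mat chevD4 K).T (twD4.wo o) := fun o g => cm.mem_R (hs o) (hinv o)
  have hRi := hR 1
  rw [wo1_D4] at hRi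
  have hX : ∀ g, g ∈ (twChev p hT).X (s 1) ↔ ∃ t, g = φ (upper t) := fun g => by
    rw [cm.mem_X (hs 1) (hinv 1) hν' hac h0, wo1_D4]
    refine (and_iff_left (hG.le g.2).2).symm.trans
      ((fix1_D4 hqF hK (nf_Um _ [1] (L := [14]) (by decide +kernel)) (by decide)).trans ?_)
    simp only [Subtype.ext_iff, hφ, φD4_upper, mem_range_iff hK μ]
    exact ⟨fun ⟨_, ⟨b, rfl⟩, e⟩ => ⟨b, e⟩, fun ⟨b, e⟩ => ⟨_, ⟨b, rfl⟩, e⟩⟩
  have hinj : ∀ t, φ (upper t) = 1 → t = 0 := fun t h => by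
    simpa using congrArg (· 0 1) (inj_φD4 hK μ ((congrArg Subtype.val h).trans (map_one _).symm))
  have hx : ∀ t, (φ (upper t) : GL chevD4.Idx K) = (mat chevD4 K).x 14 (μ t) := fun t => by
    rw [hφ, φD4_upper, CM.wd_cons, CM.wd_nil, mul_one]
  have hχ : ∀ t ht (a : Fˣ), (μ a)⁻¹ = t * f t * f (f t) → CM.chi (tl chevD4 [Units.mk0 t ht, 1,
      Units.mk0 (f t) ((map_ne_zero f).2 ht), Units.mk0 (f (f t)) ((map_ne_zero f).2 ((map_ne_zero f).2 ht))])
      (chevD4.simple (nd 1)) = Units.map (μ : F →* K) a := fun t ht a h =>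
    (chiD4 _ _ _ _).2.1.trans (Units.ext (by simpa [mul_comm, mul_left_comm, mul_assoc] using congrArg (·⁻¹) h.symm))
  have hact : ∀ t ht (a : Fˣ), (μ a)⁻¹ = t * f t * f (f t) → Act φ (ψ (hxD t ht)) a := fun t ht a h m =>
    Subtype.ext (by rw [Subgroup.coe_mul, Subgroup.coe_mul, hφ, hφ, hψ, ψD4_D, φD4_apply, φD4_apply, act_tor, map_cj,
      hχ t ht a h])
  have hf3 : ∀ t, f (f (f t)) = t := fun t => by
    rw [hf, hf, hf, ← pow_mul, ← pow_mul, ← pow_three, ← hK, FiniteField.pow_card]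
  have hex : ∀ t ≠ 0, ∃ a : Fˣ, (μ a)⁻¹ = t * f t * f (f t) := fun t ht => by
    obtain ⟨a, ha⟩ := (mem_range_iff hK μ (t * f t * f (f t))⁻¹).1 (by
      rw [← hf, map_inv₀, map_mul, map_mul, hf3]; ring)
    exact ⟨Units.mk0 a fun h => by simp [h, ht] at ha, by rw [Units.val_mk0, ← ha, inv_inv]⟩
  refine Lev.main (R := R) ⟨φ, ψ, hX, fun t => (cm.mem_X (hs 0) (hinv 0) hν' hac h0).2 ?_, hinj, ?_, ?_,
    fun d hd => cm.H.2 (by rw [hφ, φD4_D]; exact (mat chevD4 K).tor_mem _),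
    fun d hd => cm.H.2 (by rw [hψ, ψD4_D]; exact (mat chevD4 K).tor_mem _), fun h hh => ?_,
    fun t ht => (hex t ht).imp (hact t ht), fun γ hγ s => ?_, fun _ u hu => ?_,
    fun t ht a m h3 h4 u hu e hu1 => ?_, fun _ => hxD_neg_one (F := K) ▸ hact _ _ _ (by simp),
    fun _ => ⟨?_, fun h hh => Subtype.ext ((mat chevD4 K).conj_H_of_neg (inv_mem (wP_mem _)) (Cmp.inv_neg h0)
      (inv_mem hν.1) hac.inv (cm.H.1 hh))⟩⟩ hD (gen_of_simple hD)
  · rw [wo0_D4, hψ, ψD4_upper]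
    exact (nf_Um _ _ (L := [18, 13, 12]) (by decide +kernel)).wd_mem (by simp)
  · have h := (cm.N (φ (weyl F))).2 (by rw [hφ, φD4_weyl]; exact inv_mem ((mat chevD4 K).T.n_mem_N _))
    exact ⟨h, (cm.wOf_eq h ((twChev p hT).S_mem _) (ac_φD4 μ) (hs 1)).trans (wOf_S _)⟩
  · have h := (cm.N (ψ (weyl K))).2 (by
      rw [hψ, ψD4_weyl]
      exact mul_mem (inv_mem ((mat chevD4 K).T.n_mem_N _))
        (mul_mem (inv_mem ((mat chevD4 K).T.n_mem_N _)) (inv_mem ((mat chevD4 K).T.n_mem_N _))))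
    exact ⟨h, (cm.wOf_eq h ((twChev p hT).S_mem _) (ac_ψD4 f) (hs 0)).trans (wOf_S _)⟩
  · obtain ⟨c, hc, e⟩ := (H_inf_Fix_D4 hqF hK).le ⟨cm.H.1 hh, hG.le h.2⟩
    obtain ⟨l, hl, rfl⟩ := exists_tl c
    obtain ⟨a, b, c, d, rfl⟩ := List.length_eq_four.1 hl
    obtain ⟨h1, rfl, rfl⟩ := (tl_mem_F_D4 hqF hK).1 hc
    obtain ⟨s, hs⟩ := (mem_range_iff hK μ (b : K)).1 (by rw [← Units.val_pow_eq_pow_val, h1])
    refine ⟨s, fun h => b.ne_zero (by rw [hs, h, map_zero]), a, a.ne_zero, Subtype.ext ?_⟩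
    rw [← e, Subgroup.coe_mul, hφ, hψ, φD4_D, ψD4_D, ← map_mul]
    congr 1
    funext i
    fin_cases i <;> simp [tl, Units.ext_iff, hs, hf, pow_two, pow_mul]
  · obtain ⟨a, ha⟩ := trace3_surj hqF hK ((mem_range_iff hK μ _).2 ⟨s, rfl⟩)
    rw [pow_two, pow_mul, ← hf, ← hf] at ha
    refine ⟨⟨(mat chevD4 K).wd [(19, a / γ), (16, -f (a / γ)), (15, -f (f (a / γ)))], hG.ge
      ((smD4 hqF hK).wd_mem_Fix _ (by simp; decide) ((congrArg _ ?_).trans (rot_D4 _ _ _)))⟩,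
      (hRi _).2 (nfRi_D4.wd_mem (by simp)), (hRi _).2 ?_⟩
    · simp only [List.map_cons, smD4_ρ, smD4_γ, smD4_e, ← hf, map_neg, hf3]
      simp [rhoD4, gamD4]
    · obtain ⟨r, hr, e⟩ := conjR_D4 0 (a / γ) (-f (a / γ)) (-f (f (a / γ))) 0 0 0 0 0 γ (f γ) (f (f γ))
      simp only [CM.wd_cons, CM.x_zero, one_mul, CM.wd_nil, mul_one] at e
      simp only [Subgroup.coe_mul, Subgroup.coe_inv, hx, hψ, ψD4_lower, CM.wd_cons, CM.wd_nil, mul_one, e]
      convert hr using 1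
      rw [inv_mul_eq_iff_eq_mul, ← ha]
      congr 2
      simp only [zero_mul, neg_mul, ← map_mul, div_mul_cancel₀ a hγ]
      ring
  · have h1 := (hR 0 u).1 hu
    rw [wo0_D4] at h1
    obtain ⟨w, hw, e⟩ := nfRj_D4.ex _ h1
    simp only [map_fst_eq_cons, List.map_eq_nil_iff] at hw
    obtain ⟨a₀, _, rfl, a₁, _, rfl, a₂, _, rfl, a₃, _, rfl, a₄, _, rfl, a₅, _, rfl, a₆, _, rfl, a₇, _, rfl,
      a₈, _, rfl, rfl⟩ := hw
    by_cases h7 : a₇ = 0
    · refine ⟨(ψ (weyl K))⁻¹, (hRi _).2 ?_⟩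
      have h2 := ac_ψD4 f
      rw [wo0_D4] at h2
      rw [inv_inv]
      refine h2.conj_gen (S := {r | (r : ℕ) ∈ [14, 19, 16, 15, 21, 20, 17, 23]}) (fun r hr => ?_) ?_
      · simp only [Set.mem_ofPred_eq, rd_pos, wP_val]
        exact (by decide +kernel : ∀ r ∈ [14, 19, 16, 15, 21, 20, 17, 23], chevD4.IsPosRoot (fN chevD4 [0, 2, 3] r) ∧
          chevD4.IsPosRoot (fN chevD4 [1] (fN chevD4 [0, 2, 3] r))) r hr
      · rw [show (u : GL chevD4.Idx K) = (mat chevD4 K).wd [(14, a₀), (19, a₁), (16, a₂), (15, a₃), (21, a₄), (20, a₅),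
          (17, a₆), (23, a₈)] by simp only [e, h7, CM.wd_cons, CM.x_zero, one_mul]]
        exact (mat chevD4 K).wd_mem_gen (by simp; decide)
    have key := fun b => conjR_D4 a₀ a₁ a₂ a₃ a₄ a₅ a₆ a₇ a₈ b (f b) (f (f b))
    simp only [← e, ← ψD4_lower, ← hψ] at key
    obtain ⟨b, hb⟩ := exists_root_cubic hqF.one_lt hK a₀ a₁ a₂ a₃ a₄ a₅ a₆ h7 (fun b => by simp only [← hf]; rfl) fun b => by
      obtain ⟨r, hr, e⟩ := key b
      obtain ⟨_, hξ, r', hr', e'⟩ := (twChev p hT).exists_X_mul_R (s 1) ((cm.U ((ψ (lower b))⁻¹ * u * ψ (lower b))).2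
        (by
          rw [Subgroup.coe_mul, Subgroup.coe_mul, Subgroup.coe_inv, e]
          exact mul_mem (Up_le_U _ (nfRj_D4.mem _ (by simp) _)) (Up_le_U _ hr)))
      obtain ⟨t, rfl⟩ := (hX _).1 hξ
      have h2 := congrArg Subtype.val e'
      rw [Subgroup.coe_mul, Subgroup.coe_mul, Subgroup.coe_inv, e, Subgroup.coe_mul, hx, ← inv_mul_eq_iff_eq_mul,
        ← mul_assoc, CM.x_inv, CM.x_add, ← eq_mul_inv_iff_mul_eq] at h2
      have h3 := ac_φD4 μ
      rw [wo1_D4] at h3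
      have h4 := (mat chevD4 K).T.eq_one_of_mem_U_V (h3.conj_Up (h2 ▸ mul_mem ((hRi _).1 hr') (inv_mem hr)))
        (h3.conj_Um ((nf_Um _ _ (L := [14]) (by decide +kernel)).mem _ (by simp) _))
      rw [mul_inv_eq_one, mul_eq_left] at h4
      exact (mem_range_iff hK μ _).2 ⟨t, by linear_combination (mat chevD4 K).x_eq_one ⟨14, by decide⟩ _ h4⟩
    obtain ⟨r, hr, e⟩ := key b
    refine ⟨ψ (lower b), (hRi _).2 ?_⟩
    rwa [Subgroup.coe_mul, Subgroup.coe_mul, Subgroup.coe_inv, e, hb, CM.x_zero, one_mul]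
  · obtain ⟨a', ha⟩ := hex t ht
    obtain rfl := h3.unique hinj (hact t ht a' ha)
    by_contra h5
    have h6 : t ≠ 1 := fun h => h5 (by subst h; rw [← map_one ψ]; congr 1; apply sl_ext <;> simp [hxD])
    have h7 : ∀ t : K, t ≠ 0 → t * f t = f (f t) → t = 1 := fun t ht h => by
      have h1 := congrArg f h
      have h2 := congrArg f h1
      simp only [map_mul, hf3] at h1 h2
      have h3 : t * t = 1 := mul_right_cancel₀ ((map_ne_zero f).2 ht) (by linear_combination h2 + t * h)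
      rcases mul_self_eq_one_iff.1 h3 with h | rfl
      · exact h
      · simpa using h.symm
    have h8 := congrArg Subtype.val e
    simp only [Subgroup.coe_mul, hφ, hψ, ψD4_D, φD4_apply] at h8
    refine hu1 (Subtype.ext (ell_fix (nd 1) (L := [12, 13, 18, 15, 16, 19, 17, 20, 21, 22, 23]) (by decide +kernel)
      ?_ (fun r hr => ?_) ((hRi u).1 hu) h8))
    · convert isEll_cubic hK μ h4 using 1
      rw [hχ t ht a ha]
      apply m2_ext <;> simp [dgm, m2_mul_apply]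
    have h10 : ∀ r z, colC chevD4 r = z → ∀ a : K, ((List.zipWith (· ^ ·) [Units.mk0 t ht, 1,
        Units.mk0 (f t) ((map_ne_zero f).2 ht), Units.mk0 (f (f t)) ((map_ne_zero f).2 ((map_ne_zero f).2 ht))] z).prod
        : Kˣ) = a * f a / f (f a) → a ≠ 0 → a ≠ 1 → CM.chi (tl chevD4 [Units.mk0 t ht, 1,
          Units.mk0 (f t) ((map_ne_zero f).2 ht), Units.mk0 (f (f t)) ((map_ne_zero f).2 ((map_ne_zero f).2 ht))]) r ≠ 1 :=
      fun r z e a e' h1 h2 h => h2 (h7 a h1 (by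
        rw [← chi_tl _ rfl e, h, Units.val_one, eq_comm] at e'
        exact (div_eq_one_iff_eq (by simpa using h1)).1 e'))
    have h11 : ∀ t, f t = 1 → t = 1 := fun t h => f.injective (h.trans (map_one f).symm)
    simp only [List.mem_cons, List.not_mem_nil, or_false] at hr
    rcases hr with rfl | rfl | rfl | rfl | rfl | rfl | rfl | rfl | rfl | rfl | rfl
    iterate 3 exact .inr (.inr (.inl (by decide)))
    iterate 3 exact .inr (.inl (by decide))
    · exact .inl ⟨by decide, h10 _ [-1, 0, 1, 1] (by decide) (f t) (by simp [hf3]; ring) (by simpa using ht)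
        fun h => h6 (h11 _ h)⟩
    · exact .inl ⟨by decide, h10 _ [1, 0, -1, 1] (by decide) (f (f t)) (by simp [hf3]; ring) (by simpa using ht)
        fun h => h6 (h11 _ (h11 _ h))⟩
    · exact .inl ⟨by decide, h10 _ [1, 0, 1, -1] (by decide) t (by simp; ring) ht h6⟩
    exacts [.inr (.inr (.inl (by decide))), .inr (.inl (by decide))]
  · obtain ⟨t, h⟩ := exists_sq_ne_one (K := K) (by
      have : 2 ^ 3 ≤ _ := Nat.pow_le_pow_left (hqF (F := F)).one_lt 3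
      omega)
    refine ⟨t, t.ne_zero, fun e => h (Units.ext ?_)⟩
    have := congrArg (· 0 0) (inj_ψD4 hK hf ((congrArg Subtype.val e).trans (map_one _).symm))
    simp [hxD] at this
    simp [this]

end H68.Gow
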