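/- Squares of regular semisimple classes in rank two and characteristic two: one `SL₂` only. -/
import Cfsg.Agent.H68.Ore4
import Cfsg.Agent.H33.GL2Torus

set_option autoImplicit false
set_option linter.unusedSectionVars false

namespace H68.Gow

open Cfsg H67 H33 H61 H83 H68.OreSL

variable {G : Type*} [Group G] [Finite G] {D : SBN 2 G}

/-- A homomorphism from `SL₂` attached to the first simple reflection. -/
structure Lv (R : Rk2 D) (F : Type*) [Field F] [Fintype F] where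
  φ : SL2 F →* G
  Xi : ∀ g, g ∈ D.X R.i ↔ ∃ t, g = φ (upper t)
  inj : ∀ t, φ (upper t) = 1 → t = 0
  wi : φ (weyl F) ∈ D.N ∧ wOf D.P (φ (weyl F)) = sim D.P R.i
  Di : ∀ d hd, φ (hxD d hd) ∈ D.H
  act : ∀ h ∈ D.H, ∃ a, Act φ h a
  exp : ∀ h ∈ D.H, h ^ (Fintype.card F - 1) = 1
  J : ∀ h ∈ D.H, ∃ t ∈ D.H, ∃ d hd, h = (R.j : G)⁻¹ * t * R.j * t⁻¹ * φ (hxD d hd)
  HR : ∃ y ∈ cjs (D.X R.j) R.j, ∀ ξ ∈ D.X R.i, ∃ r ∈ D.R {R.i}, ξ⁻¹ * (y⁻¹ * r * y) ∈ D.R {R.i}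
  HU : ∀ u ∈ D.R {R.j}, ∃ g, g⁻¹ * u * g ∈ D.R {R.i}
  E : ∀ z ∈ D.H, Act φ z 1 → ∀ u ∈ D.R {R.i}, z * u = u * z → u ≠ 1 → z = 1
  ne : ∃ z ∈ D.H, Act φ z 1 ∧ z ≠ 1
  inv : ∀ h ∈ D.H, R.ν⁻¹ * h * R.ν = h⁻¹

namespace Lv

variable {R : Rk2 D} {F : Type*} [Field F] [Fintype F] [CharP F 2] (V : Lv R F) {x : G}

theorem up_mem (s : F) : V.φ (upper s) ∈ D.X R.i := (V.Xi _).2 ⟨s, rfl⟩

theorem wi_H : (R.i : G)⁻¹ * V.φ (weyl F) ∈ D.H := inv_mul_mem_H (D.S_mem _) V.wi.1 ((wOf_S _).trans V.wi.2.symm)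

theorem mem_L (m : SL2 F) : V.φ m ∈ R.L := by
  have h : V.φ (weyl F) ∈ R.L := by simpa using mul_mem R.i_mem_L (R.H_le_L V.wi_H)
  refine (H12.LC.sl_induction (K := R.L.comap V.φ) (fun s => R.X_le_L (V.up_mem s)) fun s => ?_).ge
    (Subgroup.mem_top m)
  rw [Subgroup.mem_comap, lower_eq, map_mul, map_mul, map_inv]
  exact mul_mem (mul_mem h (R.X_le_L (V.up_mem _))) (inv_mem h)

theorem mem_B {m : SL2 F} : V.φ m ∈ D.B ↔ m 1 0 = 0 := by
  have h1 : ∀ s, V.φ (upper s) ∈ D.B := fun s => D.U_le (D.X_le_U _ (V.up_mem s))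
  refine ⟨fun h => by_contra fun h0 => sim_ne_one D.P R.i ?_, fun h => ?_⟩
  · obtain ⟨s, s', e⟩ := exists_weyl h0
    rw [← V.wi.2, ← wOf_eq_one_iff.2 h, e, map_mul, map_mul, map_mul, wOf_mul_right _ (h1 _),
      wOf_mul_right _ (V.Di _ _).1, wOf_mul_left (h1 _)]
  · obtain ⟨s, d, hd, rfl⟩ := exists_upper h
    rw [map_mul]
    exact mul_mem (h1 s) (V.Di d hd).1

theorem exists_eq {l : G} (hl : l ∈ R.L) : ∃ m, ∃ z ∈ D.H, Act V.φ z 1 ∧ l = V.φ m * z := by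
  obtain ⟨_, ⟨m, rfl⟩, b, hb, rfl⟩ := D.exists_mul_B (K := V.φ.range) (J := {R.i})
    (fun s hs g hg => by obtain ⟨t, rfl⟩ := (V.Xi g).1 (hs ▸ hg); exact ⟨_, rfl⟩)
    (fun s hs => ⟨_, V.wi_H.1, by rw [hs, mul_inv_cancel_left]; exact ⟨_, rfl⟩⟩) hl.1
  obtain ⟨u, hu, h, hh, rfl⟩ := D.split b hb
  obtain ⟨ξ, hξ, r, hr, rfl⟩ := D.exists_X_mul_R R.i hu
  obtain ⟨s, rfl⟩ := (V.Xi _).1 hξ
  have h1 := R.eq_one_of_mem_R hr (R.mem_L.1 (by
    simpa [mul_assoc] using mul_mem (mul_mem (inv_mem (mul_mem (V.mem_L m) (V.mem_L (upper s)))) hl)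
      (inv_mem (R.H_le_L hh)))).2
  obtain ⟨a, ha⟩ := V.act h hh
  obtain ⟨e, he⟩ := FiniteField.isSquare_of_char_two (ringChar.eq F 2) (a : F)
  have he0 : e ≠ 0 := fun h => a.ne_zero (by rw [he, h, mul_zero])
  have hz := (act_D e⁻¹ (inv_ne_zero he0)).mul ha
  rw [show Units.mk0 e⁻¹ (inv_ne_zero he0) ^ 2 * a = 1 from Units.ext (by simp [he]; field_simp)] at hz
  exact ⟨m * upper s * (hxD _ (inv_ne_zero he0))⁻¹, _, mul_mem (V.Di _ _) hh, hz, by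
    rw [h1, map_mul, map_mul, map_inv]; group⟩

theorem isEll_iff {m : SL2 F} {z : G} (hz : z ∈ D.H) (h1 : Act V.φ z 1) :
    IsEll (m : M2 F) ↔ ∀ g ∈ D.PJ {R.i}, g⁻¹ * (V.φ m * z) * g ∉ D.B := by
  have key : ∀ P : SL2 F, (V.φ P)⁻¹ * (V.φ m * z) * V.φ P ∈ D.B ↔ (P⁻¹ * m * P) 1 0 = 0 := fun P => by
    rw [← V.mem_B, mul_assoc, mul_assoc, h1, cj_one, ← mul_assoc, ← mul_assoc, D.B.mul_mem_cancel_right hz.1,
      map_mul, map_mul, map_inv]
  refine ⟨fun h2 g hg h3 => ?_, fun h2 c v hv h3 => ?_⟩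
  · obtain ⟨r, hr, _, hl, rfl⟩ := R.exists_L hg
    obtain ⟨P, t, ht, -, rfl⟩ := V.exists_eq hl
    have h4 := D.U_le (D.R_le_U _ (D.R_conj (V.mem_L P).1 (mul_mem (inv_mem hr)
      (D.R_conj (mul_mem (V.mem_L m) (R.H_le_L hz)).1 hr))))
    have h5 := (key P).1 (by
      simpa [mul_assoc] using D.B.mul_mem (D.B.mul_mem (D.B.mul_mem ht.1 h3) (D.B.inv_mem ht.1)) h4)
    have h6 : m * P = P * (P⁻¹ * m * P) := by group
    generalize P⁻¹ * m * P = N at h5 h6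
    refine h2 (N 0 0) ![P 0 0, P 1 0] (fun h => ?_) ?_
    · have := sl_det P
      rw [show P 0 0 = 0 from congrFun h 0, show P 1 0 = 0 from congrFun h 1] at this
      simp at this
    · have h7 := congrArg (· 0 0) h6
      have h8 := congrArg (· 1 0) h6
      simp only [sl_mul_apply, h5] at h7 h8
      ext i
      fin_cases i <;> simp [Matrix.mulVec, dotProduct]
      · linear_combination h7
      · linear_combination h8
  · obtain ⟨P, h4, h5⟩ : ∃ P : SL2 F, P 0 0 = v 0 ∧ P 1 0 = v 1 := by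
      by_cases h0 : v 0 = 0
      · have : v 1 ≠ 0 := fun h => hv (by ext i; fin_cases i; exacts [h0, h])
        exact ⟨sl2 (v 0) (-(v 1)⁻¹) (v 1) 0 (by simp [this]), rfl, rfl⟩
      · exact ⟨sl2 (v 0) 0 (v 1) (v 0)⁻¹ (by simp [h0]), rfl, rfl⟩
    refine h2 _ (V.mem_L P).1 ((key P).2 ?_)
    have h6 := congrFun h3 0
    have h7 := congrFun h3 1
    simp [Matrix.mulVec, dotProduct] at h6 h7
    simp [sl_mul_apply, Matrix.adjugate_fin_two, h4, h5]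
    linear_combination v 0 * h7 - v 1 * h6

theorem pow_eq {m : SL2 F} {z : G} (hz : z ∈ D.H) (h1 : Act V.φ z 1) (h2 : IsEll (m : M2 F)) :
    (V.φ m * z) ^ (Fintype.card F + 1) = z ^ 2 := by
  have h3 := congrArg Subtype.val (pow_card_eq_one' (G := TorS (Matrix.SpecialLinearGroup.toGL m))
    (x := ⟨m, Subgroup.mem_centralizer_singleton_iff.2 rfl⟩))
  rw [IsEll.card_torS h2] at h3
  rw [(show Commute (V.φ m) z by rw [Commute, SemiconjBy, h1, cj_one]).mul_pow, ← map_pow,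
    show m ^ (Fintype.card F + 1) = 1 from h3, map_one, one_mul,
    show Fintype.card F + 1 = Fintype.card F - 1 + 2 by have := Fintype.card_pos (α := F); omega, pow_add,
    V.exp z hz, one_mul]

theorem fix {m : SL2 F} {z : G} (hz : z ∈ D.H) (h1 : Act V.φ z 1) (h2 : IsEll (m : M2 F)) {u : G}
    (hu : u ∈ D.R {R.i}) (e : V.φ m * z * u = u * (V.φ m * z)) (h : u ≠ 1) : z = 1 := by
  have h3 := V.E _ (mul_mem hz hz) (by simpa using h1.mul h1) u hu (by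
    rw [← pow_two, ← V.pow_eq hz h1 h2]
    exact Commute.pow_left e _) h
  exact orderOf_eq_one_iff.1 (Nat.eq_one_of_dvd_coprimes ((Nat.Prime.coprime_iff_not_dvd Nat.prime_two).2 D.H_cop)
    (orderOf_dvd_of_pow_eq_one (pow_two z ▸ h3)) (orderOf_dvd_of_pow_eq_one (D.pow_card_H hz)))

theorem reg (hD : D.Good) (hgen : Subgroup.normalClosure (D.U : Set G) = ⊤) {m : SL2 F} {z : G} (hz : z ∈ D.H)
    (h1 : Act V.φ z 1) (h2 : IsEll (m : M2 F)) (h3 : z ≠ 1) :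
    ¬ 2 ∣ Nat.card (Subgroup.centralizer ({V.φ m * z} : Set G)) := by
  refine R.reg hD hgen (mul_mem (V.mem_L m) (R.H_le_L hz)) (fun h => ?_) ((V.isEll_iff hz h1).1 h2)
    fun u hu e => by_contra fun h => h3 (V.fix hz h1 h2 hu e h)
  have h6 := h.trans (orderOf_dvd_of_pow_eq_one (n := (Fintype.card F + 1) * Nat.card D.H) (by
    rw [pow_mul, V.pow_eq hz h1 h2, pow_right_comm, D.pow_card_H hz, one_pow]))
  refine D.H_cop ((Nat.prime_two.dvd_mul.1 h6).resolve_left fun h => ?_)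
  obtain ⟨n, -, hn⟩ := FiniteField.card F 2
  have : 2 ∣ Fintype.card F := hn ▸ dvd_pow_self 2 n.ne_zero
  omega

theorem fin (hD : D.Good) (hgen : Subgroup.normalClosure (D.U : Set G) = ⊤)
    (hx : ¬ 2 ∣ Nat.card (Subgroup.centralizer ({x} : Set G)))
    (h1 : ∀ m : SL2 F, ¬ IsSc (m : M2 F) → (m : M2 F).trace ≠ 0 → R.Sx x (V.φ m))
    (h2 : R.Sx x 1 ∨ ∀ m : SL2 F, ¬ IsSc (m : M2 F) → R.Sx x (V.φ m)) {g : G} (hg : g ≠ 1) :
    Pr x x g := by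
  have two : (2 : F) = 0 := CharTwo.two_eq_zero
  obtain ⟨y, hy, HR⟩ := V.HR
  have hB : ∀ {h}, h ∈ D.H → h ∈ D.PJ {R.i} := fun h => D.B_le_PJ _ h.1
  refine Rk2.fin (R := R) hD hgen hx (fun g => Rk2.jmove hx (Y := {z | ∃ t ∈ D.H, z = t * y * t⁻¹})
    (K := {k | ∃ d hd, k = V.φ (hxD d hd)}) ?_ ?_ (fun h hh => ?_) ?_) (fun h hh ξ hξ h0 e ξ' hξ' => ?_)
    (fun u hu hu' => ?_) (fun l hl u hu e h0 he => ?_) hg
  · rintro _ ⟨t, ht, rfl⟩
    refine R.Y_le_Rm (mem_cjs.2 ?_)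
    simpa [mul_assoc] using D.X_conj_H (inv_mem (D.H_conj' (D.S_mem R.j) ht)) (mem_cjs.1 hy)
  · rintro _ ⟨d, hd, rfl⟩
    exact V.Di d hd
  · obtain ⟨b, hb, n, hn, b', hb', e1, e⟩ := exists_bruhat D.P y
    have hj : (R.j : G) ∈ D.PJ {R.j} := S_mem_cellSubgroup rfl
    rw [(mem_cellSubgroup_singleton.1 (show y ∈ D.PJ {R.j} by
      simpa [mul_assoc] using mul_mem (mul_mem hj (D.B_le_PJ _ (D.U_le (D.X_le_U _ (mem_cjs.1 hy)))))
        (inv_mem hj))).resolve_left fun hB => by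
          obtain ⟨r, hr, h3⟩ := HR _ (V.up_mem 1)
          exact one_ne_zero (V.inj _ (D.eq_one_of_mem_X_of_mem_R (V.up_mem 1) (by
            simpa [mul_assoc] using mul_mem (D.R_conj (D.B_le_PJ _ hB) hr) (inv_mem h3)))), ← wOf_S] at e
    obtain ⟨u, hu, k, hk, rfl⟩ := D.split _ hb
    obtain ⟨v, hv, k', hk', rfl⟩ := D.split _ hb'
    have h3 := mul_mem (mul_mem (D.H_conj' (D.S_mem R.j) hk) (inv_mul_mem_H (D.S_mem _) hn e.symm)) hk'
    obtain ⟨t, ht, d, hd, e2⟩ := V.J _ (mul_mem (inv_mem h3) hh)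
    refine ⟨_, ⟨t, ht, rfl⟩, _, D.U_norm _ ht.1 _ (inv_mem hu), _,
      D.U_norm _ ht.1 _ (inv_mem (D.U_norm' hk'.1 hv)), _, ⟨d, hd, rfl⟩, ?_⟩
    rw [inv_mul_eq_iff_eq_mul, ← mul_assoc, ← mul_assoc, hD.comm _ h3 _ (D.H_conj' (D.S_mem R.j) ht)] at e2
    rw [e2, e1]
    group
  · rintro _ ⟨t, ht, rfl⟩ _ ⟨d, hd, rfl⟩ ξ hξ
    obtain ⟨s, rfl⟩ := (V.Xi _).1 hξ
    suffices ∃ s', R.Sx x (V.φ (upper s' * hxD d hd * upper s)) by
      obtain ⟨s', h⟩ := this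
      obtain ⟨r, hr, h3⟩ := HR _ (D.X_conj_H ht (V.up_mem s'))
      exact ⟨_, D.R_conj' (hB ht) hr, V.φ (upper s'), by simpa [mul_assoc] using D.R_conj' (hB ht) h3,
        by rwa [← map_mul, ← map_mul]⟩
    have h3 : ¬ IsSc ((upper (d * (1 - d * s)) * hxD d hd * upper s : SL2 F) : M2 F) := fun h => by
      have := h.1
      simp [hxD, hd, mul_right_comm d] at this
    by_cases h4 : d = 1
    · subst h4
      refine h2.elim (fun h => ⟨-s, ?_⟩) fun h => ⟨_, h _ h3⟩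
      convert h
      rw [← map_one V.φ]
      congr 1
      apply sl_ext <;> simp [sl_mul_apply, hxD]
    · refine ⟨_, h1 _ h3 fun h => h4 (eq_of_sub_eq_zero (pow_eq_zero_iff two_ne_zero |>.1 ?_))⟩
      simp [hxD] at h
      field_simp at h
      linear_combination h - d * two
  · obtain ⟨s, rfl⟩ := (V.Xi _).1 hξ
    obtain ⟨s', rfl⟩ := (V.Xi _).1 hξ'
    obtain ⟨a, ha⟩ := V.act h hh
    rw [ha, cj_upper, mul_left_inj, ← mul_inv_eq_one, ← map_inv, ← map_mul, ← hx_upper_neg,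
      ← hx_upper_add] at e
    rw [ha, show a = 1 from Units.ext (mul_right_cancel₀ (fun h : s = 0 => h0 (by rw [h, hx_upper_zero, map_one]))
      (by rw [Units.val_one]; linear_combination V.inj _ e)), cj_one]
  · obtain ⟨ξ, hξ, q, hq, rfl⟩ := D.exists_X_mul_R R.i (D.R_le_U _ hu)
    obtain ⟨s, rfl⟩ := (V.Xi _).1 hξ
    refine h2.elim (fun h => ?_) fun h => by
      simpa using (h _ fun h => hu' (by
        rwa [show s = 0 from h.1, hx_upper_zero, map_one, one_mul])).pr hx (one_mem _) hq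
    obtain ⟨g, hg⟩ := V.HU _ hu
    exact Pr.of_conj' g (by simpa using h.pr hx (one_mem _) hg)
  · obtain ⟨m, z, hz, ha, rfl⟩ := V.exists_eq hl
    have h3 := (V.isEll_iff hz ha).2 he
    rw [V.fix hz ha h3 hu e h0, mul_one]
    exact h1 m h3.not_isSc fun h => H33.isEll_iff.1 h3 1 (by rw [h, m.det_coe]; linear_combination two)

theorem conj_mem (m : SL2 F) :
    (V.φ (weyl F) * R.ν)⁻¹ * V.φ m * (V.φ (weyl F) * R.ν) ∈ V.φ.range := by
  have hn := D.N.mul_mem V.wi.1 R.ν_mem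
  have e : wOf D.P (V.φ (weyl F) * R.ν) = sim D.P R.i * wOf D.P R.ν := by
    rw [wOf_mul_N V.wi.1 R.ν_mem, V.wi.2]
  generalize V.φ (weyl F) * R.ν = n at hn e
  have h0 := D.N.mul_mem (D.S_mem R.i) (D.nJ_mem Set.univ)
  have e0 : wOf D.P (R.i * D.n0) = wOf D.P n := by rw [wOf_mul_N (D.S_mem _) (D.nJ_mem _), wOf_S, e, R.wν]
  have h1 : ∀ s, ∃ s', n⁻¹ * V.φ (upper s) * n = V.φ (upper s') := fun s => (V.Xi _).1 (D.mem_X.2
    ⟨D.conj_mem_U_congr h0 hn e0 (D.mem_X.1 (V.up_mem s)).2, by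
      have := D.U_norm' (b := n * (R.i * D.n0)) (wOf_eq_one_iff.1 (by
        rw [wOf_mul_N hn h0, e0, e, mul_assoc, ← mul_assoc (wOf _ _), ← R.comm, mul_assoc,
          (bn_exch D.P).s_mul_s_mul, mul_eq_one_iff_eq_inv, (bn_exch D.P).isLongest_inv R.longest]))
        (D.X_le_U _ (V.up_mem s))
      simpa [mul_assoc] using this⟩)
  refine mem_cjs.1 ((H12.LC.sl_induction (K := (cjs V.φ.range n).comap V.φ)
    (fun s => Subgroup.mem_comap.2 (mem_cjs.2 ?_)) fun s => Subgroup.mem_comap.2 (mem_cjs.2 ?_)).ge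
      (Subgroup.mem_top m))
  · obtain ⟨s', h⟩ := h1 s
    exact ⟨_, h.symm⟩
  · obtain ⟨s', h⟩ := h1 (-s)
    obtain ⟨a, ha⟩ := V.act _ (inv_mul_mem_H V.wi.1 (D.N.mul_mem (D.N.mul_mem (D.N.inv_mem hn) V.wi.1) hn)
      (by rw [wOf_mul_N (D.N.mul_mem (D.N.inv_mem hn) V.wi.1) hn, wOf_mul_N (D.N.inv_mem hn) V.wi.1, wOf_inv, e,
        V.wi.2, mul_assoc, R.comm, ← mul_assoc (sim _ _), R.comm, inv_mul_cancel_left]))
    refine ⟨weyl F * cj a (upper s') * (weyl F)⁻¹, ?_⟩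
    rw [lower_eq, map_mul, map_mul, map_mul, map_mul, map_inv, ← mul_inv_eq_iff_eq_mul.2 (ha _), ← h]
    group

include V in
theorem main (hD : D.Good) (hgen : Subgroup.normalClosure (D.U : Set G) = ⊤) :
    ∃ x : G, ¬ 2 ∣ orderOf x ∧ ∀ g ≠ 1, Pr x x g := by
  have h2 : (2 : F) = 0 := CharTwo.two_eq_zero
  obtain ⟨z, hzH, hz, h1⟩ := V.ne
  obtain ⟨τ, hτ⟩ := exists_ell (one_ne_zero (α := F))
  have h4 : ∀ a : F, a ^ 2 = 4 → a = 0 := fun a h =>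
    pow_eq_zero_iff two_ne_zero |>.1 (by linear_combination h + 2 * h2)
  have h0 : ∀ a : F, a ≠ 0 → a ^ 2 ≠ 4 := fun a h h' => h (h4 a h')
  have hτ0 : τ ≠ 0 := fun h => hτ 1 (by rw [h]; linear_combination h2)
  let c : SL2 F := sl2 0 (-1) 1 τ (by simp)
  have hc : (c : M2 F).trace = τ := by simp [c]
  have hx := V.reg hD hgen hzH hz (m := c) (H33.isEll_iff.2 fun y => by rw [hc, c.det_coe]; exact hτ y) h1
  have hz1 : ∀ m, z * V.φ m = V.φ m * z := fun m => by rw [hz, cj_one]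
  have hz' : Act V.φ z⁻¹ 1 := fun m => by rw [cj_one, inv_mul_eq_iff_eq_mul, ← mul_assoc, hz1, mul_inv_cancel_right]
  obtain ⟨c', hc'⟩ := V.conj_mem c
  have hτ' : (c' : M2 F).trace ≠ 0 := fun h => hτ0 (by
    have h3 : c' * c' = 1 := Subtype.ext (by
      rw [Matrix.SpecialLinearGroup.coe_mul, sq_eq, h, c'.det_coe]
      apply m2_ext <;> simp <;> linear_combination -h2)
    have h5 : V.φ (c * c) = 1 := by
      rw [← mul_left_inj (V.φ (weyl F) * R.ν), ← mul_right_inj (V.φ (weyl F) * R.ν)⁻¹, one_mul, inv_mul_cancel,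
        ← map_one V.φ, ← h3, map_mul, map_mul, hc']
      group
    have := V.mem_B.1 (h5 ▸ D.B.one_mem)
    rw [sl_mul_apply] at this
    simpa [c] using this)
  have key : ∀ A B : SL2 F, (A : M2 F).trace = τ → (B : M2 F).trace = (c' : M2 F).trace →
      R.Sx (V.φ c * z) (V.φ (A * B)) := fun A B hA hB =>
    ⟨_, mul_mem (V.mem_L A) (R.H_le_L hzH), _, mul_mem (V.mem_L B) (R.H_le_L (inv_mem hzH)),
      (hz.rel c).isConj (hz.rel A) (by rw [c.det_coe, hc, mul_one]; exact h0 _ hτ0) (hA.trans hc.symm)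
        (A.2.trans c.2.symm),
      (isConj_iff.2 ⟨(V.φ (weyl F) * R.ν)⁻¹, by
        rw [hc', ← V.inv z hzH]
        calc _ = (V.φ (weyl F) * R.ν)⁻¹ * V.φ c * (z * V.φ (weyl F)) * R.ν := by group
          _ = _ := by rw [hz1]; group⟩ : IsConj _ (V.φ c' * z⁻¹)).trans ((hz'.rel c').isConj (hz'.rel B)
        (by rw [c'.det_coe, mul_one]; exact h0 _ hτ') hB (B.2.trans c'.2.symm)),
      by rw [map_mul, mul_assoc, ← mul_assoc z, hz1]; group⟩
  refine ⟨_, not_dvd_orderOf hx, fun g => V.fin hD hgen hx (fun m hm h => ?_) ?_⟩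
  · obtain ⟨A, B, hA, hB, rfl⟩ := exists_prod hm (Or.inl (h0 _ h))
    exact key A B hA hB
  by_cases h : (c' : M2 F).trace = τ
  · exact .inl (by simpa using key c c⁻¹ hc (by rw [trace_inv, hc, h]))
  · refine Or.inr fun m hm => ?_
    obtain ⟨A, B, hA, hB, rfl⟩ := exists_prod hm ((em _).symm.imp_right fun h' =>
      Or.inl ⟨(h4 _ h').trans h2.symm, Or.inl h⟩)
    exact key A B hA hB

end Lv

end H68.Gow
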