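/- The square of a semisimple class covers the large Ree groups. -/
import Cfsg.Agent.H68.OreF1
import Cfsg.Agent.H68.OreD4

set_option autoImplicit false
set_option linter.unusedSectionVars false

namespace H68.Gow

open Cfsg Cfsg.Lie H67 H33 H61 H83 H72 H68.OreSL
open H64 (gen)
open H63 (RS Rt)

variable {K : Type*} [Field K]

section

variable {D : ChevalleyDatum} [RS D] {G : Type*} [Group G] (M : CM D K G)

theorem x_conj_gen {β : ℕ} {Z : List ℕ} (h : β < D.nroots ∧ ∀ r ∈ Z, r ≠ β ∧ r ≠ D.neg β ∧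
    ∀ x ∈ D.commTerms β r, x.1 < D.nroots ∧ x.1 ∈ Z) (t : K) {g : G} (hg : g ∈ gen M.T.X {r | r.1 ∈ Z}) :
    (M.x β t)⁻¹ * g * M.x β t ∈ gen M.T.X {r | r.1 ∈ Z} := by
  have := H64.conj_mem_of_gen (K := gen M.T.X {r | r.1 ∈ Z}) (n := (M.x β t)⁻¹) (fun r hr y hy => ?_) hg
  · rwa [inv_inv] at this
  obtain ⟨u, rfl⟩ := (M.mem_X r y).1 hy
  obtain ⟨h1, h2, h3⟩ := h.2 r hr
  rw [inv_inv, mul_assoc, M.comm' h.1 r.2 h1 h2, mul_assoc, inv_mul_cancel_left]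
  refine mul_mem (H64.le_gen _ hr hy) (M.wd_mem_gen fun x hx => ?_)
  obtain ⟨y, hy, rfl⟩ := List.mem_map.1 hx
  exact ⟨(h3 y hy).1, (h3 y hy).2⟩

theorem conj_tor_inv {w : Equiv.Perm (Rt D)} (hw : w ∈ (rd D).W) {n : G} (hn : n ∈ M.T.N) (h : Ac M.T n w)
    {c : Fin D.rank → Kˣ} (hc : ∀ j, CM.chi c (w ((rd D).sim j)) * CM.chi c (D.simple j) = 1) :
    n⁻¹ * M.tor c * n = (M.tor c)⁻¹ := by
  obtain ⟨c', e⟩ := M.exists_tor (M.T.conj_H (inv_mem hn) (M.tor_mem c))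
  have h1 := M.chi_conj (inv_mem hw) (inv_mem hn) h.inv e
  rw [inv_inv] at e
  rw [e, eq_inv_iff_mul_eq_one, ← map_mul, CM.tor_eq_one_iff]
  intro j
  rw [CM.chi_mul, ← hc j, ← h1, Equiv.Perm.inv_def, Equiv.symm_apply_apply, rd_sim_val]

end

/-- the four nodes -/
def n4 (i : Fin 4) : Fin chevF4.rank := i

/-- the twisted `SL₂` -/
noncomputable def φF (f : K →+* K) : SL2 K →* GL chevF4.Idx K :=
  hxMul ((hxθ K (n4 0)).comp (Matrix.SpecialLinearGroup.map f)) (hxθ K (n4 3))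
    fun _ _ => hxθ_commute (by decide) _ _

theorem φF_apply (f : K →+* K) (g : SL2 K) :
    φF f g = hxθ K (n4 0) (Matrix.SpecialLinearGroup.map f g) * hxθ K (n4 3) g := rfl

theorem φF_upper (f : K →+* K) (t : K) : φF f (upper t) = (mat chevF4 K).wd [(33, f t), (24, t)] := by
  rw [φF_apply, hx_map_upper, hxθ_upper, hxθ_upper, CM.wd_cons, CM.wd_cons, CM.wd_nil, mul_one]; rfl

theorem φF_lower (f : K →+* K) (t : K) : φF f (lower t) = (mat chevF4 K).wd [(14, f t), (23, t)] := by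
  rw [φF_apply, hx_map_lower, hxθ_lower, hxθ_lower, CM.wd_cons, CM.wd_cons, CM.wd_nil, mul_one]; rfl

/-- the roots of the radical -/
def LF : List ℕ := [25, 26, 27, 28, 29, 30, 31, 32, 34, 35, 36, 37, 38, 39, 40, 41, 42, 43, 44, 45, 46, 47]

/-- the higher roots of the other radical -/
def ZF : List ℕ := [24, 26, 29, 31, 32, 36, 38, 39, 40, 41, 42, 43, 44, 45, 46, 47]

theorem nfLF : (mat chevF4 K).NF (Up (mat chevF4 K).T (wP chevF4 [0, 3])) LF := nf_Up _ _ (by decide +kernel)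

theorem nf0F : (mat chevF4 K).NF (Up (mat chevF4 K).T (wP chevF4 [0])) (24 :: LF) := nf_Up _ _ (by decide +kernel)

theorem gen_le0 {Z : List ℕ} (h : ∀ r ∈ Z, r ∈ 24 :: LF) :
    gen (mat chevF4 K).T.X {r | r.1 ∈ Z} ≤ Up (mat chevF4 K).T (wP chevF4 [0]) :=
  H64.gen_le fun r hr y hy => by
    obtain ⟨t, rfl⟩ := ((mat chevF4 K).mem_X r y).1 hy
    exact nf0F.mem _ (h _ hr) t

variable [CharP K 2]

theorem hrF (a b : K) : ∃ r ∈ Up (mat chevF4 K).T (wP chevF4 [0, 3]), (mat chevF4 K).wd [(37, a), (32, b)] *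
    (mat chevF4 K).wd [(19, 1), (17, 1)] =
    (mat chevF4 K).wd [(19, 1), (17, 1)] * ((mat chevF4 K).wd [(33, a), (24, b)] * r) := by
  have h := engF4 [a, b] (by simp) ([(37, [(1, [0])]), (32, [(1, [1])])] ++ [(19, [(1, [])]), (17, [(1, [])])])
    ([(19, [(1, [])]), (17, [(1, [])])] ++ ([(33, [(1, [0])]), (24, [(1, [1])])] ++
      [(26, [(1, [1])]), (29, [(1, [1])]), (32, [(1, [1])]), (34, [(1, [0])]), (36, [(1, [0, 1])]), (37, [(1, [0])]),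
        (39, [(1, [0, 1])]), (41, [(1, [0, 0])]), (43, [(1, [0, 0, 1])]), (44, [(1, [0, 0, 1])])])) (by decide +kernel)
  simp only [evPW, List.map_append, CM.wd_append] at h
  refine ⟨_, nfLF.wd_mem ?_, (congrArg₂ _ ?_ ?_).trans (h.trans (congrArg₂ _ ?_ (congrArg₂ _ ?_ rfl)))⟩ <;>
    simp [LF]

theorem huF (a b c d A B C E : K) (h0 : a + b * A + c * C + d * A * C + d * E = 0) :
    ((mat chevF4 K).wd [(20, A), (22, B), (19, C), (17, E)])⁻¹ * (mat chevF4 K).wd [(33, a), (34, b), (35, c), (37, d)] *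
      (mat chevF4 K).wd [(20, A), (22, B), (19, C), (17, E)] ∈ Up (mat chevF4 K).T (wP chevF4 [0]) := by
  have h := engF4 [a, b, c, d, A, B, C, E] (by simp)
    ([(33, [(1, [0])]), (34, [(1, [1])]), (35, [(1, [2])]), (37, [(1, [3])])] ++
      [(20, [(1, [4])]), (22, [(1, [5])]), (19, [(1, [6])]), (17, [(1, [7])])])
    ([(20, [(1, [4])]), (22, [(1, [5])]), (19, [(1, [6])]), (17, [(1, [7])])] ++
      ([(33, [(1, [0]), (1, [1, 4]), (1, [2, 6]), (1, [3, 4, 6]), (1, [3, 7])])] ++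
      [(34, [(1, [1]), (1, [2, 5]), (1, [3, 4, 5]), (1, [3, 6])]), (35, [(1, [2]), (1, [3, 4])]), (37, [(1, [3])]),
        (41, [(1, [2, 2, 5]), (1, [3, 3, 4, 4, 5]), (1, [3, 3, 7])])])) (by decide +kernel)
  simp only [evPW, List.map_append, CM.wd_append, List.map_cons, List.map_nil, List.sum_cons, List.sum_nil,
    List.prod_cons, List.prod_nil, List.getD_cons_zero, List.getD_cons_succ, Int.cast_one, one_mul, mul_one,
    add_zero] at h
  rw [mul_assoc, h, inv_mul_cancel_left, show a + _ = 0 by linear_combination h0, CM.wd_cons, CM.x_zero]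
  exact mul_mem (by simp) (nf0F.wd_mem (by simp [LF]))

theorem unit_exp {e : ℕ} (he : ∀ x : Kˣ, (x ^ e) ^ (e * 2) = x) {d : Kˣ} {x y : ℤ} {k : ℕ}
    (h : (2 * x ^ 2 - y ^ 2).natAbs = 2 ^ k) (h1 : (d ^ e) ^ y * d ^ x = 1) : d = 1 := by
  have h2 : d ^ y * ((d ^ e) ^ 2) ^ x = 1 := by
    rw [← pow_mul, ← one_pow (e * 2), ← h1, mul_pow, ← zpow_natCast (_ ^ y), ← zpow_natCast (_ ^ x), ← zpow_mul,
      ← zpow_mul, mul_comm y, mul_comm x, zpow_mul, zpow_mul, zpow_natCast, zpow_natCast, he]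
  have h3 : d ^ (2 * x ^ 2 - y ^ 2) = 1 := by
    rw [← one_zpow (2 * x), ← h1, ← mul_one (_ ^ (2 * x)), ← one_zpow (-y), ← h2]
    generalize d ^ e = D
    simp only [mul_zpow, ← zpow_natCast, ← zpow_mul]
    rw [mul_comm (D ^ _), mul_mul_mul_comm, ← zpow_add, ← zpow_add, show y * (2 * x) + (2 : ℕ) * x * -y = 0 by
      push_cast; ring, zpow_zero, mul_one]
    congr 1
    ring
  have h4 : d ^ 2 ^ k = 1 := by rwa [← h, pow_natAbs_eq_one]
  exact Units.ext ((iterateFrobenius K 2 k).injective (by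
    simpa [iterateFrobenius_def] using congrArg Units.val h4))

theorem ore_F4 [Fintype K] {m : ℕ} (hm : 1 ≤ m) (hK : Fintype.card K = 2 ^ (2 * m + 1)) :
    ∃ x : twistedF4 K (2 ^ m), ¬ 2 ∣ orderOf x ∧ ∀ g ≠ 1, Pr x x g := by
  classical
  let f := iterateFrobenius K 2 m
  have hf : ∀ t, f t = t ^ 2 ^ m := fun t => iterateFrobenius_def ..
  have hT := isTw_F4 hK
  have hG := twistedF4_eq_Fix hK
  have hD := good_twF4 2 hK
  have := (simple_F4 hK hm).1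
  have cm : Cmp (mat chevF4 K).T (twChev 2 hT) :=
    ⟨fun _ => mem_twChev_U 2 hT, fun _ => mem_twChev_B 2 hT, fun _ => mem_twChev_N 2 hT⟩
  obtain ⟨ν, hν, hac⟩ := hT.exists_N (w := wP chevF4 ([0, 3, 1, 2, 1, 2, 0, 3, 1, 2, 1, 2] ++
      [0, 3, 1, 2, 1, 2, 0, 3, 1, 2, 1, 2])) (by
    have h := mul_mem (twF4.wo_mem_Wf 0) (twF4.wo_mem_Wf 1)
    have := mul_mem (mul_mem h h) (mul_mem h h)
    rwa [wo0_F4, wo1_F4, ← wP_append, ← wP_append, ← wP_append] at this)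
  have h0 : ∀ r, wP chevF4 ([0, 3, 1, 2, 1, 2, 0, 3, 1, 2, 1, 2] ++ [0, 3, 1, 2, 1, 2, 0, 3, 1, 2, 1, 2]) r =
      (rd chevF4).neg r := fun r => Fin.ext (by
    rw [wP_val, rd_neg_val]
    exact (by decide +kernel : ∀ r < 48, fN chevF4 ([0, 3, 1, 2, 1, 2, 0, 3, 1, 2, 1, 2] ++
      [0, 3, 1, 2, 1, 2, 0, 3, 1, 2, 1, 2]) r = chevF4.neg r) r r.2)
  let ν' : twistedF4 K (2 ^ m) := ⟨ν, hν.2⟩
  have hν' := (cm.N ν').2 hν.1
  let s : Fin 2 → (twChev 2 hT).P.S := fun o => ⟨⟨hT.no o, hT.no_mem o⟩, o, rfl⟩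
  have hs : ∀ o, Ac (mat chevF4 K).T (s o : twistedF4 K (2 ^ m)) (twF4.wo o) := hT.ac_no
  have hinv : ∀ o, (twF4.wo o)⁻¹ = twF4.wo o := fun o => inv_eq_of_mul_eq_one_right (Tw.wo_mul_wo o)
  have hW : ∀ o, twF4.wo o ∈ (rd chevF4).W := fun o => twF4.Wf_le_W (twF4.wo_mem_Wf o)
  let R := cm.rk2 (ν := ν') (s 0) (s 1) (fun h => by
      have h1 := hs 0
      rw [h] at h1
      exact absurd (TwG.wo_inj (h1.unique (hs 1) (hW _) (hW _))) (by decide))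
    (by rintro ⟨_, o, rfl⟩; fin_cases o; exacts [.inl rfl, .inr rfl]) (hs 0) (hinv 0) (hW 0) hν' hac h0
  have hV : ∀ {o g}, g ∈ VJ (mat chevF4 K).T (twF4.J {o}) ∧ (smF4 hK).σ g = g → g ∈ twistedF4 K (2 ^ m) :=
    fun h => hG.ge ⟨(mat chevF4 K).T.gen_le_Gp _ h.1, h.2⟩
  let φ : SL2 K →* twistedF4 K (2 ^ m) := (φF f).codRestrict _ fun a => (H12.LC.sl_induction
    (K := (twistedF4 K (2 ^ m)).comap (φF f)) (fun t => hG.ge ((mem_Fix_F4 hK nfU0_F4).2 ((fixU0_F4 hK).2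
      ⟨t, by rw [φF_upper, hf]; rfl⟩)).2) fun t => hV ((fixV0_F4 hK).2 ⟨t, by rw [φF_lower, hf]; rfl⟩)).ge
      (Subgroup.mem_top a)
  have hφ : ∀ a, (φ a : GL chevF4.Idx K) = φF f a := fun _ => rfl
  have hR : ∀ o (g : twistedF4 K (2 ^ m)), g ∈ (twChev 2 hT).R {s o} ↔
      (g : GL chevF4.Idx K) ∈ Up (mat chevF4 K).T (twF4.wo o) := fun o g => cm.mem_R (hs o) (hinv o)
  have hRi := hR 0
  rw [wo0_F4] at hRi
  have hX : ∀ g, g ∈ (twChev 2 hT).X (s 0) ↔ ∃ t, g = φ (upper t) := fun g => by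
    rw [cm.mem_X (hs 0) (hinv 0) hν' hac h0, TwG.Um_wo]
    refine (and_iff_left (hG.le g.2).2).symm.trans ((fixU0_F4 hK).trans ?_)
    simp only [Subtype.ext_iff, hφ, φF_upper, hf, f4PairWord]
  have hup : ∀ t, (φ (upper t) : GL chevF4.Idx K) ∈ Up (mat chevF4 K).T (wP chevF4 [0]) → t = 0 := fun t h => by
    rw [hφ, φF_upper, CM.wd_cons, Subgroup.mul_mem_cancel_right _ (nf0F.wd_mem (by simp))] at h
    have h3 := wP_single (n4 0) ▸ ac_n (T := (mat chevF4 K).T) (n4 0)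
    have h4 := (mat chevF4 K).T.eq_one_of_mem_U_V (h3.conj_Up h)
      (h3.conj_Um ((nf_Um _ _ (L := [33]) (by decide +kernel)).mem _ (by simp) _))
    rw [mul_inv_eq_one, mul_eq_left] at h4
    exact (map_eq_zero f).1 ((mat chevF4 K).x_eq_one ⟨33, by decide⟩ _ h4)
  have hkey : ∀ g : twistedF4 K (2 ^ m), (g : GL chevF4.Idx K) ∈ Up (mat chevF4 K).T (wP chevF4 [0]) →
      g ∈ (twChev 2 hT).R {s 0} := fun g hg => by
    obtain ⟨_, hξ, r, hr, rfl⟩ := (twChev 2 hT).exists_X_mul_R (s 0) ((cm.U g).2 (Up_le_U _ hg))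
    obtain ⟨t, rfl⟩ := (hX _).1 hξ
    obtain ⟨w, hw, e⟩ := nfLF.ex _ ((hRi r).1 hr)
    rw [Subgroup.coe_mul, Subgroup.mul_mem_cancel_right _ (e ▸ nf0F.wd_mem fun p hp =>
      List.mem_cons_of_mem _ (hw ▸ List.mem_map_of_mem hp))] at hg
    rwa [hup t hg, hx_upper_zero, map_one, one_mul]
  have hinj : ∀ t, φ (upper t) = 1 → t = 0 := fun t h => hup t (h ▸ one_mem _)
  let η : Kˣ × Kˣ →* twistedF4 K (2 ^ m) := (hReeF K (2 ^ m)).codRestrict _ (hReeF_mem hK)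
  have hη : ∀ a, (η a : GL chevF4.Idx K) = (mat chevF4 K).tor (tl chevF4 [a.1 ^ 2 ^ m, a.2 ^ 2 ^ m, a.2, a.1]) :=
    fun _ => rfl
  have hH : ∀ h, h ∈ (twChev 2 hT).H ↔ ∃ a, η a = h := fun h => cm.H.trans ⟨fun hh =>
    let ⟨a, e⟩ := (H_inf_F4 hK).le ⟨hh, h.2⟩
    ⟨a, Subtype.ext e⟩, fun ⟨a, e⟩ => e ▸ (mat chevF4 K).tor_mem _⟩
  have hd : ∀ d hd, φ (hxD d hd) = η (Units.mk0 d hd, 1) := fun d hd => Subtype.ext (by
    rw [hφ, hη, φF_apply, hx_map_D, hxθ_D, hxθ_D, ← map_mul]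
    congr 1
    funext i
    have h4 : ∀ (i : Fin 4) (c : Kˣ) j, (Pi.mulSingle (n4 i) c : Fin chevF4.rank → Kˣ) j =
        if (j : ℕ) = i then c else 1 := fun i c j => (Pi.mulSingle_apply _ _ _).trans (if_congr Fin.ext_iff rfl rfl)
    fin_cases i <;> simp [tl, h4, Units.ext_iff, hf])
  have hact : ∀ a, Act φ (η a) (a.1 ^ 2 / a.2) := fun a x => Subtype.ext (by
    rw [Subgroup.coe_mul, Subgroup.coe_mul, hφ, hφ, hη, φF_apply, φF_apply, ← mul_assoc, act_tor, mul_assoc, act_tor,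
      map_cj, ← mul_assoc, show CM.chi _ (chevF4.simple (n4 3)) = _ from (chiF4 _ _ _ _).2.1,
      show CM.chi _ (chevF4.simple (n4 0)) = Units.map (f : K →* K) (a.1 ^ 2 / a.2) from
        (chiF4 _ _ _ _).1.trans (Units.ext (by simp [hf]))])
  refine Lv.main (R := R) ⟨φ, hX, hinj, ?_, fun d h => (hH _).2 ⟨_, (hd d h).symm⟩, fun h hh => ?_, fun h hh => ?_,
    fun h hh => ?_, ?_, fun u hu => ?_, fun z hz h1 u hu e hu1 => ?_, ?_, fun h hh => Subtype.ext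
      ((mat chevF4 K).conj_H_of_neg (inv_mem (wP_mem _)) (Cmp.inv_neg h0) (inv_mem hν.1) hac.inv (cm.H.1 hh))⟩
    hD (gen_of_simple hD)
  · have e : (φ (weyl K) : GL chevF4.Idx K) = ((mat chevF4 K).T.n (n4 0))⁻¹ * ((mat chevF4 K).T.n (n4 3))⁻¹ := by
      rw [hφ, φF_apply, hx_map_weyl, hxθ_weyl, hxθ_weyl]
    have h := (cm.N (φ (weyl K))).2 (e ▸ mul_mem (inv_mem ((mat chevF4 K).T.n_mem_N _))
      (inv_mem ((mat chevF4 K).T.n_mem_N _)))
    refine ⟨h, (cm.wOf_eq h ((twChev 2 hT).S_mem _) ?_ (hs 0)).trans (wOf_S _)⟩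
    have := (ac_n (T := (mat chevF4 K).T) (n4 0)).inv.mul (ac_n (T := (mat chevF4 K).T) (n4 3)).inv
    rw [RD.s_inv, RD.s_inv, ← wP_single, ← wP_single, ← wP_append, ← e] at this
    exact wo0_F4 ▸ this
  · obtain ⟨a, rfl⟩ := (hH h).1 hh
    exact ⟨_, hact a⟩
  · obtain ⟨a, rfl⟩ := (hH h).1 hh
    rw [← map_pow, ← Fintype.card_units, show a ^ Fintype.card Kˣ = 1 from
      Prod.ext pow_card_eq_one pow_card_eq_one, map_one]
  · obtain ⟨⟨d, c⟩, rfl⟩ := (hH h).1 hh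
    obtain ⟨b, hb⟩ := FiniteField.isSquare_of_char_two (ringChar.eq K 2) (c : K)
    have hb0 : b ≠ 0 := fun h => c.ne_zero (by rw [hb, h, mul_zero])
    let t := (Units.mk0 b hb0)⁻¹
    refine ⟨η (1, t), (hH _).2 ⟨_, rfl⟩, d, d.ne_zero, ?_⟩
    rw [show (R.j : twistedF4 K (2 ^ m))⁻¹ * η (1, t) * R.j = (η (1, t))⁻¹ from Subtype.ext (conj_tor_inv _ (hW 1)
      (hT.no_mem_N 1) (hs 1) (c := tl chevF4 [1 ^ 2 ^ m, t ^ 2 ^ m, t, 1]) fun j => ?_), hd, ← map_inv, ← map_mul,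
      ← map_mul]
    · congr 1
      ext <;> simp [hb, t]
    rw [wo1_F4, wP_val, rd_sim_val, chi_tl _ rfl rfl, chi_tl _ rfl rfl]
    obtain ⟨h1, h2⟩ := (by decide +kernel : ∀ j : Fin chevF4.rank,
      chevF4.cartan 1 (fN chevF4 [1, 2, 1, 2] (chevF4.simple j)) = -chevF4.cartan 1 (chevF4.simple j) ∧
      chevF4.cartan 2 (fN chevF4 [1, 2, 1, 2] (chevF4.simple j)) = -chevF4.cartan 2 (chevF4.simple j)) j
    simp [show colC chevF4 = fun r => [chevF4.cartan 0 r, chevF4.cartan 1 r, chevF4.cartan 2 r, chevF4.cartan 3 r]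
      from rfl, h1, h2, mul_assoc, mul_left_comm]
  · refine ⟨⟨(mat chevF4 K).wd [(19, 1), (17, 1)], hV ((fixV1_F4 hK).2 ⟨0, 1, by simp [b2ClassWord]⟩)⟩,
      mem_cjs.2 ((cm.mem_X (hs 1) (hinv 1) hν' hac h0).2 ?_), fun ξ hξ => ?_⟩
    · have := (hs 1).inv.conj_gen (S := {r | r.1 ∈ [19, 17]}) (S' := {r | (rd chevF4).pos r ∧
        ¬ (rd chevF4).pos (twF4.wo 1 r)}) (fun r hr => by
          rw [hinv]
          simp only [wo1_F4, Set.mem_ofPred_eq, rd_pos, wP_val]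
          exact (by decide +kernel : ∀ r ∈ [19, 17], chevF4.IsPosRoot (fN chevF4 [1, 2, 1, 2] r) ∧
            ¬ chevF4.IsPosRoot (fN chevF4 [1, 2, 1, 2] (fN chevF4 [1, 2, 1, 2] r))) r hr)
        ((mat chevF4 K).wd_mem_gen (w := [(19, 1), (17, 1)]) (by simp; decide))
      rwa [inv_inv] at this
    · obtain ⟨t, rfl⟩ := (hX _).1 hξ
      obtain ⟨r, hr, e⟩ := hrF (f t) t
      refine ⟨⟨(mat chevF4 K).wd [(37, f t), (32, t)], hG.ge ⟨(mat chevF4 K).wd_mem_Gp (by simp; decide), ?_⟩⟩,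
        (hRi _).2 (nfLF.wd_mem (by simp [LF])), (hRi _).2 ?_⟩
      · refine (smF4_wd hK (by simp)).trans ?_
        simp only [hf, List.map, rhoF4, expF4, List.getD_cons_succ, List.getD_cons_zero, pow_theta2 hK, mul_one,
          CM.wd_cons, CM.wd_nil]
        exact (mat chevF4 K).x_comm (by decide) (by decide) (by decide) (by decide) _ _
      · simp only [Subgroup.coe_mul, Subgroup.coe_inv, hφ, φF_upper]
        rwa [mul_assoc _ _ ((mat chevF4 K).wd [(19, 1), (17, 1)]), e, inv_mul_cancel_left, inv_mul_cancel_left]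
  · have h1 := (hR 1 u).1 hu
    rw [wo1_F4] at h1
    obtain ⟨w, hw, e⟩ := (nf_Up _ _ (L := 33 :: 34 :: 35 :: 37 :: ZF) (by decide +kernel)).ex _ h1
    simp only [map_fst_eq_cons] at hw
    obtain ⟨a, _, rfl, b, _, rfl, c, _, rfl, d, w, rfl, hw⟩ := hw
    have h2 : ∀ Z : List ℕ, ZF ⊆ Z → (mat chevF4 K).wd w ∈ gen (mat chevF4 K).T.X {r | r.1 ∈ Z} := fun Z hZ =>
      (mat chevF4 K).wd_mem_gen fun p hp =>
        have := hw ▸ List.mem_map_of_mem (f := Prod.fst) hp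
        ⟨(by decide : ∀ r ∈ ZF, r < chevF4.nroots) _ this, hZ this⟩
    by_cases h7 : d = 0
    · refine ⟨(s 1 : twistedF4 K (2 ^ m))⁻¹, hkey _ ?_⟩
      rw [inv_inv]
      refine (hs 1).conj_gen (S := {r | r.1 ∈ 33 :: 34 :: 35 :: ZF}) (fun r hr => ?_) ?_
      · simp only [wo1_F4, Set.mem_ofPred_eq, rd_pos, wP_val]
        exact (by decide +kernel : ∀ r ∈ 33 :: 34 :: 35 :: ZF, chevF4.IsPosRoot (fN chevF4 [1, 2, 1, 2] r) ∧
          chevF4.IsPosRoot (fN chevF4 [0] (fN chevF4 [1, 2, 1, 2] r))) r hr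
      · rw [show (u : GL chevF4.Idx K) = (mat chevF4 K).wd [(33, a), (34, b), (35, c)] * (mat chevF4 K).wd w by
          simp only [e, h7, CM.wd_cons, CM.x_zero, one_mul, CM.wd_nil, mul_one, mul_assoc]]
        exact mul_mem ((mat chevF4 K).wd_mem_gen (by simp; decide)) (h2 _ fun _ h => by simp [h])
    refine ⟨⟨_, hV ((fixV1_F4 hK).2 ⟨(c / d) ^ (2 ^ m * 2), ((a + b * (c / d)) / d) ^ 2 ^ m, rfl⟩)⟩, hkey _ ?_⟩
    simp only [Subgroup.coe_mul, Subgroup.coe_inv, b2ClassWord, pow_theta2' hK, mul_comm 2, pow_theta2 hK]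
    generalize (c / d) ^ (2 ^ m * 2) = B
    generalize B ^ (2 ^ m + 1) + _ = C
    have h3 := mul_mem (huF a b c d (c / d) B C ((a + b * (c / d)) / d) (by
      field_simp
      linear_combination (a * d + b * c + c * d * C) * CharTwo.two_eq_zero (R := K))) (gen_le0 (by decide)
      (x_conj_gen _ (β := 17) (by decide) ((a + b * (c / d)) / d) (x_conj_gen _ (β := 19) (by decide) C
        (x_conj_gen _ (β := 22) (by decide) B (x_conj_gen _ (β := 20) (by decide) (c / d) (h2 _ fun _ h => h))))))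
    convert h3 using 1
    simp only [e, CM.wd_cons, CM.wd_nil]
    group
  · obtain ⟨⟨d, c⟩, rfl⟩ := (hH z).1 hz
    obtain rfl : d ^ 2 = c := div_eq_one.1 ((hact _).unique hinj h1)
    by_contra h5
    refine hu1 (Subtype.ext (nfLF.eq_one_of_comm (c := tl chevF4 [d ^ 2 ^ m, (d ^ 2) ^ 2 ^ m, d ^ 2, d])
      (fun r hr h => h5 ?_) ((hRi u).1 hu) (congrArg Subtype.val e)))
    obtain ⟨k, -, hk⟩ := (by decide +kernel : ∀ r ∈ LF, ∃ k < 6, (2 * (2 * chevF4.cartan 2 r + chevF4.cartan 3 r) ^ 2 -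
      (chevF4.cartan 0 r + 2 * chevF4.cartan 1 r) ^ 2).natAbs = 2 ^ k) r hr
    rw [unit_exp (upow_theta2 hK) hk (d := d) ?_, one_pow]
    · exact map_one η
    rw [← h, chi_tl _ rfl (show colC chevF4 r = [chevF4.cartan 0 r, chevF4.cartan 1 r, chevF4.cartan 2 r,
      chevF4.cartan 3 r] from rfl), pow_right_comm d 2]
    simp [zpow_add, zpow_mul, mul_assoc]
  · obtain ⟨d, h⟩ := exists_sq_ne_one (K := K) (by
      have : 2 ^ 3 ≤ 2 ^ (2 * m + 1) := Nat.pow_le_pow_right two_pos (by omega)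
      omega)
    exact ⟨η (d, d ^ 2), (hH _).2 ⟨_, rfl⟩, div_self' (d ^ 2) ▸ hact (d, d ^ 2), fun e =>
      h (congrArg Prod.snd (hReeF_inj _ ((congrArg Subtype.val e).trans (map_one _).symm)))⟩

end H68.Gow
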