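/- Commutators in symplectic groups (row S2445): reduction to the fields with 2, 3 and 5 elements. -/
import Cfsg.Agent.H68.EG3
import Cfsg.Agent.H91.EGAC
import Cfsg.Agent.H54.SpIso
import Cfsg.Agent.S2444
import Cfsg.Agent.S0244

set_option autoImplicit false
set_option linter.unusedSectionVars false

namespace H68.OreSp

open H54 H54.BNM H54.CD H64 H33 H61 H83 H68.Gow H68.EG H91.EG Matrix
open H57 (xA xA_coe)

universe u

theorem adj_two {F ι G : Type*} [Field F] [Finite F] [Group G] {φ : ι → SL2 F →* G} {r t : ι}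
    (h4 : 4 ≤ Nat.card F) (h5 : Nat.card F ≠ 5)
    (ha : ∀ c : Fˣ, Act (φ t) (φ r (hxD (c : F) c.ne_zero)) (c ^ (-((2 : ℕ) : ℤ)))) : Adj φ r t := by
  by_cases h : Nat.card F = 4
  swap
  · exact adj_of_pow two_pos (Or.inl (by omega)) ha
  intro e
  obtain ⟨c, h1, h2⟩ := exists_unit_ne e one_pos (Or.inr ⟨rfl, h4⟩)
  refine ⟨c, h1, _, ?_, ha c⟩
  rw [_root_.zpow_neg, zpow_natCast, ne_eq, inv_eq_one]
  intro h3
  have h6 : c ^ 3 = 1 := by
    have := pow_card_eq_one' (x := c)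
    rwa [Nat.card_units, h] at this
  rw [pow_succ, h3, one_mul] at h6
  exact h2 (by rw [h6, one_pow])

section Mod

variable {F J G : Type*} {κ : Type} [Field F] [Finite F] [Fintype J] [DecidableEq J] [Fintype κ] [Group G]
  [Finite G] {D : CD F J κ G}

theorem mod_of_cd' (h4 : 4 ≤ Nat.card F) (P : D.Ht) {N n : ℕ} (e : Fin N ≃ P.Sim) (φ : Fin N → SL2 F →* G)
    (β co : Fin N → κ → ℤ) (hβ : ∀ i, β i ∈ ray (e i).1.1)
    (hU : ∀ i, Par D (fun t => φ i (upper t)) (β i)) (hL : ∀ i, Par D (fun t => φ i (lower t)) (-β i))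
    (hi : ∀ i t, φ i (upper t) = 1 → t = 0) (hc : ∀ i, Nat.card (D.US (ray (e i).1.1)) = Nat.card F)
    (hD : ∀ i (c : Fˣ), D.ρ (φ i (hxD (c : F) c.ne_zero)) = dg D.wt (co i) c)
    (conn : ∀ i j, Relation.ReflTransGen
      (fun r t => co r ⬝ᵥ β t = -1 ∨ co r ⬝ᵥ β t = -2 ∧ Nat.card F ≠ 5) i j)
    (hg : gen P.grd.X Set.univ = ⊤) (Λ : SLn n F →* G) (nd : Fin n → Fin N)
    (hΛU : ∀ i t, Λ (eU i t) = φ (nd i) (upper t)) (hΛL : ∀ i t, Λ (eL i t) = φ (nd i) (lower t))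
    {l μ : κ → ℤ} (hl : l ∈ Tor D) (h0 : ∀ i, 0 ≤ l ⬝ᵥ (e i).1.1)
    (hA : ∀ i, l ⬝ᵥ (e i).1.1 = 0 ↔ i ∈ Set.range nd)
    (hs : ∀ a b, (l ⬝ᵥ (D.wt a - D.wt b)).natAbs + 1 < Nat.card F) (hμ : μ ∈ Tor D)
    (hμ' : ∀ i, μ ⬝ᵥ β (nd i) = if (i : ℕ) = 0 then 1 else 0) {L : (κ → ℤ) →+ (κ → ℤ)} (hR : Real D L)
    (hL1 : ∀ v, L (L v) = v) (hL2 : ∀ a, l ⬝ᵥ L (D.wt a) = -(l ⬝ᵥ D.wt a))
    (hL3 : (∀ i, L (e (nd i)).1.1 = (e (nd i)).1.1) ∨ ∀ i, L (e (nd i)).1.1 = -(e (nd i)).1.1) :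
    Mod F G := by
  have up : ∀ i g, g ∈ P.grd.X (P.wd.p (e i)) ↔ ∃ t, g = φ i (upper t) := fun i =>
    iff_of_card ((hU i).mem (hβ i)) (inj_of_hom (fun s t => by rw [hx_upper_add, map_mul]) (hi i)) (hc i)
  have lo : ∀ i g, g ∈ P.grd.X (P.wd.neg (P.wd.p (e i))) ↔ ∃ t, g = φ i (lower t) := fun i =>
    iff_of_card ((hL i).mem (let ⟨t, ht, h⟩ := hβ i; ⟨t, ht, by rw [h, ← smul_neg]; rfl⟩))
      (inj_of_hom (fun s t => by simp only [lower_eq, neg_add, hx_upper_add, map_mul, map_inv]; group)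
        fun t h => neg_eq_zero.1 (hi i _ (by
          rwa [lower_eq, map_mul, map_mul, map_inv, mul_inv_eq_one, mul_eq_left] at h)))
      (by rw [← P.wd.s_p, ← P.wd.sW_val, ← (P.grd.act_n (e i)).map_X,
        Subgroup.card_map_of_injective (MulAut.conj _).injective]; exact hc i)
  have act : ∀ i j (c : Fˣ), Act (φ j) (φ i (hxD (c : F) c.ne_zero)) (c ^ (co i ⬝ᵥ β j)) := fun i j c =>
    act_of_dg (hU j) (hL j) (hD i c)
  obtain ⟨s, hs'⟩ := exists_gen (F := F)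
  obtain ⟨z, hz⟩ := hl s
  have hb : ∀ i, l ⬝ᵥ β (nd i) = 0 := fun i => by
    obtain ⟨t, -, h⟩ := hβ (nd i)
    rw [h, dotProduct_smul, (hA _).2 ⟨i, rfl⟩, smul_zero]
  refine ⟨D.Rt, P.Sim, inferInstance, P.wd, P.grd, n,
    ⟨⟨fun i => φ (e.symm i), fun i => by simpa using up (e.symm i), fun i => by simpa using lo (e.symm i),
      fun i j c => ⟨_, act _ _ c⟩, fun i j => ?_, hg⟩⟩,
    ⟨⟨Λ, fun i => e (nd i), fun i => by simpa only [hΛU] using up (nd i),
      fun i => by simpa only [hΛL] using lo (nd i), fun i h => one_ne_zero (hi _ _ (hΛU i 1 ▸ h)), z,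
      dg_mem_H hz, pow_card_of_dg hz, fun i t => hΛU i t ▸ comm_of_par (hU _) hz (hb i) t,
      fun i t => hΛL i t ▸ comm_of_par (hL _) hz (by rw [dotProduct_neg, hb, neg_zero]) t,
      fix_of_dg P hz (fun i => by simpa using h0 (e.symm i)) (fun i h => ?_)
        fun a b h => by_contra fun h' => hs' _ h' (hs a b) h, fun δ => ?_, ?_⟩⟩⟩
  · have := (conn (e.symm i) (e.symm j)).lift (p := Adj fun i => φ (e.symm i)) e fun r t h => by
      rcases h with h | ⟨h, h6⟩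
      · exact adj_of_pow one_pos (Or.inr ⟨rfl, h4⟩) fun c => by simpa [h] using act r t c
      · exact adj_two h4 h6 fun c => by
          have := act r t c
          rw [h] at this
          simpa using this
    simpa [Function.onFun] using this
  · obtain ⟨k, hk⟩ := (hA (e.symm i)).1 (by simpa using h)
    exact ⟨k, by simp [hk]⟩
  · obtain ⟨y, hy⟩ := hμ δ
    refine ⟨y, comm_of_dg hy hz, fun i t => ?_⟩
    rw [hΛU, hΛU, conj_of_dg (hU _) hy, hμ']
    split_ifs <;> simp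
  · obtain ⟨y, hy⟩ := hR
    refine ⟨y, conj_dg_of_mon hz hy hL2, hL3.imp (fun h i x hx => ?_) fun h => ⟨1, fun i x hx => ?_⟩⟩
    · have := CD.conj_mem_ray hy hL1 hx
      rwa [CD.Ht.wd_p, h] at this
    · have := CD.conj_mem_ray hy hL1 hx
      rwa [CD.Ht.wd_p, h] at this

end Mod

theorem modC (F : Type u) [Field F] [Finite F] (hF : 4 ≤ Nat.card F) (h5 : Nat.card F ≠ 5) (m : ℕ)
    (hm : 2 ≤ m) : Mod F (Matrix.symplecticGroup (Fin m) F) := by
  obtain ⟨n, rfl⟩ : ∃ n, m = n + 1 := ⟨m - 1, by omega⟩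
  have hs := cdSp_short F (n + 1)
  obtain ⟨e, he, -⟩ := typB (htSp F (n + 1)) (fdSp F _).wt_std (fdSp F _).wt_up hs
    (congrArg (htFin _) (if_pos hs))
  choose φ h1 h2 h3 h4 h5' using exists_φ (F := F) (m := n + 1)
  have hl : ∀ i < n + 1, (1 : Fin (n + 1) → ℤ) ⬝ᵥ ev (n + 1) i = 1 := fun i hi => by
    rw [ev_lt hi]; simp
  have hl' : ∀ i : Fin (n + 1), (1 : Fin (n + 1) → ℤ) ⬝ᵥ aB (n + 1) i = if i.val = n then 1 else 0 :=
    fun i => by
      rw [aB, dotProduct_sub, hl _ i.2]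
      split_ifs with h
      · rw [ev_ge (by omega), dotProduct_zero, sub_zero]
      · rw [hl _ (by omega), sub_self]
  refine mod_of_cd' hF (htSp F (n + 1)) e φ _ (fun i => aB (n + 1) i)
    (fun i => ⟨if i.val + 1 < n + 1 then 1 else 2, by split_ifs <;> omega, by rw [he]⟩) h1 h2 h3 (fun i => ?_) h4
    (conn_of fun i j h => ⟨?_, ?_⟩)
    (gen_top_of_perfect _ (htSp_top F _) (sp_commutator_eq_top_of_sq (sq_ne (by omega)))
      (comm_of_diagonal fun i _ h => absurd h (cdSp_wt_ne F _ i)))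
    (lv F (n + 1)) Fin.castSucc (fun i t => (h5' i.castSucc i.succ rfl t).1)
    (fun i t => (h5' i.castSucc i.succ rfl t).2) (torC 1) (fun i => ?_) (fun i => ?_) (fun a b => ?_)
    (torC (ev _ 0)) (fun i => ?_) (real_neg_of_short (fdSp F _).wt_up hs Finset.univ)
    (sgnH_sgnH _) (fun a => by rw [sgnH_univ, dotProduct_neg]) (.inr fun i => sgnH_univ _)
  · rw [he]
    by_cases h : i.val + 1 < n + 1
    · exact card_aB (fdSp F _) rfl (fun _ => Iff.rfl) h
    · have : IsEmpty {k // (fdSp F (n + 1)).wt k = 0} := ⟨fun k => cdSp_wt_ne F _ k.1 k.2⟩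
      rw [card_last (fdSp F _) rfl (fun _ => Iff.rfl) hs (by omega),
        Nat.card_of_isEmpty (α := {k // _}), pow_zero, one_mul]
      exact AddSubgroup.card_top
  · rw [dotProduct_smul, aB_dot i.2 j.2 (by omega), if_pos (Or.inl h)]
    split_ifs
    exacts [.inl rfl, .inr ⟨rfl, h5⟩]
  · rw [dotProduct_smul, aB_dot j.2 i.2 (by omega), if_pos (Or.inr h), if_pos (by omega)]
    exact .inl rfl
  · rw [he, hl']; positivity
  · rw [he, hl', ite_eq_right_iff, imp_iff_not one_ne_zero, Set.mem_range, Fin.exists_castSucc_eq,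
      Ne, Fin.ext_iff, Fin.val_last]
  · have : ∀ a, (1 : Fin (n + 1) → ℤ) ⬝ᵥ (cdSp F (n + 1)).wt a = 1 ∨
        (1 : Fin (n + 1) → ℤ) ⬝ᵥ (cdSp F (n + 1)).wt a = -1 := by
      rintro (a | a) <;> simp [wt_l, wt_r]
    rw [dotProduct_sub]
    have h6 := this a
    have h7 := this b
    omega
  · rw [if_pos (by simp), one_smul]
    simp only [aB, dotProduct_sub, ev_dot, Fin.val_castSucc]
    grind

/-- every element is a commutator -/
def AllCm (G : Type*) [Group G] : Prop := ∀ g : G, ∃ a b : G, g = a * b * a⁻¹ * b⁻¹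

theorem AllCm.of_equiv {G H : Type*} [Group G] [Group H] (h : AllCm G) (e : G ≃* H) : AllCm H :=
  fun g => by
    obtain ⟨a, b, h1⟩ := h (e.symm g)
    exact ⟨e a, e b, by simpa using congrArg e h1⟩

theorem cm_of_thom {G : Type*} [Group G] (h : Thom G) {g : G} (hg : g ∉ Subgroup.center G) :
    ∃ a b : G, g = a * b * a⁻¹ * b⁻¹ := by
  obtain ⟨x, hx, h⟩ := h
  obtain ⟨c, hc⟩ := isConj_iff.1 hx
  obtain ⟨u, v, e⟩ := h g hg
  refine ⟨u * x * u⁻¹, v * c⁻¹ * u⁻¹, ?_⟩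
  have : x = c⁻¹ * x⁻¹ * c := by rw [← hc]; group
  rw [e]
  conv_lhs => enter [2, 1, 2]; rw [this]
  group

theorem cm_neg (F : Type*) [Field F] [Finite F] (l : Type*) [Fintype l] [DecidableEq l] :
    ∃ a b : symplecticGroup l F, spNegOne l F = a * b * a⁻¹ * b⁻¹ := by
  obtain ⟨p, hp⟩ := CharP.exists F
  have : NeZero p := ⟨CharP.char_ne_zero_of_finite F p⟩
  obtain ⟨a, b, h⟩ := CharP.sq_add_sq F p (-1)
  have e : ∀ x y z w x' y' z' w' : F, (fromBlocks (x • 1) (y • 1) (z • 1) (w • 1) *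
      fromBlocks (x' • 1) (y' • 1) (z' • 1) (w' • 1) : Matrix (l ⊕ l) (l ⊕ l) F) =
      fromBlocks ((x * x' + y * z') • 1) ((x * y' + y * w') • 1) ((z * x' + w * z') • 1)
        ((z * y' + w * w') • 1) := fun x y z w x' y' z' w' => by
    simp [fromBlocks_multiply, smul_smul, add_smul, mul_comm]
  have eJ : Matrix.J l F = fromBlocks ((0 : F) • 1) ((-1 : F) • 1) ((1 : F) • 1) ((0 : F) • 1) := by
    simp [Matrix.J]
  push_cast at h
  generalize (a : F) = a at h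
  generalize (b : F) = b at h
  refine ⟨SymplecticGroup.symJ l F, ⟨fromBlocks (a • 1) (b • 1) (b • 1) ((-a) • 1), ?_⟩, ?_⟩
  · rw [SymplecticGroup.mem_iff, fromBlocks_transpose]
    simp only [transpose_smul, transpose_one]
    rw [eJ, e, e]
    congr 2 <;> first | ring1 | linear_combination h | linear_combination -h
  · rw [eq_mul_inv_iff_mul_eq, eq_mul_inv_iff_mul_eq]
    refine Subtype.ext ?_
    change -1 * fromBlocks _ _ _ _ * Matrix.J l F = Matrix.J l F * fromBlocks _ _ _ _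
    rw [neg_one_mul, neg_mul, eJ, e, e, fromBlocks_neg]
    simp only [← neg_smul]
    congr 2 <;> ring1

theorem big (F : Type u) [Field F] [Finite F] (hF : 4 ≤ Nat.card F) (h5 : Nat.card F ≠ 5) (m : ℕ)
    (hm : 2 ≤ m) : AllCm (symplecticGroup (Fin m) F) := fun g => by
  by_cases hg : g ∈ Subgroup.center _
  · rcases mem_center_sp_iff.1 hg with rfl | rfl
    exacts [⟨1, 1, by simp⟩, cm_neg F _]
  · exact cm_of_thom (jobMain F _ hF (modC F hF h5 m hm)) hg

theorem one (F : Type u) [Field F] [Fintype F] (hF : 4 ≤ Fintype.card F) :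
    AllCm (symplecticGroup (Fin 1) F) := fun g => by
  let e : Fin 1 ⊕ Fin 1 ≃ Fin 2 := finSumFinEquiv
  let r := reindexAlgEquiv F F e
  let g' : SpecialLinearGroup (Fin 2) F := ⟨r g.1, by
    rw [det_reindexAlgEquiv]; exact SymplecticGroup.det_eq_one g.2⟩
  obtain ⟨a, b, h⟩ := Cfsg.Agent.S2444.result 2 le_rfl (fun _ => hF) g'
  have k : ∀ a : SpecialLinearGroup (Fin 2) F, r.symm a.1 ∈ symplecticGroup (Fin 1) F := fun a =>
    (Cfsg.Agent.S0244.result _).2 ((det_reindexAlgEquiv F F e.symm a.1).trans a.2)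
  refine ⟨⟨_, k a⟩, ⟨_, k b⟩, ?_⟩
  rw [eq_mul_inv_iff_mul_eq, eq_mul_inv_iff_mul_eq] at h ⊢
  refine Subtype.ext (r.injective ?_)
  have h' : r g.1 * b.1 * a.1 = a.1 * b.1 := congrArg Subtype.val h
  simpa using h'

/-- the fields with three and five elements -/
def JobOdd : Prop := ∀ (F V : Type u) [Field F] [Finite F] [AddCommGroup V] [Module F V]
  [FiniteDimensional F V] (B : LinearMap.BilinForm F V), B.Nondegenerate → B.IsAlt →
  Nat.card F = 3 ∨ Nat.card F = 5 → 4 ≤ Module.finrank F V → AllCm (Isom B)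

/-- the field with two elements -/
def JobTwo : Prop := ∀ (F V : Type u) [Field F] [Finite F] [AddCommGroup V] [Module F V]
  [FiniteDimensional F V] (B : LinearMap.BilinForm F V), B.Nondegenerate → B.IsAlt →
  Nat.card F = 2 → 6 ≤ Module.finrank F V → AllCm (Isom B)

theorem main (ho : JobOdd.{u}) (ht : JobTwo.{u}) {F : Type u} [Field F] [Fintype F] (m : ℕ)
    (hm : 1 ≤ m) (h1 : m = 1 → 4 ≤ Fintype.card F) (h2 : m = 2 → 3 ≤ Fintype.card F) :
    AllCm (symplecticGroup (Fin m) F) := by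
  by_cases e : m = 1
  · subst e; exact one F (h1 rfl)
  have hc := Fintype.one_lt_card (α := F)
  rw [← Nat.card_eq_fintype_card] at h2 hc
  have hd : Module.finrank F (Fin m ⊕ Fin m → F) = 2 * m := by simp [two_mul]
  by_cases c2 : Nat.card F = 2
  · exact (ht F _ _ spB_nondegenerate spB_isAlt c2 (by omega)).of_equiv (spEquivIsom _ F).symm
  by_cases c3 : Nat.card F = 3 ∨ Nat.card F = 5
  · exact (ho F _ _ spB_nondegenerate spB_isAlt c3 (by omega)).of_equiv (spEquivIsom _ F).symm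
  · exact big F (by omega) (by omega) m (by omega)

end H68.OreSp
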