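/- Commutators in symplectic groups over the field with two elements. -/
import Cfsg.Agent.H68.OreSp
import Cfsg.Agent.H93.OrP
import Cfsg.Agent.H53.OClass

set_option autoImplicit false

namespace H68.OreSp

universe u

theorem jobTwo : JobTwo.{u} := by
  intro F V _ _ _ _ _ B hB hA h2 h6 g
  have := Fintype.ofFinite F
  have hc : ringChar F = 2 := by
    rw [FiniteField.even_card_iff_char_two, ← Nat.card_eq_fintype_card, h2]
  have : CharP F 2 := hc ▸ ringChar.charP F
  obtain ⟨Q, rfl, hQ⟩ := H53.exists_qinv_of_char_two (f := g.1.toLinearMap) CharTwo.two_eq_zero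
    (H53.isSF_of_isAlt hB hA) hA g.2
  exact H93.Or.sp_two F V Q hB h2 h6 ⟨g.1, hQ⟩

end H68.OreSp
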