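/- Commutators in special unitary groups (row S2446): gluing the blocks. -/
import Cfsg.Agent.H68.OuSpec

set_option autoImplicit false
set_option linter.unusedSectionVars false

namespace H68.Ou

open Polynomial Module H53 H60.Ore

universe u

variable {F : Type u} [Field F] [Finite F] {σ : F →+* F} {s s' t t' u u' : Multiset F[X]}
  {a b κ D D' : F} {P φ : F[X]} {m : ℕ}

variable (σ) in
/-- `x` and `g⁻¹ x` differ in one eigenvalue -/
def Lk (s : Multiset F[X]) (a D : F) : Prop :=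
  ∃ t t', Tri σ s t t' ∧ t + {X - C (a / dm s)} = t' + {X - C a} ∧ dm t = D ∧ CS σ t

variable (σ) in
/-- odd block -/
def Ob (P : F[X]) : Prop := ∃ φ k, SD σ φ ∧ Irreducible φ ∧ P = φ ^ (2 * k + 1)

variable (σ) in
/-- hyperbolic part -/
def Hy (u : Multiset F[X]) : Prop := Even (dg u) ∧ ∀ κ, M0 σ u κ

variable (σ) in
/-- pairwise coprime odd blocks -/
def Cp (t : Multiset F[X]) : Prop := (∀ P ∈ t, Ob σ P) ∧ ∀ r ≤ t, edc r.prod = r

variable (σ) in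
/-- elementary divisors of a unitary element -/
structure Adm (s : Multiset F[X]) : Prop where
  pp : ∀ P ∈ s, IsPP P
  c0 : ∀ P ∈ s, P.coeff 0 ≠ 0
  sd : s.map (pstar σ) = s

theorem Lk.add (h : Lk σ s a D) (h' : Lk σ s' (a / dm s) D') : Lk σ (s + s') a (D * D') := by
  obtain ⟨t, t', h1, h2, rfl, φ, k, h3, h4, h5, h6⟩ := h
  obtain ⟨r, r', h1', h2', rfl, -⟩ := h'
  refine ⟨_, _, h1.add h1', add_right_cancel (b := {X - C (a / dm s)}) ?_, dm_add _ _,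
    φ, k, h3, h4, Multiset.mem_add.2 (.inl h5), h6⟩
  rw [dm_add, ← div_div]
  calc _ = (t + {X - C (a / dm s)}) + (r + {X - C (a / dm s / dm s')}) := by abel
    _ = _ := by rw [h2, h2']; abel

theorem Lk.mu (h : Lk σ s a D) : Mu σ (dm s) ∧ Mu σ D := by
  obtain ⟨t, t', h1, -, rfl, -⟩ := h
  exact ⟨h1.mu.1, h1.mu.2.1⟩

theorem Lk.good (h : Lk σ s a D) (h1 : dm s = 1) {c : F} (hc : Mu σ c) (e : c ^ dg s * D = 1) :
    Good σ s := by
  obtain ⟨t, t', h2, h3, rfl, h4⟩ := h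
  rw [h1, div_one] at h3
  obtain rfl := add_right_cancel h3
  exact ⟨t, h2, h4, c, hc, e⟩

theorem Lk.good' (h : Lk σ s a D) (h1 : dm s = 1) (e : D = 1) : Good σ s :=
  h.good h1 mu_one (by rw [e, one_pow, one_mul])

theorem Lk.good_pow (h : Lk σ s a D) (h1 : dm s = 1) {r : ℕ} (k : ℕ) (hr : ∀ c, Mu σ c → c ^ r = 1)
    (e : r ∣ k * dg s + 1) : Good σ s := by
  obtain ⟨j, hj⟩ := e
  exact h.good h1 (h.mu.2.pow k) (by rw [← pow_mul, ← pow_succ, hj, pow_mul, hr _ h.mu.2, one_pow])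

theorem lk_of_tri (h : Tri σ s t t) (h1 : dm s = 1) (h2 : CS σ t) : Lk σ s a (dm t) :=
  ⟨t, t, h, by rw [h1, div_one], rfl, h2⟩

theorem Ob.sd (h : Ob σ P) : SD σ P := let ⟨_, _, h, _, e⟩ := h; e ▸ h.pow _

theorem Ob.pp (h : Ob σ P) : IsPP P := let ⟨φ, _, h, h', e⟩ := h; ⟨φ, _, h.mon, h', by omega, e⟩

theorem SD.lin (h : SD σ φ) (h1 : φ.natDegree = 1) : ∃ l, Mu σ l ∧ φ = X - C l :=
  ⟨-φ.coeff 0, h.mu.neg, by rw [h.mon.eq_X_add_C h1]; simp⟩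

theorem Ob.lin (h : Ob σ P) (h1 : P.natDegree = 1) : ∃ l, Mu σ l ∧ P = X - C l := h.sd.lin h1

theorem ob_lin (h : Mu σ a) (k : ℕ) : Ob σ ((X - C a) ^ (2 * k + 1)) :=
  ⟨_, k, sd_lin h, irreducible_X_sub_C a, rfl⟩

theorem Cp.mono (h : Cp σ t) (h1 : t' ≤ t) : Cp σ t' :=
  ⟨fun P hP => h.1 P (Multiset.mem_of_le h1 hP), fun r hr => h.2 r (hr.trans h1)⟩

theorem edc_one : edc (1 : F[X]) = 0 := by
  have := finite_adjoinRoot (one_ne_zero (α := F[X]))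
  rw [edc_eq one_ne_zero, ed_eq_zero_iff, ← finrank_zero_iff (R := F), finrank_adjoinRoot one_ne_zero,
    natDegree_one]

theorem cp_zero : Cp σ 0 := ⟨by simp, fun r hr => by
  rw [Multiset.le_zero.1 hr, Multiset.prod_zero, edc_one]⟩

theorem sd_prod (h : ∀ P ∈ t, SD σ P) : SD σ t.prod ∧ t.prod.natDegree = dg t := by
  induction t using Multiset.induction_on with
  | empty => exact ⟨⟨by simp, by simp, by simp⟩, by simp⟩
  | cons P t ih =>
    have h1 := h P (Multiset.mem_cons_self _ _)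
    obtain ⟨h2, h3⟩ := ih fun Q hQ => h Q (Multiset.mem_cons_of_mem hQ)
    rw [Multiset.prod_cons, h1.mon.natDegree_mul h2.mon, h3, dg_cons]
    exact ⟨h1.mul h2, rfl⟩

theorem Cp.step (h : Cp σ t) (hP : Ob σ P) : Cp σ (P ::ₘ t) ∨ ∃ φ i j r, SD σ φ ∧ Irreducible φ ∧
    P = φ ^ (2 * i + 1) ∧ t = φ ^ (2 * j + 1) ::ₘ r := by
  classical
  by_cases h1 : ∀ Q ∈ t, IsCoprime P Q
  · refine .inl ⟨fun Q hQ => (Multiset.mem_cons.1 hQ).elim (· ▸ hP) (h.1 Q), fun r hr => ?_⟩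
    by_cases h2 : r ≤ t
    · exact h.2 r h2
    obtain ⟨r, rfl⟩ : ∃ r', r = P ::ₘ r' := Multiset.exists_cons_of_mem (by_contra fun h3 =>
      h2 ((Multiset.le_cons_of_notMem h3).1 hr))
    have h3 := (Multiset.cons_le_cons_iff _).1 hr
    rw [Multiset.prod_cons, edc_mul hP.pp.ne_zero
      (sd_prod fun Q hQ => (h.1 Q (Multiset.mem_of_le h3 hQ)).sd).1.mon.ne_zero ?_, edc_pp hP.pp,
      h.2 r h3, Multiset.singleton_add]
    simpa using isCoprime_multiset_prod (s := {P}) (t := r)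
      (by simpa using fun Q hQ => h1 Q (Multiset.mem_of_le h3 hQ))
  · push Not at h1
    obtain ⟨Q, hQ, h2⟩ := h1
    obtain ⟨φ, i, h3, h4, rfl⟩ := hP
    obtain ⟨ψ, j, h5, h6, rfl⟩ := h.1 Q hQ
    obtain rfl : φ = ψ := by_contra fun e =>
      h2 (isCoprime_of_monic_irreducible_ne h3.mon h4 h5.mon h6 e).pow
    obtain ⟨r, rfl⟩ := Multiset.exists_cons_of_mem hQ
    exact .inr ⟨φ, i, j, r, h3, h4, rfl, rfl⟩

theorem eq_zero_of_dg (h : ∀ P ∈ t, IsPP P) (h0 : dg t = 0) : t = 0 := by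
  induction t using Multiset.induction_on with
  | empty => rfl
  | cons P t _ =>
    have := (h P (Multiset.mem_cons_self _ _)).natDegree_pos
    rw [dg_cons] at h0
    omega

theorem Cp.small (h : Cp σ t) (h1 : dg t ≤ 1) : t = 0 ∨ ∃ l, Mu σ l ∧ t = {X - C l} := by
  rcases t.empty_or_exists_mem with rfl | ⟨P, hP⟩
  · exact .inl rfl
  obtain ⟨r, rfl⟩ := Multiset.exists_cons_of_mem hP
  have h2 := (h.1 P hP).pp.natDegree_pos
  rw [dg_cons] at h1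
  obtain rfl := eq_zero_of_dg (fun Q hQ => (h.1 Q (Multiset.mem_cons_of_mem hQ)).pp) (by omega : dg r = 0)
  obtain ⟨l, h3, rfl⟩ := (h.1 P hP).lin (by omega)
  exact .inr ⟨l, h3, rfl⟩

theorem Adm.erase (h : Adm σ (s + t)) (hs : s.map (pstar σ) = s) : Adm σ t :=
  ⟨fun P hP => h.pp P (Multiset.mem_add.2 (.inr hP)), fun P hP => h.c0 P (Multiset.mem_add.2 (.inr hP)),
    add_left_cancel (a := s) (by have := h.sd; rwa [Multiset.map_add, hs] at this)⟩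

variable (σ) in
/-- all the ingredients -/
structure Jb : Prop where
  cj : Cj σ
  pp : JobPP.{u}
  c : JobC.{u}
  s : JobS.{u}
  h : JobH.{u}
  n : JobN.{u}
  d : JobD.{u}
  w : JobW.{u}

namespace Jb

variable (J : Jb σ)
include J

theorem tri_lin (hl : Mu σ a) (hb : Mu σ b) : Tri σ {X - C a} {X - C (b * a)} {X - C b} := by
  simpa [-map_mul, edc_lin] using (J.d F σ J.cj).1 {a} b (by simp) (by simpa using hl) hb

theorem lk_lin {l : F} (hl : Mu σ l) (ha : Mu σ a) : Lk σ {X - C l} a a := by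
  have := J.tri_lin hl (ha.div hl)
  rw [div_mul_cancel₀ _ hl.ne] at this
  exact ⟨_, _, this, by simp [add_comm], by simp,
    .of_irr (monic_X_sub_C a) (irreducible_X_sub_C a) (by simp)⟩

theorem lk_one (hD : Mu σ D) : Lk σ {X - C 1} a D := by
  have := J.tri_lin mu_one hD
  rw [mul_one] at this
  simpa only [dm_singleton, dt_lin] using lk_of_tri (a := a) this (by rw [dm_singleton, dt_lin])
    (.of_irr (monic_X_sub_C D) (irreducible_X_sub_C D) (by simp))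

theorem lk_even (h : M1 σ s κ) (h1 : dg s = 2 * m) (h2 : dm s = 1) (h3 : Av σ m D) : Lk σ s a D := by
  obtain ⟨χ, h3⟩ := h3
  exact h3.dm ▸ lk_of_tri ((J.pp F σ s κ χ m D J.cj h h3).1 h1 h2) h2
    (.of_irr h3.mon h3.irr (by simp [pr]))

theorem lk_odd (h : M1 σ s κ) (h1 : dg s = 2 * m + 1) (hκ : Mu σ κ) (h2 : κ ≠ dm s) (h3 : Av σ m D)
    (ha : Mu σ a) : Lk σ s a (a * D) := by
  obtain ⟨χ, h3⟩ := h3
  exact ⟨_, _, (J.pp F σ s κ χ m D J.cj h h3).2 h1 hκ h2 a ha, by abel, by simp [h3.dm],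
    .of_irr h3.mon h3.irr (by simp [pr])⟩

theorem odd (h : Ob σ P) : Odd P.natDegree := by
  obtain ⟨φ, k, h1, h2, rfl⟩ := h
  rw [natDegree_pow]
  exact (odd_two_mul_add_one k).mul ((J.n F σ J.cj).2.2.1 φ h1 h2)

theorem hy_add (h : Hy σ u) (h' : Hy σ u') : Hy σ (u + u') :=
  ⟨dg_add u u' ▸ h.1.add h'.1, fun κ => (J.s F σ _ _ κ κ J.cj).1 (h.2 κ) (h'.2 κ) h.1⟩

theorem hy_zero : Hy σ 0 :=
  ⟨by simp, fun κ => by simpa using (J.s F σ 0 0 κ κ J.cj).2.2.2 (by simp) (by simp)⟩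

theorem hy_two (h1 : SD σ φ) (h2 : Irreducible φ) (i j : ℕ) :
    Hy σ {φ ^ (2 * i + 1), φ ^ (2 * j + 1)} :=
  ⟨⟨(i + j + 1) * φ.natDegree, by simp [natDegree_pow]; ring⟩,
    fun κ => ((J.h F σ i j κ J.cj).1 φ h1 h2).2⟩

/-- the two kinds of self-dual blocks -/
theorem sd_cases (h1 : IsPP P) (h2 : P.coeff 0 ≠ 0) (h3 : pstar σ P = P) :
    Ob σ P ∨ Hy σ {P} ∧ 2 ≤ dg {P} := by
  obtain ⟨φ, k, h4, h5, h6, rfl⟩ := h1
  rw [pstar_pow] at h3
  have h7 : SD σ φ := ⟨h4, (coeff_zero_pow_ne_zero_iff h6).1 h2, (monic_irreducible_eq_of_pow_eq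
    (monic_pstar h5.ne_zero) (irreducible_pstar J.cj.inv h4 h5) h4 h5 h6 h3).1⟩
  rcases Nat.even_or_odd' k with ⟨j, rfl | rfl⟩
  · obtain ⟨j, rfl⟩ : ∃ i, j = i + 1 := ⟨j - 1, by omega⟩
    have := h5.natDegree_pos
    refine .inr ⟨⟨⟨(j + 1) * φ.natDegree, by simp [natDegree_pow]; ring⟩,
      fun κ => ((J.h F σ j j κ J.cj).1 φ h7 h5).1⟩, ?_⟩
    rw [dg_singleton, natDegree_pow]
    nlinarith
  · exact .inl ⟨φ, j, h7, h5, rfl⟩

theorem hy_pair (h1 : IsPP P) (h2 : P.coeff 0 ≠ 0) :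
    Hy σ ({P} + ({P} : Multiset F[X]).map (pstar σ)) :=
  ⟨⟨P.natDegree, by simp [natDegree_pstar]⟩, fun κ => (J.s F σ _ 0 κ κ J.cj).2.2.2
    (by simpa using h1) (by simpa using h2)⟩

theorem dec (h : Adm σ s) : ∃ t u, s = u + t ∧ Cp σ t ∧ Hy σ u := by
  refine pstar_induction (p := fun s => ∃ t u, s = u + t ∧ Cp σ t ∧ Hy σ u) J.cj.inv s
    (fun P hP => (h.pp P hP).monic) h.sd ⟨0, 0, rfl, cp_zero, J.hy_zero⟩ ?_ ?_
  · rintro P hP h1 _ ⟨t, u, rfl, h2, h3⟩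
    rcases J.sd_cases (h.pp P hP) (h.c0 P hP) h1 with h4 | h4
    · rcases h2.step h4 with h5 | ⟨φ, i, j, r, h5, h6, rfl, rfl⟩
      · exact ⟨_, u, by rw [← Multiset.singleton_add]; abel, h5, h3⟩
      · exact ⟨r, _, by rw [Multiset.insert_eq_cons, ← Multiset.singleton_add,
          ← Multiset.singleton_add]; abel, h2.mono (Multiset.le_cons_self _ _),
          J.hy_add h3 (J.hy_two h5 h6 i j)⟩
    · exact ⟨t, _, by abel, h2, J.hy_add h4.1 h3⟩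
  · rintro P hP h1 _ ⟨t, u, rfl, h2, h3⟩
    exact ⟨t, _, by abel, h2, J.hy_add (J.hy_pair (h.pp P hP) (h.c0 P hP)) h3⟩

theorem m1_cyc (h : Cp σ t) (h1 : 2 ≤ dg t) (hκ : Mu σ κ) (h2 : Odd (dg t) → t.prod.eval κ ≠ 0) :
    M1 σ t κ := by
  obtain ⟨h3, h4⟩ := sd_prod fun P hP => (h.1 P hP).sd
  exact h.2 t le_rfl ▸ J.c F σ _ κ J.cj h3 (h4 ▸ h1) hκ (h4 ▸ h2)

theorem m1_cp (h : Cp σ t) (h1 : 2 ≤ dg t) (h2 : Hy σ u) (δ : F) :
    ∃ κ, Mu σ κ ∧ κ ≠ δ ∧ M1 σ (u + t) κ := by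
  suffices ∃ κ, Mu σ κ ∧ κ ≠ δ ∧ M1 σ t κ from
    let ⟨κ, a, b, c⟩ := this; ⟨κ, a, b, (J.s F σ _ _ κ κ J.cj).2.1 (h2.2 κ) c h2.1⟩
  obtain ⟨κ, h3, h4, -⟩ := (J.n F σ J.cj).2.2.2.1 δ δ
  by_cases h5 : Odd (dg t) → t.prod.eval κ ≠ 0
  · exact ⟨κ, h3, h4, J.m1_cyc h h1 h3 h5⟩
  push Not at h5
  obtain ⟨h5, h6⟩ := h5
  rw [eval_multiset_prod, Multiset.prod_eq_zero_iff, Multiset.mem_map] at h6
  obtain ⟨P, hP, h6⟩ := h6
  obtain ⟨φ, k, h7, h8, rfl⟩ := h.1 P hP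
  rw [eval_pow, pow_eq_zero_iff (by omega)] at h6
  obtain rfl : φ = X - C κ := (eq_of_monic_of_associated (monic_X_sub_C κ) h7.mon
    ((irreducible_X_sub_C κ).associated_of_dvd h8 (dvd_iff_isRoot.2 h6))).symm
  obtain ⟨r, rfl⟩ := Multiset.exists_cons_of_mem hP
  by_cases h9 : r = 0
  · subst h9
    obtain ⟨κ', h10, h11, h12⟩ := (J.n F σ J.cj).2.2.2.1 δ κ
    exact ⟨κ', h10, h11, J.m1_cyc h h1 h10 fun _ => by simp [sub_eq_zero, h12]⟩
  have h10 := h.mono (Multiset.le_cons_self r _)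
  have h11 : dg r ≠ 0 := fun e => h9 (eq_zero_of_dg (fun Q hQ => (h10.1 Q hQ).pp) e)
  have h12 : Even (dg r) := by
    rw [dg_cons, natDegree_pow, natDegree_X_sub_C, Nat.odd_iff] at h5
    rw [Nat.even_iff]
    omega
  exact ⟨κ, h3, h4, (J.s F σ _ _ κ κ J.cj).2.2.1 ((J.h F σ 0 k κ J.cj).2 h3)
    (J.m1_cyc h10 (by obtain ⟨j, hj⟩ := h12; omega) h3
      fun h => absurd h12 (Nat.not_even_iff_odd.2 h)) h12⟩

theorem av (h1 : 1 ≤ m) (h2 : ¬ (m = 1 ∧ Nat.card F = 4)) : ∃ D, Mu σ D ∧ Av σ m D := by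
  obtain ⟨n1, n2, -, -, n5, -, n7⟩ := J.n F σ J.cj
  by_cases h : 2 ≤ m
  · exact ⟨1, mu_one, n1 m 1 h mu_one⟩
  obtain rfl : m = 1 := by omega
  rcases n5 with h3 | h3 | h3
  · exact absurd ⟨rfl, h3⟩ h2
  · obtain ⟨h4, i, hi⟩ := n7 h3
    have : Mu σ i := (h4 i).2 (by linear_combination (i ^ 2 - 1) * hi)
    exact ⟨i, this, n2 i this (.inr ⟨h3, hi⟩)⟩
  · exact ⟨1, mu_one, n2 1 mu_one (.inl h3)⟩

theorem good_m1 (h : M1 σ s κ) (hκ : Mu σ κ) (h1 : κ ≠ 1) (h2 : dm s = 1) (h3 : 3 ≤ dg s)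
    (h4 : ¬ (dg s = 3 ∧ Nat.card F = 4)) : Good σ s := by
  rcases Nat.even_or_odd' (dg s) with ⟨m, e | e⟩
  · exact (J.lk_even (a := 1) h e h2 ((J.n F σ J.cj).1 m 1 (by omega) mu_one)).good' h2 rfl
  · obtain ⟨D, h5, h6⟩ := J.av (m := m) (by omega) (by omega)
    exact (J.lk_odd h e hκ (h2 ▸ h1) h6 h5.inv).good' h2 (inv_mul_cancel₀ h5.ne)

theorem good_cp (h : Cp σ t) (h1 : 2 ≤ dg t) (hu : Hy σ u) (e : s = u + t) (h2 : dm s = 1)
    (h3 : 3 ≤ dg s) (h4 : ¬ (dg s = 3 ∧ Nat.card F = 4)) : Good σ s := by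
  obtain ⟨κ, a, b, c⟩ := J.m1_cp h h1 hu 1
  exact J.good_m1 (e ▸ c) a b h2 h3 h4

/-- there is an even block -/
theorem good_even {b : Multiset F[X]} (hb : Hy σ b) (hb' : ∀ κ, Mu σ κ → M1 σ b κ) (h0 : 2 ≤ dg b)
    (hs : Adm σ s) (h2 : dm (b + s) = 1) (h3 : 3 ≤ dg (b + s))
    (h4 : ¬ (dg (b + s) = 3 ∧ Nat.card F = 4)) : Good σ (b + s) := by
  obtain ⟨t, u, rfl, h5, h6⟩ := J.dec hs
  by_cases h7 : 2 ≤ dg t
  · exact J.good_cp h5 h7 (J.hy_add hb h6) (by abel) h2 h3 h4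
  have h8 : ∀ κ, Mu σ κ → M1 σ (u + b) κ := fun κ hκ =>
    (J.s F σ _ _ κ κ J.cj).2.1 (h6.2 κ) (hb' κ hκ) h6.1
  rcases h5.small (by omega) with rfl | ⟨l, hl, rfl⟩
  · obtain ⟨κ, h9, h10, -⟩ := (J.n F σ J.cj).2.2.2.1 1 1
    exact J.good_m1 (by rw [add_zero, add_comm]; exact h8 κ h9) h9 h10 h2 h3 h4
  have e : b + (u + {X - C l}) = {X - C l} + (u + b) := by abel
  obtain ⟨m, hm⟩ := (J.hy_add h6 hb).1
  rw [e] at h2 h3 h4 ⊢
  by_cases h9 : l = 1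
  · subst h9
    simp only [dg_add, dg_singleton, natDegree_X_sub_C] at h4 hm
    obtain ⟨D, h10, h11⟩ := J.av (m := m) (by omega) (by omega)
    exact ((J.lk_one (a := 1) h10.inv).add (J.lk_even (h8 1 mu_one) (by rw [dg_add]; omega)
      (by rwa [dm_add, dm_singleton, dt_lin, one_mul] at h2) h11)).good' h2 (inv_mul_cancel₀ h10.ne)
  · refine J.good_m1 ((J.s F σ _ _ l l J.cj).2.2.1 ?_ (h8 l hl) ⟨m, hm⟩) hl h9 h2 h3 h4
    simpa using (J.h F σ 0 0 l J.cj).2 hl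

theorem lk_ob (h : Ob σ P) (h1 : P.natDegree = 2 * m + 1) (h0 : 1 ≤ m) (hu : Hy σ u) {k : ℕ}
    (hk : dg u = 2 * k) (h3 : Av σ (k + m) D) (ha : Mu σ a) : Lk σ (u + {P}) a (a * D) := by
  rcases cp_zero.step h with h4 | ⟨_, _, _, _, _, _, _, h4⟩
  · obtain ⟨κ, h5, h6, h7⟩ := J.m1_cp h4 (by simp; omega) hu (dm (u + {P}))
    exact J.lk_odd h7 (by simp; omega) h5 h6 h3 ha
  · exact absurd h4.symm Multiset.cons_ne_zero

theorem lk_ob' (h : Ob σ P) (h1 : P.natDegree = 2 * m + 1) (h0 : 1 ≤ m) (h3 : Av σ m D)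
    (ha : Mu σ a) : Lk σ {P} a (a * D) := by
  simpa using J.lk_ob h h1 h0 J.hy_zero (k := 0) rfl (by simpa using h3) ha

theorem three (h : Ob σ P) (h1 : P.natDegree = 3) :
    (∃ l, Mu σ l ∧ P = (X - C l) ^ 3) ∨ SD σ P ∧ Irreducible P := by
  obtain ⟨φ, k, h2, h3, rfl⟩ := h
  rw [natDegree_pow] at h1
  have := h3.natDegree_pos
  obtain rfl | rfl : k = 0 ∨ k = 1 := by
    have : 2 * k + 1 ≤ 3 := by nlinarith
    omega
  · exact .inr (by simpa using ⟨h2, h3⟩)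
  · obtain ⟨l, h4, rfl⟩ := h2.lin (by omega)
    exact .inl ⟨l, h4, rfl⟩

omit J in
theorem dt_pow (l : F) (k : ℕ) : dt ((X - C l) ^ k) = l ^ k := by
  induction k with
  | zero => simp [dt]
  | succ k ih => rw [pow_succ, dt_mul ((monic_X_sub_C l).pow k) (monic_X_sub_C l), ih, dt_lin, pow_succ]

omit J in
theorem dt_cube (D : F) : dt (X ^ 3 - C D) = D := by
  rw [dt, natDegree_X_pow_sub_C]; simp; ring

theorem lk_four (h : Nat.card F = 4) {l : F} (hl : Mu σ l) (hD : D ^ 3 = 1) (h1 : D ≠ 1) :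
    Lk σ {(X - C l) ^ 3} a D := by
  have h2 := ((J.n F σ J.cj).2.2.2.2.2.1 h l).1 hl
  obtain ⟨h3, h4⟩ := ((J.w F σ J.cj).1 h).1 l D h2 hD h1
  simpa [dt_cube] using lk_of_tri (a := a) h4 (by rw [dm_singleton, dt_pow, h2])
    (.of_irr (monic_X_pow_sub_C D three_ne_zero) h3 (by simp))

theorem weak (h : Ob σ P) (ha : Mu σ a) : ∃ D, Lk σ {P} a D := by
  obtain ⟨m, hm⟩ := J.odd h
  by_cases h0 : m = 0
  · obtain ⟨l, hl, rfl⟩ := h.lin (by omega)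
    exact ⟨_, J.lk_lin hl ha⟩
  by_cases h1 : m = 1 ∧ Nat.card F = 4
  swap
  · obtain ⟨D, -, h2⟩ := J.av (by omega) h1
    exact ⟨_, J.lk_ob' h hm (by omega) h2 ha⟩
  have n6 := (J.n F σ J.cj).2.2.2.2.2.1 h1.2
  rcases J.three h (by omega) with ⟨l, hl, rfl⟩ | ⟨h2, h3⟩
  · obtain ⟨D, h2, h3, -⟩ := (J.n F σ J.cj).2.2.2.1 1 1
    exact ⟨D, J.lk_four h1.2 hl ((n6 D).1 h2) h3⟩
  obtain ⟨-, w2, w3⟩ := (J.w F σ J.cj).1 h1.2
  obtain ⟨D, h4, -, rfl⟩ := w2 P h2 h3 (by omega)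
  obtain ⟨b, c, h5, h6, h7, h8⟩ := w3 a ((n6 a).1 ha)
  have h9 := (n6 D).2 h4
  have h10 := ((J.d F σ J.cj).1 {a / D, b, c} D (by simp)
    (by simpa using ⟨ha.div h9, (n6 b).2 h5, (n6 c).2 h6⟩) h9).swap
  have e : D * ({a / D, b, c} : Multiset F).prod = 1 := by
    have := h9.ne
    simp only [Multiset.insert_eq_cons, Multiset.prod_cons, Multiset.prod_singleton]
    field_simp
    linear_combination h7
  have e' : Multiset.card ({a / D, b, c} : Multiset F) = 3 := rfl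
  rw [e, e', h8, edc_pp (isPP_of_irreducible h2.mon h3)] at h10
  refine ⟨_, _, _, h10, ?_, rfl, .of_irr (monic_X_sub_C a) (irreducible_X_sub_C a) (by simp)⟩
  simp only [dm_singleton, dt_cube, Multiset.insert_eq_cons, Multiset.map_cons, Multiset.map_singleton]
  simp only [← Multiset.singleton_add]
  abel

theorem weak_all (h : ∀ P ∈ t, Ob σ P) (h0 : t ≠ 0) (ha : Mu σ a) : ∃ D, Lk σ t a D := by
  induction t using Multiset.induction_on generalizing a with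
  | empty => exact absurd rfl h0
  | cons P t ih =>
    obtain ⟨D, h1⟩ := J.weak (h P (Multiset.mem_cons_self _ _)) ha
    by_cases h2 : t = 0
    · exact ⟨D, h2 ▸ h1⟩
    obtain ⟨D', h3⟩ := ih (fun Q hQ => h Q (Multiset.mem_cons_of_mem hQ)) h2 (ha.div h1.mu.1)
    exact ⟨_, h1.add h3⟩

theorem good_diag (h : ∀ P ∈ s, Ob σ P ∧ P.natDegree = 1) (h2 : dm s = 1) (h3 : 3 ≤ dg s) :
    Good σ s := by
  obtain ⟨l, hl, rfl, e1, e2⟩ : ∃ l : Multiset F, (∀ a ∈ l, Mu σ a) ∧ s = l.map (fun a => X - C a) ∧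
      dm s = l.prod ∧ dg s = Multiset.card l := by
    clear h2 h3
    induction s using Multiset.induction_on with
    | empty => exact ⟨0, by simp, by simp, by simp, by simp⟩
    | cons P s ih =>
      obtain ⟨l, h1, h2, h3, h4⟩ := ih fun Q hQ => h Q (Multiset.mem_cons_of_mem hQ)
      obtain ⟨h5, h6⟩ := h P (Multiset.mem_cons_self _ _)
      obtain ⟨a, h7, rfl⟩ := h5.lin h6
      exact ⟨a ::ₘ l, by simpa using ⟨h7, h1⟩, by rw [Multiset.map_cons, ← h2], by simp [h3],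
        by simp [h4, add_comm]⟩
  have h4 := (J.d F σ J.cj).1 l ((-1) ^ (Multiset.card l + 1)) (by rintro rfl; simp at h3) hl
    (mu_neg_one.pow _)
  rw [← e1, h2, mul_one] at h4
  refine ⟨_, h4, (J.d F σ J.cj).2 _ (by omega), 1, mu_one, ?_⟩
  rw [one_pow, one_mul, dm_edc (monic_X_pow_sub_C _ (by omega)), dt, natDegree_X_pow_sub_C,
    coeff_sub, coeff_C_zero, coeff_X_pow, if_neg (by omega), zero_sub, pow_succ, mul_neg_one, neg_neg,
    ← mul_pow, neg_mul_neg, one_mul, one_pow]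

/-- two blocks over a small field -/
theorem good_two (h1 : SD σ φ) (h2 : Irreducible φ) {i j : ℕ} (hc : Nat.card F = 4 ∨ Nat.card F = 9)
    (h3 : (φ ^ (2 * i + 1)).natDegree = 3) (h4 : (φ ^ (2 * j + 1)).natDegree ≤ 3)
    (h5 : dm ({φ ^ (2 * i + 1)} + {φ ^ (2 * j + 1)}) = 1) :
    Good σ ({φ ^ (2 * i + 1)} + {φ ^ (2 * j + 1)}) := by
  obtain ⟨-, n2, -, n4, -, n6, n7⟩ := J.n F σ J.cj
  have o1 : Ob σ (φ ^ (2 * i + 1)) := ⟨φ, i, h1, h2, rfl⟩
  have o2 : Ob σ (φ ^ (2 * j + 1)) := ⟨φ, j, h1, h2, rfl⟩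
  obtain ⟨m, hm⟩ := J.odd o2
  by_cases h6 : m = 1
  · obtain rfl : i = j := by
      have := h3.trans (show 3 = (φ ^ (2 * j + 1)).natDegree by omega)
      rw [natDegree_pow, natDegree_pow, mul_left_inj' h2.natDegree_pos.ne'] at this
      omega
    generalize φ ^ (2 * i + 1) = P at *
    have h7 : dm {P} * dm {P} = 1 := by rwa [dm_add] at h5
    rcases hc with hc | hc
    · rcases J.three o1 h3 with ⟨l, hl, rfl⟩ | ⟨h8, h9⟩
      · obtain ⟨D, h8, h9, -⟩ := n4 1 1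
        exact ((J.lk_four (a := 1) hc hl ((n6 hc D).1 h8) h9).add (J.lk_four hc hl
          ((n6 hc _).1 h8.inv) (inv_ne_one.2 h9))).good' h5 (mul_inv_cancel₀ h8.ne)
      · obtain ⟨D, h10, h11, rfl⟩ := ((J.w F σ J.cj).1 hc).2.1 P h8 h9 h3
        rw [dm_singleton, dt_cube] at h7
        exact absurd (by linear_combination h10 - D * h7) h11
    · obtain ⟨h8, c, h9⟩ := n7 hc
      have h10 : Mu σ c := (h8 c).2 (by linear_combination (c ^ 2 - 1) * h9)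
      have h11 := J.lk_ob' o1 h3 le_rfl (n2 c h10 (.inr ⟨hc, h9⟩)) mu_one
      have h12 := h11.mu.1
      refine (h11.add (J.lk_ob' o1 h3 le_rfl (n2 (-c * dm {P}) (h10.neg.mul h12) (.inr ⟨hc, ?_⟩))
        (mu_one.div h12))).good' h5 ?_
      · linear_combination (c * c) * h7 + h9
      · have := h12.ne
        field_simp
        linear_combination -h9
  obtain ⟨l, hl, e⟩ := o2.lin (by omega)
  obtain ⟨rfl, e'⟩ := monic_irreducible_eq_of_pow_eq h1.mon h2 (monic_X_sub_C l)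
    (irreducible_X_sub_C l) (by omega) (e.trans (pow_one _).symm)
  obtain rfl : i = 1 := by rw [natDegree_pow, natDegree_X_sub_C] at h3; omega
  rw [e] at h5 ⊢
  rcases hc with hc | hc
  · obtain ⟨D, h7⟩ := J.weak_all (t := {(X - C l) ^ (2 * 1 + 1)} + {X - C l})
      (by simpa using ⟨o1, e ▸ o2⟩) (by simp) mu_one
    exact h7.good_pow h5 2 (fun c => (n6 hc c).1) (by simp [natDegree_pow])
  have h7 := ((n7 hc).1 l).1 hl
  by_cases h8 : l = 1
  · subst h8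
    obtain ⟨D, h9⟩ := J.weak o1 mu_one
    exact (h9.add (J.lk_one h9.mu.2.inv)).good' h5 (mul_inv_cancel₀ h9.mu.2.ne)
  by_cases h9 : l = -1
  · subst h9
    exact (J.w F σ J.cj).2 hc
  have h10 : l * l = -1 := by
    have : (l - 1) * ((l + 1) * (l * l + 1)) = 0 := by linear_combination h7
    rcases mul_eq_zero.1 this with h | h
    · exact absurd (sub_eq_zero.1 h) h8
    · exact eq_neg_of_add_eq_zero_left
        ((mul_eq_zero.1 h).resolve_left fun h => h9 (eq_neg_of_add_eq_zero_left h))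
  have h11 := J.lk_ob' o1 h3 le_rfl (n2 (l ^ 3) (hl.pow 3) (.inr ⟨hc, by
    linear_combination (l ^ 4 - l ^ 2 + 1) * h10⟩)) mu_one
  refine (h11.add (J.lk_lin hl (mu_one.div h11.mu.1))).good' h5 ?_
  have := hl.ne
  rw [dm_singleton, dt_pow]
  field_simp

/-- only odd blocks -/
theorem good_odd (hs : Adm σ s) (h : ∀ P ∈ s, Ob σ P) (h2 : dm s = 1) (h3 : 3 ≤ dg s)
    (h4 : ¬ (dg s = 3 ∧ Nat.card F = 4)) : Good σ s := by
  classical
  obtain ⟨n1, n2, -, -, n5, n6, n7⟩ := J.n F σ J.cj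
  obtain ⟨P, hP, hmax⟩ := s.toFinset.exists_max_image natDegree (by
    rw [Multiset.toFinset_nonempty]; rintro rfl; simp at h3)
  simp only [Multiset.mem_toFinset] at hP hmax
  obtain ⟨m, hm⟩ := J.odd (h P hP)
  by_cases h0 : m = 0
  · exact J.good_diag (fun Q hQ => ⟨h Q hQ, le_antisymm ((hmax Q hQ).trans (by omega))
      (h Q hQ).pp.natDegree_pos⟩) h2 h3
  have hP' := h P hP
  obtain ⟨s, rfl⟩ := Multiset.exists_cons_of_mem hP
  obtain ⟨t, u, rfl, h5, h6⟩ := J.dec (Adm.erase (s := {P}) hs (by simpa using hP'.sd.sd))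
  rcases h5.step hP' with h7 | ⟨φ, i, j, r, h7, h8, rfl, rfl⟩
  · exact J.good_cp h7 (by rw [dg_cons]; omega) h6 (by rw [Multiset.add_cons]) h2 h3 h4
  obtain ⟨k, hk⟩ := h6.1
  by_cases h9 : 2 ≤ k + m ∨ 16 ≤ Nat.card F
  · have e : φ ^ (2 * i + 1) ::ₘ (u + φ ^ (2 * j + 1) ::ₘ r) =
        u + {φ ^ (2 * i + 1)} + φ ^ (2 * j + 1) ::ₘ r := by rw [← Multiset.singleton_add]; abel
    have key : ∀ D, Mu σ D → Lk σ (u + {φ ^ (2 * i + 1)}) 1 (1 * D) := fun D hD =>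
      J.lk_ob hP' hm (by omega) h6 (k := k) (by omega) (by
        by_cases h10 : 2 ≤ k + m
        · exact n1 _ D h10 hD
        · exact (by omega : 1 = k + m) ▸ n2 D hD (.inl (h9.resolve_left h10))) mu_one
    obtain ⟨D, h10⟩ := J.weak_all h5.1 Multiset.cons_ne_zero (mu_one.div (key 1 mu_one).mu.1)
    rw [e] at h2 ⊢
    exact ((key _ h10.mu.2.inv).add h10).good' h2 (by rw [one_mul, inv_mul_cancel₀ h10.mu.2.ne])
  obtain rfl : u = 0 := eq_zero_of_dg (fun Q hQ => hs.pp Q (by simp [hQ])) (by omega)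
  rw [zero_add] at *
  have hc : Nat.card F = 4 ∨ Nat.card F = 9 := by omega
  have h10 := h5.mono (Multiset.le_cons_self r _)
  have h11 := hmax (φ ^ (2 * j + 1)) (by simp)
  by_cases h12 : 2 ≤ dg r
  · exact J.good_cp h10 h12 (J.hy_two h7 h8 i j) (by simp) h2 h3 h4
  rcases h10.small (by omega) with rfl | ⟨l, hl, rfl⟩
  · exact J.good_two h7 h8 hc (by omega) (by omega) h2
  obtain ⟨D, h13⟩ := J.weak_all h Multiset.cons_ne_zero mu_one
  obtain ⟨m', hm'⟩ := J.odd (h (φ ^ (2 * j + 1)) (by simp))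
  have h14 : dg (φ ^ (2 * i + 1) ::ₘ φ ^ (2 * j + 1) ::ₘ {X - C l}) = 5 ∨
      dg (φ ^ (2 * i + 1) ::ₘ φ ^ (2 * j + 1) ::ₘ {X - C l}) = 7 := by
    rw [dg_cons, dg_cons, dg_singleton, natDegree_X_sub_C]; omega
  rcases hc with hc | hc <;> rcases h14 with h14 | h14
  · exact h13.good_pow h2 1 (fun c => (n6 hc c).1) (by rw [h14]; decide)
  · exact h13.good_pow h2 2 (fun c => (n6 hc c).1) (by rw [h14]; decide)
  · exact h13.good_pow h2 3 (fun c => ((n7 hc).1 c).1) (by rw [h14]; decide)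
  · exact h13.good_pow h2 1 (fun c => ((n7 hc).1 c).1) (by rw [h14]; decide)

theorem good (hs : Adm σ s) (h2 : dm s = 1) (h3 : 3 ≤ dg s)
    (h4 : ¬ (dg s = 3 ∧ Nat.card F = 4)) : Good σ s := by
  by_cases h : ∀ P ∈ s, Ob σ P
  · exact J.good_odd hs h h2 h3 h4
  push Not at h
  obtain ⟨P, hP, h⟩ := h
  have h5 := hs.pp P hP
  have h6 := hs.c0 P hP
  obtain ⟨s, rfl⟩ := Multiset.exists_cons_of_mem hP
  by_cases h7 : pstar σ P = P
  · obtain ⟨h8, h9⟩ := (J.sd_cases h5 h6 h7).resolve_left h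
    refine J.good_even h8 (fun κ hκ => edc_pp h5 ▸ J.c F σ P κ J.cj ⟨h5.monic, h6, h7⟩
      (by simpa using h9) hκ fun h => ?_) h9 (Adm.erase (s := {P}) hs (by simpa using h7)) h2 h3 h4
    exact absurd (by simpa using h8.1) (Nat.not_even_iff_odd.2 h)
  have h8 : pstar σ P ∈ s :=
    (Multiset.mem_cons.1 (hs.sd ▸ Multiset.mem_map_of_mem _ hP)).resolve_left h7
  obtain ⟨s, rfl⟩ := Multiset.exists_cons_of_mem h8
  have h9 := h5.pstar J.cj.inv
  have h10 := h5.natDegree_pos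
  have h11 : IsCoprime P (pstar σ P) := by
    obtain ⟨φ, k, a, b, c, rfl⟩ := h5
    rw [pstar_pow] at h7 ⊢
    exact (isCoprime_of_monic_irreducible_ne a b (monic_pstar b.ne_zero)
      (irreducible_pstar J.cj.inv a b) fun e => h7 (by rw [← e])).pow
  have e : (P * pstar σ P).natDegree = P.natDegree + P.natDegree := by
    rw [h5.monic.natDegree_mul h9.monic, natDegree_pstar]
  have e' : P ::ₘ pstar σ P ::ₘ s = {P} + ({P} : Multiset F[X]).map (pstar σ) + s := by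
    rw [Multiset.map_singleton, add_assoc, Multiset.singleton_add, Multiset.singleton_add]
  rw [e'] at hs h2 h3 h4 ⊢
  refine J.good_even (b := {P} + ({P} : Multiset F[X]).map (pstar σ)) (s := s) (J.hy_pair h5 h6)
    (fun κ hκ => ?_) (by simp [natDegree_pstar]; omega) (Adm.erase hs ?_) h2 h3 h4
  · change M1 σ {P, pstar σ P} κ
    rw [pair_eq_edc h5 h9 h11]
    refine J.c F σ _ κ J.cj ⟨h5.monic.mul h9.monic, ?_, ?_⟩ (by omega) hκ fun h => ?_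
    · rw [mul_coeff_zero]; exact mul_ne_zero h6 (coeff_zero_pstar_ne_zero h6)
    · rw [pstar_mul, pstar_pstar J.cj.inv h5.monic, mul_comm]
    · exact absurd ⟨_, e⟩ (Nat.not_even_iff_odd.2 h)
  · simp only [Multiset.map_add, Multiset.map_singleton, pstar_pstar J.cj.inv h5.monic]
    exact add_comm _ _

end Jb

theorem main (pp : JobPP.{u}) (c : JobC.{u}) (s : JobS.{u}) (h : JobH.{u}) (n' : JobN.{u})
    (d : JobD.{u}) (w : JobW.{u}) (f : JobF.{u}) {F : Type u} [Field F] [Fintype F] (n q : ℕ)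
    (hn : 3 ≤ n) (hF : Fintype.card F = q ^ 2) (hex : ¬ (n = 3 ∧ q = 2)) (g : Cfsg.SU n F q) :
    ∃ a b : Cfsg.SU n F q, g = a * b * a⁻¹ * b⁻¹ := by
  have e : dg (med ((g : Matrix.SpecialLinearGroup (Fin n) F) : Matrix (Fin n) (Fin n) F)) = n :=
    (sum_natDegree_med _).trans (Fintype.card_fin n)
  refine f F n q hF g (Jb.good ⟨⟨H59.frob_ne_id hF, H59.frob_frob hF⟩, pp, c, s, h, n', d, w⟩
    ⟨med_isPP _, (isUnit_iff_med _).1 (suToGU n F q g).1.isUnit, map_pstar_med_GU hF (suToGU n F q g)⟩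
    ?_ (by omega) fun h => hex ⟨by omega, ?_⟩)
  · rw [med, dm_ed, LinearMap.det_toLin']
    exact g.1.2
  · have := h.2
    rw [Nat.card_eq_fintype_card, hF] at this
    exact Nat.pow_left_injective two_ne_zero this

end H68.Ou
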