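import Cfsg.Agent.Base

/-! Fixed points of a Sylow subgroup in a group generated by its Sylow subgroups. -/

set_option autoImplicit false
open MulAction Finset Pointwise
open scoped Classical

namespace H68.Sf

variable {G : Type*} [Group G] [Finite G] {p : ℕ} [hp : Fact p.Prime]
  {A B T : Finset (Sylow p G)} {Ω Y : Finset (Finset (Sylow p G))} {P Q : Sylow p G}

theorem tr {U N : Subgroup G} (hU : IsPGroup p U) (h : U ≤ N) (hQ : ↑Q ≤ N) :
    ∃ n ∈ N, U ≤ ↑(n • Q) := by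
  obtain ⟨W, hW⟩ := (hU.comap_subtype : IsPGroup p (U.subgroupOf N)).exists_le_sylow
  obtain ⟨n, hn⟩ := exists_smul_eq N (Q.subtype hQ) W
  refine ⟨n, n.2, fun x hx => ?_⟩
  have := hW (show (⟨x, h hx⟩ : N) ∈ U.subgroupOf N from hx)
  rw [← hn, Sylow.smul_subtype] at this
  exact this

theorem tr' {N : Subgroup G} (hP : ↑P ≤ N) (hQ : ↑Q ≤ N) : ∃ n ∈ N, n • Q = P := by
  obtain ⟨n, h1, h2⟩ := tr P.2 hP hQ
  exact ⟨n, h1, Sylow.ext (P.3 (n • Q).2 h2)⟩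

/-- every member stabilises the set -/
def Gd (A : Finset (Sylow p G)) : Prop := ∀ Q ∈ A, (Q : Subgroup G) ≤ stabilizer G A

theorem Gd.mem (hA : Gd A) (h0 : A.Nonempty) (hP : ↑P ≤ stabilizer G A) : P ∈ A := by
  obtain ⟨Q, hQ⟩ := h0
  obtain ⟨n, h1, rfl⟩ := tr' hP (hA Q hQ)
  exact (mem_stabilizer_iff.1 h1) ▸ smul_mem_smul_finset hQ

omit [Finite G] hp in
theorem Gd.smul (hA : Gd A) (g : G) : Gd (g • A) := by
  intro Q hQ x hx
  obtain ⟨R, hR, rfl⟩ := mem_smul_finset.1 hQ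
  obtain ⟨y, hy, rfl⟩ : ∃ y ∈ (R : Subgroup G), g * y * g⁻¹ = x := hx
  rw [mem_stabilizer_iff, mul_smul, inv_smul_smul, mul_smul, mem_stabilizer_iff.1 (hA R hR hy)]

omit [Finite G] hp in
theorem Gd.inter (hA : Gd A) (hB : Gd B) : Gd (A ∩ B) := fun Q hQ x hx => by
  rw [mem_stabilizer_iff, smul_finset_inter, mem_stabilizer_iff.1 (hA Q (mem_inter.1 hQ).1 hx),
    mem_stabilizer_iff.1 (hB Q (mem_inter.1 hQ).2 hx)]

omit [Finite G] in
theorem stab_of {X : Type*} [DecidableEq X] [MulAction G X] {Z : Finset X} {x : G}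
    (h : ∀ A ∈ Z, x • A ∈ Z) : x ∈ stabilizer G Z :=
  eq_of_subset_of_card_le (fun A hA => by
    obtain ⟨B, hB, rfl⟩ := mem_smul_finset.1 hA
    exact h B hB) (card_smul_finset x Z).ge

omit [Finite G] in
theorem of_stab {X : Type*} [DecidableEq X] [MulAction G X] {Z : Finset X} {x : G}
    (h : x ∈ stabilizer G Z) {A : X} (hA : A ∈ Z) : x • A ∈ Z :=
  (mem_stabilizer_iff.1 h) ▸ smul_mem_smul_finset hA

theorem fix_eq (hP : ↑P ≤ stabilizer G Ω) (hQ : ↑Q ≤ stabilizer G Ω) :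
    #{A ∈ Ω | P ∈ A} = #{A ∈ Ω | Q ∈ A} := by
  obtain ⟨n, h1, rfl⟩ := tr' hP hQ
  rw [← card_smul_finset n {A ∈ Ω | Q ∈ A}]
  congr 1
  ext A
  rw [mem_filter, ← inv_smul_mem_iff, mem_filter, ← inv_smul_mem_iff (a := n⁻¹), inv_inv]
  exact and_congr_left' ⟨of_stab (inv_mem h1), fun h => by simpa using of_stab h1 h⟩

/-- the weight of `A` at level `T` -/
noncomputable def E (T A : Finset (Sylow p G)) : ℤ := (p - 1) * #T - (2 * p - 1) * #(T ∩ A)

theorem sum_E (hP : P ∈ T) (h : ∀ Q ∈ T, ↑Q ≤ stabilizer G Ω) :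
    ∑ A ∈ Ω, E T A = #T * ((p - 1) * #Ω - (2 * p - 1) * #{A ∈ Ω | P ∈ A} : ℤ) := by
  have := sum_card_inter (s := T) (B := Ω) fun Q hQ => fix_eq (h Q hQ) (h P hP)
  simp only [E, sum_sub_distrib, sum_const, ← mul_sum, nsmul_eq_mul]
  rw [← Nat.cast_sum, this]
  push_cast
  ring

/-- the inductive claim -/
def Cl (T : Finset (Sylow p G)) : Prop := ∀ (Ω Y : Finset (Finset (Sylow p G))) (P : Sylow p G), P ∈ T →
  (∀ A ∈ Ω, Gd A ∧ A.Nonempty ∧ ¬ T ⊆ A) → (∀ Q ∈ T, ↑Q ≤ stabilizer G Ω) → Y ⊆ Ω →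
  (∀ Q ∈ T, ∃ A ∈ Y, Q ∉ A) → (p * (p - #Y) : ℤ) ≤ (p - 1) * #Ω - (2 * p - 1) * #{A ∈ Ω | P ∈ A}

theorem core (ih : ∀ T' ⊂ T, Gd T' → Cl T') (hP : P ∈ T)
    (h1 : ∀ A ∈ Ω, Gd A ∧ A.Nonempty ∧ A ⊂ T) (h2 : ∀ Q ∈ T, ↑Q ≤ stabilizer G Ω) (h3 : Y ⊆ Ω)
    (h4 : ∀ Q ∈ T, ∃ A ∈ Y, Q ∉ A) (hB : B ∈ Y) (h5 : ∀ A ∈ Ω, #A ≤ #B) :
    (p * (p - #Y) : ℤ) ≤ (p - 1) * #Ω - (2 * p - 1) * #{A ∈ Ω | P ∈ A} := by
  obtain ⟨b1, ⟨Q, hQ⟩, b3⟩ := h1 B (h3 hB)
  rw [fix_eq (h2 P hP) (h2 Q (b3.1 hQ))]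
  have := ih B b3 b1 (Ω.erase B) (Y.erase B) Q hQ
    (fun A hA => ⟨(h1 A (mem_of_mem_erase hA)).1, (h1 A (mem_of_mem_erase hA)).2.1, fun h =>
      ne_of_mem_erase hA (eq_of_subset_of_card_le h (h5 A (mem_of_mem_erase hA))).symm⟩)
    (fun R hR x hx => stab_of fun A hA => mem_erase.2 ⟨fun h => ne_of_mem_erase hA
      (MulAction.injective x (h.trans (mem_stabilizer_iff.1 (b1 R hR hx)).symm)),
      of_stab (h2 R (b3.1 hR) hx) (mem_of_mem_erase hA)⟩)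
    (erase_subset_erase B h3) fun R hR => by
      obtain ⟨A, a1, a2⟩ := h4 R (b3.1 hR)
      exact ⟨A, mem_erase.2 ⟨fun h => a2 (h ▸ hR), a1⟩, a2⟩
  rw [filter_erase] at this
  have e1 := card_erase_add_one hB
  have e2 := card_erase_add_one (h3 hB)
  have e3 := card_erase_add_one (mem_filter.2 ⟨h3 hB, hQ⟩ : B ∈ {A ∈ Ω | Q ∈ A})
  rw [← e1, ← e2, ← e3]
  push_cast
  linarith

theorem bound (ih : ∀ T' ⊂ T, Gd T' → Cl T') (hT : Gd T) (hB : Gd B) (h : B ⊂ T) : 0 ≤ E T B := by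
  have p2 : (2 : ℤ) ≤ p := by exact_mod_cast hp.out.two_le
  rcases B.eq_empty_or_nonempty with rfl | h0
  · rw [E, inter_empty, card_empty]
    simpa using mul_nonneg (by linarith : (0 : ℤ) ≤ p - 1) (Int.natCast_nonneg #T)
  obtain ⟨P, hP, hP'⟩ := exists_of_ssubset h
  have : ∃ k, ∃ u ∈ (P : Subgroup G), u • B ≠ B ∧ orderOf u = k := by
    by_contra! h'
    exact hP' (hB.mem h0 fun u hu => by_contra fun h'' => h' _ u hu h'' rfl)
  obtain ⟨u, u1, u2, u3⟩ := Nat.find_spec this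
  obtain ⟨k, hk⟩ := IsPGroup.iff_orderOf.1 P.2 ⟨u, u1⟩
  replace hk : orderOf u = p ^ k := (Subgroup.orderOf_coe (⟨u, u1⟩ : (P : Subgroup G))).trans hk
  have u4 : u ^ p • B = B := by
    by_contra h'
    refine Nat.find_min this ?_ ⟨_, pow_mem u1 p, h', rfl⟩
    obtain rfl | ⟨k, rfl⟩ : k = 0 ∨ ∃ j, k = j + 1 := by cases k <;> simp
    · rw [orderOf_eq_one_iff.1 hk, one_smul] at u2
      exact absurd rfl u2
    · rw [← u3, orderOf_pow' _ hp.out.ne_zero, hk, pow_succ, Nat.gcd_mul_left_left,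
        Nat.mul_div_cancel _ hp.out.pos]
      exact lt_mul_of_one_lt_right (pow_pos hp.out.pos k) hp.out.one_lt
  letI := Fintype.ofFinite (Sylow p G)
  let Ω : Finset (Finset (Sylow p G)) := {A | Gd A ∧ A ⊆ T ∧ #A = #B}
  have hΩ : ∀ x ∈ stabilizer G T, x ∈ stabilizer G Ω := fun x hx => stab_of fun A hA => by
    obtain ⟨a1, a2, a3⟩ := (mem_filter.1 hA).2
    exact mem_filter.2 ⟨mem_univ _, a1.smul x,
      (mem_stabilizer_iff.1 hx) ▸ smul_finset_subset_smul_finset a2, by rw [card_smul_finset, a3]⟩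
  have hB' : B ∈ Ω := mem_filter.2 ⟨mem_univ _, hB, h.1, rfl⟩
  have h1 := core (Ω := Ω) (Y := (range p).image fun i => u ^ i • B) (B := B) ih hP
    (fun A hA => by
      obtain ⟨a1, a2, a3⟩ := (mem_filter.1 hA).2
      exact ⟨a1, card_pos.1 (a3 ▸ h0.card_pos), Finset.ssubset_iff_subset_ne.2 ⟨a2, fun e => by
        have := card_lt_card h
        rw [e] at a3
        omega⟩⟩)
    (fun Q hQ x hx => hΩ x (hT Q hQ hx))
    (fun A hA => by
      obtain ⟨i, -, rfl⟩ := mem_image.1 hA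
      exact of_stab (hΩ _ (hT P hP (pow_mem u1 i))) hB')
    (fun Q hQ => by
      by_contra! h'
      have h2 : ∀ R : Sylow p G, (∀ i < p, R ∈ u ^ i • B) → ∀ i, R ∈ u ^ i • B := fun R hR i => by
        rw [← Nat.mod_add_div i p, pow_add, pow_mul, mul_smul,
          mem_stabilizer_iff.1 (pow_mem (mem_stabilizer_iff.2 u4) _)]
        exact hR _ (Nat.mod_lt _ hp.out.pos)
      let C : Finset (Sylow p G) := {R | ∀ i : ℕ, R ∈ u ^ i • B}
      have hQ' : Q ∈ C := mem_filter.2 ⟨mem_univ _,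
        h2 Q fun i hi => h' _ (mem_image_of_mem _ (mem_range.2 hi))⟩
      have c1 : u ∈ stabilizer G C := stab_of fun R hR => mem_filter.2 ⟨mem_univ _, fun i => by
        have := smul_mem_smul_finset (a := u) ((mem_filter.1 hR).2 (i + (p - 1)))
        rwa [← mul_smul, ← pow_succ', add_assoc, Nat.sub_add_cancel hp.out.pos, pow_add, mul_smul,
          u4] at this⟩
      have c2 : ↑Q ≤ stabilizer G C := fun x hx => stab_of fun R hR => mem_filter.2 ⟨mem_univ _, fun i =>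
        of_stab (hB.smul _ Q ((mem_filter.1 hQ').2 i) hx) ((mem_filter.1 hR).2 i)⟩
      obtain ⟨n, n1, n2⟩ := tr (P.2.to_le (Subgroup.zpowers_le.2 u1)) (Subgroup.zpowers_le.2 c1) c2
      have := (mem_filter.1 (of_stab n1 hQ')).2 0
      rw [pow_zero, one_smul] at this
      exact u2 (hB _ this (n2 (Subgroup.mem_zpowers u))))
    (mem_image.2 ⟨0, mem_range.2 hp.out.pos, by simp⟩) fun A hA => (mem_filter.1 hA).2.2.2.le
  have h2 := sum_E (Ω := Ω) hP fun Q hQ x hx => hΩ x (hT Q hQ hx)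
  rw [sum_congr rfl (g := fun _ => E T B) fun A hA => by
    rw [E, E, inter_eq_right.2 (mem_filter.1 hA).2.2.1, inter_eq_right.2 h.1,
      (mem_filter.1 hA).2.2.2], sum_const, nsmul_eq_mul] at h2
  have h3 : (#((range p).image fun i => u ^ i • B) : ℤ) ≤ p := by
    exact_mod_cast card_image_le.trans (card_range p).le
  have h4 : (0 : ℤ) < #Ω := by exact_mod_cast card_pos.2 ⟨B, hB'⟩
  refine nonneg_of_mul_nonneg_right (h2 ▸ mul_nonneg (by positivity) (le_trans ?_ h1)) h4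
  exact mul_nonneg (by positivity) (by linarith)

theorem step (ih : ∀ T' ⊂ T, Gd T' → Cl T') (hT : Gd T) : Cl T := by
  intro Ω Y P hP h1 h2 h3 h4
  have p2 : (2 : ℤ) ≤ p := by exact_mod_cast hp.out.two_le
  have hE : ∀ A ∈ Ω, 0 ≤ E T (T ∩ A) := fun A hA => bound ih hT (hT.inter (h1 A hA).1)
    (Finset.ssubset_iff_subset_ne.2 ⟨inter_subset_left, fun e => (h1 A hA).2.2 (inter_eq_left.1 e)⟩)
  have e : ∀ A, E T (T ∩ A) = E T A := fun A => by rw [E, E, ← inter_assoc, inter_self]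
  have t0 : (0 : ℤ) < #T := by exact_mod_cast card_pos.2 ⟨P, hP⟩
  refine le_of_mul_le_mul_left ?_ t0
  rw [← sum_E hP h2]
  obtain ⟨A₁, a1, -⟩ := h4 P hP
  by_cases h : ∃ A ∈ Y, T ∩ A = ∅
  · obtain ⟨A, a2, a3⟩ := h
    obtain ⟨k, hk⟩ := P.2.card_orbit A
    have h5 : ∀ B ∈ (orbit P A).toFinite.toFinset, B ∈ Ω ∧ E T B = (p - 1) * #T := fun B hB => by
      obtain ⟨x, rfl⟩ := (Set.Finite.mem_toFinset _).1 hB
      refine ⟨of_stab (h2 P hP x.2) (h3 a2), ?_⟩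
      have : T ∩ (x : G) • A = ∅ := by
        rw [← mem_stabilizer_iff.1 (hT P hP x.2), ← smul_finset_inter, a3, smul_finset_empty]
      change E T ((x : G) • A) = _
      rw [E, this]
      simp
    have h6 : p ≤ #(orbit P A).toFinite.toFinset := by
      rw [← Set.ncard_eq_toFinset_card, ← Nat.card_coe_set_eq, hk]
      refine Nat.le_self_pow (fun e => ?_) p
      rw [e, pow_zero, Nat.card_eq_one_iff_unique] at hk
      have : P ∈ A := (h1 A (h3 a2)).1.mem (h1 A (h3 a2)).2.1 fun x hx => congrArg Subtype.val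
        (hk.1.elim ⟨_, mem_orbit A (⟨x, hx⟩ : P)⟩ ⟨_, mem_orbit_self A⟩)
      exact notMem_empty P (a3 ▸ mem_inter.2 ⟨hP, this⟩)
    refine le_trans ?_ (sum_le_sum_of_subset_of_nonneg (fun B hB => (h5 B hB).1)
      fun A hA _ => e A ▸ hE A hA)
    rw [sum_congr rfl fun B hB => (h5 B hB).2, sum_const, nsmul_eq_mul, ← mul_assoc _ _ (#T : ℤ),
      mul_comm _ (#T : ℤ)]
    have h7 : (1 : ℤ) ≤ #Y := by exact_mod_cast card_pos.2 ⟨A, a2⟩
    have h8 : (p : ℤ) ≤ #(orbit P A).toFinite.toFinset := by exact_mod_cast h6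
    exact mul_le_mul_of_nonneg_left (by nlinarith) t0.le
  push Not at h
  obtain ⟨B, b1, b2⟩ := exists_max_image Y (fun A => #(T ∩ A)) ⟨A₁, a1⟩
  let Ω' := {A ∈ Ω.image (T ∩ ·) | A.Nonempty ∧ #A ≤ #(T ∩ B)}
  have h5 : ∀ Q ∈ T, ↑Q ≤ stabilizer G Ω' := fun Q hQ x hx => stab_of fun A hA => by
    obtain ⟨c1, c2, c3⟩ := mem_filter.1 hA
    obtain ⟨C, c4, rfl⟩ := mem_image.1 c1
    refine mem_filter.2 ⟨mem_image.2 ⟨x • C, of_stab (h2 Q hQ hx) c4, ?_⟩, c2.smul_finset,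
      (card_smul_finset x _).trans_le c3⟩
    rw [smul_finset_inter, mem_stabilizer_iff.1 (hT Q hQ hx)]
  have h6 := core (Ω := Ω') (Y := Y.image (T ∩ ·)) (B := T ∩ B) ih hP
    (fun A hA => by
      obtain ⟨c1, c2, -⟩ := mem_filter.1 hA
      obtain ⟨C, c4, rfl⟩ := mem_image.1 c1
      exact ⟨hT.inter (h1 C c4).1, c2,
        Finset.ssubset_iff_subset_ne.2 ⟨inter_subset_left, fun e => (h1 C c4).2.2 (inter_eq_left.1 e)⟩⟩) h5
    (fun A hA => by
      obtain ⟨C, c4, rfl⟩ := mem_image.1 hA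
      exact mem_filter.2 ⟨mem_image_of_mem _ (h3 c4), h C c4, b2 C c4⟩)
    (fun Q hQ => by
      obtain ⟨A, c1, c2⟩ := h4 Q hQ
      exact ⟨_, mem_image_of_mem _ c1, fun h => c2 (mem_inter.1 h).2⟩)
    (mem_image_of_mem _ b1) fun A hA => (mem_filter.1 hA).2.2
  have h7 : ∀ A ∈ Ω.image (T ∩ ·), 0 ≤ E T A := fun A hA => by
    obtain ⟨C, c4, rfl⟩ := mem_image.1 hA
    exact hE C c4
  have h8 : (#(Y.image (T ∩ ·)) : ℤ) ≤ #Y := by exact_mod_cast card_image_le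
  calc _ ≤ ∑ A ∈ Ω', E T A := by
        rw [sum_E hP h5]
        exact mul_le_mul_of_nonneg_left (le_trans (by nlinarith) h6) t0.le
    _ ≤ _ := sum_le_sum_of_subset_of_nonneg (filter_subset _ _) fun A hA _ => h7 A hA
    _ ≤ _ := sum_image_le_of_nonneg h7
    _ = _ := sum_congr rfl fun A _ => e A

theorem all (T : Finset (Sylow p G)) : Gd T → Cl T := by
  induction T using Finset.strongInduction with
  | H T ih => exact step ih

theorem main (hgen : Subgroup.closure {g : G | ∃ k : ℕ, orderOf g = p ^ k} = ⊤)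
    (H : Subgroup G) (hH : H ≠ ⊤) (P : Sylow p G) (hP : (P : Subgroup G) ≤ H) :
    (2 * p - 1) * Nat.card (Sylow p H) ≤ (p - 1) * Nat.card (Sylow p G) := by
  letI := Fintype.ofFinite (Sylow p G)
  let B : Finset (Sylow p G) := {Q | ↑Q ≤ H}
  have h1 : Nat.card (Sylow p H) = #B := by
    rw [← Nat.card_eq_finsetCard]
    refine (Nat.card_eq_of_bijective (fun Q : B => Q.1.subtype (mem_filter.1 Q.2).2)
      ⟨fun Q R h => Subtype.ext (Sylow.subtype_injective h), fun W => ?_⟩).symm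
    obtain ⟨n, rfl⟩ := exists_smul_eq H (P.subtype hP) W
    exact ⟨⟨n • P, mem_filter.2 ⟨mem_univ _, Sylow.smul_le hP n⟩⟩, (Sylow.smul_subtype hP n).symm⟩
  have h2 := bound (T := univ) (B := B) (fun T _ => all T)
    (fun Q _ x _ => stab_of fun _ _ => mem_univ _)
    (fun Q hQ x hx => stab_of fun R hR => mem_filter.2 ⟨mem_univ _,
      Sylow.smul_le (mem_filter.1 hR).2 ⟨x, (mem_filter.1 hQ).2 hx⟩⟩)
    (ssubset_univ_iff.2 fun e => hH (top_le_iff.1 (hgen ▸ (Subgroup.closure_le _).2 fun g hg => by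
      obtain ⟨k, hk⟩ := hg
      obtain ⟨Q, hQ⟩ := (IsPGroup.of_card (by rw [Nat.card_zpowers, hk]) :
        IsPGroup p (Subgroup.zpowers g)).exists_le_sylow
      exact (mem_filter.1 (e ▸ mem_univ Q : Q ∈ B)).2 (hQ (Subgroup.mem_zpowers g)))))
  rw [E, univ_inter, card_univ, ← Nat.card_eq_fintype_card, ← h1] at h2
  have := hp.out.pos
  zify [show 1 ≤ 2 * p by omega, show 1 ≤ p by omega]
  linarith

end H68.Sf
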